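import Cfsg.Agent.Lib.Lead.PSUBase
/-! Eichler transformations generate the special unitary group. -/
set_option autoImplicit false
set_option linter.unusedSimpArgs false
set_option linter.style.haveILetI false
set_option linter.unusedSectionVars false
set_option linter.unusedVariables false
namespace Cfsg.Agent.Lead.PSU
open Matrix Cfsg.Agent.H12.UTrans
open scoped MatrixGroups commutatorElement

variable {F : Type*} [Field F] [Fintype F] {q n : ℕ}

local notation "herm" => Cfsg.hermForm n F q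

/-- The subgroup generated by all Eichler transformations. -/
def G0 (hF : Fintype.card F = q ^ 2) (hn : 0 < n) : Subgroup (Cfsg.SU n F q) :=
  Subgroup.closure {g | ∃ u a b, ∃ h : Adm q u a b, g = E hF hn u a b h}

section
variable (hF : Fintype.card F = q ^ 2) (hn : 0 < n)

lemma E_mem_G0 {u a : Fin n → F} {b : F} (h : Adm q u a b) : E hF hn u a b h ∈ G0 hF hn :=
  Subgroup.subset_closure ⟨u, a, b, h, rfl⟩

include hF

lemma herm_sum_left {ι : Type*} (s : Finset ι) (f : ι → Fin n → F) (z : Fin n → F) :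
    herm (∑ i ∈ s, f i) z = ∑ i ∈ s, herm (f i) z := by
  classical
  induction s using Finset.induction_on with
  | empty => simpa using herm_zero_left hF z
  | insert a s ha ih => rw [Finset.sum_insert ha, Finset.sum_insert ha, herm_add_left, ih]

lemma herm_sum_right {ι : Type*} (s : Finset ι) (f : ι → Fin n → F) (z : Fin n → F) :
    herm z (∑ i ∈ s, f i) = ∑ i ∈ s, herm z (f i) := by
  classical
  induction s using Finset.induction_on with
  | empty => simpa using herm_zero_right hF z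
  | insert a s ha ih => rw [Finset.sum_insert ha, Finset.sum_insert ha, herm_add_right hF, ih]

variable {k : ℕ} {e : Fin k → Fin n → F}

lemma mem_perp_iff {x : Fin n → F} : x ∈ perpOf hF e ↔ ∀ i, herm x (e i) = 0 := Iff.rfl

lemma perp_symm {x : Fin n → F} (hx : x ∈ perpOf hF e) (i : Fin k) : herm (e i) x = 0 :=
  herm_eq_zero_symm hF (hx i)

/-- Orthogonal projection to the complement of an orthonormal family. -/
lemma exists_proj (he : IsON q e) (y : Fin n → F) :
    ∃ y' ∈ perpOf hF e, ∀ x ∈ perpOf hF e, herm x y' = herm x y := by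
  classical
  have hq := two_le_q hF
  refine ⟨y - ∑ i, herm y (e i) • e i, ?_, ?_⟩
  · intro j
    rw [herm_sub_left hF, herm_sum_left hF]
    simp only [herm_smul_left, he _ j, mul_ite, mul_one, mul_zero, Finset.sum_ite_eq', Finset.mem_univ,
      if_true]
    simp
  · intro x hx
    rw [herm_sub_right hF, herm_sum_right hF]
    simp only [herm_smul_right hF, hx _, mul_zero, Finset.sum_const_zero, sub_zero]

lemma exists_perp_ne {x : Fin n → F} (he : IsON q e) (hx : x ∈ perpOf hF e) (hx0 : x ≠ 0) :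
    ∃ y ∈ perpOf hF e, herm y x ≠ 0 := by
  have hq := two_le_q hF
  obtain ⟨y, hy⟩ := herm_nondeg hF hx0
  obtain ⟨y', hy', h⟩ := exists_proj hF he y
  refine ⟨y', hy', ?_⟩
  intro h0
  have := herm_eq_zero_symm hF h0
  rw [h x hx] at this
  exact hy this

lemma iso_adjust {u y : Fin n → F} (huu : herm u u = 0) (hy : herm y u ≠ 0) :
    ∃ μ : F, herm (y + μ • u) (y + μ • u) = 0 := by
  have hq := two_le_q hF
  have e0 : herm y u = (herm u y) ^ q := herm_conj hF u y
  have ht : herm u y ≠ 0 := by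
    intro h0
    apply hy
    rw [e0, h0, zero_pow (by omega)]
  obtain ⟨s, hs⟩ := exists_trace_eq hF (- herm y y) (by rw [pow_neg_q hF, herm_self_fixed hF])
  refine ⟨s / herm u y, ?_⟩
  rw [herm_add_left, herm_add_right hF, herm_add_right hF, herm_smul_left, herm_smul_right hF,
    herm_smul_right hF, herm_smul_left, huu, e0]
  have e1 : (s / herm u y) ^ q * (herm u y) ^ q = s ^ q := by
    rw [← mul_pow, div_mul_cancel₀ _ ht]
  have e2 : s / herm u y * herm u y = s := div_mul_cancel₀ _ ht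
  linear_combination hs + e1 + e2

lemma exists_hyp {u : Fin n → F} (he : IsON q e) (hu : u ∈ perpOf hF e) (hu0 : u ≠ 0)
    (huu : herm u u = 0) :
    ∃ v ∈ perpOf hF e, herm v v = 0 ∧ herm v u = 1 := by
  obtain ⟨y, hy, hyu⟩ := exists_perp_ne hF he hu hu0
  obtain ⟨μ, hμ⟩ := iso_adjust hF huu hyu
  have hz : y + μ • u ∈ perpOf hF e := (perpOf hF e).add_mem hy ((perpOf hF e).smul_mem _ hu)
  have hzu : herm (y + μ • u) u = herm y u := by
    rw [herm_add_left, herm_smul_left, huu]
    ring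
  refine ⟨(herm y u)⁻¹ • (y + μ • u), (perpOf hF e).smul_mem _ hz, ?_, ?_⟩
  · rw [herm_smul_left, herm_smul_right hF, hμ]
    ring
  · rw [herm_smul_left, hzu, inv_mul_cancel₀ hyu]

/-- An orthonormal pair in a hyperbolic plane. -/
lemma hyp_frame {u v : Fin n → F} (he : IsON q e) (hu : u ∈ perpOf hF e) (hv : v ∈ perpOf hF e)
    (huu : herm u u = 0) (hvv : herm v v = 0) (hvu : herm v u = 1) :
    ∃ e₁ e₂ : Fin n → F, IsON q (Fin.cons e₁ (Fin.cons e₂ e) : Fin (k + 1 + 1) → Fin n → F) ∧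
      (∀ g : Cfsg.SU n F q, act g u = u → act g v = v → act g e₁ = e₁ ∧ act g e₂ = e₂) ∧
      (∀ x : Fin n → F, herm x e₁ = 0 → herm x e₂ = 0 → herm x u = 0 ∧ herm x v = 0) := by
  have hq := two_le_q hF
  have huv : herm u v = 1 := by
    rw [herm_conj hF v u, hvu, one_pow]
  obtain ⟨α, hα⟩ := exists_trace_eq hF (1 : F) (one_pow _)
  obtain ⟨c, hc⟩ := exists_c hF
  have hc0 : c ≠ 0 := by
    rintro rfl
    rw [zero_pow (by omega)] at hc
    simp at hc
  have hcc : c ^ q * c = -1 := by rw [← pow_succ, hc]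
  have hαα : (α ^ q) ^ q = α := pow_q_sq hF α
  have hff : herm ((- α ^ q) • u + v) ((- α ^ q) • u + v) = -1 := by
    simp only [herm_add_left, herm_add_right hF, herm_smul_left, herm_smul_right hF, huu, hvv, huv, hvu,
      pow_neg_q hF, hαα]
    linear_combination (-1 : F) * hα
  refine ⟨α • u + v, c • ((- α ^ q) • u + v), ?_, ?_, ?_⟩
  · rw [isON_cons_iff hF, isON_cons_iff hF]
    refine ⟨⟨he, ?_, ?_⟩, ?_, ?_⟩
    · intro i
      rw [herm_smul_left, herm_add_left, herm_smul_left, hu i, hv i]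
      ring
    · rw [herm_smul_left, herm_smul_right hF, hff]
      linear_combination (-1 : F) * hcc
    · rw [perpOf_cons]
      refine ⟨?_, ?_⟩
      · intro i
        rw [herm_add_left, herm_smul_left, hu i, hv i]
        ring
      · show herm (α • u + v) (c • ((- α ^ q) • u + v)) = 0
        simp only [herm_add_left, herm_add_right hF, herm_smul_left, herm_smul_right hF, huu, hvv, huv, hvu,
          pow_neg_q hF, hαα]
        ring
    · simp only [herm_add_left, herm_add_right hF, herm_smul_left, herm_smul_right hF, huu, hvv, huv, hvu]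
      linear_combination hα
  · intro g h1 h2
    constructor
    · rw [act_add, act_smul, h1, h2]
    · rw [act_smul, act_add, act_smul, h1, h2]
  · intro x h1 h2
    rw [herm_add_right hF, herm_smul_right hF] at h1
    rw [herm_smul_right hF, herm_add_right hF, herm_smul_right hF, pow_neg_q hF, hαα] at h2
    have h3 := (mul_eq_zero.1 h2).resolve_left (pow_ne_zero _ hc0)
    have h4 : herm x u = 0 := by
      linear_combination (-1 : F) * hα * herm x u + h1 - h3
    refine ⟨h4, ?_⟩
    rw [h4] at h1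
    simpa using h1

/-- A vector of prescribed norm orthogonal to an orthonormal family, given a unit vector. -/
lemma exists_norm_vec {z : Fin n → F} (hz : herm z z = 1) (r : F) (hr : r ^ q = r) :
    ∃ s : F, herm (s • z) (s • z) = r := by
  by_cases h0 : r = 0
  · have hq := two_le_q hF
    refine ⟨0, ?_⟩
    rw [h0, zero_smul]
    exact herm_zero_left hF 0
  · obtain ⟨s, -, hs⟩ := exists_norm_eq hF r h0 hr
    refine ⟨s, ?_⟩
    rw [herm_smul_left, herm_smul_right hF, hz, ← hs, pow_succ]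
    ring

end

section Trans

variable (hF : Fintype.card F = q ^ 2) (hn : 0 < n)
variable {k : ℕ} {e : Fin k → Fin n → F}

/-- The subgroup of `G0` fixing a family pointwise, as a predicate. -/
def InT (hF : Fintype.card F = q ^ 2) (hn : 0 < n) (e : Fin k → Fin n → F) (g : Cfsg.SU n F q) : Prop :=
  g ∈ G0 hF hn ∧ ∀ i, act g (e i) = e i

include hF in
lemma InT.mul {g h : Cfsg.SU n F q} (h1 : InT hF hn e g) (h2 : InT hF hn e h) : InT hF hn e (g * h) :=
  ⟨(G0 hF hn).mul_mem h1.1 h2.1, fun i => by rw [act_mul, h2.2, h1.2]⟩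

include hF in
lemma E_InT {u a : Fin n → F} {b : F} (h : Adm q u a b) (hu : u ∈ perpOf hF e) (ha : a ∈ perpOf hF e) :
    InT hF hn e (E hF hn u a b h) :=
  ⟨E_mem_G0 hF hn h, fun i => act_E_fix hF hn h (perp_symm hF hu i) (perp_symm hF ha i)⟩

lemma trans_nonperp (he : IsON q e) (hk : k + 3 ≤ n) {u w : Fin n → F} (hu : u ∈ perpOf hF e)
    (hw : w ∈ perpOf hF e) (huu : herm u u = 0) (hww : herm w w = 0) (hwu : herm w u ≠ 0) :
    ∃ t, InT hF hn e t ∧ act t u = w := by
  have hq := two_le_q hF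
  obtain ⟨c, hc⟩ : ∃ c, c = herm w u := ⟨_, rfl⟩
  rw [← hc] at hwu
  have hcq0 : c ^ q ≠ 0 := pow_ne_zero _ hwu
  have hcqq : (c ^ q) ^ q = c := pow_q_sq hF c
  -- the partner
  obtain ⟨v, hv⟩ : ∃ v, v = c⁻¹ • w := ⟨_, rfl⟩
  have hvX : v ∈ perpOf hF e := by rw [hv]; exact (perpOf hF e).smul_mem _ hw
  have hvv : herm v v = 0 := by
    rw [hv, herm_smul_left, herm_smul_right hF, hww]
    ring
  have hvu : herm v u = 1 := by
    rw [hv, herm_smul_left, ← hc, inv_mul_cancel₀ hwu]
  have huv : herm u v = 1 := by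
    rw [herm_conj hF v u, hvu, one_pow]
  obtain ⟨e₁, e₂, hON, -, hperp⟩ := hyp_frame hF he hu hvX huu hvv hvu
  obtain ⟨z, hz, hzz⟩ := exists_unit_perp hF _ hON (by omega)
  rw [perpOf_cons] at hz
  obtain ⟨hz1, hz2⟩ := hz
  rw [perpOf_cons] at hz1
  obtain ⟨hz3, hz4⟩ := hz1
  have hzu := hperp z hz2 hz4
  -- the vector `a'`
  obtain ⟨s, hs⟩ := exists_norm_vec hF hzz (-(c + c ^ q)) (by
    rw [pow_neg_q hF, pow_add_q hF, hcqq, add_comm])
  obtain ⟨a', ha'⟩ : ∃ a', a' = s • z := ⟨_, rfl⟩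
  rw [← ha'] at hs
  have ha'X : a' ∈ perpOf hF e := by rw [ha']; exact (perpOf hF e).smul_mem _ hz3
  have ha'u : herm a' u = 0 := by rw [ha', herm_smul_left, hzu.1, mul_zero]
  have ha'v : herm a' v = 0 := by rw [ha', herm_smul_left, hzu.2, mul_zero]
  have hua' : herm u a' = 0 := herm_eq_zero_symm hF ha'u
  have hva' : herm v a' = 0 := herm_eq_zero_symm hF ha'v
  have A1 : Adm q v a' c := ⟨hvv, ha'v, by rw [hs]; ring⟩
  obtain ⟨a₂, ha₂⟩ : ∃ a₂, a₂ = (-c⁻¹) • a' := ⟨_, rfl⟩
  have ha₂X : a₂ ∈ perpOf hF e := by rw [ha₂]; exact (perpOf hF e).smul_mem _ ha'X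
  have ha₂u : herm a₂ u = 0 := by rw [ha₂, herm_smul_left, ha'u, mul_zero]
  have hua₂ : herm u a₂ = 0 := herm_eq_zero_symm hF ha₂u
  have hva₂ : herm v a₂ = 0 := by rw [ha₂, herm_smul_right hF, hva', mul_zero]
  have ha'a₂ : herm a' a₂ = - (c ^ q)⁻¹ * herm a' a' := by
    rw [ha₂, herm_smul_right hF, pow_neg_q hF, inv_pow]
  have A2 : Adm q u a₂ ((c ^ q)⁻¹) := by
    refine ⟨huu, ha₂u, ?_⟩
    rw [ha₂, herm_smul_left, herm_smul_right hF, pow_neg_q hF, inv_pow, inv_pow, hcqq, hs]
    field_simp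
    ring
  refine ⟨E hF hn u a₂ _ A2 * E hF hn v a' c A1, (E_InT hF hn A2 hu ha₂X).mul hF hn (E_InT hF hn A1 hvX ha'X), ?_⟩
  rw [act_mul, act_E, act_E]
  have y1 : Efun q v a' c u = u + a' + c • v := by
    unfold Efun
    rw [huv, hua']
    simp
  rw [y1]
  have y2 : herm (u + a' + c • v) u = c := by
    rw [herm_add_left, herm_add_left, herm_smul_left, huu, ha'u, hvu]
    ring
  have y3 : herm (u + a' + c • v) a₂ = - (c ^ q)⁻¹ * herm a' a' := by
    rw [herm_add_left, herm_add_left, herm_smul_left, hua₂, ha'a₂, hva₂]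
    ring
  unfold Efun
  rw [y2, y3, hs]
  have y4 : (c ^ q)⁻¹ * c - - (c ^ q)⁻¹ * -(c + c ^ q) = -1 := by
    field_simp
    ring
  rw [y4, ha₂, smul_smul, mul_neg, mul_inv_cancel₀ hwu]
  have y5 : c • v = w := by
    rw [hv, smul_smul, mul_inv_cancel₀ hwu, one_smul]
  rw [y5]
  funext i
  simp only [Pi.add_apply, Pi.smul_apply, smul_eq_mul, Pi.neg_apply]
  ring

lemma trans_X (he : IsON q e) (hk : k + 3 ≤ n) {u w : Fin n → F} (hu : u ∈ perpOf hF e)
    (hw : w ∈ perpOf hF e) (huu : herm u u = 0) (hww : herm w w = 0) (hu0 : u ≠ 0) (hw0 : w ≠ 0) :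
    ∃ t, InT hF hn e t ∧ act t u = w := by
  have hq := two_le_q hF
  by_cases hwu : herm w u = 0
  · -- a third vector
    obtain ⟨y₁, hy₁, hy₁u⟩ := exists_perp_ne hF he hu hu0
    obtain ⟨y₂, hy₂, hy₂w⟩ := exists_perp_ne hF he hw hw0
    obtain ⟨y, hy, hyu, hyw⟩ : ∃ y ∈ perpOf hF e, herm y u ≠ 0 ∧ herm y w ≠ 0 := by
      by_cases h1 : herm y₁ w = 0
      · by_cases h2 : herm y₂ u = 0
        · refine ⟨y₁ + y₂, (perpOf hF e).add_mem hy₁ hy₂, ?_, ?_⟩
          · rw [herm_add_left, h2, add_zero]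
            exact hy₁u
          · rw [herm_add_left, h1, zero_add]
            exact hy₂w
        · exact ⟨y₂, hy₂, h2, hy₂w⟩
      · exact ⟨y₁, hy₁, hy₁u, h1⟩
    obtain ⟨μ, hμ⟩ := iso_adjust hF huu hyu
    have hz : y + μ • u ∈ perpOf hF e := (perpOf hF e).add_mem hy ((perpOf hF e).smul_mem _ hu)
    have huw : herm u w = 0 := herm_eq_zero_symm hF hwu
    have hzu : herm (y + μ • u) u ≠ 0 := by
      rw [herm_add_left, herm_smul_left, huu, mul_zero, add_zero]
      exact hyu
    have hzw : herm (y + μ • u) w ≠ 0 := by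
      rw [herm_add_left, herm_smul_left, huw, mul_zero, add_zero]
      exact hyw
    have hwz : herm w (y + μ • u) ≠ 0 := by
      intro h0
      exact hzw (herm_eq_zero_symm hF h0)
    obtain ⟨t₁, ht₁, e1⟩ := trans_nonperp hF hn he hk hu hz huu hμ hzu
    obtain ⟨t₂, ht₂, e2⟩ := trans_nonperp hF hn he hk hz hw hμ hww hwz
    exact ⟨t₂ * t₁, ht₂.mul hF hn ht₁, by rw [act_mul, e1, e2]⟩
  · exact trans_nonperp hF hn he hk hu hw huu hww hwu

include hF in
/-- Moving a partner: Eichler transformations act transitively on partners of an isotropic vector. -/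
lemma exists_E_map {u v v' : Fin n → F} (huu : herm u u = 0) (hvv : herm v v = 0) (hv'v' : herm v' v' = 0)
    (hc0 : herm v u ≠ 0) (hc : herm v' u = herm v u) :
    ∃ a b, ∃ h : Adm q u a b, a = (herm v u)⁻¹ • (v' - v) ∧ Efun q u a b v = v' := by
  have hq := two_le_q hF
  set c := herm v u with hcdef
  have hcq0 : c ^ q ≠ 0 := pow_ne_zero _ hc0
  have hcqq : (c ^ q) ^ q = c := pow_q_sq hF c
  set a := c⁻¹ • (v' - v) with ha
  have hau : herm a u = 0 := by
    rw [ha, herm_smul_left, herm_sub_left hF, hc, ← hcdef, sub_self, mul_zero]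
  have hva : herm v a = (c ^ q)⁻¹ * herm v v' := by
    rw [ha, herm_smul_right hF, herm_sub_right hF, hvv, sub_zero, inv_pow]
  have hvv' : herm v' v = (herm v v') ^ q := herm_conj hF v v'
  refine ⟨a, (c⁻¹) * ((c ^ q)⁻¹ * herm v v'), ⟨huu, hau, ?_⟩, rfl, ?_⟩
  · rw [ha, herm_smul_left, herm_smul_right hF, herm_sub_left hF, herm_sub_right hF, herm_sub_right hF,
      mul_pow, mul_pow, inv_pow, inv_pow, hcqq, hvv, hv'v', ← hvv']
    field_simp
    ring
  · unfold Efun
    rw [← hcdef, hva]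
    have e1 : c⁻¹ * ((c ^ q)⁻¹ * herm v v') * c - (c ^ q)⁻¹ * herm v v' = 0 := by
      field_simp
      ring
    rw [e1, ha, smul_smul, mul_inv_cancel₀ hc0]
    simp

end Trans

section Base

variable (hF : Fintype.card F = q ^ 2)

include hF in
/-- An element of `SU_{k+1}` fixing an orthonormal family of length `k` is trivial. -/
lemma fix_eq_one {k : ℕ} {e : Fin k → Fin (k + 1) → F} (he : IsON q e) (g : Cfsg.SU (k + 1) F q)
    (hg : ∀ i, act g (e i) = e i) : g = 1 := by
  classical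
  have hq := two_le_q hF
  obtain ⟨a, ha, haa⟩ := exists_unit_perp hF e he (by omega)
  set w : Fin (k + 1) → Fin (k + 1) → F := Fin.cons a e with hw
  have hwON : IsON q w := (isON_cons_iff hF e a).2 ⟨he, ha, haa⟩
  let P : Matrix (Fin (k + 1)) (Fin (k + 1)) F := Matrix.of fun i j => w j i
  let Pc : Matrix (Fin (k + 1)) (Fin (k + 1)) F := Matrix.of fun i j => (w i j) ^ q
  have hPc : Pc * P = 1 := by
    ext i j
    rw [Matrix.mul_apply, Matrix.one_apply]
    have := hwON j i
    simp only [Cfsg.hermForm] at this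
    simp only [Pc, P, Matrix.of_apply]
    rw [Finset.sum_congr rfl (fun l _ => mul_comm _ _), this]
    simp only [eq_comm]
  have hP : P * Pc = 1 := mul_eq_one_comm.1 hPc
  have hdetP : P.det ≠ 0 := by
    intro h0
    have := congrArg Matrix.det hPc
    rw [Matrix.det_mul, h0, mul_zero, Matrix.det_one] at this
    exact zero_ne_one this
  -- expansion
  have hexp : ∀ x : Fin (k + 1) → F, x = P *ᵥ (fun i => Cfsg.hermForm (k + 1) F q x (w i)) := by
    intro x
    have h1 : (fun i => Cfsg.hermForm (k + 1) F q x (w i)) = Pc *ᵥ x := by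
      funext i
      simp only [Cfsg.hermForm, Matrix.mulVec, dotProduct, Pc, Matrix.of_apply]
      exact Finset.sum_congr rfl fun l _ => mul_comm _ _
    rw [h1, Matrix.mulVec_mulVec, hP, Matrix.one_mulVec]
  set M := ((g : SpecialLinearGroup (Fin (k + 1)) F) : Matrix (Fin (k + 1)) (Fin (k + 1)) F) with hM
  set lam := Cfsg.hermForm (k + 1) F q (act g a) a with hlam
  have hga : act g a = lam • a := by
    have h1 := hexp (act g a)
    have h2 : ∀ i : Fin k, Cfsg.hermForm (k + 1) F q (act g a) (e i) = 0 := by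
      intro i
      have := herm_act g a (e i)
      rw [hg i] at this
      rw [this]
      exact ha i
    have h3 : (fun i => Cfsg.hermForm (k + 1) F q (act g a) (w i)) = Pi.single 0 lam := by
      funext i
      refine Fin.cases ?_ (fun j => ?_) i
      · simp [hw, hlam]
      · simp [hw, h2 j, Fin.succ_ne_zero]
    rw [h3, Matrix.mulVec_single] at h1
    rw [h1]
    funext l
    simp [P, hw, mul_comm, MulOpposite.smul_eq_mul_unop]
  let d : Fin (k + 1) → F := Fin.cons lam (fun _ => 1)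
  have hMP : M * P = P * Matrix.diagonal d := by
    ext l j
    rw [Matrix.mul_diagonal]
    have h1 : (M * P) l j = (act g (w j)) l := by
      simp only [act, Matrix.mul_apply, Matrix.mulVec, dotProduct, P, Matrix.of_apply, hM]
    rw [h1]
    refine Fin.cases ?_ (fun i => ?_) j
    · simp only [hw, Fin.cons_zero, hga, d, P, Matrix.of_apply, Pi.smul_apply, smul_eq_mul]
      ring
    · simp only [hw, Fin.cons_succ, hg i, d, P, Matrix.of_apply, mul_one]
  have hdetM : M.det = 1 := g.1.2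
  have hlam1 : lam = 1 := by
    have h1 := congrArg Matrix.det hMP
    rw [Matrix.det_mul, Matrix.det_mul, hdetM, one_mul, Matrix.det_diagonal, Fin.prod_univ_succ] at h1
    simp only [d, Fin.cons_zero, Fin.cons_succ, Finset.prod_const_one, mul_one] at h1
    exact (mul_left_cancel₀ hdetP (by rw [mul_one]; exact h1)).symm
  have hd : Matrix.diagonal d = 1 := by
    rw [← Matrix.diagonal_one]
    congr 1
    funext j
    refine Fin.cases ?_ (fun i => ?_) j
    · simpa [d] using hlam1
    · simp [d]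
  rw [hd, mul_one] at hMP
  have hM1 : M = 1 := by
    calc M = M * (P * Pc) := by rw [hP, mul_one]
      _ = (M * P) * Pc := by rw [mul_assoc]
      _ = 1 := by rw [hMP, hP]
  apply su_ext
  intro x
  rw [act_one]
  unfold act
  rw [← hM, hM1, Matrix.one_mulVec]

end Base

section Gen

variable (hF : Fintype.card F = q ^ 2) (hn : 0 < n)

/-- The induction step. -/
lemma gen_step {k : ℕ} (hk : k + 3 ≤ n)
    (IH : ∀ e' : Fin (k + 1 + 1) → Fin n → F, IsON q e' → ∀ g : Cfsg.SU n F q,
      (∀ i, act g (e' i) = e' i) → g ∈ G0 hF hn)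
    (e : Fin k → Fin n → F) (he : IsON q e) (g : Cfsg.SU n F q) (hg : ∀ i, act g (e i) = e i) :
    g ∈ G0 hF hn := by
  have hq := two_le_q hF
  -- an isotropic vector
  obtain ⟨a₁, ha₁, ha₁1⟩ := exists_unit_perp hF e he (by omega)
  have he1 : IsON q (Fin.cons a₁ e : Fin (k + 1) → Fin n → F) :=
    (isON_cons_iff hF e a₁).2 ⟨he, ha₁, ha₁1⟩
  obtain ⟨a₂, ha₂, ha₂1⟩ := exists_unit_perp hF _ he1 (by omega)
  rw [perpOf_cons] at ha₂
  obtain ⟨ha₂X, ha₂a₁⟩ := ha₂
  obtain ⟨c, hc⟩ := exists_c hF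
  set u := a₁ + c • a₂ with hu
  have huX : u ∈ perpOf hF e := (perpOf hF e).add_mem ha₁ ((perpOf hF e).smul_mem _ ha₂X)
  have ha₁a₂ : herm a₁ a₂ = 0 := herm_eq_zero_symm hF ha₂a₁
  have huu : herm u u = 0 := by
    rw [hu, herm_add_left, herm_add_right hF, herm_add_right hF, herm_smul_left, herm_smul_right hF,
      herm_smul_right hF, herm_smul_left, ha₁1, ha₂1, ha₁a₂, ha₂a₁]
    rw [pow_succ] at hc
    linear_combination hc
  have hu0 : u ≠ 0 := by
    intro h0
    have : herm u a₁ = 1 := by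
      rw [hu, herm_add_left, herm_smul_left, ha₂a₁, ha₁1]
      ring
    rw [h0, herm_zero_left hF] at this
    exact zero_ne_one this
  obtain ⟨v, hvX, hvv, hvu⟩ := exists_hyp hF he huX hu0 huu
  -- moving `g u` to `u`
  have mem_img : ∀ (g' : Cfsg.SU n F q), (∀ i, act g' (e i) = e i) → ∀ x ∈ perpOf hF e, act g' x ∈ perpOf hF e := by
    intro g' hg' x hx i
    have := herm_act g' x (e i)
    rw [hg' i] at this
    rw [this]
    exact hx i
  have hgu0 : act g u ≠ 0 := by
    intro h0
    apply hu0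
    apply act_injective g
    rw [h0, act_zero]
  obtain ⟨t, ht, ht1⟩ := trans_X hF hn he hk (mem_img g hg u huX) huX (by rw [herm_act]; exact huu) huu hgu0 hu0
  set h₁ := t * g with hh₁
  have hh₁e : ∀ i, act h₁ (e i) = e i := fun i => by rw [hh₁, act_mul, hg i, ht.2 i]
  have hh₁u : act h₁ u = u := by rw [hh₁, act_mul, ht1]
  -- moving `h₁ v` to `v`
  have hh₁vu : herm (act h₁ v) u = herm v u := by
    have := herm_act h₁ v u
    rwa [hh₁u] at this
  have hh₁vX := mem_img h₁ hh₁e v hvX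
  have hh₁vv : herm (act h₁ v) (act h₁ v) = 0 := by rw [herm_act]; exact hvv
  obtain ⟨a, b, hab, haeq, hEv⟩ := exists_E_map hF huu hh₁vv hvv (by rw [hh₁vu, hvu]; exact one_ne_zero)
    (by rw [hh₁vu])
  have haX : a ∈ perpOf hF e := by
    rw [haeq]
    exact (perpOf hF e).smul_mem _ ((perpOf hF e).sub_mem hvX hh₁vX)
  have hEIn := E_InT hF hn hab huX haX
  set h₂ := E hF hn u a b hab * h₁ with hh₂
  have hh₂e : ∀ i, act h₂ (e i) = e i := fun i => by rw [hh₂, act_mul, hh₁e i, hEIn.2 i]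
  have hh₂u : act h₂ u = u := by
    rw [hh₂, act_mul, hh₁u]
    exact act_E_fix hF hn hab huu (herm_eq_zero_symm hF hab.au)
  have hh₂v : act h₂ v = v := by
    rw [hh₂, act_mul, act_E, hEv]
  obtain ⟨e₁, e₂, hON, hfix, -⟩ := hyp_frame hF he huX hvX huu hvv hvu
  obtain ⟨f1, f2⟩ := hfix h₂ hh₂u hh₂v
  have hmem : h₂ ∈ G0 hF hn := by
    apply IH _ hON
    intro i
    refine Fin.cases ?_ (fun j => ?_) i
    · simpa using f1
    · refine Fin.cases ?_ (fun l => ?_) j
      · simpa using f2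
      · simpa using hh₂e l
  have hg' : g = (t⁻¹ * (E hF hn u a b hab)⁻¹) * h₂ := by
    rw [hh₂, hh₁]
    group
  rw [hg']
  exact (G0 hF hn).mul_mem ((G0 hF hn).mul_mem ((G0 hF hn).inv_mem ht.1) ((G0 hF hn).inv_mem hEIn.1)) hmem

/-- The frames version of generation, for odd codimension. -/
lemma gen_odd (m : ℕ) : ∀ k : ℕ, k + 1 + 2 * m = n →
    ∀ e : Fin k → Fin n → F, IsON q e → ∀ g : Cfsg.SU n F q, (∀ i, act g (e i) = e i) → g ∈ G0 hF hn := by
  induction m with
  | zero =>
    intro k hk e he g hg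
    have hk' : n = k + 1 := by omega
    subst hk'
    rw [fix_eq_one hF he g hg]
    exact (G0 hF hn).one_mem
  | succ m ih =>
    intro k hk e he g hg
    exact gen_step hF hn (by omega) (fun e' he' g' hg' => ih (k + 1 + 1) (by omega) e' he' g' hg') e he g hg

theorem G0_eq_top (hn3 : 3 ≤ n) (g : Cfsg.SU n F q) : g ∈ G0 hF hn := by
  have hON0 : IsON q (Fin.elim0 : Fin 0 → Fin n → F) := fun i => i.elim0
  rcases Nat.even_or_odd' n with ⟨m, hm | hm⟩
  · -- even
    obtain ⟨m', rfl⟩ : ∃ m', m = m' + 1 := ⟨m - 1, by omega⟩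
    refine gen_step hF hn (k := 0) (by omega) ?_ Fin.elim0 hON0 g (fun i => i.elim0)
    intro e' he' g' hg'
    have h1 : IsON q (Fin.tail e') := by
      intro i j
      simpa [Fin.tail] using he' i.succ j.succ
    exact gen_odd hF hn m' 1 (by omega) (Fin.tail e') h1 g' (fun i => hg' i.succ)
  · exact gen_odd hF hn m 0 (by omega) Fin.elim0 hON0 g (fun i => i.elim0)

end Gen

end Cfsg.Agent.Lead.PSU
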