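import Cfsg.Agent.Lib.Lead.SL23Q
import Cfsg.Agent.Lib.Lead.SLn
import Cfsg.Agent.Lib.Lead.PermEmb
import Cfsg.Agent.Lib.H11.PSL2
/-! `PSL_2(9) ≅ A_6`: `SL_2(9)` permutes six explicit sets of 40 vectors of the natural module (each
an orbit of a copy of `SL_2(5)`). -/
set_option autoImplicit false
set_option linter.style.haveILetI false
namespace Cfsg.Agent.Lead
open Matrix

instance fact_f9 : Fact (∀ r : ZMod 3, r ^ 2 ≠ -1 + 0 * r) := ⟨by decide⟩

/-- The field with nine elements. -/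
def F9 : Type := QuadraticAlgebra (ZMod 3) (-1) 0

instance fieldF9 : Field F9 := inferInstanceAs (Field (QuadraticAlgebra (ZMod 3) (-1) 0))
instance decEqF9 : DecidableEq F9 := inferInstanceAs (DecidableEq (QuadraticAlgebra (ZMod 3) (-1) 0))

/-- Elements of the field with nine elements. -/
def mk9 (a b : ZMod 3) : F9 := QuadraticAlgebra.mk a b

abbrev V9 := Fin 2 → F9
abbrev SL9 := SpecialLinearGroup (Fin 2) F9

def v9 (a b c d : ZMod 3) : V9 := ![mk9 a b, mk9 c d]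

def o9_0 : Finset V9 := {v9 0 0 0 1, v9 0 0 0 2, v9 0 0 1 0, v9 0 0 2 0, v9 0 1 1 0, v9 0 1 1 1, v9 0 1 1 2, v9 0 1 2 0, v9 0 1 2 1, v9 0 1 2 2, v9 0 2 1 0, v9 0 2 1 1, v9 0 2 1 2, v9 0 2 2 0, v9 0 2 2 1, v9 0 2 2 2, v9 1 0 0 1, v9 1 0 0 2, v9 1 0 1 1, v9 1 0 1 2, v9 1 0 2 1, v9 1 0 2 2, v9 1 1 0 0, v9 1 1 1 1, v9 1 1 2 2, v9 1 2 0 0, v9 1 2 1 2, v9 1 2 2 1, v9 2 0 0 1, v9 2 0 0 2, v9 2 0 1 1, v9 2 0 1 2, v9 2 0 2 1, v9 2 0 2 2, v9 2 1 0 0, v9 2 1 1 2, v9 2 1 2 1, v9 2 2 0 0, v9 2 2 1 1, v9 2 2 2 2}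
def o9_1 : Finset V9 := {v9 0 0 1 1, v9 0 0 1 2, v9 0 0 2 1, v9 0 0 2 2, v9 0 1 0 1, v9 0 1 1 1, v9 0 1 2 1, v9 0 2 0 2, v9 0 2 1 2, v9 0 2 2 2, v9 1 0 1 0, v9 1 0 1 1, v9 1 0 1 2, v9 1 1 0 0, v9 1 1 0 1, v9 1 1 1 0, v9 1 1 1 2, v9 1 1 2 1, v9 1 1 2 2, v9 1 2 0 0, v9 1 2 0 2, v9 1 2 1 0, v9 1 2 1 1, v9 1 2 2 1, v9 1 2 2 2, v9 2 0 2 0, v9 2 0 2 1, v9 2 0 2 2, v9 2 1 0 0, v9 2 1 0 1, v9 2 1 1 1, v9 2 1 1 2, v9 2 1 2 0, v9 2 1 2 2, v9 2 2 0 0, v9 2 2 0 2, v9 2 2 1 1, v9 2 2 1 2, v9 2 2 2 0, v9 2 2 2 1}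
def o9_2 : Finset V9 := {v9 0 0 0 1, v9 0 0 0 2, v9 0 0 1 0, v9 0 0 2 0, v9 0 1 0 0, v9 0 1 0 1, v9 0 1 0 2, v9 0 1 1 0, v9 0 1 1 1, v9 0 1 1 2, v9 0 2 0 0, v9 0 2 0 1, v9 0 2 0 2, v9 0 2 2 0, v9 0 2 2 1, v9 0 2 2 2, v9 1 0 0 0, v9 1 0 0 2, v9 1 0 1 0, v9 1 0 1 2, v9 1 0 2 0, v9 1 0 2 2, v9 1 1 0 2, v9 1 1 1 0, v9 1 1 2 1, v9 1 2 0 2, v9 1 2 1 1, v9 1 2 2 0, v9 2 0 0 0, v9 2 0 0 1, v9 2 0 1 0, v9 2 0 1 1, v9 2 0 2 0, v9 2 0 2 1, v9 2 1 0 1, v9 2 1 1 0, v9 2 1 2 2, v9 2 2 0 1, v9 2 2 1 2, v9 2 2 2 0}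
def o9_3 : Finset V9 := {v9 0 0 1 1, v9 0 0 1 2, v9 0 0 2 1, v9 0 0 2 2, v9 0 1 0 0, v9 0 1 1 0, v9 0 1 2 0, v9 0 2 0 0, v9 0 2 1 0, v9 0 2 2 0, v9 1 0 0 0, v9 1 0 0 1, v9 1 0 0 2, v9 1 1 0 1, v9 1 1 0 2, v9 1 1 1 0, v9 1 1 1 1, v9 1 1 2 0, v9 1 1 2 2, v9 1 2 0 1, v9 1 2 0 2, v9 1 2 1 0, v9 1 2 1 2, v9 1 2 2 0, v9 1 2 2 1, v9 2 0 0 0, v9 2 0 0 1, v9 2 0 0 2, v9 2 1 0 1, v9 2 1 0 2, v9 2 1 1 0, v9 2 1 1 2, v9 2 1 2 0, v9 2 1 2 1, v9 2 2 0 1, v9 2 2 0 2, v9 2 2 1 0, v9 2 2 1 1, v9 2 2 2 0, v9 2 2 2 2}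
def o9_4 : Finset V9 := {v9 0 0 1 1, v9 0 0 1 2, v9 0 0 2 1, v9 0 0 2 2, v9 0 1 0 2, v9 0 1 1 2, v9 0 1 2 2, v9 0 2 0 1, v9 0 2 1 1, v9 0 2 2 1, v9 1 0 2 0, v9 1 0 2 1, v9 1 0 2 2, v9 1 1 0 0, v9 1 1 0 2, v9 1 1 1 1, v9 1 1 1 2, v9 1 1 2 0, v9 1 1 2 1, v9 1 2 0 0, v9 1 2 0 1, v9 1 2 1 1, v9 1 2 1 2, v9 1 2 2 0, v9 1 2 2 2, v9 2 0 1 0, v9 2 0 1 1, v9 2 0 1 2, v9 2 1 0 0, v9 2 1 0 2, v9 2 1 1 0, v9 2 1 1 1, v9 2 1 2 1, v9 2 1 2 2, v9 2 2 0 0, v9 2 2 0 1, v9 2 2 1 0, v9 2 2 1 2, v9 2 2 2 1, v9 2 2 2 2}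
def o9_5 : Finset V9 := {v9 0 0 0 1, v9 0 0 0 2, v9 0 0 1 0, v9 0 0 2 0, v9 0 1 0 0, v9 0 1 0 1, v9 0 1 0 2, v9 0 1 2 0, v9 0 1 2 1, v9 0 1 2 2, v9 0 2 0 0, v9 0 2 0 1, v9 0 2 0 2, v9 0 2 1 0, v9 0 2 1 1, v9 0 2 1 2, v9 1 0 0 0, v9 1 0 0 1, v9 1 0 1 0, v9 1 0 1 1, v9 1 0 2 0, v9 1 0 2 1, v9 1 1 0 1, v9 1 1 1 2, v9 1 1 2 0, v9 1 2 0 1, v9 1 2 1 0, v9 1 2 2 2, v9 2 0 0 0, v9 2 0 0 2, v9 2 0 1 0, v9 2 0 1 2, v9 2 0 2 0, v9 2 0 2 2, v9 2 1 0 2, v9 2 1 1 1, v9 2 1 2 0, v9 2 2 0 2, v9 2 2 1 0, v9 2 2 2 1}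

/-- The six sets. -/
def kSet9 : Finset (Finset V9) := {o9_0, o9_1, o9_2, o9_3, o9_4, o9_5}

def act9 (g : SL9) (v : V9) : V9 := g.1 *ᵥ v
def actF9 (g : SL9) (c : Finset V9) : Finset V9 := c.image (act9 g)

lemma act9_one (v : V9) : act9 1 v = v := by
  simp [act9]

lemma act9_mul (g h : SL9) (v : V9) : act9 (g * h) v = act9 g (act9 h v) := by
  change (g.1 * h.1) *ᵥ v = g.1 *ᵥ (h.1 *ᵥ v)
  rw [Matrix.mulVec_mulVec]

lemma actF9_one (c : Finset V9) : actF9 1 c = c := by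
  simp [actF9, funext act9_one]

lemma actF9_mul (g h : SL9) (c : Finset V9) : actF9 (g * h) c = actF9 g (actF9 h c) := by
  simp only [actF9, Finset.image_image]
  congr 1
  funext M
  exact act9_mul g h M

set_option maxRecDepth 100000 in
lemma k9_0_0_1_0 : actF9 (SpecialLinearGroup.transvection (i := 0) (j := 1) (by decide) (mk9 0 1)) o9_0 = o9_0 := by
  decide +kernel

set_option maxRecDepth 100000 in
lemma k9_0_0_1_1 : actF9 (SpecialLinearGroup.transvection (i := 0) (j := 1) (by decide) (mk9 0 1)) o9_1 = o9_1 := by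
  decide +kernel

set_option maxRecDepth 100000 in
lemma k9_0_0_1_2 : actF9 (SpecialLinearGroup.transvection (i := 0) (j := 1) (by decide) (mk9 0 1)) o9_2 = o9_3 := by
  decide +kernel

set_option maxRecDepth 100000 in
lemma k9_0_0_1_3 : actF9 (SpecialLinearGroup.transvection (i := 0) (j := 1) (by decide) (mk9 0 1)) o9_3 = o9_5 := by
  decide +kernel

set_option maxRecDepth 100000 in
lemma k9_0_0_1_4 : actF9 (SpecialLinearGroup.transvection (i := 0) (j := 1) (by decide) (mk9 0 1)) o9_4 = o9_4 := by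
  decide +kernel

set_option maxRecDepth 100000 in
lemma k9_0_0_1_5 : actF9 (SpecialLinearGroup.transvection (i := 0) (j := 1) (by decide) (mk9 0 1)) o9_5 = o9_2 := by
  decide +kernel

set_option maxRecDepth 100000 in
lemma k9_0_0_2_0 : actF9 (SpecialLinearGroup.transvection (i := 0) (j := 1) (by decide) (mk9 0 2)) o9_0 = o9_0 := by
  decide +kernel

set_option maxRecDepth 100000 in
lemma k9_0_0_2_1 : actF9 (SpecialLinearGroup.transvection (i := 0) (j := 1) (by decide) (mk9 0 2)) o9_1 = o9_1 := by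
  decide +kernel

set_option maxRecDepth 100000 in
lemma k9_0_0_2_2 : actF9 (SpecialLinearGroup.transvection (i := 0) (j := 1) (by decide) (mk9 0 2)) o9_2 = o9_5 := by
  decide +kernel

set_option maxRecDepth 100000 in
lemma k9_0_0_2_3 : actF9 (SpecialLinearGroup.transvection (i := 0) (j := 1) (by decide) (mk9 0 2)) o9_3 = o9_2 := by
  decide +kernel

set_option maxRecDepth 100000 in
lemma k9_0_0_2_4 : actF9 (SpecialLinearGroup.transvection (i := 0) (j := 1) (by decide) (mk9 0 2)) o9_4 = o9_4 := by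
  decide +kernel

set_option maxRecDepth 100000 in
lemma k9_0_0_2_5 : actF9 (SpecialLinearGroup.transvection (i := 0) (j := 1) (by decide) (mk9 0 2)) o9_5 = o9_3 := by
  decide +kernel

set_option maxRecDepth 100000 in
lemma k9_0_1_0_0 : actF9 (SpecialLinearGroup.transvection (i := 0) (j := 1) (by decide) (mk9 1 0)) o9_0 = o9_1 := by
  decide +kernel

set_option maxRecDepth 100000 in
lemma k9_0_1_0_1 : actF9 (SpecialLinearGroup.transvection (i := 0) (j := 1) (by decide) (mk9 1 0)) o9_1 = o9_4 := by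
  decide +kernel

set_option maxRecDepth 100000 in
lemma k9_0_1_0_2 : actF9 (SpecialLinearGroup.transvection (i := 0) (j := 1) (by decide) (mk9 1 0)) o9_2 = o9_2 := by
  decide +kernel

set_option maxRecDepth 100000 in
lemma k9_0_1_0_3 : actF9 (SpecialLinearGroup.transvection (i := 0) (j := 1) (by decide) (mk9 1 0)) o9_3 = o9_3 := by
  decide +kernel

set_option maxRecDepth 100000 in
lemma k9_0_1_0_4 : actF9 (SpecialLinearGroup.transvection (i := 0) (j := 1) (by decide) (mk9 1 0)) o9_4 = o9_0 := by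
  decide +kernel

set_option maxRecDepth 100000 in
lemma k9_0_1_0_5 : actF9 (SpecialLinearGroup.transvection (i := 0) (j := 1) (by decide) (mk9 1 0)) o9_5 = o9_5 := by
  decide +kernel

set_option maxRecDepth 100000 in
lemma k9_0_1_1_0 : actF9 (SpecialLinearGroup.transvection (i := 0) (j := 1) (by decide) (mk9 1 1)) o9_0 = o9_1 := by
  decide +kernel

set_option maxRecDepth 100000 in
lemma k9_0_1_1_1 : actF9 (SpecialLinearGroup.transvection (i := 0) (j := 1) (by decide) (mk9 1 1)) o9_1 = o9_4 := by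
  decide +kernel

set_option maxRecDepth 100000 in
lemma k9_0_1_1_2 : actF9 (SpecialLinearGroup.transvection (i := 0) (j := 1) (by decide) (mk9 1 1)) o9_2 = o9_3 := by
  decide +kernel

set_option maxRecDepth 100000 in
lemma k9_0_1_1_3 : actF9 (SpecialLinearGroup.transvection (i := 0) (j := 1) (by decide) (mk9 1 1)) o9_3 = o9_5 := by
  decide +kernel

set_option maxRecDepth 100000 in
lemma k9_0_1_1_4 : actF9 (SpecialLinearGroup.transvection (i := 0) (j := 1) (by decide) (mk9 1 1)) o9_4 = o9_0 := by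
  decide +kernel

set_option maxRecDepth 100000 in
lemma k9_0_1_1_5 : actF9 (SpecialLinearGroup.transvection (i := 0) (j := 1) (by decide) (mk9 1 1)) o9_5 = o9_2 := by
  decide +kernel

set_option maxRecDepth 100000 in
lemma k9_0_1_2_0 : actF9 (SpecialLinearGroup.transvection (i := 0) (j := 1) (by decide) (mk9 1 2)) o9_0 = o9_1 := by
  decide +kernel

set_option maxRecDepth 100000 in
lemma k9_0_1_2_1 : actF9 (SpecialLinearGroup.transvection (i := 0) (j := 1) (by decide) (mk9 1 2)) o9_1 = o9_4 := by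
  decide +kernel

set_option maxRecDepth 100000 in
lemma k9_0_1_2_2 : actF9 (SpecialLinearGroup.transvection (i := 0) (j := 1) (by decide) (mk9 1 2)) o9_2 = o9_5 := by
  decide +kernel

set_option maxRecDepth 100000 in
lemma k9_0_1_2_3 : actF9 (SpecialLinearGroup.transvection (i := 0) (j := 1) (by decide) (mk9 1 2)) o9_3 = o9_2 := by
  decide +kernel

set_option maxRecDepth 100000 in
lemma k9_0_1_2_4 : actF9 (SpecialLinearGroup.transvection (i := 0) (j := 1) (by decide) (mk9 1 2)) o9_4 = o9_0 := by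
  decide +kernel

set_option maxRecDepth 100000 in
lemma k9_0_1_2_5 : actF9 (SpecialLinearGroup.transvection (i := 0) (j := 1) (by decide) (mk9 1 2)) o9_5 = o9_3 := by
  decide +kernel

set_option maxRecDepth 100000 in
lemma k9_0_2_0_0 : actF9 (SpecialLinearGroup.transvection (i := 0) (j := 1) (by decide) (mk9 2 0)) o9_0 = o9_4 := by
  decide +kernel

set_option maxRecDepth 100000 in
lemma k9_0_2_0_1 : actF9 (SpecialLinearGroup.transvection (i := 0) (j := 1) (by decide) (mk9 2 0)) o9_1 = o9_0 := by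
  decide +kernel

set_option maxRecDepth 100000 in
lemma k9_0_2_0_2 : actF9 (SpecialLinearGroup.transvection (i := 0) (j := 1) (by decide) (mk9 2 0)) o9_2 = o9_2 := by
  decide +kernel

set_option maxRecDepth 100000 in
lemma k9_0_2_0_3 : actF9 (SpecialLinearGroup.transvection (i := 0) (j := 1) (by decide) (mk9 2 0)) o9_3 = o9_3 := by
  decide +kernel

set_option maxRecDepth 100000 in
lemma k9_0_2_0_4 : actF9 (SpecialLinearGroup.transvection (i := 0) (j := 1) (by decide) (mk9 2 0)) o9_4 = o9_1 := by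
  decide +kernel

set_option maxRecDepth 100000 in
lemma k9_0_2_0_5 : actF9 (SpecialLinearGroup.transvection (i := 0) (j := 1) (by decide) (mk9 2 0)) o9_5 = o9_5 := by
  decide +kernel

set_option maxRecDepth 100000 in
lemma k9_0_2_1_0 : actF9 (SpecialLinearGroup.transvection (i := 0) (j := 1) (by decide) (mk9 2 1)) o9_0 = o9_4 := by
  decide +kernel

set_option maxRecDepth 100000 in
lemma k9_0_2_1_1 : actF9 (SpecialLinearGroup.transvection (i := 0) (j := 1) (by decide) (mk9 2 1)) o9_1 = o9_0 := by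
  decide +kernel

set_option maxRecDepth 100000 in
lemma k9_0_2_1_2 : actF9 (SpecialLinearGroup.transvection (i := 0) (j := 1) (by decide) (mk9 2 1)) o9_2 = o9_3 := by
  decide +kernel

set_option maxRecDepth 100000 in
lemma k9_0_2_1_3 : actF9 (SpecialLinearGroup.transvection (i := 0) (j := 1) (by decide) (mk9 2 1)) o9_3 = o9_5 := by
  decide +kernel

set_option maxRecDepth 100000 in
lemma k9_0_2_1_4 : actF9 (SpecialLinearGroup.transvection (i := 0) (j := 1) (by decide) (mk9 2 1)) o9_4 = o9_1 := by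
  decide +kernel

set_option maxRecDepth 100000 in
lemma k9_0_2_1_5 : actF9 (SpecialLinearGroup.transvection (i := 0) (j := 1) (by decide) (mk9 2 1)) o9_5 = o9_2 := by
  decide +kernel

set_option maxRecDepth 100000 in
lemma k9_0_2_2_0 : actF9 (SpecialLinearGroup.transvection (i := 0) (j := 1) (by decide) (mk9 2 2)) o9_0 = o9_4 := by
  decide +kernel

set_option maxRecDepth 100000 in
lemma k9_0_2_2_1 : actF9 (SpecialLinearGroup.transvection (i := 0) (j := 1) (by decide) (mk9 2 2)) o9_1 = o9_0 := by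
  decide +kernel

set_option maxRecDepth 100000 in
lemma k9_0_2_2_2 : actF9 (SpecialLinearGroup.transvection (i := 0) (j := 1) (by decide) (mk9 2 2)) o9_2 = o9_5 := by
  decide +kernel

set_option maxRecDepth 100000 in
lemma k9_0_2_2_3 : actF9 (SpecialLinearGroup.transvection (i := 0) (j := 1) (by decide) (mk9 2 2)) o9_3 = o9_2 := by
  decide +kernel

set_option maxRecDepth 100000 in
lemma k9_0_2_2_4 : actF9 (SpecialLinearGroup.transvection (i := 0) (j := 1) (by decide) (mk9 2 2)) o9_4 = o9_1 := by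
  decide +kernel

set_option maxRecDepth 100000 in
lemma k9_0_2_2_5 : actF9 (SpecialLinearGroup.transvection (i := 0) (j := 1) (by decide) (mk9 2 2)) o9_5 = o9_3 := by
  decide +kernel

set_option maxRecDepth 100000 in
lemma k9_1_0_1_0 : actF9 (SpecialLinearGroup.transvection (i := 1) (j := 0) (by decide) (mk9 0 1)) o9_0 = o9_2 := by
  decide +kernel

set_option maxRecDepth 100000 in
lemma k9_1_0_1_1 : actF9 (SpecialLinearGroup.transvection (i := 1) (j := 0) (by decide) (mk9 0 1)) o9_1 = o9_1 := by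
  decide +kernel

set_option maxRecDepth 100000 in
lemma k9_1_0_1_2 : actF9 (SpecialLinearGroup.transvection (i := 1) (j := 0) (by decide) (mk9 0 1)) o9_2 = o9_5 := by
  decide +kernel

set_option maxRecDepth 100000 in
lemma k9_1_0_1_3 : actF9 (SpecialLinearGroup.transvection (i := 1) (j := 0) (by decide) (mk9 0 1)) o9_3 = o9_3 := by
  decide +kernel

set_option maxRecDepth 100000 in
lemma k9_1_0_1_4 : actF9 (SpecialLinearGroup.transvection (i := 1) (j := 0) (by decide) (mk9 0 1)) o9_4 = o9_4 := by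
  decide +kernel

set_option maxRecDepth 100000 in
lemma k9_1_0_1_5 : actF9 (SpecialLinearGroup.transvection (i := 1) (j := 0) (by decide) (mk9 0 1)) o9_5 = o9_0 := by
  decide +kernel

set_option maxRecDepth 100000 in
lemma k9_1_0_2_0 : actF9 (SpecialLinearGroup.transvection (i := 1) (j := 0) (by decide) (mk9 0 2)) o9_0 = o9_5 := by
  decide +kernel

set_option maxRecDepth 100000 in
lemma k9_1_0_2_1 : actF9 (SpecialLinearGroup.transvection (i := 1) (j := 0) (by decide) (mk9 0 2)) o9_1 = o9_1 := by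
  decide +kernel

set_option maxRecDepth 100000 in
lemma k9_1_0_2_2 : actF9 (SpecialLinearGroup.transvection (i := 1) (j := 0) (by decide) (mk9 0 2)) o9_2 = o9_0 := by
  decide +kernel

set_option maxRecDepth 100000 in
lemma k9_1_0_2_3 : actF9 (SpecialLinearGroup.transvection (i := 1) (j := 0) (by decide) (mk9 0 2)) o9_3 = o9_3 := by
  decide +kernel

set_option maxRecDepth 100000 in
lemma k9_1_0_2_4 : actF9 (SpecialLinearGroup.transvection (i := 1) (j := 0) (by decide) (mk9 0 2)) o9_4 = o9_4 := by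
  decide +kernel

set_option maxRecDepth 100000 in
lemma k9_1_0_2_5 : actF9 (SpecialLinearGroup.transvection (i := 1) (j := 0) (by decide) (mk9 0 2)) o9_5 = o9_2 := by
  decide +kernel

set_option maxRecDepth 100000 in
lemma k9_1_1_0_0 : actF9 (SpecialLinearGroup.transvection (i := 1) (j := 0) (by decide) (mk9 1 0)) o9_0 = o9_0 := by
  decide +kernel

set_option maxRecDepth 100000 in
lemma k9_1_1_0_1 : actF9 (SpecialLinearGroup.transvection (i := 1) (j := 0) (by decide) (mk9 1 0)) o9_1 = o9_4 := by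
  decide +kernel

set_option maxRecDepth 100000 in
lemma k9_1_1_0_2 : actF9 (SpecialLinearGroup.transvection (i := 1) (j := 0) (by decide) (mk9 1 0)) o9_2 = o9_2 := by
  decide +kernel

set_option maxRecDepth 100000 in
lemma k9_1_1_0_3 : actF9 (SpecialLinearGroup.transvection (i := 1) (j := 0) (by decide) (mk9 1 0)) o9_3 = o9_1 := by
  decide +kernel

set_option maxRecDepth 100000 in
lemma k9_1_1_0_4 : actF9 (SpecialLinearGroup.transvection (i := 1) (j := 0) (by decide) (mk9 1 0)) o9_4 = o9_3 := by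
  decide +kernel

set_option maxRecDepth 100000 in
lemma k9_1_1_0_5 : actF9 (SpecialLinearGroup.transvection (i := 1) (j := 0) (by decide) (mk9 1 0)) o9_5 = o9_5 := by
  decide +kernel

set_option maxRecDepth 100000 in
lemma k9_1_1_1_0 : actF9 (SpecialLinearGroup.transvection (i := 1) (j := 0) (by decide) (mk9 1 1)) o9_0 = o9_2 := by
  decide +kernel

set_option maxRecDepth 100000 in
lemma k9_1_1_1_1 : actF9 (SpecialLinearGroup.transvection (i := 1) (j := 0) (by decide) (mk9 1 1)) o9_1 = o9_4 := by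
  decide +kernel

set_option maxRecDepth 100000 in
lemma k9_1_1_1_2 : actF9 (SpecialLinearGroup.transvection (i := 1) (j := 0) (by decide) (mk9 1 1)) o9_2 = o9_5 := by
  decide +kernel

set_option maxRecDepth 100000 in
lemma k9_1_1_1_3 : actF9 (SpecialLinearGroup.transvection (i := 1) (j := 0) (by decide) (mk9 1 1)) o9_3 = o9_1 := by
  decide +kernel

set_option maxRecDepth 100000 in
lemma k9_1_1_1_4 : actF9 (SpecialLinearGroup.transvection (i := 1) (j := 0) (by decide) (mk9 1 1)) o9_4 = o9_3 := by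
  decide +kernel

set_option maxRecDepth 100000 in
lemma k9_1_1_1_5 : actF9 (SpecialLinearGroup.transvection (i := 1) (j := 0) (by decide) (mk9 1 1)) o9_5 = o9_0 := by
  decide +kernel

set_option maxRecDepth 100000 in
lemma k9_1_1_2_0 : actF9 (SpecialLinearGroup.transvection (i := 1) (j := 0) (by decide) (mk9 1 2)) o9_0 = o9_5 := by
  decide +kernel

set_option maxRecDepth 100000 in
lemma k9_1_1_2_1 : actF9 (SpecialLinearGroup.transvection (i := 1) (j := 0) (by decide) (mk9 1 2)) o9_1 = o9_4 := by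
  decide +kernel

set_option maxRecDepth 100000 in
lemma k9_1_1_2_2 : actF9 (SpecialLinearGroup.transvection (i := 1) (j := 0) (by decide) (mk9 1 2)) o9_2 = o9_0 := by
  decide +kernel

set_option maxRecDepth 100000 in
lemma k9_1_1_2_3 : actF9 (SpecialLinearGroup.transvection (i := 1) (j := 0) (by decide) (mk9 1 2)) o9_3 = o9_1 := by
  decide +kernel

set_option maxRecDepth 100000 in
lemma k9_1_1_2_4 : actF9 (SpecialLinearGroup.transvection (i := 1) (j := 0) (by decide) (mk9 1 2)) o9_4 = o9_3 := by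
  decide +kernel

set_option maxRecDepth 100000 in
lemma k9_1_1_2_5 : actF9 (SpecialLinearGroup.transvection (i := 1) (j := 0) (by decide) (mk9 1 2)) o9_5 = o9_2 := by
  decide +kernel

set_option maxRecDepth 100000 in
lemma k9_1_2_0_0 : actF9 (SpecialLinearGroup.transvection (i := 1) (j := 0) (by decide) (mk9 2 0)) o9_0 = o9_0 := by
  decide +kernel

set_option maxRecDepth 100000 in
lemma k9_1_2_0_1 : actF9 (SpecialLinearGroup.transvection (i := 1) (j := 0) (by decide) (mk9 2 0)) o9_1 = o9_3 := by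
  decide +kernel

set_option maxRecDepth 100000 in
lemma k9_1_2_0_2 : actF9 (SpecialLinearGroup.transvection (i := 1) (j := 0) (by decide) (mk9 2 0)) o9_2 = o9_2 := by
  decide +kernel

set_option maxRecDepth 100000 in
lemma k9_1_2_0_3 : actF9 (SpecialLinearGroup.transvection (i := 1) (j := 0) (by decide) (mk9 2 0)) o9_3 = o9_4 := by
  decide +kernel

set_option maxRecDepth 100000 in
lemma k9_1_2_0_4 : actF9 (SpecialLinearGroup.transvection (i := 1) (j := 0) (by decide) (mk9 2 0)) o9_4 = o9_1 := by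
  decide +kernel

set_option maxRecDepth 100000 in
lemma k9_1_2_0_5 : actF9 (SpecialLinearGroup.transvection (i := 1) (j := 0) (by decide) (mk9 2 0)) o9_5 = o9_5 := by
  decide +kernel

set_option maxRecDepth 100000 in
lemma k9_1_2_1_0 : actF9 (SpecialLinearGroup.transvection (i := 1) (j := 0) (by decide) (mk9 2 1)) o9_0 = o9_2 := by
  decide +kernel

set_option maxRecDepth 100000 in
lemma k9_1_2_1_1 : actF9 (SpecialLinearGroup.transvection (i := 1) (j := 0) (by decide) (mk9 2 1)) o9_1 = o9_3 := by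
  decide +kernel

set_option maxRecDepth 100000 in
lemma k9_1_2_1_2 : actF9 (SpecialLinearGroup.transvection (i := 1) (j := 0) (by decide) (mk9 2 1)) o9_2 = o9_5 := by
  decide +kernel

set_option maxRecDepth 100000 in
lemma k9_1_2_1_3 : actF9 (SpecialLinearGroup.transvection (i := 1) (j := 0) (by decide) (mk9 2 1)) o9_3 = o9_4 := by
  decide +kernel

set_option maxRecDepth 100000 in
lemma k9_1_2_1_4 : actF9 (SpecialLinearGroup.transvection (i := 1) (j := 0) (by decide) (mk9 2 1)) o9_4 = o9_1 := by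
  decide +kernel

set_option maxRecDepth 100000 in
lemma k9_1_2_1_5 : actF9 (SpecialLinearGroup.transvection (i := 1) (j := 0) (by decide) (mk9 2 1)) o9_5 = o9_0 := by
  decide +kernel

set_option maxRecDepth 100000 in
lemma k9_1_2_2_0 : actF9 (SpecialLinearGroup.transvection (i := 1) (j := 0) (by decide) (mk9 2 2)) o9_0 = o9_5 := by
  decide +kernel

set_option maxRecDepth 100000 in
lemma k9_1_2_2_1 : actF9 (SpecialLinearGroup.transvection (i := 1) (j := 0) (by decide) (mk9 2 2)) o9_1 = o9_3 := by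
  decide +kernel

set_option maxRecDepth 100000 in
lemma k9_1_2_2_2 : actF9 (SpecialLinearGroup.transvection (i := 1) (j := 0) (by decide) (mk9 2 2)) o9_2 = o9_0 := by
  decide +kernel

set_option maxRecDepth 100000 in
lemma k9_1_2_2_3 : actF9 (SpecialLinearGroup.transvection (i := 1) (j := 0) (by decide) (mk9 2 2)) o9_3 = o9_4 := by
  decide +kernel

set_option maxRecDepth 100000 in
lemma k9_1_2_2_4 : actF9 (SpecialLinearGroup.transvection (i := 1) (j := 0) (by decide) (mk9 2 2)) o9_4 = o9_1 := by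
  decide +kernel

set_option maxRecDepth 100000 in
lemma k9_1_2_2_5 : actF9 (SpecialLinearGroup.transvection (i := 1) (j := 0) (by decide) (mk9 2 2)) o9_5 = o9_2 := by
  decide +kernel

lemma mem_o9_0 : o9_0 ∈ kSet9 := by
  simp [kSet9]

lemma mem_o9_1 : o9_1 ∈ kSet9 := by
  simp [kSet9]

lemma mem_o9_2 : o9_2 ∈ kSet9 := by
  simp [kSet9]

lemma mem_o9_3 : o9_3 ∈ kSet9 := by
  simp [kSet9]

lemma mem_o9_4 : o9_4 ∈ kSet9 := by
  simp [kSet9]

lemma mem_o9_5 : o9_5 ∈ kSet9 := by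
  simp [kSet9]

lemma k9m_0_0_1 : ∀ O ∈ kSet9, actF9 (SpecialLinearGroup.transvection (i := 0) (j := 1) (by decide) (mk9 0 1)) O ∈ kSet9 := by
  intro O hO
  simp only [kSet9, Finset.mem_insert, Finset.mem_singleton] at hO
  rcases hO with rfl | rfl | rfl | rfl | rfl | rfl
  · rw [k9_0_0_1_0]; exact mem_o9_0
  · rw [k9_0_0_1_1]; exact mem_o9_1
  · rw [k9_0_0_1_2]; exact mem_o9_3
  · rw [k9_0_0_1_3]; exact mem_o9_5
  · rw [k9_0_0_1_4]; exact mem_o9_4
  · rw [k9_0_0_1_5]; exact mem_o9_2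

lemma k9m_0_0_2 : ∀ O ∈ kSet9, actF9 (SpecialLinearGroup.transvection (i := 0) (j := 1) (by decide) (mk9 0 2)) O ∈ kSet9 := by
  intro O hO
  simp only [kSet9, Finset.mem_insert, Finset.mem_singleton] at hO
  rcases hO with rfl | rfl | rfl | rfl | rfl | rfl
  · rw [k9_0_0_2_0]; exact mem_o9_0
  · rw [k9_0_0_2_1]; exact mem_o9_1
  · rw [k9_0_0_2_2]; exact mem_o9_5
  · rw [k9_0_0_2_3]; exact mem_o9_2
  · rw [k9_0_0_2_4]; exact mem_o9_4
  · rw [k9_0_0_2_5]; exact mem_o9_3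

lemma k9m_0_1_0 : ∀ O ∈ kSet9, actF9 (SpecialLinearGroup.transvection (i := 0) (j := 1) (by decide) (mk9 1 0)) O ∈ kSet9 := by
  intro O hO
  simp only [kSet9, Finset.mem_insert, Finset.mem_singleton] at hO
  rcases hO with rfl | rfl | rfl | rfl | rfl | rfl
  · rw [k9_0_1_0_0]; exact mem_o9_1
  · rw [k9_0_1_0_1]; exact mem_o9_4
  · rw [k9_0_1_0_2]; exact mem_o9_2
  · rw [k9_0_1_0_3]; exact mem_o9_3
  · rw [k9_0_1_0_4]; exact mem_o9_0
  · rw [k9_0_1_0_5]; exact mem_o9_5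

lemma k9m_0_1_1 : ∀ O ∈ kSet9, actF9 (SpecialLinearGroup.transvection (i := 0) (j := 1) (by decide) (mk9 1 1)) O ∈ kSet9 := by
  intro O hO
  simp only [kSet9, Finset.mem_insert, Finset.mem_singleton] at hO
  rcases hO with rfl | rfl | rfl | rfl | rfl | rfl
  · rw [k9_0_1_1_0]; exact mem_o9_1
  · rw [k9_0_1_1_1]; exact mem_o9_4
  · rw [k9_0_1_1_2]; exact mem_o9_3
  · rw [k9_0_1_1_3]; exact mem_o9_5
  · rw [k9_0_1_1_4]; exact mem_o9_0
  · rw [k9_0_1_1_5]; exact mem_o9_2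

lemma k9m_0_1_2 : ∀ O ∈ kSet9, actF9 (SpecialLinearGroup.transvection (i := 0) (j := 1) (by decide) (mk9 1 2)) O ∈ kSet9 := by
  intro O hO
  simp only [kSet9, Finset.mem_insert, Finset.mem_singleton] at hO
  rcases hO with rfl | rfl | rfl | rfl | rfl | rfl
  · rw [k9_0_1_2_0]; exact mem_o9_1
  · rw [k9_0_1_2_1]; exact mem_o9_4
  · rw [k9_0_1_2_2]; exact mem_o9_5
  · rw [k9_0_1_2_3]; exact mem_o9_2
  · rw [k9_0_1_2_4]; exact mem_o9_0
  · rw [k9_0_1_2_5]; exact mem_o9_3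

lemma k9m_0_2_0 : ∀ O ∈ kSet9, actF9 (SpecialLinearGroup.transvection (i := 0) (j := 1) (by decide) (mk9 2 0)) O ∈ kSet9 := by
  intro O hO
  simp only [kSet9, Finset.mem_insert, Finset.mem_singleton] at hO
  rcases hO with rfl | rfl | rfl | rfl | rfl | rfl
  · rw [k9_0_2_0_0]; exact mem_o9_4
  · rw [k9_0_2_0_1]; exact mem_o9_0
  · rw [k9_0_2_0_2]; exact mem_o9_2
  · rw [k9_0_2_0_3]; exact mem_o9_3
  · rw [k9_0_2_0_4]; exact mem_o9_1
  · rw [k9_0_2_0_5]; exact mem_o9_5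

lemma k9m_0_2_1 : ∀ O ∈ kSet9, actF9 (SpecialLinearGroup.transvection (i := 0) (j := 1) (by decide) (mk9 2 1)) O ∈ kSet9 := by
  intro O hO
  simp only [kSet9, Finset.mem_insert, Finset.mem_singleton] at hO
  rcases hO with rfl | rfl | rfl | rfl | rfl | rfl
  · rw [k9_0_2_1_0]; exact mem_o9_4
  · rw [k9_0_2_1_1]; exact mem_o9_0
  · rw [k9_0_2_1_2]; exact mem_o9_3
  · rw [k9_0_2_1_3]; exact mem_o9_5
  · rw [k9_0_2_1_4]; exact mem_o9_1
  · rw [k9_0_2_1_5]; exact mem_o9_2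

lemma k9m_0_2_2 : ∀ O ∈ kSet9, actF9 (SpecialLinearGroup.transvection (i := 0) (j := 1) (by decide) (mk9 2 2)) O ∈ kSet9 := by
  intro O hO
  simp only [kSet9, Finset.mem_insert, Finset.mem_singleton] at hO
  rcases hO with rfl | rfl | rfl | rfl | rfl | rfl
  · rw [k9_0_2_2_0]; exact mem_o9_4
  · rw [k9_0_2_2_1]; exact mem_o9_0
  · rw [k9_0_2_2_2]; exact mem_o9_5
  · rw [k9_0_2_2_3]; exact mem_o9_2
  · rw [k9_0_2_2_4]; exact mem_o9_1
  · rw [k9_0_2_2_5]; exact mem_o9_3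

lemma k9m_1_0_1 : ∀ O ∈ kSet9, actF9 (SpecialLinearGroup.transvection (i := 1) (j := 0) (by decide) (mk9 0 1)) O ∈ kSet9 := by
  intro O hO
  simp only [kSet9, Finset.mem_insert, Finset.mem_singleton] at hO
  rcases hO with rfl | rfl | rfl | rfl | rfl | rfl
  · rw [k9_1_0_1_0]; exact mem_o9_2
  · rw [k9_1_0_1_1]; exact mem_o9_1
  · rw [k9_1_0_1_2]; exact mem_o9_5
  · rw [k9_1_0_1_3]; exact mem_o9_3
  · rw [k9_1_0_1_4]; exact mem_o9_4
  · rw [k9_1_0_1_5]; exact mem_o9_0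

lemma k9m_1_0_2 : ∀ O ∈ kSet9, actF9 (SpecialLinearGroup.transvection (i := 1) (j := 0) (by decide) (mk9 0 2)) O ∈ kSet9 := by
  intro O hO
  simp only [kSet9, Finset.mem_insert, Finset.mem_singleton] at hO
  rcases hO with rfl | rfl | rfl | rfl | rfl | rfl
  · rw [k9_1_0_2_0]; exact mem_o9_5
  · rw [k9_1_0_2_1]; exact mem_o9_1
  · rw [k9_1_0_2_2]; exact mem_o9_0
  · rw [k9_1_0_2_3]; exact mem_o9_3
  · rw [k9_1_0_2_4]; exact mem_o9_4
  · rw [k9_1_0_2_5]; exact mem_o9_2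

lemma k9m_1_1_0 : ∀ O ∈ kSet9, actF9 (SpecialLinearGroup.transvection (i := 1) (j := 0) (by decide) (mk9 1 0)) O ∈ kSet9 := by
  intro O hO
  simp only [kSet9, Finset.mem_insert, Finset.mem_singleton] at hO
  rcases hO with rfl | rfl | rfl | rfl | rfl | rfl
  · rw [k9_1_1_0_0]; exact mem_o9_0
  · rw [k9_1_1_0_1]; exact mem_o9_4
  · rw [k9_1_1_0_2]; exact mem_o9_2
  · rw [k9_1_1_0_3]; exact mem_o9_1
  · rw [k9_1_1_0_4]; exact mem_o9_3
  · rw [k9_1_1_0_5]; exact mem_o9_5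

lemma k9m_1_1_1 : ∀ O ∈ kSet9, actF9 (SpecialLinearGroup.transvection (i := 1) (j := 0) (by decide) (mk9 1 1)) O ∈ kSet9 := by
  intro O hO
  simp only [kSet9, Finset.mem_insert, Finset.mem_singleton] at hO
  rcases hO with rfl | rfl | rfl | rfl | rfl | rfl
  · rw [k9_1_1_1_0]; exact mem_o9_2
  · rw [k9_1_1_1_1]; exact mem_o9_4
  · rw [k9_1_1_1_2]; exact mem_o9_5
  · rw [k9_1_1_1_3]; exact mem_o9_1
  · rw [k9_1_1_1_4]; exact mem_o9_3
  · rw [k9_1_1_1_5]; exact mem_o9_0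

lemma k9m_1_1_2 : ∀ O ∈ kSet9, actF9 (SpecialLinearGroup.transvection (i := 1) (j := 0) (by decide) (mk9 1 2)) O ∈ kSet9 := by
  intro O hO
  simp only [kSet9, Finset.mem_insert, Finset.mem_singleton] at hO
  rcases hO with rfl | rfl | rfl | rfl | rfl | rfl
  · rw [k9_1_1_2_0]; exact mem_o9_5
  · rw [k9_1_1_2_1]; exact mem_o9_4
  · rw [k9_1_1_2_2]; exact mem_o9_0
  · rw [k9_1_1_2_3]; exact mem_o9_1
  · rw [k9_1_1_2_4]; exact mem_o9_3
  · rw [k9_1_1_2_5]; exact mem_o9_2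

lemma k9m_1_2_0 : ∀ O ∈ kSet9, actF9 (SpecialLinearGroup.transvection (i := 1) (j := 0) (by decide) (mk9 2 0)) O ∈ kSet9 := by
  intro O hO
  simp only [kSet9, Finset.mem_insert, Finset.mem_singleton] at hO
  rcases hO with rfl | rfl | rfl | rfl | rfl | rfl
  · rw [k9_1_2_0_0]; exact mem_o9_0
  · rw [k9_1_2_0_1]; exact mem_o9_3
  · rw [k9_1_2_0_2]; exact mem_o9_2
  · rw [k9_1_2_0_3]; exact mem_o9_4
  · rw [k9_1_2_0_4]; exact mem_o9_1
  · rw [k9_1_2_0_5]; exact mem_o9_5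

lemma k9m_1_2_1 : ∀ O ∈ kSet9, actF9 (SpecialLinearGroup.transvection (i := 1) (j := 0) (by decide) (mk9 2 1)) O ∈ kSet9 := by
  intro O hO
  simp only [kSet9, Finset.mem_insert, Finset.mem_singleton] at hO
  rcases hO with rfl | rfl | rfl | rfl | rfl | rfl
  · rw [k9_1_2_1_0]; exact mem_o9_2
  · rw [k9_1_2_1_1]; exact mem_o9_3
  · rw [k9_1_2_1_2]; exact mem_o9_5
  · rw [k9_1_2_1_3]; exact mem_o9_4
  · rw [k9_1_2_1_4]; exact mem_o9_1
  · rw [k9_1_2_1_5]; exact mem_o9_0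

lemma k9m_1_2_2 : ∀ O ∈ kSet9, actF9 (SpecialLinearGroup.transvection (i := 1) (j := 0) (by decide) (mk9 2 2)) O ∈ kSet9 := by
  intro O hO
  simp only [kSet9, Finset.mem_insert, Finset.mem_singleton] at hO
  rcases hO with rfl | rfl | rfl | rfl | rfl | rfl
  · rw [k9_1_2_2_0]; exact mem_o9_5
  · rw [k9_1_2_2_1]; exact mem_o9_3
  · rw [k9_1_2_2_2]; exact mem_o9_0
  · rw [k9_1_2_2_3]; exact mem_o9_4
  · rw [k9_1_2_2_4]; exact mem_o9_1
  · rw [k9_1_2_2_5]; exact mem_o9_2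

lemma kSet9_transv : ∀ (i j : Fin 2) (h : i ≠ j) (c : F9),
    ∀ x ∈ kSet9, actF9 (SpecialLinearGroup.transvection h c) x ∈ kSet9 := by
  intro i j h c
  by_cases hc0 : c = 0
  · subst hc0
    intro x hx
    have h1 : SpecialLinearGroup.transvection h (0 : F9) = 1 := by
      apply Subtype.ext
      simp [SpecialLinearGroup.transvection, Matrix.transvection]
    rw [h1, actF9_one]
    exact hx
  · have key : (i = 0 ∧ j = 1) ∨ (i = 1 ∧ j = 0) := by
      revert i j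
      decide
    obtain ⟨x, y, rfl⟩ : ∃ x y, c = mk9 x y := by
      obtain ⟨x, y⟩ := c
      exact ⟨x, y, rfl⟩
    have hxy : ∀ x y : ZMod 3, ¬ (x = 0 ∧ y = 0) →
        (x = 0 ∧ y = 1) ∨ (x = 0 ∧ y = 2) ∨ (x = 1 ∧ y = 0) ∨ (x = 1 ∧ y = 1) ∨ (x = 1 ∧ y = 2) ∨ (x = 2 ∧ y = 0) ∨ (x = 2 ∧ y = 1) ∨ (x = 2 ∧ y = 2) := by
      decide
    have hne : ¬ (x = 0 ∧ y = 0) := by
      rintro ⟨rfl, rfl⟩
      exact hc0 rfl
    have hv := hxy x y hne
    rcases key with ⟨rfl, rfl⟩ | ⟨rfl, rfl⟩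
    · rcases hv with ⟨rfl, rfl⟩ | ⟨rfl, rfl⟩ | ⟨rfl, rfl⟩ | ⟨rfl, rfl⟩ | ⟨rfl, rfl⟩ | ⟨rfl, rfl⟩ | ⟨rfl, rfl⟩ | ⟨rfl, rfl⟩
      · exact k9m_0_0_1
      · exact k9m_0_0_2
      · exact k9m_0_1_0
      · exact k9m_0_1_1
      · exact k9m_0_1_2
      · exact k9m_0_2_0
      · exact k9m_0_2_1
      · exact k9m_0_2_2
    · rcases hv with ⟨rfl, rfl⟩ | ⟨rfl, rfl⟩ | ⟨rfl, rfl⟩ | ⟨rfl, rfl⟩ | ⟨rfl, rfl⟩ | ⟨rfl, rfl⟩ | ⟨rfl, rfl⟩ | ⟨rfl, rfl⟩
      · exact k9m_1_0_1
      · exact k9m_1_0_2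
      · exact k9m_1_1_0
      · exact k9m_1_1_1
      · exact k9m_1_1_2
      · exact k9m_1_2_0
      · exact k9m_1_2_1
      · exact k9m_1_2_2

lemma kSet9_inv (g : SL9) : ∀ x ∈ kSet9, actF9 g x ∈ kSet9 := by
  refine transvection_induction' (fun g => ∀ x ∈ kSet9, actF9 g x ∈ kSet9) kSet9_transv ?_ g
  intro A B hA hB x hx
  rw [actF9_mul]
  exact hA _ (hB _ hx)

set_option maxRecDepth 100000 in
lemma kSet9_card : Fintype.card {x // x ∈ kSet9} = 6 := by
  decide +kernel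

/-- The permutation of the six sets. -/
def rho9Perm (g : SL9) : Equiv.Perm {x // x ∈ kSet9} where
  toFun x := ⟨actF9 g x.1, kSet9_inv g x.1 x.2⟩
  invFun x := ⟨actF9 g⁻¹ x.1, kSet9_inv g⁻¹ x.1 x.2⟩
  left_inv x := by
    apply Subtype.ext
    change actF9 g⁻¹ (actF9 g x.1) = x.1
    rw [← actF9_mul, inv_mul_cancel, actF9_one]
  right_inv x := by
    apply Subtype.ext
    change actF9 g (actF9 g⁻¹ x.1) = x.1
    rw [← actF9_mul, mul_inv_cancel, actF9_one]

/-- The permutation representation of `SL_2(9)`. -/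
def rho9Hom : SL9 →* Equiv.Perm {x // x ∈ kSet9} where
  toFun := rho9Perm
  map_one' := by
    ext x : 2
    exact actF9_one x.1
  map_mul' g h := by
    ext x : 2
    exact actF9_mul g h x.1

/-- Minus the identity. -/
def m9 : SL9 := ⟨!![-1, 0; 0, -1], by decide +kernel⟩

set_option maxRecDepth 100000 in
lemma m9_fix : ∀ x ∈ kSet9, actF9 m9 x = x := by
  decide +kernel

lemma rho9Hom_m9 : rho9Hom m9 = 1 := by
  ext x : 2
  exact m9_fix x.1 x.2

set_option maxRecDepth 100000 in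
lemma rho9Hom_nontrivial : ∃ g : SL9, ∃ x ∈ kSet9, actF9 g x ≠ x :=
  ⟨SpecialLinearGroup.transvection (i := 0) (j := 1) (by decide) (mk9 0 1), o9_2, by decide +kernel,
    by decide +kernel⟩

noncomputable instance fintypeF9 : Fintype F9 :=
  Fintype.ofEquiv (ZMod 3 × ZMod 3) (QuadraticAlgebra.equivProd (-1 : ZMod 3) 0).symm

/-- Coordinates on the field with nine elements. -/
def eqv9 : F9 ≃ ZMod 3 × ZMod 3 := QuadraticAlgebra.equivProd (-1 : ZMod 3) 0

lemma card_F9 : Fintype.card F9 = 9 := by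
  rw [Fintype.card_congr eqv9, Fintype.card_prod, ZMod.card]

theorem psl29_equiv_alt {F : Type*} [Field F] [Fintype F] (hF : Fintype.card F = 9) :
    Nonempty (ProjectiveSpecialLinearGroup (Fin 2) F ≃* alternatingGroup (Fin 6)) := by
  classical
  have e : F ≃+* F9 := FiniteField.ringEquivOfCardEq (by rw [hF, card_F9])
  let E := slCongr (ι := Fin 2) e
  let b : {x // x ∈ kSet9} ≃ Fin 6 := Fintype.equivFinOfCardEq kSet9_card
  let ρ : SpecialLinearGroup (Fin 2) F →* Equiv.Perm (Fin 6) :=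
    ((Equiv.permCongrHom b).toMonoidHom.comp rho9Hom).comp E.toMonoidHom
  have hE : ∀ A : SpecialLinearGroup (Fin 2) F, ρ A = (Equiv.permCongrHom b).toMonoidHom (rho9Hom (E A)) :=
    fun _ => rfl
  have hcen : Subgroup.center (SpecialLinearGroup (Fin 2) F) ≤ ρ.ker := by
    intro A hA
    obtain ⟨r, hr, hrA⟩ := Matrix.SpecialLinearGroup.mem_center_iff.1 hA
    rw [Fintype.card_fin] at hr
    rcases sq_eq_one_iff.1 hr with rfl | rfl
    · have hA1 : A = 1 := by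
        apply Subtype.ext
        rw [← hrA]
        simp
      rw [hA1]
      exact one_mem _
    · have hA1 : E A = m9 := by
        apply Subtype.ext
        apply Matrix.ext
        intro i j
        have h1 : A.1 i j = (Matrix.scalar (Fin 2) (-1 : F)) i j := by rw [hrA]
        change e (A.1 i j) = _
        rw [h1]
        fin_cases i <;> fin_cases j <;>
          simp [m9, Matrix.scalar_apply, map_neg, Matrix.one_fin_two]
      rw [MonoidHom.mem_ker, hE, hA1, rho9Hom_m9, map_one]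
  let f : ProjectiveSpecialLinearGroup (Fin 2) F →* Equiv.Perm (Fin 6) :=
    QuotientGroup.lift _ ρ hcen
  have hsimple : IsSimpleGroup (ProjectiveSpecialLinearGroup (Fin 2) F) :=
    Cfsg.Agent.H11.PSL_simple' 2 le_rfl (by rw [hF]; norm_num)
  have hinj : Function.Injective f := by
    have hk := (inferInstance : f.ker.Normal)
    rcases hk.eq_bot_or_eq_top with h | h
    · exact (MonoidHom.ker_eq_bot_iff f).1 h
    · exfalso
      obtain ⟨g, x, hx, hg⟩ := rho9Hom_nontrivial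
      have h1 : f ((E.symm g : SpecialLinearGroup (Fin 2) F) :
          ProjectiveSpecialLinearGroup (Fin 2) F) = 1 := by
        have : ((E.symm g : SpecialLinearGroup (Fin 2) F) :
          ProjectiveSpecialLinearGroup (Fin 2) F) ∈ f.ker := by rw [h]; trivial
        exact this
      have h2 : ρ (E.symm g) = 1 := h1
      have h3 : (Equiv.permCongrHom b).toMonoidHom (rho9Hom g) = 1 := by
        rw [hE, E.apply_symm_apply] at h2
        exact h2
      have h4 : rho9Hom g = 1 := by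
        apply (Equiv.permCongrHom b).injective
        rw [map_one]
        exact h3
      have h5 := congrArg (fun p => (p ⟨x, hx⟩ : {x // x ∈ kSet9}).1) h4
      exact hg h5
  have hc : 2 * Nat.card (ProjectiveSpecialLinearGroup (Fin 2) F) = Nat.factorial 6 := by
    have h := card_PSL (F := F) 2 (by norm_num)
    rw [hF, Fin.prod_univ_two] at h
    generalize Nat.card (ProjectiveSpecialLinearGroup (Fin 2) F) = N at h ⊢
    norm_num at h
    have h2 : N = 360 := by omega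
    rw [h2]
    decide
  exact mulEquiv_alt_of_injective 6 f hinj hc

end Cfsg.Agent.Lead
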