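import Cfsg.Agent.Lib.Lead.CardSL
/-! `SL_2(3)` has a normal quaternion subgroup of index 3. -/
set_option autoImplicit false
namespace Cfsg.Agent.Lead
open Matrix
open scoped MatrixGroups

/-- A ring isomorphism induces an isomorphism of special linear groups. -/
def slCongr {ι : Type*} [Fintype ι] [DecidableEq ι] {F F' : Type*} [CommRing F] [CommRing F']
    (e : F ≃+* F') : SpecialLinearGroup ι F ≃* SpecialLinearGroup ι F' where
  toFun := SpecialLinearGroup.map (e : F →+* F')
  invFun := SpecialLinearGroup.map (e.symm : F' →+* F)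
  left_inv g := by
    apply Subtype.ext
    ext i j
    exact e.symm_apply_apply _
  right_inv g := by
    apply Subtype.ext
    ext i j
    exact e.apply_symm_apply _
  map_mul' := map_mul _

abbrev SL3 := SpecialLinearGroup (Fin 2) (ZMod 3)

set_option maxRecDepth 100000 in
lemma sl3_pow4_mul : ∀ g h : SL3, g^4 = 1 → h^4 = 1 → (g*h)^4 = 1 := by decide +kernel

set_option maxRecDepth 100000 in
lemma sl3_card_pow4 : Fintype.card {g : SL3 // g^4 = 1} = 8 := by decide +kernel

set_option maxRecDepth 100000 in
lemma sl3_card : Fintype.card SL3 = 24 := by decide +kernel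

/-- The subgroup of elements of exponent dividing 4. -/
def sl3Q : Subgroup SL3 where
  carrier := {g | g^4 = 1}
  mul_mem' {a b} ha hb := sl3_pow4_mul a b ha hb
  one_mem' := one_pow 4
  inv_mem' {a} ha := by
    change a⁻¹ ^ 4 = 1
    rw [inv_pow]
    have : a ^ 4 = 1 := ha
    rw [this, inv_one]

instance sl3Q_normal : sl3Q.Normal where
  conj_mem n hn g := by
    change (g * n * g⁻¹)^4 = 1
    have : n^4 = 1 := hn
    rw [conj_pow, this, mul_one, mul_inv_cancel]

def sl3A : SL3 := ⟨!![0, -1; 1, 0], by decide⟩
def sl3X : SL3 := ⟨!![1, 1; 1, -1], by decide⟩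

/-- The map from the quaternion group. -/
def quatFun : QuaternionGroup 2 → SL3
  | .a i => sl3A ^ i.val
  | .xa i => sl3X * sl3A ^ i.val

set_option maxRecDepth 100000 in
lemma quatFun_mul : ∀ x y : QuaternionGroup 2, quatFun (x * y) = quatFun x * quatFun y := by
  decide +kernel

set_option maxRecDepth 100000 in
lemma quatFun_inj : Function.Injective quatFun := by
  decide +kernel

set_option maxRecDepth 100000 in
lemma quatFun_mem : ∀ x : QuaternionGroup 2, quatFun x ^ 4 = 1 := by
  decide +kernel

/-- The map from the quaternion group, as a homomorphism to the subgroup. -/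
def quatHom : QuaternionGroup 2 →* sl3Q where
  toFun x := ⟨quatFun x, quatFun_mem x⟩
  map_one' := by
    apply Subtype.ext
    change quatFun 1 = 1
    decide +kernel
  map_mul' x y := by
    apply Subtype.ext
    exact quatFun_mul x y

lemma sl3Q_card : Nat.card sl3Q = 8 := by
  have : Nat.card sl3Q = Nat.card {g : SL3 // g^4 = 1} := Nat.card_congr (Equiv.refl _)
  rw [this, Nat.card_eq_fintype_card, sl3_card_pow4]

lemma quatHom_bij : Function.Bijective quatHom := by
  have h1 : Function.Injective quatHom := by
    intro x y h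
    exact quatFun_inj (congrArg Subtype.val h)
  refine (Nat.bijective_iff_injective_and_card _).2 ⟨h1, ?_⟩
  rw [sl3Q_card, Nat.card_eq_fintype_card, QuaternionGroup.card]

/-- The isomorphism. -/
noncomputable def quatEquiv : sl3Q ≃* QuaternionGroup 2 :=
  (MulEquiv.ofBijective quatHom quatHom_bij).symm

lemma sl3Q_index : sl3Q.index = 3 := by
  have h := sl3Q.card_mul_index
  rw [sl3Q_card, Nat.card_eq_fintype_card (α := SL3), sl3_card] at h
  omega

theorem sl2_three_quaternion {F : Type*} [Field F] [Fintype F] (hF : Fintype.card F = 3) :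
    (∃ Q : Subgroup (SpecialLinearGroup (Fin 2) F), Q.Normal ∧ Q.index = 3 ∧
      Nonempty (Q ≃* QuaternionGroup 2)) ∧
    Nat.card (Subgroup.center (SpecialLinearGroup (Fin 2) F)) = 2 := by
  constructor
  · haveI : Fact (Nat.Prime 3) := ⟨by norm_num⟩
    have e : F ≃+* ZMod 3 := FiniteField.ringEquivOfCardEq (by rw [hF, ZMod.card])
    let E := slCongr (ι := Fin 2) e
    refine ⟨sl3Q.map E.symm.toMonoidHom, Subgroup.Normal.map inferInstance _ E.symm.surjective,
      ?_, ?_⟩
    · exact (Subgroup.index_map_of_bijective (f := E.symm.toMonoidHom) E.symm.bijective sl3Q).trans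
        sl3Q_index
    · exact ⟨(E.symm.subgroupMap sl3Q).symm.trans quatEquiv⟩
  · rw [card_center_SL, hF]
    simp

end Cfsg.Agent.Lead
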