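import Cfsg.Agent.Lib.Lead.DicksonSL
import Cfsg.Agent.Lib.H11.PSL2
import Cfsg.Agent.Lib.Lead.SL23Q
import Cfsg.Agent.Lib.Lead.SLn
/-! `PSL_2(7)` is isomorphic to `PSL_3(2)`: the action on the extended Hamming code. -/
set_option autoImplicit false
set_option linter.unusedSimpArgs false
set_option linter.style.haveILetI false
set_option linter.unusedSectionVars false
set_option linter.unusedVariables false
namespace Cfsg.Agent.Lead.PSL27
open Matrix MatrixGroups
open Cfsg.Agent.H14 (e00 e01 e10 e11 e00_mul e01_mul e10_mul e11_mul e00_one e01_one e10_one e11_one)

instance fact_prime_seven : Fact (Nat.Prime 7) := ⟨by norm_num⟩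

/-- The action on the code modulo the all-one word, as a table: entry number
`343 a + 49 b + 7 c + d` holds nine bits. -/
def tbl : ℕ := 356019352277960520543600546697960851183414691000182562534642670419520592718546350132926232386776132174285287554237727373590827928005875619974794621601397877083180733450911456295913729952437469714133473136971752554659303695965995974967578071505100427440854246996221083407335107966220611406134196951430033058842516543091092742102894556679980850430376850200594063575306719558429836115095822592295131786313606604727792505296782068363558903116960185789446135109633934648511032456810288565758106610156768989994781885233801942327884380873936482190041604729638255435301530373233928302577978018543693742162071402413646413062580577616383788455829005072265068654377517841160854437115663252159253089617834045655782023980389661319058111980540521360136581518761116011754777989165846239301005685507849398172016562830188482427317809175474519343997836155670065351111816741027820448238909152697641445042553335916319347487076786254264521821986111357543023358803351760649802459624996701591350622711223643570216577526202046885769980398235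9335787060114406626671835885380726786446179921975972075870636193752234882961535313433080595399107993934554349858225837725381900506765774492531731630992826045758376189124168656351105551355513289303522113291014630936276381272554775771561711058879472526868540823177974442072158663064525317145104911665641165482983586059237986085209180390711276497933869020668531385131249588631358377374847438312692130205886022612187479211459686215758710384090259945795670543693416358900979744173277724474016755843708287651363761962080789325453114728925187872923106906223677576528762094878015966954241039806150193484553125178929511038512069322947783521503853678589050160834174012604226106097836332079928763866248253947409925613973091489438425192622853297700242216729804673415255104024656592198240321379296764573980020126447908676448036127060794995021688818771475177595259268982976844727059521319234581161291461147234578131649761637519442422018463156035182662609760599018060855408702021905951403991443082627231059330819721598484965787969808663844304332672910262800313718890770018681903966177371162373292995220880538424164055296890954034994723626313901467716343753384828581229765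1547291198515915756075685345398720164342277154477446292927779429176785430156875700700630486273653052530885734202400498573988144450412056159808565695663901083165707761204837226548980986546858983429905838100433788721101445164090841391413569130198889363718995114273596947657148887698819004263916755654938693847415463261297845340144550097802577009529206187947871258415493395859473513604752950714893681358902183678746643924714747365628820006448618797955522467640090738336694392469297234631838718843204924510282940891214834041217300121217308433277980965813249289225201503342401262384434124806051670879098018768705406899585933329320059084639115175198247005321340228436049860957945999139490592670974406692394149237953321953640446436932764827230682884815565299035202278133220505214849242512099777200264929988242696472909522676269800445126066359301993672843601788760935915320717674277396638569723022345777890074388302538498363712528030146692073322815061135388350010968078607817886003240458338301838895844083668195589472472557739800998419286179058899681835120225003278735099742437484686796075537548071580594879040436635365930331216204515950884683507741210739643521152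6255548961470593756702259459726709371106185354069590821291808813589822405386120594879626098948690101033961265275888398747472942773841003929558912428614120994267447202580810863317032398634084571049718979486982568650993349644600098614623742478260469455732120477515237346753412383621754604570565595659635469665156876334155552940502859466189586154102226877578987319089716190785057997639914312279439540613313962455766743240693170550643645452901506967160840797925240245462467017439521806649444422520261744968332916901975234296128654241725820706694437384598980246577521094510047907816268907815825975000866162148563939905409335403790825895912777562149020700587775901272331733355543116545538557100228990499901007053806429419854470496278196741666315949961766072719201691168899145235338548704993917073867439768192863407247869423295624104677182443457954878166047308434751933655680049188337804960480136980328668061822641299546370661603959295746313673723198217497055770645073517531021404572615366982821326671850010963206460387006622294197604766286712464355007510191816012198820737165810404245226731539054527155868877507222990799816137966474436979738107479682674976727811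9471489544122216799961400792875143718280181137588757395748710761487703739854786109266119784838366693883606308865378139939803563066741601004214651166827268485078526273827075453922701521443303494206499579285409531646404766929674214133290567305195050765590091754643811433952377865547388538811739738497066289134361041000470063080556921216775729719738221911353565174136284587494322539679873042379899416449520537178958232195408209274365767055712282222387787197024998279132370040974561338760759970291012947219300950734065184321620650949329271050395924505783892964363676665123232396580112461991416053286417610991664140470816289540467477622344918039302953597984002718069721299995786455716194337308504301332788173878322191017667557711089899884250222382336270445135643977651478276428531315708420960706858046906974934809649101138277259266071122399612461525965980343105897952023626960296603448162913402441826527105983262901022150750757613587791823904386321237385519750082882724087754229505198657534528855686995741884018854029307529152311441921849507521980308419702348996565125524467399036452494835047313019976447594545314437299012692187220754068527752941552826226486867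584147158488541166256558748470879473221436929229508412105736528688613062374882183696764036488834042317239628108287590928008831181929258772492282512695461812167127912362504538942190528858481761189977333523374106452466640505288964793299972962820248584432354165677333860286554734198444851931189194001561041462488215344239088534360922580061757961842688374103665619905580816601237986348992645384019436046495170830665736739472412013018891902255581931557750422124473461946806964147792109974830073571953905710383824611867349677246964409067749383911593799069127370094896753396817034777473277124039981726355630684308009193741263986173949546779439876767698931112304811154996604562786376706033314521693572616258224438514457769478945324572253282624529570181236332583005224340734513430332843982230759175065023420613796790980034406622897445407808342978273610887821733767675904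

/-- The image of `[[a,b],[c,d]]`. -/
def M (a b c d : ZMod 7) (i j : Fin 3) : ZMod 2 :=
  if Nat.testBit tbl (9 * (a.val * 343 + b.val * 49 + c.val * 7 + d.val) + (3 * i.val + j.val)) then 1 else 0

set_option maxRecDepth 100000 in
lemma M_det : ∀ a b c d : ZMod 7, a * d - b * c = 1 →
    M a b c d 0 0 * M a b c d 1 1 * M a b c d 2 2 - M a b c d 0 0 * M a b c d 1 2 * M a b c d 2 1 -
      M a b c d 0 1 * M a b c d 1 0 * M a b c d 2 2 + M a b c d 0 1 * M a b c d 1 2 * M a b c d 2 0 +
      M a b c d 0 2 * M a b c d 1 0 * M a b c d 2 1 - M a b c d 0 2 * M a b c d 1 1 * M a b c d 2 0 = 1 := by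
  decide +kernel

set_option maxRecDepth 100000 in
lemma M_X : ∀ a b c d : ZMod 7, a * d - b * c = 1 → ∀ i j : Fin 3,
    M a (a + b) c (c + d) i j =
      M a b c d i 0 * M 1 1 0 1 0 j + M a b c d i 1 * M 1 1 0 1 1 j + M a b c d i 2 * M 1 1 0 1 2 j := by
  decide +kernel

set_option maxRecDepth 100000 in
lemma M_Y : ∀ a b c d : ZMod 7, a * d - b * c = 1 → ∀ i j : Fin 3,
    M (a + b) b (c + d) d i j =
      M a b c d i 0 * M 1 0 1 1 0 j + M a b c d i 1 * M 1 0 1 1 1 j + M a b c d i 2 * M 1 0 1 1 2 j := by
  decide +kernel

/-- `M` as a matrix. -/
def Mm (a b c d : ZMod 7) : Matrix (Fin 3) (Fin 3) (ZMod 2) := fun i j => M a b c d i j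

lemma Mm_det (a b c d : ZMod 7) (h : a * d - b * c = 1) : (Mm a b c d).det = 1 := by
  rw [Matrix.det_fin_three]
  exact M_det a b c d h

set_option maxRecDepth 100000 in
lemma M_one : ∀ i j : Fin 3, M 1 0 0 1 i j = if i = j then 1 else 0 := by
  decide +kernel

set_option maxRecDepth 100000 in
lemma M_neg : ∀ i j : Fin 3, M (-1) 0 0 (-1) i j = if i = j then 1 else 0 := by
  decide +kernel

set_option maxRecDepth 100000 in
lemma M_noncomm : ∃ i j : Fin 3,
    M 1 1 0 1 i 0 * M 1 0 1 1 0 j + M 1 1 0 1 i 1 * M 1 0 1 1 1 j + M 1 1 0 1 i 2 * M 1 0 1 1 2 j ≠
    M 1 0 1 1 i 0 * M 1 1 0 1 0 j + M 1 0 1 1 i 1 * M 1 1 0 1 1 j + M 1 0 1 1 i 2 * M 1 1 0 1 2 j := by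
  decide +kernel

attribute [local irreducible] tbl M

/-- The map `SL_2(7) → SL_3(2)`, not yet known to be a homomorphism. -/
def phiF (g : SL(2, ZMod 7)) : SL(3, ZMod 2) :=
  ⟨Mm (e00 g) (e01 g) (e10 g) (e11 g), Mm_det _ _ _ _ (Cfsg.Agent.H14.sl_det g)⟩

lemma phiF_coe (g : SL(2, ZMod 7)) :
    ((phiF g : SL(3, ZMod 2)) : Matrix (Fin 3) (Fin 3) (ZMod 2)) =
      Mm (e00 g) (e01 g) (e10 g) (e11 g) := rfl

lemma phiF_mul_X (g : SL(2, ZMod 7)) :
    phiF (g * DicksonSL.xE 1) = phiF g * phiF (DicksonSL.xE 1) := by
  have hg : e00 g * e11 g - e01 g * e10 g = 1 := Cfsg.Agent.H14.sl_det g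
  have h00 : e00 (g * DicksonSL.xE 1) = e00 g := by
    rw [e00_mul, DicksonSL.e00_xE, DicksonSL.e10_xE]; ring
  have h01 : e01 (g * DicksonSL.xE 1) = e00 g + e01 g := by
    rw [e01_mul, DicksonSL.e01_xE, DicksonSL.e11_xE]; ring
  have h10 : e10 (g * DicksonSL.xE 1) = e10 g := by
    rw [e10_mul, DicksonSL.e00_xE, DicksonSL.e10_xE]; ring
  have h11 : e11 (g * DicksonSL.xE 1) = e10 g + e11 g := by
    rw [e11_mul, DicksonSL.e01_xE, DicksonSL.e11_xE]; ring
  apply Subtype.ext
  ext i j
  have h1 : ((phiF (g * DicksonSL.xE 1) : SL(3, ZMod 2)) : Matrix (Fin 3) (Fin 3) (ZMod 2)) i j =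
      M (e00 g) (e00 g + e01 g) (e10 g) (e10 g + e11 g) i j := by
    have h0 : ((phiF (g * DicksonSL.xE 1) : SL(3, ZMod 2)) : Matrix (Fin 3) (Fin 3) (ZMod 2)) i j =
      M (e00 (g * DicksonSL.xE 1)) (e01 (g * DicksonSL.xE 1)) (e10 (g * DicksonSL.xE 1))
        (e11 (g * DicksonSL.xE 1)) i j := rfl
    rwa [h00, h01, h10, h11] at h0
  have h2 : ((phiF (DicksonSL.xE 1) : SL(3, ZMod 2)) : Matrix (Fin 3) (Fin 3) (ZMod 2)) =
      Mm 1 1 0 1 := rfl
  have h3 : ((phiF g : SL(3, ZMod 2)) : Matrix (Fin 3) (Fin 3) (ZMod 2)) =
      Mm (e00 g) (e01 g) (e10 g) (e11 g) := rfl
  refine h1.trans ?_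
  rw [Matrix.SpecialLinearGroup.coe_mul, Matrix.mul_apply, Fin.sum_univ_three, h2, h3]
  exact M_X _ _ _ _ hg i j

lemma phiF_mul_Y (g : SL(2, ZMod 7)) :
    phiF (g * DicksonSL.yE 1) = phiF g * phiF (DicksonSL.yE 1) := by
  have hg : e00 g * e11 g - e01 g * e10 g = 1 := Cfsg.Agent.H14.sl_det g
  have h00 : e00 (g * DicksonSL.yE 1) = e00 g + e01 g := by
    rw [e00_mul, DicksonSL.e00_yE, DicksonSL.e10_yE]; ring
  have h01 : e01 (g * DicksonSL.yE 1) = e01 g := by
    rw [e01_mul, DicksonSL.e01_yE, DicksonSL.e11_yE]; ring
  have h10 : e10 (g * DicksonSL.yE 1) = e10 g + e11 g := by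
    rw [e10_mul, DicksonSL.e00_yE, DicksonSL.e10_yE]; ring
  have h11 : e11 (g * DicksonSL.yE 1) = e11 g := by
    rw [e11_mul, DicksonSL.e01_yE, DicksonSL.e11_yE]; ring
  apply Subtype.ext
  ext i j
  have h1 : ((phiF (g * DicksonSL.yE 1) : SL(3, ZMod 2)) : Matrix (Fin 3) (Fin 3) (ZMod 2)) i j =
      M (e00 g + e01 g) (e01 g) (e10 g + e11 g) (e11 g) i j := by
    have h0 : ((phiF (g * DicksonSL.yE 1) : SL(3, ZMod 2)) : Matrix (Fin 3) (Fin 3) (ZMod 2)) i j =
      M (e00 (g * DicksonSL.yE 1)) (e01 (g * DicksonSL.yE 1)) (e10 (g * DicksonSL.yE 1))
        (e11 (g * DicksonSL.yE 1)) i j := rfl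
    rwa [h00, h01, h10, h11] at h0
  have h2 : ((phiF (DicksonSL.yE 1) : SL(3, ZMod 2)) : Matrix (Fin 3) (Fin 3) (ZMod 2)) =
      Mm 1 0 1 1 := rfl
  have h3 : ((phiF g : SL(3, ZMod 2)) : Matrix (Fin 3) (Fin 3) (ZMod 2)) =
      Mm (e00 g) (e01 g) (e10 g) (e11 g) := rfl
  refine h1.trans ?_
  rw [Matrix.SpecialLinearGroup.coe_mul, Matrix.mul_apply, Fin.sum_univ_three, h2, h3]
  exact M_Y _ _ _ _ hg i j

lemma phiF_one : phiF 1 = 1 := by
  apply Subtype.ext
  ext i j
  have h1 : ((phiF 1 : SL(3, ZMod 2)) : Matrix (Fin 3) (Fin 3) (ZMod 2)) i j = M 1 0 0 1 i j := by
    have h0 : ((phiF 1 : SL(3, ZMod 2)) : Matrix (Fin 3) (Fin 3) (ZMod 2)) i j =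
      M (e00 (1 : SL(2, ZMod 7))) (e01 (1 : SL(2, ZMod 7))) (e10 (1 : SL(2, ZMod 7)))
        (e11 (1 : SL(2, ZMod 7))) i j := rfl
    rwa [e00_one, e01_one, e10_one, e11_one] at h0
  rw [h1, M_one i j]
  rfl

lemma phiF_hom (h : SL(2, ZMod 7)) : ∀ g, phiF (g * h) = phiF g * phiF h := by
  have hmem : h ∈ Subgroup.closure ({DicksonSL.xE 1, DicksonSL.yE 1} : Set (SL(2, ZMod 7))) := by
    rw [DicksonSL.closure_xy 7 1 one_ne_zero]
    trivial
  induction hmem using Subgroup.closure_induction with
  | mem s hs =>
    intro g
    rcases hs with rfl | rfl
    · exact phiF_mul_X g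
    · exact phiF_mul_Y g
  | one =>
    intro g
    rw [mul_one, phiF_one, mul_one]
  | mul a c _ _ ha hc =>
    intro g
    rw [← mul_assoc, hc, ha, mul_assoc, hc a]
  | inv a _ ha =>
    intro g
    have h1 := ha (g * a⁻¹)
    rw [inv_mul_cancel_right] at h1
    have h2 := ha a⁻¹
    rw [inv_mul_cancel, phiF_one] at h2
    have h3 : phiF a⁻¹ = (phiF a)⁻¹ := eq_inv_of_mul_eq_one_left h2.symm
    rw [h3, h1, mul_inv_cancel_right]

/-- The homomorphism `SL_2(7) → SL_3(2)`. -/
def phi : SL(2, ZMod 7) →* SL(3, ZMod 2) where
  toFun := phiF
  map_one' := phiF_one
  map_mul' g h := phiF_hom h g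

theorem psl27_equiv {F K : Type*} [Field F] [Fintype F] [Field K] [Fintype K]
    (hF : Fintype.card F = 7) (hK : Fintype.card K = 2) :
    Nonempty (ProjectiveSpecialLinearGroup (Fin 2) F ≃* ProjectiveSpecialLinearGroup (Fin 3) K) := by
  classical
  haveI : Fact (Nat.Prime 2) := ⟨Nat.prime_two⟩
  have eF : F ≃+* ZMod 7 := FiniteField.ringEquivOfCardEq (by rw [hF, ZMod.card])
  have eK : ZMod 2 ≃+* K := (FiniteField.ringEquivOfCardEq (by rw [hK, ZMod.card])).symm
  let E := slCongr (ι := Fin 2) eF
  let E2 := slCongr (ι := Fin 3) eK
  let ρ : SL(2, F) →* ProjectiveSpecialLinearGroup (Fin 3) K :=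
    (QuotientGroup.mk' _).comp (E2.toMonoidHom.comp (phi.comp E.toMonoidHom))
  have hcen : Subgroup.center (SL(2, F)) ≤ ρ.ker := by
    intro A hA
    obtain ⟨r, hr, hrA⟩ := Matrix.SpecialLinearGroup.mem_center_iff.1 hA
    rw [Fintype.card_fin] at hr
    have h1 : phi (E A) = 1 := by
      have hE : ∀ i j, (E A).1 i j = eF (A.1 i j) := fun i j => rfl
      rcases sq_eq_one_iff.1 hr with rfl | rfl
      · have hA1 : A = 1 := by
          apply Subtype.ext
          rw [← hrA]
          simp
        rw [hA1, map_one, map_one]
      · apply Subtype.ext
        ext i j
        change M (e00 (E A)) (e01 (E A)) (e10 (E A)) (e11 (E A)) i j = _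
        have h00 : e00 (E A) = -1 := (hE 0 0).trans (by
          rw [← hrA]
          simp [Matrix.scalar_apply])
        have h01 : e01 (E A) = 0 := (hE 0 1).trans (by
          rw [← hrA]
          simp [Matrix.scalar_apply])
        have h10 : e10 (E A) = 0 := (hE 1 0).trans (by
          rw [← hrA]
          simp [Matrix.scalar_apply])
        have h11 : e11 (E A) = -1 := (hE 1 1).trans (by
          rw [← hrA]
          simp [Matrix.scalar_apply])
        rw [h00, h01, h10, h11, M_neg i j]
        rfl
    rw [MonoidHom.mem_ker]
    change ((E2 (phi (E A)) : SL(3, K)) : ProjectiveSpecialLinearGroup (Fin 3) K) = 1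
    rw [h1, map_one]
    rfl
  let f : ProjectiveSpecialLinearGroup (Fin 2) F →* ProjectiveSpecialLinearGroup (Fin 3) K :=
    QuotientGroup.lift _ ρ hcen
  have hsimple : IsSimpleGroup (ProjectiveSpecialLinearGroup (Fin 2) F) :=
    Cfsg.Agent.H11.PSL_simple' 2 le_rfl (by rw [hF]; norm_num)
  have hinj : Function.Injective f := by
    have hk := (inferInstance : f.ker.Normal)
    rcases hk.eq_bot_or_eq_top with h | h
    · exact (MonoidHom.ker_eq_bot_iff f).1 h
    · exfalso
      have hall : ∀ g : SL(2, ZMod 7), phi g ∈ Subgroup.center (SL(3, ZMod 2)) := by
        intro g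
        have h1 : ((E.symm g : SL(2, F)) : ProjectiveSpecialLinearGroup (Fin 2) F) ∈ f.ker := by
          rw [h]
          trivial
        have h2 : ρ (E.symm g) = 1 := h1
        have h3 : ((E2 (phi g) : SL(3, K)) : ProjectiveSpecialLinearGroup (Fin 3) K) = 1 := by
          have : ρ (E.symm g) = ((E2 (phi (E (E.symm g))) : SL(3, K)) :
              ProjectiveSpecialLinearGroup (Fin 3) K) := rfl
          rw [this, E.apply_symm_apply] at h2
          exact h2
        have h4 : E2 (phi g) ∈ Subgroup.center (SL(3, K)) :=
          (QuotientGroup.eq_one_iff _).1 h3
        rw [Subgroup.mem_center_iff] at h4 ⊢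
        intro z
        apply E2.injective
        rw [map_mul, map_mul]
        exact h4 (E2 z)
      have h5 := Subgroup.mem_center_iff.1 (hall (DicksonSL.xE 1)) (phi (DicksonSL.yE 1))
      obtain ⟨i, j, hij⟩ := M_noncomm
      apply hij
      have h6 := congrFun (congrFun (congrArg Subtype.val h5) i) j
      change ((phi (DicksonSL.yE 1)).1 * (phi (DicksonSL.xE 1)).1) i j =
        ((phi (DicksonSL.xE 1)).1 * (phi (DicksonSL.yE 1)).1) i j at h6
      rw [Matrix.mul_apply, Matrix.mul_apply, Fin.sum_univ_three, Fin.sum_univ_three] at h6
      exact h6.symm
  have hc1 : Nat.card (ProjectiveSpecialLinearGroup (Fin 2) F) = 168 := by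
    have h := Cfsg.Agent.Lead.card_PSL (F := F) 2 (by norm_num)
    rw [hF, Fin.prod_univ_two] at h
    generalize Nat.card (ProjectiveSpecialLinearGroup (Fin 2) F) = N at h ⊢
    norm_num at h
    omega
  have hc2 : Nat.card (ProjectiveSpecialLinearGroup (Fin 3) K) = 168 := by
    have h := Cfsg.Agent.Lead.card_PSL (F := K) 3 (by norm_num)
    rw [hK, Fin.prod_univ_three] at h
    generalize Nat.card (ProjectiveSpecialLinearGroup (Fin 3) K) = N at h ⊢
    norm_num at h
    omega
  haveI : Finite (ProjectiveSpecialLinearGroup (Fin 3) K) := Nat.finite_of_card_ne_zero (by omega)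
  have hbij : Function.Bijective f :=
    (Nat.bijective_iff_injective_and_card f).2 ⟨hinj, by rw [hc1, hc2]⟩
  exact ⟨MulEquiv.ofBijective f hbij⟩

end Cfsg.Agent.Lead.PSL27
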