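import Mathlib
/-! A fundamental theorem for symplectic polar geometry: a map of nonzero vectors which permutes
points and preserves (both ways) orthogonality is induced by a semisimilarity. -/
set_option autoImplicit false
set_option linter.unusedSectionVars false
set_option linter.unusedVariables false
set_option linter.unusedSimpArgs false
namespace Cfsg.Agent.Lead.PolarFT

variable {F V : Type*} [Field F] [AddCommGroup V] [Module F V]

/-- an alternating nondegenerate biadditive form, as a plain function -/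
structure IsSF (ω : V → V → F) : Prop where
  add_left : ∀ x y z, ω (x + y) z = ω x z + ω y z
  add_right : ∀ x y z, ω x (y + z) = ω x y + ω x z
  smul_left : ∀ (c : F) x y, ω (c • x) y = c * ω x y
  smul_right : ∀ (c : F) x y, ω x (c • y) = c * ω x y
  alt : ∀ x, ω x x = 0
  nd : ∀ x, (∀ y, ω x y = 0) → x = 0

/-- parallel vectors -/
def Par (F : Type*) {V : Type*} [Field F] [AddCommGroup V] [Module F V] (x y : V) : Prop :=
  ∃ c : F, c ≠ 0 ∧ y = c • x

lemma Par.refl' (x : V) : Par F x x := ⟨1, one_ne_zero, (one_smul _ _).symm⟩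
lemma Par.symm' {x y : V} (h : Par F x y) : Par F y x := by
  obtain ⟨c, hc, rfl⟩ := h
  exact ⟨c⁻¹, inv_ne_zero hc, by rw [smul_smul, inv_mul_cancel₀ hc, one_smul]⟩
lemma Par.trans' {x y z : V} (h : Par F x y) (h' : Par F y z) : Par F x z := by
  obtain ⟨c, hc, rfl⟩ := h
  obtain ⟨d, hd, rfl⟩ := h'
  exact ⟨d * c, mul_ne_zero hd hc, by rw [smul_smul]⟩
lemma Par.ne_zero {x y : V} (h : Par F x y) (hx : x ≠ 0) : y ≠ 0 := by
  obtain ⟨c, hc, rfl⟩ := h
  exact smul_ne_zero hc hx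

namespace IsSF
variable {ω : V → V → F} (h : IsSF ω)
include h

lemma swap (x y : V) : ω y x = - ω x y := by
  have := h.alt (x + y)
  rw [h.add_left, h.add_right, h.add_right, h.alt, h.alt] at this
  linear_combination this

lemma zero_right (x : V) : ω x 0 = 0 := by
  have := h.smul_right 0 x 0
  simpa using this

lemma zero_left (x : V) : ω 0 x = 0 := by
  have := h.smul_left 0 0 x
  simpa using this

lemma neg_right (x y : V) : ω x (-y) = - ω x y := by
  have := h.add_right x y (-y)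
  rw [add_neg_cancel, h.zero_right] at this
  linear_combination -this

lemma sub_right (x y z : V) : ω x (y - z) = ω x y - ω x z := by
  rw [sub_eq_add_neg, h.add_right, h.neg_right]; ring

lemma neg_left (x y : V) : ω (-x) y = - ω x y := by
  have := h.add_left x (-x) y
  rw [add_neg_cancel, h.zero_left] at this
  linear_combination -this

lemma sub_left (x y z : V) : ω (x - y) z = ω x z - ω y z := by
  rw [sub_eq_add_neg, h.add_left, h.neg_left]; ring

lemma perp_par {a z z' : V} (hz : Par F z z') : ω a z = 0 ↔ ω a z' = 0 := by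
  obtain ⟨c, hc, rfl⟩ := hz
  rw [h.smul_right]
  simp [hc]

lemma perp_par_left {a z z' : V} (hz : Par F z z') : ω z a = 0 ↔ ω z' a = 0 := by
  obtain ⟨c, hc, rfl⟩ := hz
  rw [h.smul_left]
  simp [hc]

lemma par_of_perps {x y : V} (hx : x ≠ 0) (hy : y ≠ 0) (H : ∀ z, ω x z = 0 ↔ ω y z = 0) : Par F x y := by
  obtain ⟨z₀, hz₀⟩ : ∃ z₀, ω x z₀ ≠ 0 := by
    by_contra hcon
    push Not at hcon
    exact hx (h.nd x hcon)
  have key : y = (ω y z₀ / ω x z₀) • x := by
    rw [← sub_eq_zero]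
    apply h.nd
    intro z
    rw [h.sub_left, h.smul_left]
    have h1 : ω x (z - (ω x z / ω x z₀) • z₀) = 0 := by
      rw [h.sub_right, h.smul_right]
      field_simp
      ring
    have h2 := (H _).mp h1
    rw [h.sub_right, h.smul_right] at h2
    field_simp
    field_simp at h2
    linear_combination h2
  refine ⟨ω y z₀ / ω x z₀, ?_, key⟩
  intro h0
  rw [h0, zero_smul] at key
  exact hy key

/-- rigidity: two vectors with the same perpendiculars on an affine hyperplane are parallel -/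
lemma exists_hyper {e' f' a : V} (hef : ω e' f' = 1) (ha : a ≠ 0) (hpar : ¬ Par F e' a) :
    ∃ y, ω e' y = 1 ∧ ω a y = 0 := by
  have he' : e' ≠ 0 := by
    rintro rfl
    rw [h.zero_left] at hef
    exact zero_ne_one hef
  have : ¬ ∀ z, ω e' z = 0 ↔ ω a z = 0 := fun H => hpar (h.par_of_perps he' ha H)
  push Not at this
  obtain ⟨z, hz⟩ := this
  rcases hz with ⟨h1, h2⟩ | ⟨h1, h2⟩
  · refine ⟨f' - (ω a f' / ω a z) • z, ?_, ?_⟩
    · rw [h.sub_right, h.smul_right, h1, hef]; ring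
    · rw [h.sub_right, h.smul_right]
      field_simp
      ring
  · refine ⟨(ω e' z)⁻¹ • z, ?_, ?_⟩
    · rw [h.smul_right]; exact inv_mul_cancel₀ h1
    · rw [h.smul_right, h2, mul_zero]

lemma rigid_aux {e' f' a b : V} (hef : ω e' f' = 1) (ha : a ≠ 0) (hb : b ≠ 0)
    (H : ∀ y, ω e' y = 1 → (ω a y = 0 ↔ ω b y = 0)) (hpar : ¬ Par F e' a) (z : V)
    (hz : ω a z = 0) : ω b z = 0 := by
  obtain ⟨y₀, hy₀, hy₀'⟩ := h.exists_hyper hef ha hpar
  by_cases hk : ω e' z = 0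
  · have h1 : ω a (y₀ + z) = 0 := by rw [h.add_right, hy₀', hz, add_zero]
    have h2 := (H (y₀ + z) (by rw [h.add_right, hy₀, hk, add_zero])).mp h1
    rw [h.add_right, (H y₀ hy₀).mp hy₀', zero_add] at h2
    exact h2
  · have h1 : ω a ((ω e' z)⁻¹ • z) = 0 := by rw [h.smul_right, hz, mul_zero]
    have h2 := (H _ (by rw [h.smul_right]; exact inv_mul_cancel₀ hk)).mp h1
    rw [h.smul_right] at h2
    exact (mul_eq_zero.mp h2).resolve_left (inv_ne_zero hk)

lemma rigid {e' f' a b : V} (hef : ω e' f' = 1) (ha : a ≠ 0) (hb : b ≠ 0)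
    (H : ∀ y, ω e' y = 1 → (ω a y = 0 ↔ ω b y = 0)) : Par F a b := by
  by_cases hA : Par F e' a
  · by_cases hB : Par F e' b
    · exact hA.symm'.trans' hB
    · exfalso
      obtain ⟨y, hy, hy'⟩ := h.exists_hyper hef hb hB
      have h1 := (H y hy).mpr hy'
      obtain ⟨c, hc, rfl⟩ := hA
      rw [h.smul_left, hy, mul_one] at h1
      exact hc h1
  · by_cases hB : Par F e' b
    · exfalso
      obtain ⟨y, hy, hy'⟩ := h.exists_hyper hef ha hA
      have h1 := (H y hy).mp hy'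
      obtain ⟨c, hc, rfl⟩ := hB
      rw [h.smul_left, hy, mul_one] at h1
      exact hc h1
    · apply h.par_of_perps ha hb
      intro z
      exact ⟨h.rigid_aux hef ha hb H hA z, h.rigid_aux hef hb ha (fun y hy => (H y hy).symm) hB z⟩

end IsSF

/-! ### Normal forms with respect to a hyperbolic pair -/

/-- the component orthogonal to the pair -/
def proj (ω : V → V → F) (a b y : V) : V := y - ω y b • a - ω a y • b

/-- the point with coordinates `w, c` -/
def pt (a b w : V) (c : F) : V := b + w + c • a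

/-- perpendicular to the pair -/
def IsW (ω : V → V → F) (a b w : V) : Prop := ω a w = 0 ∧ ω b w = 0

section NF
variable {ω : V → V → F} (h : IsSF ω) {a b : V} (hab : ω a b = 1)
include h hab

lemma ba : ω b a = -1 := by rw [h.swap a b, hab]

lemma isW_proj (y : V) : IsW ω a b (proj ω a b y) := by
  have hba := ba h hab
  constructor
  · simp only [proj, h.sub_right, h.smul_right, h.alt, hab]; ring
  · simp only [proj, h.sub_right, h.smul_right, h.alt, hba, h.swap y b]; ring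

lemma decomp (y : V) : y = ω y b • a + ω a y • b + proj ω a b y := by
  simp only [proj]; abel

lemma isW_zero : IsW ω a b 0 := ⟨h.zero_right _, h.zero_right _⟩

omit hab in
lemma isW_add {w w' : V} (hw : IsW ω a b w) (hw' : IsW ω a b w') : IsW ω a b (w + w') :=
  ⟨by rw [h.add_right, hw.1, hw'.1, add_zero], by rw [h.add_right, hw.2, hw'.2, add_zero]⟩

omit hab in
lemma isW_smul (c : F) {w : V} (hw : IsW ω a b w) : IsW ω a b (c • w) :=
  ⟨by rw [h.smul_right, hw.1, mul_zero], by rw [h.smul_right, hw.2, mul_zero]⟩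

lemma wa {w : V} (hw : IsW ω a b w) : ω w a = 0 := by rw [h.swap a w, hw.1, neg_zero]
lemma wb {w : V} (hw : IsW ω a b w) : ω w b = 0 := by rw [h.swap b w, hw.2, neg_zero]

/-- the inner product with an element of `W` only sees the component -/
lemma omega_proj {w : V} (hw : IsW ω a b w) (y : V) : ω w y = ω w (proj ω a b y) := by
  conv_lhs => rw [decomp h hab y]
  rw [h.add_right, h.add_right, h.smul_right, h.smul_right, wa h hab hw, wb h hab hw]
  ring

lemma omega_pt (w w' : V) (c c' : F) (hw : IsW ω a b w) (hw' : IsW ω a b w') :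
    ω (pt a b w c) (pt a b w' c') = c - c' + ω w w' := by
  have hba := ba h hab
  simp only [pt, h.add_left, h.add_right, h.smul_left, h.smul_right, h.alt, hab, hba, hw.1, hw.2, hw'.1, hw'.2,
    wa h hab hw, wb h hab hw]
  ring

lemma omega_a_pt (w : V) (c : F) (hw : IsW ω a b w) : ω a (pt a b w c) = 1 := by
  simp only [pt, h.add_right, h.smul_right, h.alt, hab, hw.1]; ring

lemma omega_pt_b (w : V) (c : F) (hw : IsW ω a b w) : ω (pt a b w c) b = c := by
  simp only [pt, h.add_left, h.smul_left, h.alt, hab, wb h hab hw]; ring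

lemma proj_pt (w : V) (c : F) (hw : IsW ω a b w) : proj ω a b (pt a b w c) = w := by
  rw [proj, omega_pt_b h hab w c hw, omega_a_pt h hab w c hw, pt, one_smul]
  abel

lemma pt_ne_zero (w : V) (c : F) (hw : IsW ω a b w) : pt a b w c ≠ 0 := by
  intro h0
  have := omega_a_pt h hab w c hw
  rw [h0, h.zero_right] at this
  exact zero_ne_one this

/-- each vector opposite `a` is parallel to a unique `pt` -/
lemma par_pt {y : V} (hy : ω a y ≠ 0) :
    Par F (pt a b ((ω a y)⁻¹ • proj ω a b y) ((ω a y)⁻¹ * ω y b)) y := by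
  refine ⟨ω a y, hy, ?_⟩
  conv_lhs => rw [decomp h hab y]
  simp only [pt, smul_add, smul_smul, mul_inv_cancel₀ hy, one_smul]
  rw [mul_inv_cancel_left₀ hy]
  abel

lemma pt_unique {w w' : V} {c c' : F} (hw : IsW ω a b w) (hw' : IsW ω a b w')
    (hp : Par F (pt a b w c) (pt a b w' c')) : w = w' ∧ c = c' := by
  obtain ⟨d, hd, e⟩ := hp
  have h1 : d = 1 := by
    have := congrArg (ω a) e
    rw [omega_a_pt h hab w' c' hw', h.smul_right, omega_a_pt h hab w c hw, mul_one] at this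
    exact this.symm
  subst h1
  rw [one_smul] at e
  have h2 : c' = c := by
    have := congrArg (fun y => ω y b) e
    simp only [omega_pt_b h hab w' c' hw', omega_pt_b h hab w c hw] at this
    exact this
  subst h2
  refine ⟨?_, rfl⟩
  simpa [pt] using e.symm

end NF

/-! ### The context -/

/-- all hypotheses -/
structure Ctx (ω : V → V → F) (φ : V → V) (e f w₀ w₁ e' f' : V) : Prop where
  sf : IsSF ω
  ef : ω e f = 1
  ef' : ω e' f' = 1
  w01 : ω w₀ w₁ = 1
  ew0 : ω e w₀ = 0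
  ew1 : ω e w₁ = 0
  fw0 : ω f w₀ = 0
  fw1 : ω f w₁ = 0
  h0 : ∀ x, x ≠ 0 → φ x ≠ 0
  hs : ∀ y, y ≠ 0 → ∃ x, x ≠ 0 ∧ Par F y (φ x)
  hω : ∀ x y, x ≠ 0 → y ≠ 0 → (ω x y = 0 ↔ ω (φ x) (φ y) = 0)
  he : Par F e' (φ e)
  hf : Par F f' (φ f)

namespace Ctx
variable {ω : V → V → F} {φ : V → V} {e f w₀ w₁ e' f' : V} (C : Ctx ω φ e f w₀ w₁ e' f')
include C

lemma e_ne : e ≠ 0 := by
  rintro rfl
  have := C.ef
  rw [C.sf.zero_left] at this
  exact zero_ne_one this

lemma f_ne : f ≠ 0 := by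
  rintro rfl
  have := C.ef
  rw [C.sf.zero_right] at this
  exact zero_ne_one this

lemma φ_par {x y : V} (hx : x ≠ 0) (hy : y ≠ 0) (hp : Par F x y) : Par F (φ x) (φ y) := by
  apply C.sf.par_of_perps (C.h0 x hx) (C.h0 y hy)
  intro z
  by_cases hz : z = 0
  · subst hz; simp [C.sf.zero_right]
  obtain ⟨t, ht, hpt⟩ := C.hs z hz
  rw [C.sf.perp_par hpt, C.sf.perp_par hpt, ← C.hω x t hx ht, ← C.hω y t hy ht]
  exact C.sf.perp_par_left hp

lemma φ_par_inv {x y : V} (hx : x ≠ 0) (hy : y ≠ 0) (hp : Par F (φ x) (φ y)) : Par F x y := by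
  apply C.sf.par_of_perps hx hy
  intro z
  by_cases hz : z = 0
  · subst hz; simp [C.sf.zero_right]
  rw [C.hω x z hx hz, C.hω y z hy hz]
  exact C.sf.perp_par_left hp

lemma opp {x : V} (hx : x ≠ 0) : ω e x = 0 ↔ ω e' (φ x) = 0 := by
  rw [C.hω e x C.e_ne hx]
  exact (C.sf.perp_par_left C.he).symm

lemma opp' {x : V} (hx : x ≠ 0) : ω f x = 0 ↔ ω f' (φ x) = 0 := by
  rw [C.hω f x C.f_ne hx]
  exact (C.sf.perp_par_left C.hf).symm

/-- the `W'`-coordinate of the image -/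
noncomputable def A (ω : V → V → F) (φ : V → V) (e f e' f' w : V) (c : F) : V :=
  (ω e' (φ (pt e f w c)))⁻¹ • proj ω e' f' (φ (pt e f w c))

/-- the `F`-coordinate of the image -/
noncomputable def B (ω : V → V → F) (φ : V → V) (e f e' f' w : V) (c : F) : F :=
  (ω e' (φ (pt e f w c)))⁻¹ * ω (φ (pt e f w c)) f'

lemma pt_ne {w : V} (c : F) (hw : IsW ω e f w) : pt e f w c ≠ 0 :=
  pt_ne_zero C.sf C.ef w c hw

lemma opp_pt {w : V} (c : F) (hw : IsW ω e f w) : ω e' (φ (pt e f w c)) ≠ 0 := by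
  intro h0
  have := (C.opp (C.pt_ne c hw)).mpr h0
  rw [omega_a_pt C.sf C.ef w c hw] at this
  exact one_ne_zero this

lemma isW_A {w : V} (c : F) (hw : IsW ω e f w) : IsW ω e' f' (A ω φ e f e' f' w c) :=
  isW_smul C.sf _ (isW_proj C.sf C.ef' _)

lemma par_A {w : V} (c : F) (hw : IsW ω e f w) :
    Par F (pt e' f' (A ω φ e f e' f' w c) (B ω φ e f e' f' w c)) (φ (pt e f w c)) :=
  par_pt C.sf C.ef' (C.opp_pt c hw)

lemma isW_w0 : IsW ω e f w₀ := ⟨C.ew0, C.fw0⟩
lemma isW_w1 : IsW ω e f w₁ := ⟨C.ew1, C.fw1⟩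

/-- the relation between coordinates -/
lemma rel {w w' : V} (c c' : F) (hw : IsW ω e f w) (hw' : IsW ω e f w') :
    c - c' + ω w w' = 0 ↔
      B ω φ e f e' f' w c - B ω φ e f e' f' w' c' + ω (A ω φ e f e' f' w c) (A ω φ e f e' f' w' c') = 0 := by
  rw [← omega_pt C.sf C.ef w w' c c' hw hw', C.hω _ _ (C.pt_ne c hw) (C.pt_ne c' hw'),
    ← omega_pt C.sf C.ef' _ _ _ _ (C.isW_A c hw) (C.isW_A c' hw'),
    C.sf.perp_par (C.par_A c' hw'), C.sf.perp_par_left (C.par_A c hw)]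

/-- the first coordinate does not depend on `c` -/
lemma A_indep {w : V} (c₁ c₂ : F) (hw : IsW ω e f w) :
    A ω φ e f e' f' w c₁ = A ω φ e f e' f' w c₂ := by
  set a₁ := A ω φ e f e' f' w c₁ with ha₁
  set a₂ := A ω φ e f e' f' w c₂ with ha₂
  have hW₁ : IsW ω e' f' a₁ := C.isW_A c₁ hw
  have hW₂ : IsW ω e' f' a₂ := C.isW_A c₂ hw
  have hS := C.sf
  have key : ∀ u, IsW ω e' f' u → ω a₂ u = ω a₁ u := by
    intro u hu
    by_cases hu0 : u + ω a₁ u • e' = 0
    · have h1 : ω a₁ (u + ω a₁ u • e') = ω a₁ u := by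
        rw [hS.add_right, hS.smul_right, wa hS C.ef' hW₁]; ring
      have h2 : ω a₂ (u + ω a₁ u • e') = ω a₂ u := by
        rw [hS.add_right, hS.smul_right, wa hS C.ef' hW₂]; ring
      rw [hu0, hS.zero_right] at h1 h2
      rw [← h1, ← h2]
    obtain ⟨t, ht, hpt⟩ := C.hs _ hu0
    have hez : ω e' (u + ω a₁ u • e') = 0 := by
      rw [hS.add_right, hS.smul_right, hS.alt, hu.1]; ring
    have het : ω e t = 0 := by
      rw [C.opp ht, ← hS.perp_par hpt]
      exact hez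
    have hEq : ω (pt e f w c₁) t = ω (pt e f w c₂) t := by
      simp only [pt, hS.add_left, hS.smul_left, het, mul_zero]
    have hcalc : ∀ (a : V) (b : F), IsW ω e' f' a →
        ω (pt e' f' a b) (u + ω a₁ u • e') = - ω a₁ u + ω a u := by
      intro a b ha
      have hba := ba hS C.ef'
      simp only [pt, hS.add_left, hS.add_right, hS.smul_left, hS.smul_right, hS.alt, hba, hu.1, hu.2,
        wa hS C.ef' ha]
      ring
    have h1 : ω (pt e' f' a₁ (B ω φ e f e' f' w c₁)) (u + ω a₁ u • e') = 0 := by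
      rw [hcalc _ _ hW₁]; ring
    have h2 : ω (pt e' f' a₂ (B ω φ e f e' f' w c₂)) (u + ω a₁ u • e') = 0 := by
      rw [hS.perp_par_left (C.par_A c₂ hw), hS.perp_par hpt, ← C.hω _ _ (C.pt_ne c₂ hw) ht, ← hEq,
        C.hω _ _ (C.pt_ne c₁ hw) ht, ← hS.perp_par hpt, ← hS.perp_par_left (C.par_A c₁ hw)]
      exact h1
    rw [hcalc _ _ hW₂] at h2
    linear_combination h2
  rw [← sub_eq_zero]
  apply hS.nd
  intro y
  have hWd : IsW ω e' f' (a₁ - a₂) := by
    constructor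
    · rw [hS.sub_right, hW₁.1, hW₂.1, sub_zero]
    · rw [hS.sub_right, hW₁.2, hW₂.2, sub_zero]
  rw [omega_proj hS C.ef' hWd y, hS.sub_left, key _ (isW_proj hS C.ef' y), sub_self]

/-- `τ` -/
noncomputable def τ (ω : V → V → F) (φ : V → V) (e f e' f' w : V) : V := A ω φ e f e' f' w 0

/-- `ρ` -/
noncomputable def ρ (ω : V → V → F) (φ : V → V) (e f e' f' : V) (c : F) : F := B ω φ e f e' f' 0 c

local notation "τ'" => τ ω φ e f e' f'
local notation "ρ'" => ρ ω φ e f e' f'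

lemma isW_τ {w : V} (hw : IsW ω e f w) : IsW ω e' f' (τ' w) := C.isW_A 0 hw

lemma A_eq {w : V} (c : F) (hw : IsW ω e f w) : A ω φ e f e' f' w c = τ' w := C.A_indep c 0 hw

lemma f_pt : pt e f (0 : V) (0 : F) = f := by simp [pt]

lemma base : A ω φ e f e' f' 0 0 = 0 ∧ B ω φ e f e' f' 0 0 = 0 := by
  have hz : IsW ω e f 0 := isW_zero C.sf C.ef
  have hz' : IsW ω e' f' 0 := isW_zero C.sf C.ef'
  have h1 := C.par_A 0 hz
  rw [C.f_pt] at h1
  have h2 : Par F (pt e' f' (0 : V) (0 : F)) (φ f) := by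
    have : pt e' f' (0 : V) (0 : F) = f' := by simp [pt]
    have e0 : pt e' f' (0 : V) (0 : F) = f' := this
    rw [e0]
    exact C.hf
  exact pt_unique C.sf C.ef' (C.isW_A 0 hz) hz' (h1.trans' h2.symm')

lemma τ_zero : τ' 0 = 0 := C.base.1
lemma ρ_zero : ρ' 0 = 0 := C.base.2

lemma B_eq {w : V} (c : F) (hw : IsW ω e f w) : B ω φ e f e' f' w c = ρ' c := by
  have hz : IsW ω e f 0 := isW_zero C.sf C.ef
  have h1 := (C.rel c c hw hz).mp (by rw [C.sf.zero_right]; ring)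
  rw [C.A_eq c hz, C.τ_zero, C.sf.zero_right, add_zero] at h1
  exact sub_eq_zero.mp h1

lemma rel' {w w' : V} (c c' : F) (hw : IsW ω e f w) (hw' : IsW ω e f w') :
    c - c' + ω w w' = 0 ↔ ρ' c - ρ' c' + ω (τ' w) (τ' w') = 0 := by
  rw [C.rel c c' hw hw', C.A_eq c hw, C.A_eq c' hw', C.B_eq c hw, C.B_eq c' hw']

lemma par_τ {w : V} (c : F) (hw : IsW ω e f w) :
    Par F (pt e' f' (τ' w) (ρ' c)) (φ (pt e f w c)) := by
  have := C.par_A c hw
  rwa [C.A_eq c hw, C.B_eq c hw] at this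

lemma ρ_sub_form {w w' : V} (c : F) (hw : IsW ω e f w) (hw' : IsW ω e f w') :
    ρ' (c - ω w w') = ρ' c - ω (τ' w) (τ' w') := by
  have h1 := (C.rel' (c - ω w w') c hw hw').mp (by ring)
  linear_combination h1

lemma ρ_form {w w' : V} (hw : IsW ω e f w) (hw' : IsW ω e f w') :
    ρ' (ω w w') = ω (τ' w) (τ' w') := by
  have h1 := C.ρ_sub_form 0 hw' hw
  rw [zero_sub, C.ρ_zero, zero_sub, ← C.sf.swap, ← C.sf.swap] at h1
  exact h1

lemma isW_smul_w0 (d : F) : IsW ω e f (d • w₀) := isW_smul C.sf d C.isW_w0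

lemma ρ_sub (c d : F) : ρ' (c - d) = ρ' c - ρ' d := by
  have hd : ω (d • w₀) w₁ = d := by rw [C.sf.smul_left, C.w01, mul_one]
  have h1 := C.ρ_sub_form c (C.isW_smul_w0 d) C.isW_w1
  rw [hd, ← C.ρ_form (C.isW_smul_w0 d) C.isW_w1, hd] at h1
  exact h1

lemma ρ_neg (d : F) : ρ' (-d) = - ρ' d := by
  have := C.ρ_sub 0 d
  rwa [zero_sub, C.ρ_zero, zero_sub] at this

lemma ρ_add (c d : F) : ρ' (c + d) = ρ' c + ρ' d := by
  have := C.ρ_sub c (-d)
  rw [sub_neg_eq_add, C.ρ_neg, sub_neg_eq_add] at this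
  exact this

lemma coord_inj {w w' : V} {c c' : F} (hw : IsW ω e f w) (hw' : IsW ω e f w')
    (h1 : τ' w = τ' w') (h2 : ρ' c = ρ' c') : w = w' ∧ c = c' := by
  apply pt_unique C.sf C.ef hw hw'
  apply C.φ_par_inv (C.pt_ne c hw) (C.pt_ne c' hw')
  have h3 := C.par_τ c hw
  have h4 := C.par_τ c' hw'
  rw [h1, h2] at h3
  exact h3.symm'.trans' h4

lemma ρ_inj {c c' : F} (h : ρ' c = ρ' c') : c = c' :=
  (C.coord_inj (isW_zero C.sf C.ef) (isW_zero C.sf C.ef) rfl h).2

lemma τ_inj {w w' : V} (hw : IsW ω e f w) (hw' : IsW ω e f w') (h : τ' w = τ' w') : w = w' :=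
  (C.coord_inj (c := 0) (c' := 0) hw hw' h rfl).1

lemma coord_surj {a : V} (b : F) (ha : IsW ω e' f' a) :
    ∃ w c, IsW ω e f w ∧ τ' w = a ∧ ρ' c = b := by
  have hS := C.sf
  have hne : pt e' f' a b ≠ 0 := pt_ne_zero hS C.ef' a b ha
  obtain ⟨x, hx, hpx⟩ := C.hs _ hne
  have h1 : ω e' (φ x) ≠ 0 := by
    intro h0
    have h2 := (hS.perp_par hpx).mpr h0
    rw [omega_a_pt hS C.ef' a b ha] at h2
    exact one_ne_zero h2
  have h2 : ω e x ≠ 0 := fun h0 => h1 ((C.opp hx).mp h0)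
  have h3 := par_pt hS C.ef h2
  set w := (ω e x)⁻¹ • proj ω e f x with hw
  set c := (ω e x)⁻¹ * ω x f with hc
  have hW : IsW ω e f w := isW_smul hS _ (isW_proj hS C.ef _)
  refine ⟨w, c, hW, ?_⟩
  have h4 := C.φ_par (C.pt_ne c hW) hx h3
  have h5 := (C.par_τ c hW).trans' (h4.trans' hpx.symm')
  have := pt_unique hS C.ef' (C.isW_τ hW) ha h5
  exact this

lemma exists_τ {a : V} (ha : IsW ω e' f' a) : ∃ w, IsW ω e f w ∧ τ' w = a := by
  obtain ⟨w, c, hw, h1, -⟩ := C.coord_surj 0 ha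
  exact ⟨w, hw, h1⟩

lemma eq_of_W' {a a' : V} (ha : IsW ω e' f' a) (ha' : IsW ω e' f' a')
    (H : ∀ z, IsW ω e f z → ω a (τ' z) = ω a' (τ' z)) : a = a' := by
  have hS := C.sf
  rw [← sub_eq_zero]
  apply hS.nd
  intro y
  have hWd : IsW ω e' f' (a - a') := by
    constructor
    · rw [hS.sub_right, ha.1, ha'.1, sub_zero]
    · rw [hS.sub_right, ha.2, ha'.2, sub_zero]
  rw [omega_proj hS C.ef' hWd y, hS.sub_left]
  obtain ⟨z, hz, hz'⟩ := C.exists_τ (isW_proj hS C.ef' y)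
  rw [← hz', H z hz, sub_self]

lemma τ_add {x y : V} (hx : IsW ω e f x) (hy : IsW ω e f y) : τ' (x + y) = τ' x + τ' y := by
  have hS := C.sf
  have hxy := isW_add hS hx hy
  apply C.eq_of_W' (C.isW_τ hxy) (isW_add hS (C.isW_τ hx) (C.isW_τ hy))
  intro z hz
  rw [← C.ρ_form hxy hz, hS.add_left, hS.add_left, C.ρ_add, C.ρ_form hx hz, C.ρ_form hy hz]

lemma τ_ne {u : V} (hu : IsW ω e f u) (hu0 : u ≠ 0) : τ' u ≠ 0 := by
  intro h0
  apply hu0
  apply C.τ_inj hu (isW_zero C.sf C.ef)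
  rw [h0, C.τ_zero]

lemma ρ_ne {c : F} (hc : c ≠ 0) : ρ' c ≠ 0 := by
  intro h0
  apply hc
  apply C.ρ_inj
  rw [h0, C.ρ_zero]

lemma par_φ_τ {u : V} (hu : IsW ω e f u) (hu0 : u ≠ 0) : Par F (τ' u) (φ u) := by
  have hS := C.sf
  have hφ : IsW ω e' f' (φ u) := ⟨(C.opp hu0).mp hu.1, (C.opp' hu0).mp hu.2⟩
  apply hS.par_of_perps (C.τ_ne hu hu0) (C.h0 u hu0)
  intro y
  rw [omega_proj hS C.ef' (C.isW_τ hu) y, omega_proj hS C.ef' hφ y]
  obtain ⟨z, hz, hz'⟩ := C.exists_τ (isW_proj hS C.ef' y)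
  rw [← hz', ← C.ρ_form hu hz]
  have h1 : ρ' (ω u z) = 0 ↔ ω u z = 0 := by
    constructor
    · intro h
      by_contra hne
      exact C.ρ_ne hne h
    · intro h
      rw [h, C.ρ_zero]
  rw [h1]
  have h2 : ω u z = ω u (pt e f z (0 : F)) := by
    simp only [pt, hS.add_right, hS.smul_right, wb hS C.ef hu, hS.alt]
    ring
  rw [h2, C.hω u _ hu0 (C.pt_ne 0 hz), hS.perp_par (C.par_τ 0 hz).symm']
  have h3 : ω (φ u) (pt e' f' (τ' z) (ρ' (0 : F))) = ω (φ u) (τ' z) := by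
    simp only [pt, hS.add_right, hS.smul_right, wb hS C.ef' hφ, wa hS C.ef' hφ]
    ring
  rw [h3]

lemma τ_par {u : V} (c : F) (hu : IsW ω e f u) (hu0 : u ≠ 0) : ∃ d : F, τ' (c • u) = d • τ' u := by
  by_cases hc : c = 0
  · subst hc
    exact ⟨0, by rw [zero_smul, zero_smul, C.τ_zero]⟩
  have h1 : Par F u (c • u) := ⟨c, hc, rfl⟩
  have hcu := smul_ne_zero hc hu0
  have h2 := C.φ_par hu0 hcu h1
  have h3 := (C.par_φ_τ hu hu0).trans' (h2.trans' (C.par_φ_τ (isW_smul C.sf c hu) hcu).symm')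
  obtain ⟨d, -, hd⟩ := h3
  exact ⟨d, hd⟩

lemma par_of_τ {u v : V} (hu : IsW ω e f u) (hu0 : u ≠ 0) (hv : IsW ω e f v) (hv0 : v ≠ 0)
    (h : Par F (τ' u) (τ' v)) : Par F u v :=
  C.φ_par_inv hu0 hv0 ((C.par_φ_τ hu hu0).symm'.trans' (h.trans' (C.par_φ_τ hv hv0)))

/-- independent vectors give the same scalar -/
lemma σ_indep {u v : V} {c d d' : F} (hu : IsW ω e f u) (hu0 : u ≠ 0) (hv : IsW ω e f v) (hv0 : v ≠ 0)
    (hpar : ¬ Par F u v) (h1 : τ' (c • u) = d • τ' u) (h2 : τ' (c • v) = d' • τ' v) : d = d' := by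
  have hS := C.sf
  have huv : u + v ≠ 0 := by
    intro h0
    apply hpar
    refine ⟨-1, neg_ne_zero.mpr one_ne_zero, ?_⟩
    rw [neg_one_smul]
    exact eq_neg_of_add_eq_zero_right h0
  have hW := isW_add hS hu hv
  obtain ⟨d'', hd''⟩ := C.τ_par c hW huv
  rw [smul_add, C.τ_add (isW_smul hS c hu) (isW_smul hS c hv), C.τ_add hu hv, h1, h2, smul_add] at hd''
  -- `d τu + d' τv = d'' τu + d'' τv`
  have key : (d - d'') • τ' u = (d'' - d') • τ' v := by
    linear_combination (norm := module) hd''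
  have e1 : d = d'' := by
    by_contra hne
    have hk : d - d'' ≠ 0 := sub_ne_zero.mpr hne
    have hk2 : d'' - d' ≠ 0 := by
      intro h0
      rw [h0, zero_smul] at key
      exact (smul_ne_zero hk (C.τ_ne hu hu0)) key
    apply hpar
    refine (C.par_of_τ hv hv0 hu hu0 ⟨(d - d'')⁻¹ * (d'' - d'), mul_ne_zero (inv_ne_zero hk) hk2, ?_⟩).symm'
    rw [← smul_smul, ← key, smul_smul, inv_mul_cancel₀ hk, one_smul]
  have e2 : d'' = d' := by
    by_contra hne
    have hk2 : d'' - d' ≠ 0 := sub_ne_zero.mpr hne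
    have := key
    rw [e1, sub_self, zero_smul] at this
    exact (smul_ne_zero hk2 (C.τ_ne hv hv0)) this.symm
  rw [e1, e2]

lemma w0_ne : w₀ ≠ 0 := by
  rintro rfl
  have := C.w01
  rw [C.sf.zero_left] at this
  exact zero_ne_one this

lemma w1_ne : w₁ ≠ 0 := by
  rintro rfl
  have := C.w01
  rw [C.sf.zero_right] at this
  exact zero_ne_one this

lemma w01_not : ¬ Par F w₀ w₁ := by
  rintro ⟨c, hc, e⟩
  have := C.w01
  rw [e, C.sf.smul_right, C.sf.alt, mul_zero] at this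
  exact zero_ne_one this

/-- the field map -/
noncomputable def sf0 (ω : V → V → F) (φ : V → V) (e f w₀ e' f' : V)
    (H : ∀ c : F, ∃ d : F, τ ω φ e f e' f' (c • w₀) = d • τ ω φ e f e' f' w₀) (c : F) : F :=
  (H c).choose

lemma sf0_spec (H : ∀ c : F, ∃ d : F, τ' (c • w₀) = d • τ' w₀) (c : F) :
    τ' (c • w₀) = sf0 ω φ e f w₀ e' f' H c • τ' w₀ := (H c).choose_spec

lemma H0 : ∀ c : F, ∃ d : F, τ' (c • w₀) = d • τ' w₀ :=
  fun c => C.τ_par c C.isW_w0 C.w0_ne

lemma sf0_all (c : F) {u : V} (hu : IsW ω e f u) (hu0 : u ≠ 0) :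
    τ' (c • u) = sf0 ω φ e f w₀ e' f' C.H0 c • τ' u := by
  obtain ⟨d, hd⟩ := C.τ_par c hu hu0
  rw [hd]
  congr 1
  have hs0 := sf0_spec C C.H0 c
  by_cases hp : Par F w₀ u
  · -- go through `w₁`
    have hp1 : ¬ Par F w₁ u := fun hp' => C.w01_not (hp.trans' hp'.symm')
    obtain ⟨d₁, hd₁⟩ := C.τ_par c C.isW_w1 C.w1_ne
    have e1 := C.σ_indep C.isW_w1 C.w1_ne hu hu0 hp1 hd₁ hd
    have e2 := C.σ_indep C.isW_w0 C.w0_ne C.isW_w1 C.w1_ne C.w01_not hs0 hd₁
    rw [← e1, e2]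
  · exact (C.σ_indep C.isW_w0 C.w0_ne hu hu0 hp hs0 hd).symm

/-- `τ` is semilinear -/
lemma τ_smul (c : F) {u : V} (hu : IsW ω e f u) :
    τ' (c • u) = sf0 ω φ e f w₀ e' f' C.H0 c • τ' u := by
  by_cases hu0 : u = 0
  · subst hu0
    rw [smul_zero, C.τ_zero, smul_zero]
  · exact C.sf0_all c hu hu0

/-- the ring homomorphism -/
noncomputable def σr (C : Ctx ω φ e f w₀ w₁ e' f') : F →+* F where
  toFun := sf0 ω φ e f w₀ e' f' C.H0
  map_one' := by
    have h1 := C.τ_smul 1 C.isW_w0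
    rw [one_smul] at h1
    have h2 : (sf0 ω φ e f w₀ e' f' C.H0 1 - 1) • τ' w₀ = 0 := by
      rw [sub_smul, one_smul, ← h1, sub_self]
    have := (smul_eq_zero.mp h2).resolve_right (C.τ_ne C.isW_w0 C.w0_ne)
    exact sub_eq_zero.mp this
  map_mul' c d := by
    have hW := C.isW_w0
    have h1 := C.τ_smul (c * d) hW
    rw [← smul_smul, C.τ_smul c (isW_smul C.sf d hW), C.τ_smul d hW, smul_smul] at h1
    have h2 : (sf0 ω φ e f w₀ e' f' C.H0 c * sf0 ω φ e f w₀ e' f' C.H0 d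
        - sf0 ω φ e f w₀ e' f' C.H0 (c * d)) • τ' w₀ = 0 := by
      rw [sub_smul, h1, sub_self]
    have := (smul_eq_zero.mp h2).resolve_right (C.τ_ne C.isW_w0 C.w0_ne)
    exact (sub_eq_zero.mp this).symm
  map_zero' := by
    have h1 := C.τ_smul 0 C.isW_w0
    rw [zero_smul, C.τ_zero] at h1
    exact (smul_eq_zero.mp h1.symm).resolve_right (C.τ_ne C.isW_w0 C.w0_ne)
  map_add' c d := by
    have hW := C.isW_w0
    have h1 := C.τ_smul (c + d) hW
    rw [add_smul, C.τ_add (isW_smul C.sf c hW) (isW_smul C.sf d hW), C.τ_smul c hW, C.τ_smul d hW,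
      ← add_smul] at h1
    have h2 : (sf0 ω φ e f w₀ e' f' C.H0 c + sf0 ω φ e f w₀ e' f' C.H0 d
        - sf0 ω φ e f w₀ e' f' C.H0 (c + d)) • τ' w₀ = 0 := by
      rw [sub_smul, h1, sub_self]
    have := (smul_eq_zero.mp h2).resolve_right (C.τ_ne C.isW_w0 C.w0_ne)
    exact (sub_eq_zero.mp this).symm

lemma τ_smul' (c : F) {u : V} (hu : IsW ω e f u) : τ' (c • u) = C.σr c • τ' u := C.τ_smul c hu

lemma ρ_eq (c : F) : ρ' c = C.σr c * ρ' 1 := by
  have hW := C.isW_w0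
  have h1 := C.ρ_form (isW_smul C.sf c hW) C.isW_w1
  rw [C.sf.smul_left, C.w01, mul_one, C.τ_smul' c hW, C.sf.smul_left, ← C.ρ_form hW C.isW_w1, C.w01] at h1
  exact h1

lemma form_τ {x y : V} (hx : IsW ω e f x) (hy : IsW ω e f y) :
    ω (τ' x) (τ' y) = C.σr (ω x y) * ρ' 1 := by
  rw [← C.ρ_form hx hy, C.ρ_eq]

/-- the semisimilarity -/
noncomputable def T (C : Ctx ω φ e f w₀ w₁ e' f') (x : V) : V :=
  (C.σr (ω x f) * ρ' 1) • e' + C.σr (ω e x) • f' + τ' (proj ω e f x)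

lemma proj_add (x y : V) : proj ω e f (x + y) = proj ω e f x + proj ω e f y := by
  simp only [proj, C.sf.add_left, C.sf.add_right, add_smul]
  abel

lemma proj_smul (c : F) (x : V) : proj ω e f (c • x) = c • proj ω e f x := by
  simp only [proj, C.sf.smul_left, C.sf.smul_right, smul_sub, smul_smul]

lemma isW_p (x : V) : IsW ω e f (proj ω e f x) := isW_proj C.sf C.ef x

lemma T_add (x y : V) : C.T (x + y) = C.T x + C.T y := by
  simp only [T, proj_add C, C.τ_add (C.isW_p x) (C.isW_p y), C.sf.add_left, C.sf.add_right, map_add, add_mul, add_smul]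
  abel

lemma T_smul (c : F) (x : V) : C.T (c • x) = C.σr c • C.T x := by
  simp only [T, proj_smul C, C.τ_smul' c (C.isW_p x), C.sf.smul_left, C.sf.smul_right, map_mul, smul_add, smul_smul,
    mul_assoc]

lemma T_form (x y : V) : ω (C.T x) (C.T y) = ρ' 1 * C.σr (ω x y) := by
  have hS := C.sf
  have hW' := C.isW_τ (C.isW_p x)
  have hW'' := C.isW_τ (C.isW_p y)
  have hba' := ba hS C.ef'
  have hx1 : ω x y = ω x f * ω e y - ω e x * ω y f + ω (proj ω e f x) (proj ω e f y) := by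
    have hba := ba hS C.ef
    have h1 : ω (proj ω e f x) y = ω (proj ω e f x) (proj ω e f y) :=
      omega_proj hS C.ef (C.isW_p x) y
    conv_lhs => rw [decomp hS C.ef x, hS.add_left, hS.add_left, hS.smul_left, hS.smul_left, h1]
    rw [hS.swap y f]
    ring
  rw [hx1, map_add, map_sub, map_mul, map_mul]
  simp only [T, hS.add_left, hS.add_right, hS.smul_left, hS.smul_right, hS.alt, C.ef', hba', hW'.1, hW'.2,
    hW''.1, hW''.2, wa hS C.ef' hW', wb hS C.ef' hW', C.form_τ (C.isW_p x) (C.isW_p y)]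
  ring

lemma T_pt {w : V} (c : F) (hw : IsW ω e f w) : C.T (pt e f w c) = pt e' f' (τ' w) (ρ' c) := by
  rw [T, omega_pt_b C.sf C.ef w c hw, omega_a_pt C.sf C.ef w c hw, proj_pt C.sf C.ef w c hw, map_one,
    one_smul, ← C.ρ_eq c]
  simp only [pt]
  abel

lemma ρ1_ne : ρ' 1 ≠ 0 := C.ρ_ne one_ne_zero

lemma T_ne {x : V} (hx : x ≠ 0) : C.T x ≠ 0 := by
  intro h0
  obtain ⟨z, hz⟩ : ∃ z, ω x z ≠ 0 := by
    by_contra hcon
    push Not at hcon
    exact hx (C.sf.nd x hcon)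
  have h1 := C.T_form x z
  rw [h0, C.sf.zero_left] at h1
  rcases mul_eq_zero.mp h1.symm with h2 | h2
  · exact C.ρ1_ne h2
  · exact hz ((map_eq_zero _).mp h2)

lemma par_T {x : V} (hx : x ≠ 0) : Par F (C.T x) (φ x) := by
  have hS := C.sf
  by_cases hk : ω e x = 0
  · apply hS.rigid C.ef' (C.T_ne hx) (C.h0 x hx)
    intro y hy
    -- `y` is a `pt`
    have hydec : y = pt e' f' (proj ω e' f' y) (ω y f') := by
      conv_lhs => rw [decomp hS C.ef' y, hy, one_smul]
      simp only [pt]; abel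
    obtain ⟨z, c, hz, hτ, hρ⟩ := C.coord_surj (ω y f') (isW_proj hS C.ef' y)
    have hy2 : y = C.T (pt e f z c) := by
      rw [C.T_pt c hz, hτ, hρ]
      exact hydec
    have hy3 : Par F y (φ (pt e f z c)) := by
      rw [hy2, C.T_pt c hz]
      exact C.par_τ c hz
    have e1 : ω (φ x) y = 0 ↔ ω x (pt e f z c) = 0 := by
      rw [hS.perp_par hy3]
      exact (C.hω x _ hx (C.pt_ne c hz)).symm
    have e2 : ω (C.T x) y = 0 ↔ ω x (pt e f z c) = 0 := by
      rw [hy2, C.T_form]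
      simp [C.ρ1_ne]
    rw [e1, e2]
  · have h3 := par_pt hS C.ef hk
    set w := (ω e x)⁻¹ • proj ω e f x with hw
    set c := (ω e x)⁻¹ * ω x f with hc
    have hW : IsW ω e f w := isW_smul hS _ (isW_proj hS C.ef _)
    have h4 := C.φ_par (C.pt_ne c hW) hx h3
    have h5 := C.par_τ c hW
    refine Par.trans' ?_ (h5.trans' h4)
    rw [← C.T_pt c hW]
    obtain ⟨d, hd, he⟩ := h3
    rw [he, C.T_smul]
    refine Par.symm' ⟨C.σr d, ?_, rfl⟩
    exact (map_ne_zero _).mpr hd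

end Ctx

/-- **The fundamental theorem**: the map `φ` on nonzero vectors is induced by a semisimilarity. -/
theorem exists_semisimilarity [Finite F] {ω : V → V → F} (hS : IsSF ω) {φ : V → V} {e f w₀ w₁ : V}
    (hef : ω e f = 1) (hw01 : ω w₀ w₁ = 1) (hew0 : ω e w₀ = 0) (hew1 : ω e w₁ = 0) (hfw0 : ω f w₀ = 0)
    (hfw1 : ω f w₁ = 0)
    (h0 : ∀ x, x ≠ 0 → φ x ≠ 0)
    (hs : ∀ y, y ≠ 0 → ∃ x, x ≠ 0 ∧ Par F y (φ x))
    (hω : ∀ x y, x ≠ 0 → y ≠ 0 → (ω x y = 0 ↔ ω (φ x) (φ y) = 0)) :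
    ∃ (σ : F ≃+* F) (l : F) (T : V → V), l ≠ 0 ∧ (∀ x y, T (x + y) = T x + T y) ∧
      (∀ (c : F) x, T (c • x) = σ c • T x) ∧ (∀ x y, ω (T x) (T y) = l * σ (ω x y)) ∧
      ∀ x, x ≠ 0 → Par F (T x) (φ x) := by
  have he0 : e ≠ 0 := by
    rintro rfl
    rw [hS.zero_left] at hef
    exact zero_ne_one hef
  have hf0 : f ≠ 0 := by
    rintro rfl
    rw [hS.zero_right] at hef
    exact zero_ne_one hef
  have hne : ω (φ e) (φ f) ≠ 0 := by
    intro h
    rw [← hω e f he0 hf0, hef] at h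
    exact one_ne_zero h
  have C : Ctx ω φ e f w₀ w₁ (φ e) ((ω (φ e) (φ f))⁻¹ • φ f) :=
    { sf := hS
      ef := hef
      ef' := by rw [hS.smul_right]; exact inv_mul_cancel₀ hne
      w01 := hw01
      ew0 := hew0
      ew1 := hew1
      fw0 := hfw0
      fw1 := hfw1
      h0 := h0
      hs := hs
      hω := hω
      he := Par.refl' _
      hf := Par.symm' ⟨_, inv_ne_zero hne, rfl⟩ }
  have hbij : Function.Bijective C.σr := ⟨C.σr.injective, Finite.surjective_of_injective C.σr.injective⟩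
  refine ⟨RingEquiv.ofBijective C.σr hbij, _, C.T, C.ρ1_ne, C.T_add, C.T_smul, C.T_form, fun x hx => C.par_T hx⟩

end Cfsg.Agent.Lead.PolarFT
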