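import Cfsg.Agent.Lib.Lead.SpSimple
import Cfsg.Agent.Lib.Lead.PolarFT
import Cfsg.Agent.Lib.Lead.AutPSLBase
/-! Root groups of `PSp`, and the rigidity of an automorphism fixing every root group. -/
set_option autoImplicit false
set_option linter.style.haveILetI false
set_option linter.unusedSimpArgs false
set_option linter.unusedSectionVars false
set_option linter.unusedVariables false
namespace Cfsg.Agent.Lead.AutPSp
open Matrix
open scoped LinearAlgebra.Projectivization Pointwise

variable {l : Type*} [Fintype l] [DecidableEq l] {F : Type*} [Field F]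

/-- the symplectic form is an `IsSF` form -/
lemma isSF : PolarFT.IsSF (sympForm : (l ⊕ l → F) → (l ⊕ l → F) → F) where
  add_left := sympForm_add_left
  add_right := sympForm_add_right
  smul_left := sympForm_smul_left
  smul_right := sympForm_smul_right
  alt := sympForm_self
  nd := fun x hx => by
    by_contra h
    obtain ⟨z, hz⟩ := sympForm_nondeg h
    exact hz (hx z)

/-- the quotient map -/
abbrev pr (l F : Type*) [Fintype l] [DecidableEq l] [Field F] :
    symplecticGroup l F →* (symplecticGroup l F ⧸ Subgroup.center (symplecticGroup l F)) :=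
  QuotientGroup.mk' _

/-- the action on vectors -/
def ap (s : symplecticGroup l F) (x : l ⊕ l → F) : l ⊕ l → F := (s : Matrix (l ⊕ l) (l ⊕ l) F) *ᵥ x

lemma ap_def (s : symplecticGroup l F) (x : l ⊕ l → F) : ap s x = (s : Matrix (l ⊕ l) (l ⊕ l) F) *ᵥ x := rfl

@[simp] lemma ap_one (x : l ⊕ l → F) : ap (1 : symplecticGroup l F) x = x := by
  simp [ap]

lemma ap_mul (s t : symplecticGroup l F) (x : l ⊕ l → F) : ap (s * t) x = ap s (ap t x) := by
  simp only [ap, Submonoid.coe_mul, Subgroup.coe_toSubmonoid, Matrix.mulVec_mulVec]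

lemma ap_add (s : symplecticGroup l F) (x y : l ⊕ l → F) : ap s (x + y) = ap s x + ap s y :=
  Matrix.mulVec_add _ _ _

lemma ap_sub (s : symplecticGroup l F) (x y : l ⊕ l → F) : ap s (x - y) = ap s x - ap s y :=
  Matrix.mulVec_sub _ _ _

lemma ap_smul (s : symplecticGroup l F) (c : F) (x : l ⊕ l → F) : ap s (c • x) = c • ap s x :=
  Matrix.mulVec_smul _ _ _

lemma ap_zero (s : symplecticGroup l F) : ap s (0 : l ⊕ l → F) = 0 := Matrix.mulVec_zero _

lemma ap_inv_ap (s : symplecticGroup l F) (x : l ⊕ l → F) : ap s⁻¹ (ap s x) = x := by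
  rw [← ap_mul, inv_mul_cancel, ap_one]

lemma ap_ap_inv (s : symplecticGroup l F) (x : l ⊕ l → F) : ap s (ap s⁻¹ x) = x := by
  rw [← ap_mul, mul_inv_cancel, ap_one]

lemma ap_inj (s : symplecticGroup l F) {x y : l ⊕ l → F} (h : ap s x = ap s y) : x = y := by
  rw [← ap_inv_ap s x, h, ap_inv_ap]

lemma ap_ne (s : symplecticGroup l F) {x : l ⊕ l → F} (h : x ≠ 0) : ap s x ≠ 0 := by
  intro h0
  apply h
  apply ap_inj s
  rw [h0, ap_zero]

lemma form_ap (s : symplecticGroup l F) (x y : l ⊕ l → F) : sympForm (ap s x) (ap s y) = sympForm x y :=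
  sympForm_mulVec s.2 x y

lemma sp_ext {s t : symplecticGroup l F} (h : ∀ x, ap s x = ap t x) : s = t :=
  Subtype.ext (mat_ext_mulVec h)

lemma ap_sympT (u : l ⊕ l → F) (a : F) (x : l ⊕ l → F) :
    ap (sympT u a) x = x + (a * sympForm x u) • u := sympTmat_mulVec u a x

lemma conj_sympT' (g : symplecticGroup l F) (u : l ⊕ l → F) (c : F) :
    g * sympT u c * g⁻¹ = sympT (ap g u) c := conj_sympT g u c

section Rigid
variable [Nonempty l]

/-- elements of the centre are scalars -/
lemma center_ap {z : symplecticGroup l F} (hz : z ∈ Subgroup.center (symplecticGroup l F)) :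
    ∃ c : F, c ^ 2 = 1 ∧ ∀ x, ap z x = c • x := by
  obtain ⟨c, hc⟩ := center_scalar hz
  refine ⟨c, (scalar_mem_iff c).1 (hc ▸ z.2), fun x => ?_⟩
  rw [ap, hc, Matrix.smul_mulVec, Matrix.one_mulVec]

/-- a scalar in the symplectic group -/
def scal (c : F) (hc : c ^ 2 = 1) : symplecticGroup l F :=
  ⟨c • 1, (scalar_mem_iff c).2 hc⟩

@[simp] lemma ap_scal (c : F) (hc : c ^ 2 = 1) (x : l ⊕ l → F) : ap (scal (l := l) c hc) x = c • x := by
  simp [ap, scal, Matrix.smul_mulVec]

lemma scal_mem_center (c : F) (hc : c ^ 2 = 1) : scal (l := l) c hc ∈ Subgroup.center (symplecticGroup l F) := by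
  rw [Subgroup.mem_center_iff]
  intro g
  apply sp_ext
  intro x
  simp only [ap_mul, ap_scal, ap_smul]

/-- equality in the quotient -/
lemma pr_eq_iff {s t : symplecticGroup l F} :
    pr l F s = pr l F t ↔ ∃ c : F, c ^ 2 = 1 ∧ ∀ x, ap s x = c • ap t x := by
  constructor
  · intro h
    have h1 : t⁻¹ * s ∈ Subgroup.center (symplecticGroup l F) :=
      QuotientGroup.eq.mp (show (QuotientGroup.mk t : _ ⧸ Subgroup.center (symplecticGroup l F)) = QuotientGroup.mk s from h.symm)
    obtain ⟨c, hc, hz⟩ := center_ap h1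
    refine ⟨c, hc, fun x => ?_⟩
    have h2 := hz (ap s⁻¹ (ap s x))
    have hcc : ap (t⁻¹ * s) x = c • x := hz x
    have h3 : ap s x = ap t (ap (t⁻¹ * s) x) := by
      rw [← ap_mul, mul_inv_cancel_left]
    rw [h3, hcc, ap_smul]
  · rintro ⟨c, hc, h⟩
    apply QuotientGroup.eq.mpr
    have hs : s = t * scal c hc := by
      apply sp_ext
      intro x
      rw [h, ap_mul, ap_scal, ap_smul]
    rw [hs]
    have e : (t * scal c hc)⁻¹ * t = (scal c hc)⁻¹ := by group
    rw [e]
    exact Subgroup.inv_mem _ (scal_mem_center c hc)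

end Rigid

/-- `(s - 1)² = 0` -/
def IsU (s : symplecticGroup l F) : Prop := ∀ x, ap s (ap s x - x) = ap s x - x

lemma isU_sympT (u : l ⊕ l → F) (a : F) : IsU (sympT u a) := by
  intro x
  have e : ap (sympT u a) x - x = (a * sympForm x u) • u := by
    rw [ap_sympT]; abel
  rw [e, ap_sympT, sympForm_smul_left, sympForm_self]
  simp

lemma ap_neg (s : symplecticGroup l F) (x : l ⊕ l → F) : ap s (-x) = - ap s x :=
  Matrix.mulVec_neg _ _

/-- two elements with `(s-1)² = 0` with the same class coincide -/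
lemma eq_of_isU [Nonempty l] {s t : symplecticGroup l F} (hs : IsU s) (ht : IsU t) (h : pr l F s = pr l F t) : s = t := by
  obtain ⟨c, hc, hx⟩ := pr_eq_iff.mp h
  by_cases hc1 : c = 1
  · subst hc1
    apply sp_ext
    intro x
    rw [hx, one_smul]
  exfalso
  have hc2 : c = -1 := by
    have : (c - 1) * (c + 1) = 0 := by linear_combination hc
    rcases mul_eq_zero.mp this with h1 | h1
    · exact absurd (sub_eq_zero.mp h1) hc1
    · exact eq_neg_of_add_eq_zero_left h1
  subst hc2
  have h2 : (2 : F) ≠ 0 := by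
    intro h0
    apply hc1
    linear_combination -h0
  have hx' : ∀ y, ap s y = - ap t y := fun y => by rw [hx, neg_one_smul]
  obtain ⟨i⟩ := ‹Nonempty l›
  set x : l ⊕ l → F := Pi.single (Sum.inl i) 1 with hxdef
  have hx0 : x ≠ 0 := by
    intro h0
    have := congrFun h0 (Sum.inl i)
    simp [hxdef] at this
  set A := ap t x with hA
  set B := ap t A with hB
  have e1 : B + A = - A - x := by
    have h3 := hs x
    rw [hx', hx', ap_sub, ap_neg] at h3
    have h4 : - (- B - ap t x) = - A - x := h3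
    rw [← h4, ← hA]
    abel
  have e2 : B - A = A - x := by
    have h5 := ht x
    rw [ap_sub] at h5
    exact h5
  have h6 : (4 : F) • A = 0 := by
    linear_combination (norm := module) e1 - e2
  have h7 : (4 : F) ≠ 0 := by
    have : (4 : F) = 2 * 2 := by norm_num
    rw [this]
    exact mul_ne_zero h2 h2
  have h8 : A = 0 := (smul_eq_zero.mp h6).resolve_left h7
  exact ap_ne t hx0 h8

/-- the root group -/
def RT (u : l ⊕ l → F) : Subgroup (symplecticGroup l F ⧸ Subgroup.center (symplecticGroup l F)) :=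
  (lineT u).map (pr l F)

lemma mem_RT {u : l ⊕ l → F} {x} : x ∈ RT u ↔ ∃ c : F, pr l F (sympT u c) = x := by
  constructor
  · rintro ⟨_, ⟨c, rfl⟩, rfl⟩
    exact ⟨c, rfl⟩
  · rintro ⟨c, rfl⟩
    exact ⟨_, ⟨c, rfl⟩, rfl⟩

lemma RT_smul [Fintype F] [Nonempty l] (a : F) (ha : a ≠ 0) (u : l ⊕ l → F) : RT (a • u) = RT u := by
  rw [RT, RT, lineT_smul a ha]

lemma RT_par [Fintype F] [Nonempty l] {u v : l ⊕ l → F} (h : PolarFT.Par F u v) : RT v = RT u := by
  obtain ⟨c, hc, rfl⟩ := h
  exact RT_smul c hc u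

/-- equal transvections have parallel centres -/
lemma par_of_sympT_eq {u v : l ⊕ l → F} {a b : F} (ha : a ≠ 0) (hu : u ≠ 0)
    (h : sympT u a = sympT v b) : PolarFT.Par F v u := by
  obtain ⟨z, hz⟩ := sympForm_nondeg hu
  have hz' : sympForm z u ≠ 0 := by
    rw [sympForm_swap, neg_ne_zero]; exact hz
  have h1 := congrArg (fun s => ap s z) h
  simp only [ap_sympT] at h1
  have h2 := add_left_cancel h1
  have h3 : b * sympForm z v ≠ 0 := by
    intro h0
    rw [h0, zero_smul] at h2
    exact (smul_ne_zero (mul_ne_zero ha hz') hu) h2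
  refine ⟨(a * sympForm z u)⁻¹ * (b * sympForm z v), mul_ne_zero (inv_ne_zero (mul_ne_zero ha hz')) h3, ?_⟩
  rw [← smul_smul, ← h2, smul_smul, inv_mul_cancel₀ (mul_ne_zero ha hz'), one_smul]

section
variable [Nonempty l]

lemma pr_sympT_inj {u v : l ⊕ l → F} {a b : F} (h : pr l F (sympT u a) = pr l F (sympT v b)) :
    sympT u a = sympT v b := eq_of_isU (isU_sympT u a) (isU_sympT v b) h

lemma sympT_ne_one {u : l ⊕ l → F} {a : F} (ha : a ≠ 0) (hu : u ≠ 0) : sympT u a ≠ 1 := by
  intro h
  obtain ⟨z, hz⟩ := sympForm_nondeg hu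
  have hz' : sympForm z u ≠ 0 := by
    rw [sympForm_swap, neg_ne_zero]; exact hz
  have h1 := congrArg (fun s => ap s z) h
  simp only [ap_sympT, ap_one] at h1
  have h2 : (a * sympForm z u) • u = 0 := by
    simpa using h1
  exact (smul_ne_zero (mul_ne_zero ha hz') hu) h2

lemma pr_sympT_ne_one {u : l ⊕ l → F} {a : F} (ha : a ≠ 0) (hu : u ≠ 0) : pr l F (sympT u a) ≠ 1 := by
  intro h
  have h2 : pr l F (sympT u a) = pr l F (sympT u 0) := by rw [h, sympT_zero, map_one]
  have := pr_sympT_inj h2
  rw [sympT_zero] at this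
  exact sympT_ne_one ha hu this

/-- parallel centres from equal root groups -/
lemma par_of_RT_le {u v : l ⊕ l → F} (hu : u ≠ 0) (h : RT u ≤ RT v) : PolarFT.Par F v u := by
  have h1 : pr l F (sympT u 1) ∈ RT v := h (mem_RT.mpr ⟨1, rfl⟩)
  obtain ⟨c, hc⟩ := mem_RT.mp h1
  exact par_of_sympT_eq one_ne_zero hu (pr_sympT_inj hc.symm)

/-- commutation of root elements -/
lemma commute_pr_iff {u v : l ⊕ l → F} (hu : u ≠ 0) (hv : v ≠ 0) {a b : F} (ha : a ≠ 0) (hb : b ≠ 0) :
    Commute (pr l F (sympT u a)) (pr l F (sympT v b)) ↔ sympForm u v = 0 := by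
  constructor
  · intro h
    -- conjugate `t_v(b)` by `t_u(a)`
    have h1 : pr l F (sympT u a * sympT v b * (sympT u a)⁻¹) = pr l F (sympT v b) := by
      rw [map_mul, map_mul, map_inv, h.eq]
      group
    rw [conj_sympT', ap_sympT] at h1
    have h2 := par_of_sympT_eq hb hv (pr_sympT_inj h1.symm)
    obtain ⟨c, hc, hc'⟩ := h2
    by_contra hne
    have hform : sympForm v u ≠ 0 := by
      rw [sympForm_swap, neg_ne_zero]; exact hne
    have h3 := congrArg (fun z => sympForm z u) hc'
    simp only [sympForm_self, sympForm_smul_left, sympForm_add_left, mul_zero, add_zero] at h3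
    have hc1 : c = 1 := by
      have : (c - 1) * sympForm v u = 0 := by linear_combination -h3
      exact sub_eq_zero.mp ((mul_eq_zero.mp this).resolve_right hform)
    subst hc1
    rw [one_smul] at hc'
    have h4 : (a * sympForm v u) • u = 0 := by
      have h5 := hc'
      exact add_eq_left.mp h5.symm
    exact (smul_ne_zero (mul_ne_zero ha hform) hu) h4
  · intro h
    have h1 : sympT u a * sympT v b = sympT v b * sympT u a := by
      apply sp_ext
      intro x
      simp only [ap_mul, ap_sympT, sympForm_add_left, sympForm_smul_left, h]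
      have h2 : sympForm v u = 0 := by rw [sympForm_swap, h, neg_zero]
      rw [h2]
      simp only [mul_zero, zero_smul, add_zero]
      abel
    show pr l F (sympT u a) * pr l F (sympT v b) = pr l F (sympT v b) * pr l F (sympT u a)
    rw [← map_mul, h1, map_mul]

/-- an automorphism fixing each root group fixes each root element -/
lemma fix_root {β : MulAut (symplecticGroup l F ⧸ Subgroup.center (symplecticGroup l F))}
    (h : ∀ u : l ⊕ l → F, u ≠ 0 → ∀ x ∈ RT u, β x ∈ RT u) {u : l ⊕ l → F} (hu : u ≠ 0) (a : F) :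
    β (pr l F (sympT u a)) = pr l F (sympT u a) := by
  obtain ⟨z, hz⟩ := sympForm_nondeg hu
  have hz' : sympForm z u ≠ 0 := by
    rw [sympForm_swap, neg_ne_zero]; exact hz
  set v : l ⊕ l → F := (sympForm z u)⁻¹ • z with hv
  have hvu : sympForm v u = 1 := by
    rw [hv, sympForm_smul_left]; exact inv_mul_cancel₀ hz'
  have hv0 : v ≠ 0 := by
    intro h0
    rw [h0, sympForm_zero_left] at hvu
    exact zero_ne_one hvu
  obtain ⟨a', ha'⟩ := mem_RT.mp (h u hu _ (mem_RT.mpr ⟨a, rfl⟩))
  obtain ⟨b', hb'⟩ := mem_RT.mp (h v hv0 _ (mem_RT.mpr ⟨1, rfl⟩))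
  have hb0 : b' ≠ 0 := by
    rintro rfl
    rw [sympT_zero, map_one] at hb'
    have : pr l F (sympT v 1) = 1 := β.injective (by rw [← hb', map_one])
    exact pr_sympT_ne_one one_ne_zero hv0 this
  have hcv : ∀ c : F, ap (sympT u c) v = v + c • u := by
    intro c
    rw [ap_sympT, hvu, mul_one]
  have hvau : ∀ c : F, v + c • u ≠ 0 := by
    intro c h0
    have := congrArg (fun y => sympForm y u) h0
    simp only [sympForm_add_left, sympForm_smul_left, sympForm_self, hvu, mul_zero, add_zero, sympForm_zero_left] at this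
    exact one_ne_zero this
  have h1 : β (pr l F (sympT (v + a • u) 1)) = pr l F (sympT (v + a' • u) b') := by
    rw [← hcv, ← hcv, ← conj_sympT', ← conj_sympT', map_mul, map_mul, map_mul, map_mul, map_inv, map_inv, map_mul,
      map_mul, map_inv, ← ha', ← hb']
  have h2 := h _ (hvau a) _ (mem_RT.mpr ⟨1, rfl⟩)
  rw [h1] at h2
  obtain ⟨c, hc⟩ := mem_RT.mp h2
  have h3 := par_of_sympT_eq hb0 (hvau a') (pr_sympT_inj hc.symm)
  obtain ⟨d, hd, e⟩ := h3
  have hd1 : d = 1 := by
    have := congrArg (fun y => sympForm y u) e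
    simp only [sympForm_add_left, sympForm_smul_left, sympForm_self, hvu, mul_zero, add_zero, mul_one] at this
    exact this.symm
  subst hd1
  rw [one_smul] at e
  have h4 : a' = a := by
    have h5 : (a' - a) • u = 0 := by
      rw [sub_smul]
      have : v + a' • u - (v + a • u) = 0 := sub_eq_zero.mpr e
      rw [← this]
      abel
    exact sub_eq_zero.mp ((smul_eq_zero.mp h5).resolve_right hu)
  rw [← ha', h4]

end

/-- **Key lemma**: an automorphism of `PSp` fixing each root group is trivial -/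
theorem eq_one_of_fix_RT {m : ℕ} [Nonempty (Fin m)] [Fintype F]
    {β : MulAut (symplecticGroup (Fin m) F ⧸ Subgroup.center (symplecticGroup (Fin m) F))}
    (h : ∀ u : Fin m ⊕ Fin m → F, u ≠ 0 → ∀ x ∈ RT u, β x ∈ RT u) : β = 1 := by
  let P : Subgroup (symplecticGroup (Fin m) F) :=
    { carrier := {s | β (pr (Fin m) F s) = pr (Fin m) F s}
      mul_mem' := by
        intro a b ha hb
        simp only [Set.mem_setOf_eq] at ha hb ⊢
        rw [map_mul, map_mul, ha, hb]
      one_mem' := by simp
      inv_mem' := by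
        intro a ha
        simp only [Set.mem_setOf_eq] at ha ⊢
        rw [map_inv, map_inv, ha] }
  have hP : P = ⊤ := by
    apply sp_induction
    intro u c
    by_cases hu : u = 0
    · subst hu
      rw [sympT_zero_vec]
      exact P.one_mem
    · exact fix_root h hu c
  ext x
  obtain ⟨s, rfl⟩ := QuotientGroup.mk'_surjective _ x
  have : s ∈ P := hP ▸ Subgroup.mem_top s
  exact this

end Cfsg.Agent.Lead.AutPSp
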