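import Cfsg.Agent.Lib.Lead.AutPSpSyl
/-! Characteristic two, rank at least three: automorphisms preserve the class of transvections. -/
set_option autoImplicit false
set_option linter.style.haveILetI false
set_option linter.unusedSimpArgs false
set_option linter.unusedSectionVars false
set_option linter.unusedVariables false
namespace Cfsg.Agent.Lead.AutPSp
open Matrix
open scoped LinearAlgebra.Projectivization Pointwise
open Cfsg.Agent.Lead.AutPSL (zc image_zc)

variable {l : Type*} [Fintype l] [DecidableEq l] {F : Type*} [Field F] [Nonempty l] [Fintype F]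

local notation "PG" => (symplecticGroup l F ⧸ Subgroup.center (symplecticGroup l F))

omit [Nonempty l] in
lemma exists_move_pair {a b a' b' : l ⊕ l → F} (hab : sympForm a b = 0) (ha : a ≠ 0) (hb : b ≠ 0)
    (hne : ∀ t : F, a ≠ t • b) (hab' : sympForm a' b' = 0) (ha' : a' ≠ 0) (hb' : b' ≠ 0)
    (hne' : ∀ t : F, a' ≠ t • b') : ∃ g : symplecticGroup l F, ap g a = a' ∧ ap g b = b' := by
  obtain ⟨f₁, f₂, h1⟩ := exists_partial_two hab ha hb hne
  obtain ⟨f₁', f₂', h2⟩ := exists_partial_two hab' ha' hb' hne'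
  obtain ⟨g, -, h3, h4⟩ := tuple_transitive 2 _ _ _ _ h1 h2
  exact ⟨g, h3 1, h3 0⟩

omit [Fintype l] [Nonempty l] [Fintype F] in
lemma ap_SS_T {v w : l ⊕ l → F} [Fintype l] (hvw : sympForm v w = 0) (c : F) (x : l ⊕ l → F) :
    ap (SS v w * sympT v c) x = x + (c * sympForm x v + sympForm x w) • v + sympForm x v • w := by
  rw [ap_mul, ap_sympT, ap_SS hvw]
  simp only [sympForm_add_left, sympForm_smul_left, sympForm_self, hvw, mul_zero, add_zero, add_smul]
  abel

omit [Fintype l] [Nonempty l] [Fintype F] in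
lemma conj_SS_T [Fintype l] (g : symplecticGroup l F) (v w : l ⊕ l → F) (c : F) :
    g * (SS v w * sympT v c) * g⁻¹ = SS (ap g v) (ap g w) * sympT (ap g v) c := by
  rw [← conj_SS, ← conj_sympT']
  group

/-- in characteristic two the quotient map is injective -/
lemma pr_inj_two (h2 : (2 : F) = 0) {s t : symplecticGroup l F} (h : pr l F s = pr l F t) : s = t := by
  obtain ⟨c, hc, hx⟩ := pr_eq_iff.mp h
  have hc1 : c = 1 := by
    have : (c - 1) ^ 2 = 0 := by
      have e : (c - 1) ^ 2 = c ^ 2 + 1 - 2 * c := by ring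
      rw [e, hc, h2]
      have e2 : (1 : F) + 1 = 2 := by norm_num
      rw [e2, h2]
      simp
    exact sub_eq_zero.mp (pow_eq_zero_iff (two_ne_zero)|>.mp this)
  subst hc1
  apply sp_ext
  intro x
  rw [hx, one_smul]

/-- the pairs -/
noncomputable def Pairs (l F : Type*) [Fintype l] [DecidableEq l] [Field F] [Fintype F] : Finset (Σ _ : (l ⊕ l → F), (l ⊕ l → F)) := by
  classical
  exact (Finset.univ.filter fun v : (l ⊕ l → F) => v ≠ 0).sigma fun v =>
    Finset.univ.filter fun w : (l ⊕ l → F) => sympForm v w = 0 ∧ ∀ k : F, w ≠ k • v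

lemma mem_Pairs {x : Σ _ : (l ⊕ l → F), (l ⊕ l → F)} :
    x ∈ Pairs l F ↔ x.1 ≠ 0 ∧ sympForm x.1 x.2 = 0 ∧ ∀ k : F, x.2 ≠ k • x.1 := by
  classical
  simp [Pairs]

omit [Nonempty l] in
/-- the size of the hyperplane `v^⊥` -/
lemma card_perp_hyper {v : l ⊕ l → F} (hv : v ≠ 0) :
    Fintype.card F * Nat.card {w : l ⊕ l → F // sympForm v w = 0} = Fintype.card F ^ (2 * Fintype.card l) := by
  classical
  obtain ⟨x₀, hx₀⟩ := exists_x0 hv
  have hx1 : sympForm v x₀ = -1 := by rw [sympForm_swap, hx₀]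
  let e : (l ⊕ l → F) ≃ F × {w : l ⊕ l → F // sympForm v w = 0} :=
    { toFun := fun x => (sympForm v x, ⟨x + sympForm v x • x₀, by
        rw [sympForm_add_right, sympForm_smul_right, hx1]; ring⟩)
      invFun := fun p => p.2.1 - p.1 • x₀
      left_inv := fun x => by simp
      right_inv := fun p => by
        have h1 : sympForm v (p.2.1 - p.1 • x₀) = p.1 := by
          rw [sympForm_sub_right, sympForm_smul_right, hx1, p.2.2]; ring
        ext
        · exact h1
        · simp [h1] }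
  have h1 := Nat.card_congr e
  rw [Nat.card_prod, Nat.card_eq_fintype_card (α := F), Nat.card_fun, Nat.card_eq_fintype_card (α := F)] at h1
  rw [← h1]
  simp [Nat.card_eq_fintype_card, two_mul]

omit [Nonempty l] in
lemma card_Pairs (hl : 1 ≤ Fintype.card l) :
    (Fintype.card F ^ (2 * Fintype.card l) - 1) * (Fintype.card F ^ (2 * Fintype.card l - 1) - Fintype.card F) ≤
      (Pairs l F).card := by
  classical
  set q := Fintype.card F with hq
  set n := 2 * Fintype.card l with hn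
  have hq0 : 0 < q := Fintype.card_pos
  have hcnt : ∀ v ∈ (Finset.univ.filter fun v : (l ⊕ l → F) => v ≠ 0),
      q ^ (n - 1) - q ≤ (Finset.univ.filter fun w : (l ⊕ l → F) => sympForm v w = 0 ∧ ∀ k : F, w ≠ k • v).card := by
    intro v hv
    have hv0 : v ≠ 0 := (Finset.mem_filter.mp hv).2
    have h1 := card_perp_hyper hv0
    rw [← hq, ← hn] at h1
    have h2 : Nat.card {w : l ⊕ l → F // sympForm v w = 0} = q ^ (n - 1) := by
      have h3 : n = (n - 1) + 1 := by omega
      rw [h3, pow_succ'] at h1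
      have h4 := Nat.eq_of_mul_eq_mul_left hq0 h1
      rw [h4]
    rw [Nat.card_eq_fintype_card, Fintype.card_subtype] at h2
    have h5 : (Finset.univ.filter fun w : (l ⊕ l → F) => sympForm v w = 0) ⊆
        (Finset.univ.filter fun w : (l ⊕ l → F) => sympForm v w = 0 ∧ ∀ k : F, w ≠ k • v) ∪
          (Finset.univ.image fun k : F => k • v) := by
      intro w hw
      by_cases hk : ∀ k : F, w ≠ k • v
      · exact Finset.mem_union_left _ (Finset.mem_filter.mpr ⟨Finset.mem_univ _, (Finset.mem_filter.mp hw).2, hk⟩)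
      · push Not at hk
        obtain ⟨k, rfl⟩ := hk
        exact Finset.mem_union_right _ (Finset.mem_image.mpr ⟨k, Finset.mem_univ _, rfl⟩)
    have h6 := (Finset.card_le_card h5).trans (Finset.card_union_le _ _)
    rw [h2] at h6
    have h7 : (Finset.univ.image fun k : F => k • v).card ≤ q := Finset.card_image_le
    omega
  have hc : (Finset.univ.filter fun v : (l ⊕ l → F) => v ≠ 0).card = q ^ n - 1 := by
    rw [Finset.filter_ne', Finset.card_erase_of_mem (Finset.mem_univ _), Finset.card_univ, Fintype.card_fun,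
      Fintype.card_sum, ← two_mul]
  unfold Pairs
  rw [Finset.card_sigma]
  have h8 := Finset.card_nsmul_le_sum _ _ _ hcnt
  rw [smul_eq_mul, hc] at h8
  convert h8

/-- the vectors `v'`, `w'` lie in the image space of `s - 1` -/
lemma mem_span_of_eq (h2 : (2 : F) = 0) {v w v₁ w₁ : l ⊕ l → F} {c : F} (hvw : sympForm v w = 0)
    (hv : v ≠ 0) (hw : ∀ k : F, w ≠ k • v) (hv₁ : sympForm v₁ w₁ = 0)
    (e : SS v w * sympT v c = SS v₁ w₁ * sympT v₁ c) :
    v ∈ Submodule.span F {v₁, w₁} ∧ w ∈ Submodule.span F {v₁, w₁} := by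
  have hE : ∀ x, (c * sympForm x v + sympForm x w) • v + sympForm x v • w ∈ Submodule.span F {v₁, w₁} := by
    intro x
    have h1 := congrArg (fun t => ap t x) e
    simp only [ap_SS_T hvw, ap_SS_T hv₁] at h1
    have h3 : (c * sympForm x v + sympForm x w) • v + sympForm x v • w =
        (c * sympForm x v₁ + sympForm x w₁) • v₁ + sympForm x v₁ • w₁ := by
      have h4 := add_assoc x ((c * sympForm x v + sympForm x w) • v) (sympForm x v • w)
      have h5 := add_assoc x ((c * sympForm x v₁ + sympForm x w₁) • v₁) (sympForm x v₁ • w₁)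
      rw [h4, h5] at h1
      exact add_left_cancel h1
    rw [h3]
    exact Submodule.add_mem _ (Submodule.smul_mem _ _ (Submodule.subset_span (by simp)))
      (Submodule.smul_mem _ _ (Submodule.subset_span (by simp)))
  -- `v` in the span
  have hv' : v ∈ Submodule.span F {v₁, w₁} := by
    obtain ⟨x, hx, hx'⟩ : ∃ x, sympForm x v = 0 ∧ sympForm x w ≠ 0 := by
      by_contra hcon
      push Not at hcon
      obtain ⟨k, hk⟩ := mul_of_perp_perp hv hcon
      exact hw k hk
    have h1 := hE x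
    rw [hx, mul_zero, zero_add, zero_smul, add_zero] at h1
    exact (Submodule.smul_mem_iff _ hx').mp h1
  refine ⟨hv', ?_⟩
  obtain ⟨x₀, hx₀⟩ := exists_x0 hv
  have h1 := hE x₀
  rw [hx₀, one_smul] at h1
  have h3 := Submodule.sub_mem _ h1 (Submodule.smul_mem _ (c * 1 + sympForm x₀ w) hv')
  simpa using h3

/-- The key count: a class of "rank two" elements is too large. -/
theorem no_rank_two (h2 : (2 : F) = 0) (hl : 3 ≤ Fintype.card l) (α : MulAut PG) {u v w : l ⊕ l → F} {a c : F}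
    (hu : u ≠ 0) (hv : v ≠ 0) (hvw : sympForm v w = 0) (hw : ∀ k : F, w ≠ k • v)
    (e : α (pr l F (sympT u a)) = pr l F (SS v w * sympT v c)) : False := by
  classical
  set q := Fintype.card F with hq
  set n := 2 * Fintype.card l with hn
  have hq2 : 2 ≤ q := Fintype.one_lt_card
  -- the map
  let Ψ : (Σ _ : (l ⊕ l → F), (l ⊕ l → F)) → PG := fun x => pr l F (SS x.1 x.2 * sympT x.1 c)
  -- image inside the image of the transvections
  let C : Finset PG := (Finset.univ.filter fun u' : (l ⊕ l → F) => u' ≠ 0).image fun u' => α (pr l F (sympT u' a))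
  have hC : C.card ≤ q ^ n - 1 := by
    refine Finset.card_image_le.trans (le_of_eq ?_)
    rw [Finset.filter_ne', Finset.card_erase_of_mem (Finset.mem_univ _), Finset.card_univ, Fintype.card_fun,
      Fintype.card_sum, ← two_mul]
  have himg : (Pairs l F).image Ψ ⊆ C := by
    intro y hy
    obtain ⟨x, hx, rfl⟩ := Finset.mem_image.mp hy
    obtain ⟨hx0, hx1, hx2⟩ := mem_Pairs.mp hx
    have hw0 : w ≠ 0 := fun h0 => hw 0 (by rw [h0, zero_smul])
    have hx3 : x.2 ≠ 0 := fun h0 => hx2 0 (by rw [h0, zero_smul])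
    obtain ⟨g, hg1, hg2⟩ := exists_move_pair (perp_swap hvw) hw0 hv hw (perp_swap hx1) hx3 hx0 hx2
    -- `g = α h`
    obtain ⟨g₁, hg₁⟩ := QuotientGroup.mk'_surjective _ (α.symm (pr l F g))
    have hg₁' : α (pr l F g₁) = pr l F g := by
      change α ((QuotientGroup.mk' _) g₁) = _
      rw [hg₁]
      exact α.apply_symm_apply _
    refine Finset.mem_image.mpr ⟨ap g₁ u, Finset.mem_filter.mpr ⟨Finset.mem_univ _, ap_ne g₁ hu⟩, ?_⟩
    rw [← conj_sympT', map_mul, map_mul, map_mul, map_mul, map_inv, map_inv, hg₁', e]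
    change _ = pr l F (SS x.1 x.2 * sympT x.1 c)
    rw [← hg1, ← hg2, ← conj_SS_T]
    simp only [map_mul, map_inv]
  -- fibres
  have hfib : ∀ y ∈ (Pairs l F).image Ψ, ((Pairs l F).filter fun x => Ψ x = y).card ≤ q ^ 4 := by
    intro y hy
    obtain ⟨x₁, hx₁, rfl⟩ := Finset.mem_image.mp hy
    obtain ⟨h10, h11, h12⟩ := mem_Pairs.mp hx₁
    let f : (F × F) × (F × F) → (Σ _ : (l ⊕ l → F), (l ⊕ l → F)) :=
      fun t => ⟨t.1.1 • x₁.1 + t.1.2 • x₁.2, t.2.1 • x₁.1 + t.2.2 • x₁.2⟩
    have hsub : ((Pairs l F).filter fun x => Ψ x = Ψ x₁) ⊆ Finset.univ.image f := by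
      intro x hx
      obtain ⟨hxP, hxe⟩ := Finset.mem_filter.mp hx
      obtain ⟨h00, h01, h02⟩ := mem_Pairs.mp hxP
      have h3 := mem_span_of_eq h2 h01 h00 h02 h11 (pr_inj_two h2 hxe)
      obtain ⟨a₁, b₁, hab⟩ := Submodule.mem_span_pair.mp h3.1
      obtain ⟨a₂, b₂, hab'⟩ := Submodule.mem_span_pair.mp h3.2
      refine Finset.mem_image.mpr ⟨((a₁, b₁), (a₂, b₂)), Finset.mem_univ _, ?_⟩
      rcases x with ⟨x1, x2⟩
      simp only [f]
      simp only at hab hab'
      rw [hab, hab']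
    refine (Finset.card_le_card hsub).trans (Finset.card_image_le.trans (le_of_eq ?_))
    simp only [Finset.card_univ, Fintype.card_prod]
    ring
  have h3 := Finset.card_le_mul_card_image (Pairs l F) _ hfib
  have h4 : ((Pairs l F).image Ψ).card ≤ q ^ n - 1 := (Finset.card_le_card himg).trans hC
  have h5 := card_Pairs (l := l) (F := F) (by omega)
  rw [← hq, ← hn] at h5
  have h6 : (q ^ n - 1) * (q ^ (n - 1) - q) ≤ q ^ 4 * (q ^ n - 1) :=
    h5.trans (h3.trans (Nat.mul_le_mul_left _ h4))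
  have hpos : 0 < q ^ n - 1 := by
    have : q ^ 1 < q ^ n := Nat.pow_lt_pow_right hq2 (by omega)
    simp only [pow_one] at this
    omega
  rw [mul_comm (q ^ 4)] at h6
  have h7 := Nat.le_of_mul_le_mul_left h6 hpos
  have h8 : q ^ 5 ≤ q ^ (n - 1) := Nat.pow_le_pow_right (by omega) (by omega)
  have h9 : q ^ 5 = q * q ^ 4 := by ring
  have h10 : 2 * q ^ 4 ≤ q ^ 5 := by
    rw [h9]
    exact Nat.mul_le_mul_right _ hq2
  have h11 : q < q ^ 4 := by
    calc q = q ^ 1 := (pow_one q).symm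
      _ < q ^ 4 := Nat.pow_lt_pow_right hq2 (by norm_num)
  omega

/-- Characteristic 2, rank at least 3: the image of a root group lies in a root group. -/
theorem stepA_even {p : ℕ} [Fact p.Prime] [CharP F p] (h2 : (2 : F) = 0) (hl : 3 ≤ Fintype.card l) (α : MulAut PG)
    {u : l ⊕ l → F} (hu : u ≠ 0) : ∃ v : l ⊕ l → F, v ≠ 0 ∧ ∀ x ∈ RT u, α x ∈ RT v := by
  obtain ⟨P, hP⟩ := exists_sylow_fix (p := p) hu
  obtain ⟨Q, hQ⟩ := exists_sylow_map P α
  obtain ⟨v, hv0, hv⟩ := exists_fix (p := p) Q.isPGroup'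
  refine ⟨v, hv0, fun x hx => ?_⟩
  have h1 : x ∈ zc (P : Subgroup PG) := RT_sub_zc P hu hP hx
  have h3 : α x ∈ zc (Q : Subgroup PG) := by
    rw [hQ, ← image_zc]
    exact ⟨x, h1, rfl⟩
  obtain ⟨s, hs, hsx⟩ := zc_even h2 Q hv0 hv h3
  obtain ⟨w, c, hvw, rfl⟩ := Qt_structure hv0 hs
  by_cases hw : ∀ k : F, w ≠ k • v
  · exfalso
    obtain ⟨a, rfl⟩ := mem_RT.mp hx
    have hsx' : α (pr l F (sympT u a)) = pr l F (SS v w * sympT v c) := hsx.symm
    exact no_rank_two h2 hl α hu hv0 hvw hw hsx'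
  · push Not at hw
    obtain ⟨k, rfl⟩ := hw
    refine mem_RT.mpr ⟨c, ?_⟩
    rw [← hsx]
    congr 1
    apply sp_ext
    intro y
    rw [ap_SS_T hvw, ap_sympT, sympForm_smul_right, smul_smul, add_assoc]
    congr 1
    rw [← add_smul]
    congr 1
    have e4 : c * sympForm y v + k * sympForm y v + sympForm y v * k = c * sympForm y v + 2 * (k * sympForm y v) := by ring
    rw [e4, h2, zero_mul, add_zero]

/-- The odd case. -/
theorem stepA_odd {p : ℕ} [Fact p.Prime] [CharP F p] (h2 : (2 : F) ≠ 0) (α : MulAut PG)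
    {u : l ⊕ l → F} (hu : u ≠ 0) : ∃ v : l ⊕ l → F, v ≠ 0 ∧ ∀ x ∈ RT u, α x ∈ RT v := by
  obtain ⟨P, hP⟩ := exists_sylow_fix (p := p) hu
  obtain ⟨Q, hQ⟩ := exists_sylow_map P α
  obtain ⟨v, hv0, hv⟩ := exists_fix (p := p) Q.isPGroup'
  refine ⟨v, hv0, fun x hx => ?_⟩
  have h1 : x ∈ zc (P : Subgroup PG) := RT_sub_zc P hu hP hx
  have h3 : α x ∈ zc (Q : Subgroup PG) := by
    rw [hQ, ← image_zc]
    exact ⟨x, h1, rfl⟩
  exact zc_odd h2 Q hv0 hv h3

end Cfsg.Agent.Lead.AutPSp
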