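import Cfsg.Agent.Lib.Lead.AutPSpStd
/-! The exceptional endomorphism of `Sp₄` in characteristic two, from `2 × 2` minors. -/
set_option autoImplicit false
set_option linter.style.haveILetI false
set_option linter.unusedSimpArgs false
set_option linter.unusedSectionVars false
set_option linter.unusedVariables false
namespace Cfsg.Agent.Lead.AutPSp
open Matrix

variable {F : Type*} [Field F]

/-- the index type -/
abbrev I4 : Type := Fin 2 ⊕ Fin 2

abbrev iA : I4 := Sum.inl 0
abbrev iB : I4 := Sum.inl 1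
abbrev iC : I4 := Sum.inr 0
abbrev iD : I4 := Sum.inr 1

/-- first index of the pair attached to a basis vector: `ab, ad, cd, bc` -/
def pA : I4 → I4
  | Sum.inl 0 => iA
  | Sum.inl 1 => iA
  | Sum.inr 0 => iC
  | Sum.inr 1 => iB

/-- second index of the pair -/
def pB : I4 → I4
  | Sum.inl 0 => iB
  | Sum.inl 1 => iD
  | Sum.inr 0 => iD
  | Sum.inr 1 => iC

lemma pA_l0 : pA (Sum.inl 0) = iA := rfl
lemma pA_l1 : pA (Sum.inl 1) = iA := rfl
lemma pA_r0 : pA (Sum.inr 0) = iC := rfl
lemma pA_r1 : pA (Sum.inr 1) = iB := rfl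
lemma pB_l0 : pB (Sum.inl 0) = iB := rfl
lemma pB_l1 : pB (Sum.inl 1) = iD := rfl
lemma pB_r0 : pB (Sum.inr 0) = iD := rfl
lemma pB_r1 : pB (Sum.inr 1) = iC := rfl

/-- a `2 × 2` minor -/
def mn (g : Matrix I4 I4 F) (i j k l : I4) : F := g i k * g j l - g i l * g j k

/-- the compound matrix on the four chosen indices -/
def psiM (g : Matrix I4 I4 F) : Matrix I4 I4 F := fun k m => mn g (pA k) (pB k) (pA m) (pB m)

lemma sum_I4 (f : I4 → F) : ∑ t, f t = f iA + f iB + f iC + f iD := by
  rw [Fintype.sum_sum_type, Fin.sum_univ_two, Fin.sum_univ_two]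
  ring

/-- Cauchy–Binet for `2 × 2` minors -/
lemma mn_mul (g h : Matrix I4 I4 F) (i j k l : I4) :
    mn (g * h) i j k l =
      mn g i j iA iB * mn h iA iB k l + mn g i j iA iC * mn h iA iC k l + mn g i j iA iD * mn h iA iD k l +
      mn g i j iB iC * mn h iB iC k l + mn g i j iB iD * mn h iB iD k l + mn g i j iC iD * mn h iC iD k l := by
  simp only [mn, Matrix.mul_apply, sum_I4]
  ring

lemma J_ll (i j : Fin 2) : Matrix.J (Fin 2) F (Sum.inl i) (Sum.inl j) = 0 := by
  simp [Matrix.J]

lemma J_rr (i j : Fin 2) : Matrix.J (Fin 2) F (Sum.inr i) (Sum.inr j) = 0 := by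
  simp [Matrix.J]

lemma J_lr (i j : Fin 2) : Matrix.J (Fin 2) F (Sum.inl i) (Sum.inr j) = if i = j then -1 else 0 := by
  by_cases h : i = j
  · subst h; simp [Matrix.J]
  · simp [Matrix.J, h, Matrix.one_apply]

lemma J_rl (i j : Fin 2) : Matrix.J (Fin 2) F (Sum.inr i) (Sum.inl j) = if i = j then 1 else 0 := by
  by_cases h : i = j
  · subst h; simp [Matrix.J]
  · simp [Matrix.J, h, Matrix.one_apply]

/-- the relations between rows of a symplectic matrix -/
lemma rel_rows {g : Matrix I4 I4 F} (hg : g ∈ symplecticGroup (Fin 2) F) (i j : I4) :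
    mn g i j iC iA + mn g i j iD iB = Matrix.J (Fin 2) F i j := by
  have h := congrFun (congrFun (SymplecticGroup.mem_iff.mp hg) i) j
  rw [← h]
  simp only [Matrix.mul_apply, sum_I4, Matrix.transpose_apply, J_ll, J_rr, J_lr, J_rl, mn]
  simp
  ring

/-- the relations between columns of a symplectic matrix -/
lemma rel_cols {g : Matrix I4 I4 F} (hg : g ∈ symplecticGroup (Fin 2) F) (k l : I4) :
    mn g iC iA k l + mn g iD iB k l = Matrix.J (Fin 2) F k l := by
  have h := congrFun (congrFun (SymplecticGroup.mem_iff'.mp hg) k) l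
  rw [← h]
  simp only [Matrix.mul_apply, sum_I4, Matrix.transpose_apply, J_ll, J_rr, J_lr, J_rl, mn]
  simp
  ring

lemma J_pair (k : I4) : Matrix.J (Fin 2) F (pA k) (pB k) = 0 := by
  rcases k with (i | i) <;> fin_cases i <;> simp [pA, pB, J_ll, J_rr, J_lr, J_rl]

lemma rows_pair {g : Matrix I4 I4 F} (hg : g ∈ symplecticGroup (Fin 2) F) (k : I4) :
    mn g (pA k) (pB k) iC iA + mn g (pA k) (pB k) iD iB = 0 := by
  rw [rel_rows hg, J_pair]

lemma cols_pair {g : Matrix I4 I4 F} (hg : g ∈ symplecticGroup (Fin 2) F) (k : I4) :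
    mn g iC iA (pA k) (pB k) + mn g iD iB (pA k) (pB k) = 0 := by
  rw [rel_cols hg, J_pair]

section Two
variable (h2 : (2 : F) = 0)
include h2

/-- multiplicativity -/
lemma psiM_mul {g h : Matrix I4 I4 F} (hg : g ∈ symplecticGroup (Fin 2) F) (hh : h ∈ symplecticGroup (Fin 2) F) :
    psiM (g * h) = psiM g * psiM h := by
  ext k m
  have e1 : (psiM g * psiM h) k m = psiM g k iA * psiM h iA m + psiM g k iB * psiM h iB m +
      psiM g k iC * psiM h iC m + psiM g k iD * psiM h iD m := by
    rw [Matrix.mul_apply, sum_I4]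
  rw [e1]
  change mn (g * h) (pA k) (pB k) (pA m) (pB m) = _
  rw [mn_mul]
  have hr := rows_pair hg k
  have hc := cols_pair hh m
  -- `iA = (a, b)`, `iB = (a, d)`, `iC = (c, d)`, `iD = (b, c)`
  have hA : ∀ x : I4, psiM g x iA = mn g (pA x) (pB x) iA iB := fun x => rfl
  have hB : ∀ x : I4, psiM g x iB = mn g (pA x) (pB x) iA iD := fun x => rfl
  have hC : ∀ x : I4, psiM g x iC = mn g (pA x) (pB x) iC iD := fun x => rfl
  have hD : ∀ x : I4, psiM g x iD = mn g (pA x) (pB x) iB iC := fun x => rfl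
  have kA : ∀ x : I4, psiM h iA x = mn h iA iB (pA x) (pB x) := fun x => rfl
  have kB : ∀ x : I4, psiM h iB x = mn h iA iD (pA x) (pB x) := fun x => rfl
  have kC : ∀ x : I4, psiM h iC x = mn h iC iD (pA x) (pB x) := fun x => rfl
  have kD : ∀ x : I4, psiM h iD x = mn h iB iC (pA x) (pB x) := fun x => rfl
  rw [hA, hB, hC, hD, kA, kB, kC, kD]
  -- antisymmetry of minors
  have a1 : mn g (pA k) (pB k) iC iA = - mn g (pA k) (pB k) iA iC := by simp only [mn]; ring
  have a2 : mn g (pA k) (pB k) iD iB = - mn g (pA k) (pB k) iB iD := by simp only [mn]; ring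
  have a3 : mn h iC iA (pA m) (pB m) = - mn h iA iC (pA m) (pB m) := by simp only [mn]; ring
  have a4 : mn h iD iB (pA m) (pB m) = - mn h iB iD (pA m) (pB m) := by simp only [mn]; ring
  rw [a1, a2] at hr
  rw [a3, a4] at hc
  have hr' : mn g (pA k) (pB k) iA iC = - mn g (pA k) (pB k) iB iD := by linear_combination -hr
  have hc' : mn h iA iC (pA m) (pB m) = - mn h iB iD (pA m) (pB m) := by linear_combination -hc
  rw [hr', hc']
  linear_combination (mn g (pA k) (pB k) iB iD * mn h iB iD (pA m) (pB m)) * h2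

/-- the Laplace expansion along the first two columns -/
def lap (p q r s : I4 → F) : F :=
  (p iA * q iB - p iB * q iA) * (r iC * s iD - r iD * s iC) -
  (p iA * q iC - p iC * q iA) * (r iB * s iD - r iD * s iB) +
  (p iA * q iD - p iD * q iA) * (r iB * s iC - r iC * s iB) +
  (p iB * q iC - p iC * q iB) * (r iA * s iD - r iD * s iA) -
  (p iB * q iD - p iD * q iB) * (r iA * s iC - r iC * s iA) +
  (p iC * q iD - p iD * q iC) * (r iA * s iB - r iB * s iA)

omit h2 in
lemma lap_rep1 (p q s : I4 → F) : lap p q p s = 0 := by simp only [lap]; ring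
omit h2 in
lemma lap_rep2 (p q s : I4 → F) : lap p q q s = 0 := by simp only [lap]; ring
omit h2 in
lemma lap_rep3 (p q r : I4 → F) : lap p q r p = 0 := by simp only [lap]; ring
omit h2 in
lemma lap_rep4 (p q r : I4 → F) : lap p q r q = 0 := by simp only [lap]; ring

/-- in characteristic two the symplectic form on minors is the Laplace expansion -/
lemma E_eq_lap (p q r s : I4 → F)
    (hK : (p iC * q iA - p iA * q iC) + (p iD * q iB - p iB * q iD) = 0)
    (hL : (r iC * s iA - r iA * s iC) + (r iD * s iB - r iB * s iD) = 0) :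
    (p iC * q iD - p iD * q iC) * (r iA * s iB - r iB * s iA) -
      (p iA * q iB - p iB * q iA) * (r iC * s iD - r iD * s iC) +
      (p iB * q iC - p iC * q iB) * (r iA * s iD - r iD * s iA) -
      (p iA * q iD - p iD * q iA) * (r iB * s iC - r iC * s iB) = lap p q r s := by
  simp only [lap]
  linear_combination (-(p iA * q iB - p iB * q iA) * (r iC * s iD - r iD * s iC)
    - (p iA * q iD - p iD * q iA) * (r iB * s iC - r iC * s iB)
    - (p iB * q iD - p iD * q iB) * (r iB * s iD - r iD * s iB)) * h2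
    - (r iB * s iD - r iD * s iB) * hK - (p iB * q iD - p iD * q iB) * hL

/-- the determinant of a symplectic matrix, in Laplace form, is one -/
lemma lap_det {g : Matrix I4 I4 F} (hg : g ∈ symplecticGroup (Fin 2) F) :
    lap (fun i => g i iA) (fun i => g i iB) (fun i => g i iC) (fun i => g i iD) = 1 := by
  have h1 := rel_cols hg iA iB
  have h2' := rel_cols hg iC iD
  have h3 := rel_cols hg iA iC
  have h4 := rel_cols hg iB iD
  have h5 := rel_cols hg iA iD
  have h6 := rel_cols hg iB iC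
  simp only [J_ll, J_rr, J_lr, J_rl] at h1 h2' h3 h4 h5 h6
  simp only [if_true, zero_ne_one, if_false, one_ne_zero] at h3 h4 h5 h6
  simp only [mn] at h1 h2' h3 h4 h5 h6
  simp only [lap]
  have hpf : (g iC iA * g iA iB - g iC iB * g iA iA + (g iD iA * g iB iB - g iD iB * g iB iA)) *
        (g iC iC * g iA iD - g iC iD * g iA iC + (g iD iC * g iB iD - g iD iD * g iB iC)) -
      (g iC iA * g iA iC - g iC iC * g iA iA + (g iD iA * g iB iC - g iD iC * g iB iA)) *
        (g iC iB * g iA iD - g iC iD * g iA iB + (g iD iB * g iB iD - g iD iD * g iB iB)) +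
      (g iC iA * g iA iD - g iC iD * g iA iA + (g iD iA * g iB iD - g iD iD * g iB iA)) *
        (g iC iB * g iA iC - g iC iC * g iA iB + (g iD iB * g iB iC - g iD iC * g iB iB)) =
      -(((g iA iA * g iB iB - g iB iA * g iA iB) * (g iC iC * g iD iD - g iD iC * g iC iD) -
        (g iA iA * g iC iB - g iC iA * g iA iB) * (g iB iC * g iD iD - g iD iC * g iB iD) +
        (g iA iA * g iD iB - g iD iA * g iA iB) * (g iB iC * g iC iD - g iC iC * g iB iD) +
        (g iB iA * g iC iB - g iC iA * g iB iB) * (g iA iC * g iD iD - g iD iC * g iA iD) -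
        (g iB iA * g iD iB - g iD iA * g iB iB) * (g iA iC * g iC iD - g iC iC * g iA iD) +
        (g iC iA * g iD iB - g iD iA * g iC iB) * (g iA iC * g iB iD - g iB iC * g iA iD))) := by
    ring
  rw [h1, h2', h3, h4, h5, h6] at hpf
  linear_combination hpf

/-- `psiM g` is symplectic -/
lemma psiM_mem {g : Matrix I4 I4 F} (hg : g ∈ symplecticGroup (Fin 2) F) : psiM g ∈ symplecticGroup (Fin 2) F := by
  rw [SymplecticGroup.mem_iff']
  ext k m
  have hKK := cols_pair hg k
  have hLL := cols_pair hg m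
  simp only [mn] at hKK hLL
  have e0 : ((psiM g)ᵀ * Matrix.J (Fin 2) F * psiM g) k m =
      (g iC (pA k) * g iD (pB k) - g iD (pA k) * g iC (pB k)) * (g iA (pA m) * g iB (pB m) - g iB (pA m) * g iA (pB m)) -
      (g iA (pA k) * g iB (pB k) - g iB (pA k) * g iA (pB k)) * (g iC (pA m) * g iD (pB m) - g iD (pA m) * g iC (pB m)) +
      (g iB (pA k) * g iC (pB k) - g iC (pA k) * g iB (pB k)) * (g iA (pA m) * g iD (pB m) - g iD (pA m) * g iA (pB m)) -
      (g iA (pA k) * g iD (pB k) - g iD (pA k) * g iA (pB k)) * (g iB (pA m) * g iC (pB m) - g iC (pA m) * g iB (pB m)) := by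
    simp only [Matrix.mul_apply, sum_I4, Matrix.transpose_apply, J_ll, J_rr, J_lr, J_rl]
    simp only [zero_ne_one, one_ne_zero, if_true, if_false]
    have hA : ∀ x : I4, psiM g iA x = mn g iA iB (pA x) (pB x) := fun x => rfl
    have hB : ∀ x : I4, psiM g iB x = mn g iA iD (pA x) (pB x) := fun x => rfl
    have hC : ∀ x : I4, psiM g iC x = mn g iC iD (pA x) (pB x) := fun x => rfl
    have hD : ∀ x : I4, psiM g iD x = mn g iB iC (pA x) (pB x) := fun x => rfl
    simp only [hA, hB, hC, hD, mn]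
    ring
  rw [e0]
  have e1 := E_eq_lap h2 (fun i => g i (pA k)) (fun i => g i (pB k)) (fun i => g i (pA m)) (fun i => g i (pB m))
    (by linear_combination hKK) (by linear_combination hLL)
  refine e1.trans ?_
  have hdet := lap_det h2 hg
  simp only [lap] at hdet
  have key : ∀ k m : I4, lap (fun i => g i (pA k)) (fun i => g i (pB k)) (fun i => g i (pA m)) (fun i => g i (pB m)) =
      Matrix.J (Fin 2) F k m := by
    simp only [Sum.forall, Fin.forall_fin_two, pA_l0, pA_l1, pA_r0, pA_r1, pB_l0, pB_l1, pB_r0, pB_r1,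
      J_ll, J_rr, J_lr, J_rl, zero_ne_one, one_ne_zero, if_true, if_false, lap]
    refine ⟨⟨⟨⟨?_, ?_⟩, ?_, ?_⟩, ⟨?_, ?_⟩, ?_, ?_⟩, ⟨⟨?_, ?_⟩, ?_, ?_⟩, ⟨?_, ?_⟩, ?_, ?_⟩
    all_goals first
      | ring1
      | linear_combination hdet
      | linear_combination hdet + h2
  exact key k m

/-- the endomorphism -/
def psiHom : symplecticGroup (Fin 2) F →* symplecticGroup (Fin 2) F where
  toFun s := ⟨psiM s.1, psiM_mem h2 s.2⟩
  map_one' := by
    apply Subtype.ext
    change psiM (1 : Matrix I4 I4 F) = 1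
    ext k m
    revert k m
    simp only [Sum.forall, Fin.forall_fin_two, psiM, mn]
    simp [Matrix.one_apply, pA_l0, pA_l1, pA_r0, pA_r1, pB_l0, pB_l1, pB_r0, pB_r1]
  map_mul' s t := by
    apply Subtype.ext
    exact psiM_mul h2 s.2 t.2

end Two

lemma form_single_inl (i : Fin 2) (u : I4 → F) : sympForm (Pi.single (Sum.inl i) 1 : I4 → F) u = - u (Sum.inr i) := by
  rw [sympForm_apply]
  simp [Pi.single_apply, Fin.sum_univ_two]

lemma form_single_inr (i : Fin 2) (u : I4 → F) : sympForm (Pi.single (Sum.inr i) 1 : I4 → F) u = u (Sum.inl i) := by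
  rw [sympForm_apply]
  simp [Pi.single_apply, Fin.sum_univ_two]

/-- entries from the action -/
lemma entry_ap (s : symplecticGroup (Fin 2) F) (i j : I4) :
    (s : Matrix I4 I4 F) i j = ap s (Pi.single j 1) i := by
  simp [ap, Matrix.mulVec_single_one]

lemma sympT_apply (u : I4 → F) (a : F) (i j : I4) :
    ((sympT u a : symplecticGroup (Fin 2) F) : Matrix I4 I4 F) i j =
      (if i = j then 1 else 0) + a * sympForm (Pi.single j 1 : I4 → F) u * u i := by
  rw [entry_ap, ap_sympT]
  simp [Pi.single_apply]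

lemma SS_apply {v w : I4 → F} (h : sympForm v w = 0) (i j : I4) :
    ((SS v w : symplecticGroup (Fin 2) F) : Matrix I4 I4 F) i j =
      (if i = j then 1 else 0) + sympForm (Pi.single j 1 : I4 → F) w * v i + sympForm (Pi.single j 1 : I4 → F) v * w i := by
  rw [entry_ap, ap_SS h]
  simp [Pi.single_apply]

/-- the basic vectors -/
def e0 : I4 → F := Pi.single iA 1
def e1 : I4 → F := Pi.single iB 1

lemma e0_e1 : sympForm (e0 : I4 → F) (e1 : I4 → F) = 0 := by
  rw [e0, form_single_inl]
  simp [e1]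

lemma e0_smul_e1 (a : F) : sympForm (e0 : I4 → F) (a • (e1 : I4 → F)) = 0 := by
  rw [sympForm_smul_right, e0_e1, mul_zero]

/-- the image of a long root element -/
lemma psi_T0 (h2 : (2 : F) = 0) (a : F) : psiHom h2 (sympT e0 a) = SS e0 (a • e1) := by
  apply Subtype.ext
  change psiM ((sympT e0 a : symplecticGroup (Fin 2) F) : Matrix I4 I4 F) = _
  ext k m
  revert k m
  simp only [Sum.forall, Fin.forall_fin_two, psiM, mn]
  simp only [pA_l0, pA_l1, pA_r0, pA_r1, pB_l0, pB_l1, pB_r0, pB_r1, sympT_apply, SS_apply (e0_smul_e1 a), form_single_inl, form_single_inr]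
  simp only [e0, e1, Pi.smul_apply, Pi.single_apply, smul_eq_mul]
  simp
  linear_combination (-a) * h2

/-- the image of a short root element -/
lemma psi_S0 (h2 : (2 : F) = 0) (a : F) : psiHom h2 (SS e0 (a • e1)) = sympT e0 (a ^ 2) := by
  apply Subtype.ext
  change psiM ((SS e0 (a • e1) : symplecticGroup (Fin 2) F) : Matrix I4 I4 F) = _
  ext k m
  revert k m
  simp only [Sum.forall, Fin.forall_fin_two, psiM, mn]
  simp only [pA_l0, pA_l1, pA_r0, pA_r1, pB_l0, pB_l1, pB_r0, pB_r1, sympT_apply, SS_apply (e0_smul_e1 a), form_single_inl, form_single_inr]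
  simp only [e0, e1, Pi.smul_apply, Pi.single_apply, smul_eq_mul]
  simp
  linear_combination (-(a ^ 2)) * h2

/-- four entries of the image of a transvection -/
lemma psi_entries (u : I4 → F) :
    psiM ((sympT u 1 : symplecticGroup (Fin 2) F) : Matrix I4 I4 F) iA iD = - (u iA) ^ 2 ∧
    psiM ((sympT u 1 : symplecticGroup (Fin 2) F) : Matrix I4 I4 F) iA iB = (u iB) ^ 2 ∧
    psiM ((sympT u 1 : symplecticGroup (Fin 2) F) : Matrix I4 I4 F) iC iB = - (u iC) ^ 2 ∧
    psiM ((sympT u 1 : symplecticGroup (Fin 2) F) : Matrix I4 I4 F) iC iD = (u iD) ^ 2 := by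
  simp only [psiM, mn, pA_l0, pA_l1, pA_r0, pA_r1, pB_l0, pB_l1, pB_r0, pB_r1, sympT_apply, form_single_inl, form_single_inr]
  simp
  refine ⟨?_, ?_, ?_, ?_⟩ <;> ring

lemma psi_T0_aux (h2 : (2 : F) = 0) : psiHom h2 (SS e0 ((1 : F) • e1)) = sympT e0 1 := by
  rw [psi_S0, one_pow]

lemma sq_inj_two (h2 : (2 : F) = 0) {x y : F} (h : x ^ 2 = y ^ 2) : x = y := by
  have : (x - y) ^ 2 = 0 := by linear_combination h + (y ^ 2 - x * y) * h2
  exact sub_eq_zero.mp (pow_eq_zero_iff two_ne_zero |>.mp this)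

/-- the exceptional map is injective -/
lemma psi_inj (h2 : (2 : F) = 0) : Function.Injective (psiHom h2) := by
  rw [injective_iff_map_eq_one]
  intro s hs
  apply sp_ext
  intro u
  have h1 : psiHom h2 (sympT (ap s u) 1) = psiHom h2 (sympT u 1) := by
    rw [← conj_sympT', map_mul, map_mul, map_inv, hs]
    simp
  have h3 : psiM ((sympT (ap s u) 1 : symplecticGroup (Fin 2) F) : Matrix I4 I4 F) = psiM ((sympT u 1 : symplecticGroup (Fin 2) F) : Matrix I4 I4 F) :=
    congrArg Subtype.val h1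
  obtain ⟨a1, a2, a3, a4⟩ := psi_entries (ap s u)
  obtain ⟨b1, b2, b3, b4⟩ := psi_entries u
  rw [h3] at a1 a2 a3 a4
  have e1 : ap s u iA = u iA := sq_inj_two h2 (by linear_combination a1 - b1)
  have e2 : ap s u iB = u iB := sq_inj_two h2 (by linear_combination b2 - a2)
  have e3 : ap s u iC = u iC := sq_inj_two h2 (by linear_combination a3 - b3)
  have e4 : ap s u iD = u iD := sq_inj_two h2 (by linear_combination b4 - a4)
  rw [ap_one]
  funext i
  rcases i with (i | i) <;> fin_cases i
  · exact e1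
  · exact e2
  · exact e3
  · exact e4

variable [Finite F]

/-- the exceptional automorphism of `Sp₄` -/
noncomputable def psiAut (h2 : (2 : F) = 0) : MulAut (symplecticGroup (Fin 2) F) :=
  MulEquiv.ofBijective (psiHom h2) ⟨psi_inj h2, Finite.surjective_of_injective (psi_inj h2)⟩

/-- the exceptional automorphism of `PSp₄` -/
noncomputable def psiB (h2 : (2 : F) = 0) :
    MulAut (symplecticGroup (Fin 2) F ⧸ Subgroup.center (symplecticGroup (Fin 2) F)) :=
  liftC (psiAut h2)

lemma psiB_pr (h2 : (2 : F) = 0) (s : symplecticGroup (Fin 2) F) :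
    psiB h2 (pr (Fin 2) F s) = pr (Fin 2) F (psiHom h2 s) := rfl

end Cfsg.Agent.Lead.AutPSp
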