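import Cfsg.Agent.Lib.Lead.AutPSpBase
import Cfsg.Prelude.Def_LieTypeDatum
/-! Automorphisms of `PSp` induced by semisimilarities. -/
set_option autoImplicit false
set_option linter.style.haveILetI false
set_option linter.unusedSimpArgs false
set_option linter.unusedSectionVars false
set_option linter.unusedVariables false
namespace Cfsg.Agent.Lead.AutPSp
open Matrix
open scoped LinearAlgebra.Projectivization Pointwise

variable {l : Type*} [Fintype l] [DecidableEq l] {F : Type*} [Field F]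

/-- automorphisms descend to the quotient by the centre -/
noncomputable def liftC {H : Type*} [Group H] : MulAut H →* MulAut (H ⧸ Subgroup.center H) where
  toFun e := QuotientGroup.congr _ _ e
    (Subgroup.characteristic_iff_map_eq.mp inferInstance e)
  map_one' := by
    ext x
    induction x using QuotientGroup.induction_on with
    | H s => rfl
  map_mul' e e' := by
    ext x
    induction x using QuotientGroup.induction_on with
    | H s => rfl

@[simp] lemma liftC_mk {H : Type*} [Group H] (e : MulAut H) (s : H) :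
    liftC e (s : H ⧸ Subgroup.center H) = ((e s : H) : H ⧸ Subgroup.center H) := rfl

/-- apply a field automorphism to the coordinates -/
def smap (σ : F ≃+* F) (x : l ⊕ l → F) : l ⊕ l → F := fun i => σ (x i)

lemma smap_add (σ : F ≃+* F) (x y : l ⊕ l → F) : smap σ (x + y) = smap σ x + smap σ y := by
  funext i; simp [smap]

lemma smap_smul (σ : F ≃+* F) (c : F) (x : l ⊕ l → F) : smap σ (c • x) = σ c • smap σ x := by
  funext i; simp [smap]

lemma smap_symm (σ : F ≃+* F) (x : l ⊕ l → F) : smap σ (smap σ.symm x) = x := by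
  funext i; simp [smap]

lemma smap_symm' (σ : F ≃+* F) (x : l ⊕ l → F) : smap σ.symm (smap σ x) = x := by
  funext i; simp [smap]

lemma smap_zero (σ : F ≃+* F) : smap σ (0 : l ⊕ l → F) = 0 := by
  funext i; simp [smap]

lemma form_smap (σ : F ≃+* F) (x y : l ⊕ l → F) : sympForm (smap σ x) (smap σ y) = σ (sympForm x y) := by
  simp only [sympForm_apply, map_sum, map_sub, map_mul, smap]

lemma map_mulVec_smap (σ : F ≃+* F) (M : Matrix (l ⊕ l) (l ⊕ l) F) (x : l ⊕ l → F) :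
    (M.map σ) *ᵥ smap σ x = smap σ (M *ᵥ x) := by
  funext i
  simp only [Matrix.mulVec, dotProduct, smap, map_sum, map_mul, Matrix.map_apply]

/-- a matrix preserving the form is symplectic -/
lemma mem_sp_of_form {A : Matrix (l ⊕ l) (l ⊕ l) F} (h : ∀ x y, sympForm (A *ᵥ x) (A *ᵥ y) = sympForm x y) :
    A ∈ symplecticGroup l F := by
  rw [SymplecticGroup.mem_iff']
  apply mat_ext_mulVec
  intro y
  apply dotProduct_eq
  intro x
  rw [dotProduct_comm, dotProduct_comm _ x]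
  have := h x y
  unfold sympForm at this
  rw [← this, Matrix.mul_assoc, ← Matrix.mulVec_mulVec, ← Matrix.mulVec_mulVec, Matrix.dotProduct_mulVec,
    vecMul_transpose]

/-- data of a semisimilarity in matrix form -/
structure SemiSim (g : GL (l ⊕ l) F) (σ : F ≃+* F) (c : F) : Prop where
  hc : c ≠ 0
  form : ∀ x y, sympForm ((g : Matrix (l ⊕ l) (l ⊕ l) F) *ᵥ x) ((g : Matrix (l ⊕ l) (l ⊕ l) F) *ᵥ y) = c * sympForm x y

lemma gl_mul_inv' (g : GL (l ⊕ l) F) :
    (g : Matrix (l ⊕ l) (l ⊕ l) F) * ((g⁻¹ : GL (l ⊕ l) F) : Matrix (l ⊕ l) (l ⊕ l) F) = 1 := by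
  rw [← Units.val_mul, mul_inv_cancel, Units.val_one]

lemma gl_inv_mul' (g : GL (l ⊕ l) F) :
    ((g⁻¹ : GL (l ⊕ l) F) : Matrix (l ⊕ l) (l ⊕ l) F) * (g : Matrix (l ⊕ l) (l ⊕ l) F) = 1 := by
  rw [← Units.val_mul, inv_mul_cancel, Units.val_one]

section Conj
variable {g : GL (l ⊕ l) F} {σ : F ≃+* F} {c : F} (H : SemiSim g σ c)
include H

lemma form_inv (x y : l ⊕ l → F) :
    sympForm (((g⁻¹ : GL (l ⊕ l) F) : Matrix (l ⊕ l) (l ⊕ l) F) *ᵥ x) y =
      c⁻¹ * sympForm x ((g : Matrix (l ⊕ l) (l ⊕ l) F) *ᵥ y) := by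
  have h1 := H.form (((g⁻¹ : GL (l ⊕ l) F) : Matrix (l ⊕ l) (l ⊕ l) F) *ᵥ x) y
  rw [Matrix.mulVec_mulVec, gl_mul_inv', Matrix.one_mulVec] at h1
  rw [h1, inv_mul_cancel_left₀ H.hc]

/-- the matrix of `g σ(s) g⁻¹` -/
lemma cMat_mem (s : symplecticGroup l F) :
    (g : Matrix (l ⊕ l) (l ⊕ l) F) * (s : Matrix (l ⊕ l) (l ⊕ l) F).map σ *
      ((g⁻¹ : GL (l ⊕ l) F) : Matrix (l ⊕ l) (l ⊕ l) F) ∈ symplecticGroup l F := by
  apply mem_sp_of_form
  intro x y
  have h0 : ∀ z : l ⊕ l → F, ((g : Matrix (l ⊕ l) (l ⊕ l) F) * (s : Matrix (l ⊕ l) (l ⊕ l) F).map σ *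
      ((g⁻¹ : GL (l ⊕ l) F) : Matrix (l ⊕ l) (l ⊕ l) F)) *ᵥ z =
      (g : Matrix (l ⊕ l) (l ⊕ l) F) *ᵥ smap σ (ap s (smap σ.symm (((g⁻¹ : GL (l ⊕ l) F) : Matrix (l ⊕ l) (l ⊕ l) F) *ᵥ z))) := by
    intro z
    rw [ap, ← map_mulVec_smap, smap_symm, ← Matrix.mulVec_mulVec, ← Matrix.mulVec_mulVec]
  rw [h0, h0, H.form, form_smap, form_ap, ← form_smap, smap_symm, smap_symm, ← H.form, Matrix.mulVec_mulVec,
    Matrix.mulVec_mulVec, gl_mul_inv', Matrix.one_mulVec, Matrix.one_mulVec]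

/-- the homomorphism `s ↦ g σ(s) g⁻¹` -/
def cHom (H : SemiSim g σ c) : symplecticGroup l F →* symplecticGroup l F where
  toFun s := ⟨_, cMat_mem H s⟩
  map_one' := by
    apply Subtype.ext
    change (g : Matrix (l ⊕ l) (l ⊕ l) F) * (1 : Matrix (l ⊕ l) (l ⊕ l) F).map σ * _ = 1
    rw [Matrix.map_one _ (map_zero σ) (map_one σ), Matrix.mul_one, gl_mul_inv']
  map_mul' s t := by
    apply Subtype.ext
    change (g : Matrix (l ⊕ l) (l ⊕ l) F) * ((s : Matrix (l ⊕ l) (l ⊕ l) F) * (t : Matrix (l ⊕ l) (l ⊕ l) F)).map σ * _ =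
      ((g : Matrix (l ⊕ l) (l ⊕ l) F) * (s : Matrix (l ⊕ l) (l ⊕ l) F).map σ * _) *
      ((g : Matrix (l ⊕ l) (l ⊕ l) F) * (t : Matrix (l ⊕ l) (l ⊕ l) F).map σ * _)
    rw [Matrix.map_mul]
    simp only [Matrix.mul_assoc]
    rw [← Matrix.mul_assoc ((g⁻¹ : GL (l ⊕ l) F) : Matrix (l ⊕ l) (l ⊕ l) F) (g : Matrix (l ⊕ l) (l ⊕ l) F), gl_inv_mul', Matrix.one_mul]

lemma ap_cHom (s : symplecticGroup l F) (x : l ⊕ l → F) :
    ap (cHom H s) x = (g : Matrix (l ⊕ l) (l ⊕ l) F) *ᵥ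
      smap σ (ap s (smap σ.symm (((g⁻¹ : GL (l ⊕ l) F) : Matrix (l ⊕ l) (l ⊕ l) F) *ᵥ x))) := by
  change ((g : Matrix (l ⊕ l) (l ⊕ l) F) * (s : Matrix (l ⊕ l) (l ⊕ l) F).map σ *
      ((g⁻¹ : GL (l ⊕ l) F) : Matrix (l ⊕ l) (l ⊕ l) F)) *ᵥ x = _
  rw [ap, ← map_mulVec_smap, smap_symm, ← Matrix.mulVec_mulVec, ← Matrix.mulVec_mulVec]

lemma cHom_inj : Function.Injective (cHom H) := by
  rw [injective_iff_map_eq_one]
  intro s hs
  apply sp_ext
  intro x
  have h1 := congrArg (fun t => ap t ((g : Matrix (l ⊕ l) (l ⊕ l) F) *ᵥ smap σ x)) hs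
  simp only [ap_cHom, ap_one, Matrix.mulVec_mulVec, gl_inv_mul', Matrix.one_mulVec, smap_symm'] at h1
  have h2 : smap σ (ap s x) = smap σ x := by
    have h3 := congrArg (fun z => ((g⁻¹ : GL (l ⊕ l) F) : Matrix (l ⊕ l) (l ⊕ l) F) *ᵥ z) h1
    simpa [Matrix.mulVec_mulVec, gl_inv_mul', Matrix.one_mulVec] using h3
  have h4 := congrArg (smap σ.symm) h2
  rw [smap_symm', smap_symm'] at h4
  rw [h4, ap_one]

/-- the image of a transvection -/
lemma cHom_sympT (u : l ⊕ l → F) (a : F) :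
    cHom H (sympT u a) = sympT ((g : Matrix (l ⊕ l) (l ⊕ l) F) *ᵥ smap σ u) (c⁻¹ * σ a) := by
  apply sp_ext
  intro x
  rw [ap_cHom, ap_sympT, ap_sympT, smap_add, smap_smul, smap_symm, Matrix.mulVec_add, Matrix.mulVec_smul,
    Matrix.mulVec_mulVec, gl_mul_inv', Matrix.one_mulVec]
  congr 2
  rw [map_mul]
  have h1 : σ (sympForm (smap σ.symm (((g⁻¹ : GL (l ⊕ l) F) : Matrix (l ⊕ l) (l ⊕ l) F) *ᵥ x)) u) =
      sympForm (((g⁻¹ : GL (l ⊕ l) F) : Matrix (l ⊕ l) (l ⊕ l) F) *ᵥ x) (smap σ u) := by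
    rw [← form_smap, smap_symm]
  rw [h1, form_inv H]
  ring

end Conj

section Fin
variable [Finite F]

/-- the automorphism of `Sp` -/
noncomputable def cAut {g : GL (l ⊕ l) F} {σ : F ≃+* F} {c : F} (H : SemiSim g σ c) : MulAut (symplecticGroup l F) :=
  MulEquiv.ofBijective (cHom H) ⟨cHom_inj H, Finite.surjective_of_injective (cHom_inj H)⟩

/-- the automorphism of `PSp` -/
noncomputable def cP {g : GL (l ⊕ l) F} {σ : F ≃+* F} {c : F} (H : SemiSim g σ c) :
    MulAut (symplecticGroup l F ⧸ Subgroup.center (symplecticGroup l F)) :=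
  liftC (cAut H)

lemma cP_pr {g : GL (l ⊕ l) F} {σ : F ≃+* F} {c : F} (H : SemiSim g σ c) (s : symplecticGroup l F) :
    cP H (pr l F s) = pr l F (cHom H s) := rfl

end Fin

/-- a semilinear map which is a semisimilarity has matrix form -/
lemma exists_semisim [Finite F] (σ : F ≃+* F) {c : F} (hc : c ≠ 0) (T : (l ⊕ l → F) → (l ⊕ l → F))
    (hadd : ∀ x y, T (x + y) = T x + T y) (hsmul : ∀ (a : F) x, T (a • x) = σ a • T x)
    (hform : ∀ x y, sympForm (T x) (T y) = c * σ (sympForm x y)) :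
    ∃ g : GL (l ⊕ l) F, SemiSim g σ c ∧ ∀ x, T x = (g : Matrix (l ⊕ l) (l ⊕ l) F) *ᵥ smap σ x := by
  classical
  let M : Matrix (l ⊕ l) (l ⊕ l) F := Matrix.of fun i j => T (Pi.single j 1) i
  let TH : (l ⊕ l → F) →+ (l ⊕ l → F) := AddMonoidHom.mk' T hadd
  have hM : ∀ x, T x = M *ᵥ smap σ x := by
    intro x
    have e : x = ∑ j, x j • (Pi.single j 1 : l ⊕ l → F) := by
      funext i
      simp only [Finset.sum_apply, Pi.smul_apply, Pi.single_apply, smul_eq_mul, mul_ite, mul_one, mul_zero,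
        Finset.sum_ite_eq, Finset.mem_univ, if_true]
    conv_lhs => rw [e]
    have e2 : T (∑ j, x j • (Pi.single j 1 : l ⊕ l → F)) = ∑ j, T (x j • (Pi.single j 1 : l ⊕ l → F)) :=
      map_sum TH _ _
    rw [e2]
    funext i
    simp only [hsmul, Finset.sum_apply, Pi.smul_apply, smul_eq_mul, Matrix.mulVec, dotProduct, smap, M, Matrix.of_apply]
    exact Finset.sum_congr rfl fun j _ => mul_comm _ _
  have hform' : ∀ x y, sympForm (M *ᵥ x) (M *ᵥ y) = c * sympForm x y := by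
    intro x y
    have h1 := hform (smap σ.symm x) (smap σ.symm y)
    rw [hM, hM, smap_symm, smap_symm, ← form_smap, smap_symm, smap_symm] at h1
    exact h1
  have hinj : Function.Injective M.mulVec := by
    intro x y hxy
    rw [← sub_eq_zero]
    by_contra hne
    obtain ⟨z, hz⟩ := sympForm_nondeg hne
    have h1 : sympForm (M *ᵥ (x - y)) (M *ᵥ z) = 0 := by
      rw [Matrix.mulVec_sub]
      have : M *ᵥ x = M *ᵥ y := hxy
      rw [this, sub_self, sympForm_zero_left]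
    rw [hform'] at h1
    exact (mul_ne_zero hc hz) h1
  have hu : IsUnit M := Matrix.mulVec_injective_iff_isUnit.mp hinj
  obtain ⟨g, hg⟩ := hu
  refine ⟨g, ⟨hc, ?_⟩, ?_⟩
  · rw [hg]; exact hform'
  · rw [hg]; exact hM

end Cfsg.Agent.Lead.AutPSp
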