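import Cfsg.Agent.Lib.Lead.AutPSpEven
import Cfsg.Agent.Lib.Lead.AutPSpInd
/-! The automorphism group of `PSp`. -/
set_option autoImplicit false
set_option linter.style.haveILetI false
set_option linter.unusedSimpArgs false
set_option linter.unusedSectionVars false
set_option linter.unusedVariables false
namespace Cfsg.Agent.Lead.AutPSp
open Matrix
open scoped LinearAlgebra.Projectivization Pointwise

variable {F : Type*} [Field F] [Fintype F] {m : ℕ}

local notation "PG" => (symplecticGroup (Fin m) F ⧸ Subgroup.center (symplecticGroup (Fin m) F))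

/-- if every automorphism maps root groups into root groups, then each is semilinear -/
theorem semilinear_of_stepA (hm : 2 ≤ m)
    (α : MulAut PG)
    (hA : ∀ u : Fin m ⊕ Fin m → F, u ≠ 0 → ∃ v : Fin m ⊕ Fin m → F, v ≠ 0 ∧ ∀ x ∈ RT u, α x ∈ RT v)
    (hA' : ∀ u : Fin m ⊕ Fin m → F, u ≠ 0 → ∃ v : Fin m ⊕ Fin m → F, v ≠ 0 ∧ ∀ x ∈ RT u, α⁻¹ x ∈ RT v) :
    ∃ (g : GL (Fin m ⊕ Fin m) F) (σ : F ≃+* F) (c : F) (H : SemiSim g σ c), α = cP H := by
  classical
  haveI : Nonempty (Fin m) := ⟨⟨0, by omega⟩⟩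
  choose φ₀ hφ₀ hφ₁ using fun (u : {u : Fin m ⊕ Fin m → F // u ≠ 0}) => hA u.1 u.2
  let φ : (Fin m ⊕ Fin m → F) → (Fin m ⊕ Fin m → F) := fun u => if h : u ≠ 0 then φ₀ ⟨u, h⟩ else 0
  have hφne : ∀ u (h : u ≠ 0), φ u = φ₀ ⟨u, h⟩ := fun u h => dif_pos h
  have h0 : ∀ x, x ≠ 0 → φ x ≠ 0 := fun x hx => by
    rw [hφne x hx]; exact hφ₀ ⟨x, hx⟩
  have hmem : ∀ u (h : u ≠ 0), ∀ x ∈ RT u, α x ∈ RT (φ u) := fun u hu x hx => by
    rw [hφne u hu]; exact hφ₁ ⟨u, hu⟩ x hx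
  have hs : ∀ y, y ≠ 0 → ∃ x, x ≠ 0 ∧ PolarFT.Par F y (φ x) := by
    intro y hy
    obtain ⟨x, hx, h1⟩ := hA' y hy
    refine ⟨x, hx, (par_of_RT_le hy ?_).symm'⟩
    intro z hz
    have h2 := hmem x hx _ (h1 z hz)
    have h3 : α (α⁻¹ z) = z := α.apply_symm_apply z
    rwa [h3] at h2
  have hroot : ∀ x (hx : x ≠ 0), ∃ b : F, b ≠ 0 ∧ α (pr (Fin m) F (sympT x 1)) = pr (Fin m) F (sympT (φ x) b) := by
    intro x hx
    obtain ⟨b, hb⟩ := mem_RT.mp (hmem x hx _ (mem_RT.mpr ⟨1, rfl⟩))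
    refine ⟨b, ?_, hb.symm⟩
    rintro rfl
    rw [sympT_zero, map_one] at hb
    have : pr (Fin m) F (sympT x 1) = 1 := α.injective (by rw [← hb, map_one])
    exact pr_sympT_ne_one one_ne_zero hx this
  have hω : ∀ x y, x ≠ 0 → y ≠ 0 → (sympForm x y = 0 ↔ sympForm (φ x) (φ y) = 0) := by
    intro x y hx hy
    obtain ⟨b, hb, e⟩ := hroot x hx
    obtain ⟨b', hb', e'⟩ := hroot y hy
    rw [← commute_pr_iff hx hy one_ne_zero one_ne_zero, ← commute_pr_iff (h0 x hx) (h0 y hy) hb hb', ← e, ← e']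
    constructor
    · intro h
      exact h.map α
    · intro h
      apply α.injective
      rw [map_mul, map_mul]
      exact h
  -- the frame
  let i0 : Fin m := ⟨0, by omega⟩
  let i1 : Fin m := ⟨1, by omega⟩
  have hi : i0 ≠ i1 := by
    intro h
    have := congrArg Fin.val h
    simp [i0, i1] at this
  have f1 : ∀ (a b : Fin m), sympForm (Pi.single (Sum.inr a) 1 : Fin m ⊕ Fin m → F) (Pi.single (Sum.inl b) 1) = if a = b then 1 else 0 := by
    intro a b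
    rw [sympForm_apply]
    simp [Pi.single_apply, Finset.sum_ite_eq, eq_comm]
  have f2 : ∀ (a b : Fin m), sympForm (Pi.single (Sum.inr a) 1 : Fin m ⊕ Fin m → F) (Pi.single (Sum.inr b) 1) = 0 := by
    intro a b
    rw [sympForm_apply]
    simp [Pi.single_apply]
  have f3 : ∀ (a b : Fin m), sympForm (Pi.single (Sum.inl a) 1 : Fin m ⊕ Fin m → F) (Pi.single (Sum.inl b) 1) = 0 := by
    intro a b
    rw [sympForm_apply]
    simp [Pi.single_apply]
  have f4 : ∀ (a b : Fin m), sympForm (Pi.single (Sum.inl a) 1 : Fin m ⊕ Fin m → F) (Pi.single (Sum.inr b) 1) = if a = b then -1 else 0 := by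
    intro a b
    rw [sympForm_swap, f1]
    by_cases hab : a = b
    · subst hab; simp
    · rw [if_neg hab, if_neg (Ne.symm hab), neg_zero]
  obtain ⟨σ, c, T, hc, hadd, hsmul, hT, hpar⟩ := PolarFT.exists_semisimilarity (F := F) isSF (φ := φ)
    (e := Pi.single (Sum.inr i0) 1) (f := Pi.single (Sum.inl i0) 1)
    (w₀ := Pi.single (Sum.inr i1) 1) (w₁ := Pi.single (Sum.inl i1) 1)
    (by rw [f1, if_pos rfl]) (by rw [f1, if_pos rfl]) (f2 _ _) (by rw [f1, if_neg hi])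
    (by rw [f4, if_neg hi]) (f3 _ _) h0 hs hω
  obtain ⟨g, H, hg⟩ := exists_semisim σ hc T hadd hsmul hT
  refine ⟨g, σ, c, H, ?_⟩
  have key : (cP H)⁻¹ * α = 1 := by
    apply eq_one_of_fix_RT
    intro u hu x hx
    have h1 := hmem u hu x hx
    have h2 : RT (φ u) = RT (T u) := RT_par (hpar u hu)
    rw [h2] at h1
    obtain ⟨b, hb⟩ := mem_RT.mp h1
    refine mem_RT.mpr ⟨σ.symm (c * b), ?_⟩
    have h3 : cP H (pr (Fin m) F (sympT u (σ.symm (c * b)))) = α x := by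
      rw [cP_pr, cHom_sympT H, ← hb, hg]
      congr 2
      rw [RingEquiv.apply_symm_apply, inv_mul_cancel_left₀ hc]
    change _ = (cP H).symm (α x)
    rw [← h3]
    exact ((cP H).symm_apply_apply _).symm
  have h5 := congrArg (fun t => cP H * t) key
  simp only [mul_inv_cancel_left, mul_one] at h5
  exact h5

/-- Every automorphism of `PSp_{2m}(F)`, `m ≥ 2`, `(m, p) ≠ (2, 2)`, is semilinear. -/
theorem aut_semilinear {p : ℕ} [Fact p.Prime] [CharP F p] (hm : 2 ≤ m) (h4 : m = 2 → p ≠ 2) (α : MulAut PG) :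
    ∃ (g : GL (Fin m ⊕ Fin m) F) (σ : F ≃+* F) (c : F) (H : SemiSim g σ c), α = cP H := by
  haveI : Nonempty (Fin m) := ⟨⟨0, by omega⟩⟩
  have hA : ∀ (α : MulAut PG) (u : Fin m ⊕ Fin m → F), u ≠ 0 → ∃ v : Fin m ⊕ Fin m → F, v ≠ 0 ∧ ∀ x ∈ RT u, α x ∈ RT v := ?_
  · exact semilinear_of_stepA hm α (hA α) (hA α⁻¹)
  intro α u hu
  by_cases h2 : (2 : F) = 0
  · apply stepA_even (p := p) h2 _ α hu
    rw [Fintype.card_fin]
    have hp2 : p = 2 := by
      have hd : (p : ℕ) ∣ 2 := by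
        have := (CharP.cast_eq_zero_iff F p 2).mp (by exact_mod_cast h2)
        exact this
      exact (Nat.prime_dvd_prime_iff_eq (Fact.out : p.Prime) Nat.prime_two).mp hd
    by_contra hlt
    exact h4 (by omega) hp2
  · exact stepA_odd (p := p) h2 α hu

/-- The conformal class -/
lemma semiSim_mem_GSp {g : GL (Fin m ⊕ Fin m) F} {σ : F ≃+* F} {c : F} (H : SemiSim g σ c) : g ∈ GSp m F :=
  ⟨Units.mk0 c H.hc, fun u v => H.form u v⟩

lemma cP_induced {g : GL (Fin m ⊕ Fin m) F} {σ : F ≃+* F} {c : F} (H : SemiSim g σ c) :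
    Cfsg.IsInducedBySemilinearPSp g σ (cP H) := by
  intro s s' hs
  have h1 : cHom H s = s' := Subtype.ext hs.symm
  rw [← h1]
  rfl

/-- Aut(PSp) is the image of PΓSp -/
theorem gammaPSp_eq_top {p : ℕ} [Fact p.Prime] [CharP F p] (hm : 2 ≤ m) (h4 : m = 2 → p ≠ 2) :
    Cfsg.gammaPSp m F = ⊤ := by
  rw [eq_top_iff]
  intro α _
  obtain ⟨g, σ, c, H, rfl⟩ := aut_semilinear (p := p) hm h4 α
  exact Subgroup.subset_closure ⟨g, σ, semiSim_mem_GSp H, cP_induced H⟩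

end Cfsg.Agent.Lead.AutPSp
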