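import Cfsg.Agent.Lib.Lead.AutPSpExc
/-! The class of transvections under automorphisms in characteristic two, and the order of `Aut(PSp)`. -/
set_option autoImplicit false
set_option linter.style.haveILetI false
set_option linter.unusedSimpArgs false
set_option linter.unusedSectionVars false
set_option linter.unusedVariables false
namespace Cfsg.Agent.Lead.AutPSp
open Matrix
open scoped LinearAlgebra.Projectivization Pointwise
open Cfsg.Agent.Lead.AutPSL (zc image_zc)

variable {l : Type*} [Fintype l] [DecidableEq l] {F : Type*} [Field F] [Nonempty l] [Fintype F]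

local notation "PG" => (symplecticGroup l F ⧸ Subgroup.center (symplecticGroup l F))

omit [Nonempty l] [Fintype F] in
/-- elements of rank two are not transvections -/
lemma rank_two_ne (h2 : (2 : F) = 0) {v w u' : l ⊕ l → F} {c a' : F} (hv : v ≠ 0) (hvw : sympForm v w = 0)
    (hw : ∀ k : F, w ≠ k • v) : SS v w * sympT v c ≠ sympT u' a' := by
  intro e
  have hE : ∀ x, (c * sympForm x v + sympForm x w) • v + sympForm x v • w = (a' * sympForm x u') • u' := by
    intro x
    have h1 := congrArg (fun t => ap t x) e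
    simp only [ap_SS_T hvw, ap_sympT] at h1
    have h4 := add_assoc x ((c * sympForm x v + sympForm x w) • v) (sympForm x v • w)
    rw [h4] at h1
    exact add_left_cancel h1
  obtain ⟨x, hx, hx'⟩ : ∃ x, sympForm x v = 0 ∧ sympForm x w ≠ 0 := by
    by_contra hcon
    push Not at hcon
    obtain ⟨k, hk⟩ := mul_of_perp_perp hv hcon
    exact hw k hk
  have h1 := hE x
  rw [hx, mul_zero, zero_add, zero_smul, add_zero] at h1
  have hne : a' * sympForm x u' ≠ 0 := by
    intro h0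
    rw [h0, zero_smul] at h1
    exact (smul_ne_zero hx' hv) h1
  have hu : u' = ((a' * sympForm x u')⁻¹ * sympForm x w) • v := by
    rw [← smul_smul, h1, smul_smul, inv_mul_cancel₀ hne, one_smul]
  obtain ⟨x₀, hx₀⟩ := exists_x0 hv
  have h3 := hE x₀
  rw [hx₀, one_smul, mul_one] at h3
  apply hw (a' * sympForm x₀ u' * ((a' * sympForm x u')⁻¹ * sympForm x w) - (c + sympForm x₀ w))
  rw [sub_smul, ← smul_smul, ← hu, ← h3, add_smul]
  abel

omit [Nonempty l] [Fintype F] in
lemma SS_par_T (h2 : (2 : F) = 0) {v : l ⊕ l → F} (k c : F) :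
    SS v (k • v) * sympT v c = sympT v c := by
  have hvw : sympForm v (k • v) = 0 := by rw [sympForm_smul_right, sympForm_self, mul_zero]
  apply sp_ext
  intro y
  rw [ap_SS_T hvw, ap_sympT, sympForm_smul_right, smul_smul, add_assoc]
  congr 1
  rw [← add_smul]
  congr 1
  have e4 : c * sympForm y v + k * sympForm y v + sympForm y v * k = c * sympForm y v + 2 * (k * sympForm y v) := by ring
  rw [e4, h2, zero_mul, add_zero]

/-- the image of a root element lies in a radical -/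
lemma exists_form {p : ℕ} [Fact p.Prime] [CharP F p] (h2 : (2 : F) = 0) (α : MulAut PG) {u : l ⊕ l → F} (hu : u ≠ 0) :
    ∃ v : l ⊕ l → F, v ≠ 0 ∧ ∀ x ∈ RT u, ∃ (w : l ⊕ l → F) (c : F), sympForm v w = 0 ∧ α x = pr l F (SS v w * sympT v c) := by
  obtain ⟨P, hP⟩ := exists_sylow_fix (p := p) hu
  obtain ⟨Q, hQ⟩ := exists_sylow_map P α
  obtain ⟨v, hv0, hv⟩ := exists_fix (p := p) Q.isPGroup'
  refine ⟨v, hv0, fun x hx => ?_⟩
  have h1 : x ∈ zc (P : Subgroup PG) := RT_sub_zc P hu hP hx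
  have h3 : α x ∈ zc (Q : Subgroup PG) := by
    rw [hQ, ← image_zc]
    exact ⟨x, h1, rfl⟩
  obtain ⟨s, hs, hsx⟩ := zc_even h2 Q hv0 hv h3
  obtain ⟨w, c, hvw, rfl⟩ := Qt_structure hv0 hs
  exact ⟨w, c, hvw, hsx.symm⟩

/-- the class of transvections -/
def B1 (x : PG) : Prop := ∃ (u : l ⊕ l → F) (a : F), u ≠ 0 ∧ a ≠ 0 ∧ x = pr l F (sympT u a)

/-- admissible automorphisms -/
def Adm (α : MulAut PG) : Prop := ∀ x, B1 x → B1 (α x)

lemma exists_sq (h2 : (2 : F) = 0) (a : F) : ∃ b : F, b ^ 2 = a :=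
  Finite.surjective_of_injective (f := fun x : F => x ^ 2) (fun _ _ h => sq_inj_two h2 h) a

/-- one transvection determines admissibility -/
lemma adm_of_one (h2 : (2 : F) = 0) {β : MulAut PG} {u₀ : l ⊕ l → F} (hu₀ : u₀ ≠ 0) (h : B1 (β (pr l F (sympT u₀ 1)))) :
    Adm β := by
  rintro _ ⟨u, a, hu, ha, rfl⟩
  obtain ⟨b, rfl⟩ := exists_sq h2 a
  have hb : b ≠ 0 := by
    rintro rfl
    simp at ha
  have e1 : sympT u (b ^ 2) = sympT (b • u) 1 := by
    rw [sympT_smul, one_mul]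
  obtain ⟨g, hg⟩ := sp_transitive hu₀ (smul_ne_zero hb hu)
  have e2 : sympT (b • u) 1 = g * sympT u₀ 1 * g⁻¹ := by
    rw [conj_sympT]
    rw [hg]
  obtain ⟨u', a', hu', ha', e⟩ := h
  obtain ⟨g₁, hg₁⟩ := QuotientGroup.mk'_surjective _ (β (pr l F g))
  refine ⟨ap g₁ u', a', ap_ne g₁ hu', ha', ?_⟩
  rw [e1, e2, map_mul, map_mul, map_mul, map_mul, map_inv, map_inv, e, ← conj_sympT', map_mul, map_mul, map_inv]
  change (QuotientGroup.mk' _) g₁ = _ at hg₁
  have hg₂ : pr l F g₁ = β (pr l F g) := hg₁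
  rw [hg₂]

lemma adm_one : Adm (1 : MulAut PG) := fun _ h => h

lemma adm_mul {α β : MulAut PG} (hα : Adm α) (hβ : Adm β) : Adm (α * β) := fun x h => hα _ (hβ x h)

lemma adm_inv {α : MulAut PG} (hα : Adm α) : Adm α⁻¹ := by
  intro x hx
  let f : {y : PG // B1 y} → {y : PG // B1 y} := fun y => ⟨α y.1, hα _ y.2⟩
  have hf : Function.Injective f := fun a b h => Subtype.ext (α.injective (congrArg Subtype.val h))
  obtain ⟨y, hy⟩ := Finite.surjective_of_injective hf ⟨x, hx⟩
  have h1 : α y.1 = x := congrArg Subtype.val hy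
  have h2 : α⁻¹ x = y.1 := by
    rw [← h1]
    exact α.symm_apply_apply _
  rw [h2]
  exact y.2

/-- the subgroup of admissible automorphisms -/
def admS (l F : Type*) [Fintype l] [DecidableEq l] [Field F] [Nonempty l] [Fintype F] : Subgroup (MulAut (symplecticGroup l F ⧸ Subgroup.center (symplecticGroup l F))) where
  carrier := {α | Adm α}
  mul_mem' := adm_mul
  one_mem' := adm_one
  inv_mem' := adm_inv

lemma mem_admS {α : MulAut PG} : α ∈ admS l F ↔ Adm α := Iff.rfl

/-- admissible automorphisms map root groups into root groups -/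
lemma stepA_adm {p : ℕ} [Fact p.Prime] [CharP F p] (h2 : (2 : F) = 0) {α : MulAut PG} (hα : Adm α) {u : l ⊕ l → F} (hu : u ≠ 0) :
    ∃ v : l ⊕ l → F, v ≠ 0 ∧ ∀ x ∈ RT u, α x ∈ RT v := by
  obtain ⟨v, hv0, hv⟩ := exists_form (p := p) h2 α hu
  refine ⟨v, hv0, fun x hx => ?_⟩
  obtain ⟨w, c, hvw, e⟩ := hv x hx
  obtain ⟨a, rfl⟩ := mem_RT.mp hx
  by_cases ha : a = 0
  · subst ha
    rw [sympT_zero, map_one, map_one]
    exact one_mem _
  obtain ⟨u', a', hu', ha', e'⟩ := hα _ ⟨u, a, hu, ha, rfl⟩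
  rw [e'] at e ⊢
  have e2 := pr_inj_two h2 e
  by_cases hw : ∀ k : F, w ≠ k • v
  · exact absurd e2.symm (rank_two_ne h2 hv0 hvw hw)
  · push Not at hw
    obtain ⟨k, rfl⟩ := hw
    rw [SS_par_T h2] at e2
    rw [e2]
    exact mem_RT.mpr ⟨c, rfl⟩

/-- the count excluding rank two elements with nonzero central part -/
theorem no_rank_two_c (h2 : (2 : F) = 0) (hl : 2 ≤ Fintype.card l) (α : MulAut PG) {u v w : l ⊕ l → F} {a c : F}
    (hu : u ≠ 0) (hv : v ≠ 0) (hvw : sympForm v w = 0) (hw : ∀ k : F, w ≠ k • v) (hc : c ≠ 0)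
    (e : α (pr l F (sympT u a)) = pr l F (SS v w * sympT v c)) : False := by
  classical
  set q := Fintype.card F with hq
  set n := 2 * Fintype.card l with hn
  have hq2 : 2 ≤ q := Fintype.one_lt_card
  let Ψ : (Σ _ : (l ⊕ l → F), (l ⊕ l → F)) → PG := fun x => pr l F (SS x.1 x.2 * sympT x.1 c)
  let C : Finset PG := (Finset.univ.filter fun u' : (l ⊕ l → F) => u' ≠ 0).image fun u' => α (pr l F (sympT u' a))
  have hC : C.card ≤ q ^ n - 1 := by
    refine Finset.card_image_le.trans (le_of_eq ?_)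
    rw [Finset.filter_ne', Finset.card_erase_of_mem (Finset.mem_univ _), Finset.card_univ, Fintype.card_fun,
      Fintype.card_sum, ← two_mul]
  have himg : (Pairs l F).image Ψ ⊆ C := by
    intro y hy
    obtain ⟨x, hx, rfl⟩ := Finset.mem_image.mp hy
    obtain ⟨hx0, hx1, hx2⟩ := mem_Pairs.mp hx
    have hw0 : w ≠ 0 := fun h0 => hw 0 (by rw [h0, zero_smul])
    have hx3 : x.2 ≠ 0 := fun h0 => hx2 0 (by rw [h0, zero_smul])
    obtain ⟨g, hg1, hg2⟩ := exists_move_pair (perp_swap hvw) hw0 hv hw (perp_swap hx1) hx3 hx0 hx2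
    obtain ⟨g₁, hg₁⟩ := QuotientGroup.mk'_surjective _ (α.symm (pr l F g))
    have hg₁' : α (pr l F g₁) = pr l F g := by
      change α ((QuotientGroup.mk' _) g₁) = _
      rw [hg₁]
      exact α.apply_symm_apply _
    refine Finset.mem_image.mpr ⟨ap g₁ u, Finset.mem_filter.mpr ⟨Finset.mem_univ _, ap_ne g₁ hu⟩, ?_⟩
    rw [← conj_sympT', map_mul, map_mul, map_mul, map_mul, map_inv, map_inv, hg₁', e]
    change _ = pr l F (SS x.1 x.2 * sympT x.1 c)
    rw [← hg1, ← hg2, ← conj_SS_T]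
    simp only [map_mul, map_inv]
  have hfib : ∀ y ∈ (Pairs l F).image Ψ, ((Pairs l F).filter fun x => Ψ x = y).card ≤ q := by
    intro y hy
    obtain ⟨x₁, hx₁, rfl⟩ := Finset.mem_image.mp hy
    obtain ⟨h10, h11, h12⟩ := mem_Pairs.mp hx₁
    let f : F → (Σ _ : (l ⊕ l → F), (l ⊕ l → F)) := fun t => ⟨x₁.1, x₁.2 + t • x₁.1⟩
    have hsub : ((Pairs l F).filter fun x => Ψ x = Ψ x₁) ⊆ Finset.univ.image f := by
      intro x hx
      obtain ⟨hxP, hxe⟩ := Finset.mem_filter.mp hx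
      obtain ⟨h00, h01, h02⟩ := mem_Pairs.mp hxP
      have h3 : SS x.1 x.2 * sympT x.1 c = SS x₁.1 x₁.2 * sympT x₁.1 c := pr_inj_two h2 hxe
      -- the first components coincide
      have hq1 : ∀ z, sympForm z x.1 = sympForm z x₁.1 := by
        intro z
        have h4 := congrArg (fun t => sympForm z (ap t z)) h3
        simp only [ap_SS_T h01, ap_SS_T h11, sympForm_add_right, sympForm_smul_right, sympForm_self] at h4
        apply sq_inj_two h2
        apply mul_left_cancel₀ hc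
        linear_combination h4 + (sympForm z x₁.1 * sympForm z x₁.2 - sympForm z x.1 * sympForm z x.2) * h2
      have h5 : x.1 = x₁.1 := by
        rw [← sub_eq_zero]
        by_contra hne
        obtain ⟨z, hz⟩ := sympForm_nondeg hne
        apply hz
        rw [sympForm_swap, sympForm_sub_right, hq1, sub_self, neg_zero]
      rcases x with ⟨x1, x2⟩
      rcases x₁ with ⟨x1', x2'⟩
      simp only at h5 h3 h00 h11 h01
      subst h5
      have h6 : SS x1 x2 = SS x1 x2' := mul_right_cancel h3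
      obtain ⟨x₀, hx₀⟩ := exists_x0 h00
      have h7 := congrArg (fun t => ap t x₀) h6
      simp only [ap_SS h01, ap_SS h11, hx₀, one_smul] at h7
      refine Finset.mem_image.mpr ⟨sympForm x₀ x2' - sympForm x₀ x2, Finset.mem_univ _, ?_⟩
      simp only [f]
      have h8 : x2' + (sympForm x₀ x2' - sympForm x₀ x2) • x1 = x2 := by
        have h9 : sympForm x₀ x2 • x1 + x2 = sympForm x₀ x2' • x1 + x2' := by
          have h91 := add_assoc x₀ (sympForm x₀ x2 • x1) x2
          have h92 := add_assoc x₀ (sympForm x₀ x2' • x1) x2'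
          rw [h91, h92] at h7
          exact add_left_cancel h7
        linear_combination (norm := module) -h9
      rw [h8]
    exact (Finset.card_le_card hsub).trans (Finset.card_image_le.trans (by simp [hq]))
  have h3 := Finset.card_le_mul_card_image (Pairs l F) _ hfib
  have h4 : ((Pairs l F).image Ψ).card ≤ q ^ n - 1 := (Finset.card_le_card himg).trans hC
  have h5 := card_Pairs (l := l) (F := F) (by omega)
  rw [← hq, ← hn] at h5
  have h6 : (q ^ n - 1) * (q ^ (n - 1) - q) ≤ q * (q ^ n - 1) :=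
    h5.trans (h3.trans (Nat.mul_le_mul_left _ h4))
  have hpos : 0 < q ^ n - 1 := by
    have : q ^ 1 < q ^ n := Nat.pow_lt_pow_right hq2 (by omega)
    simp only [pow_one] at this
    omega
  rw [mul_comm q] at h6
  have h7 := Nat.le_of_mul_le_mul_left h6 hpos
  have h8 : q ^ 3 ≤ q ^ (n - 1) := Nat.pow_le_pow_right (by omega) (by omega)
  have h9 : q ^ 3 = q * q * q := by ring
  have h10 : 4 * q ≤ q ^ 3 := by
    rw [h9]
    have : 2 * 2 ≤ q * q := Nat.mul_le_mul hq2 hq2
    nlinarith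
  omega

section Count
variable {m : ℕ}

local notation "PM" => (symplecticGroup (Fin m) F ⧸ Subgroup.center (symplecticGroup (Fin m) F))

/-- the count of a group of the form `K · Gal` -/
lemma card_of_factor [Nonempty (Fin m)] (H : Subgroup (MulAut PM)) (h1 : ∀ g, (kk g : MulAut PM) ∈ H)
    (h2 : ∀ σ : F ≃+* F, (fldS σ : MulAut PM) ∈ H) (h3 : ∀ α ∈ H, ∃ (g : Cfsg.GSp m F) (σ : F ≃+* F), α = kk g * fldS σ) :
    Nat.card H = Nat.card (symplecticGroup (Fin m) F) * Nat.card (F ≃+* F) := by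
  rw [← card_kk_range, ← Nat.card_prod]
  symm
  let f : (kk : Cfsg.GSp m F →* MulAut PM).range × (F ≃+* F) → H := fun x =>
    ⟨x.1.1 * fldS x.2, H.mul_mem (by obtain ⟨g, hg⟩ := x.1.2; rw [← hg]; exact h1 g) (h2 x.2)⟩
  apply Nat.card_eq_of_bijective f
  constructor
  · rintro ⟨⟨_, g, rfl⟩, σ⟩ ⟨⟨_, g', rfl⟩, σ'⟩ h
    have h4 : (kk g * fldS σ : MulAut PM) = kk g' * fldS σ' := congrArg Subtype.val h
    obtain ⟨h5, h6⟩ := factor_unique h4
    subst h6
    exact Prod.ext (Subtype.ext h5) rfl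
  · rintro ⟨α, hα⟩
    obtain ⟨g, σ, rfl⟩ := h3 α hα
    exact ⟨(⟨kk g, g, rfl⟩, σ), rfl⟩

lemma kk_adm [Nonempty (Fin m)] (g : Cfsg.GSp m F) : Adm (kk g : MulAut PM) := by
  rintro _ ⟨u, a, hu, ha, rfl⟩
  refine ⟨(g.1 : Matrix (Fin m ⊕ Fin m) (Fin m ⊕ Fin m) F) *ᵥ u, (mulC g : F)⁻¹ * a, ?_, mul_ne_zero (inv_ne_zero (mulC g).ne_zero) ha, kk_sympT g u a⟩
  intro h0
  apply hu
  have := congrArg (fun z => ((g.1⁻¹ : GL _ F) : Matrix (Fin m ⊕ Fin m) (Fin m ⊕ Fin m) F) *ᵥ z) h0
  simpa [Matrix.mulVec_mulVec, gl_inv_mul'] using this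

lemma fldS_adm [Nonempty (Fin m)] (σ : F ≃+* F) : Adm (fldS σ : MulAut PM) := by
  rintro _ ⟨u, a, hu, ha, rfl⟩
  refine ⟨smap σ u, σ a, ?_, (map_ne_zero _).mpr ha, fldS_sympT σ u a⟩
  intro h0
  apply hu
  have := congrArg (smap σ.symm) h0
  rwa [smap_symm', smap_zero] at this

/-- the factorisation of admissible automorphisms -/
lemma adm_factor {p : ℕ} [Fact p.Prime] [CharP F p] [Nonempty (Fin m)] (hm : 2 ≤ m) (h2 : (2 : F) = 0) {α : MulAut PM} (hα : Adm α) :
    ∃ (g : Cfsg.GSp m F) (σ : F ≃+* F), α = kk g * fldS σ := by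
  obtain ⟨g, σ, c, H, rfl⟩ := semilinear_of_stepA hm α (fun u hu => stepA_adm (p := p) h2 hα hu)
    (fun u hu => stepA_adm (p := p) h2 (adm_inv hα) hu)
  exact ⟨_, σ, cP_eq H⟩

/-- the order of `Aut(PSp)` in the non-exceptional case -/
theorem card_aut_gen {p : ℕ} [Fact p.Prime] [CharP F p] [Nonempty (Fin m)] (hm : 2 ≤ m) (h4 : m = 2 → p ≠ 2) :
    Nat.card (MulAut PM) = Nat.card (symplecticGroup (Fin m) F) * Nat.card (F ≃+* F) := by
  have h := card_of_factor (m := m) (F := F) ⊤ (fun _ => Subgroup.mem_top _) (fun _ => Subgroup.mem_top _) (by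
    intro α _
    obtain ⟨g, σ, c, H, rfl⟩ := aut_semilinear (p := p) hm h4 α
    exact ⟨_, σ, cP_eq H⟩)
  rw [← h]
  exact (Nat.card_congr Subgroup.topEquiv.toEquiv).symm

end Count

section Exc

local notation "P2" => (symplecticGroup (Fin 2) F ⧸ Subgroup.center (symplecticGroup (Fin 2) F))

lemma e0_ne : (e0 : I4 → F) ≠ 0 := by
  intro h0
  have := congrFun h0 iA
  simp [e0] at this

lemma e1_ne : (e1 : I4 → F) ≠ 0 := by
  intro h0
  have := congrFun h0 iB
  simp [e1] at this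

lemma e1_not (k : F) : (1 : F) • (e1 : I4 → F) ≠ k • e0 := by
  intro h0
  have := congrFun h0 iB
  simp [e0, e1] at this

/-- the exceptional automorphism squares the root elements -/
lemma psiB_sq_T0 (h2 : (2 : F) = 0) (a : F) :
    (psiB h2 * psiB h2) (pr (Fin 2) F (sympT e0 a)) = pr (Fin 2) F (sympT e0 (a ^ 2)) := by
  change psiB h2 (psiB h2 (pr (Fin 2) F (sympT e0 a))) = _
  rw [psiB_pr, psi_T0, psiB_pr, psi_S0]

/-- the exceptional automorphism is not admissible -/
lemma psiB_not_adm (h2 : (2 : F) = 0) : ¬ Adm (psiB h2) := by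
  intro h
  obtain ⟨u, a, -, -, e⟩ := h _ ⟨e0, 1, e0_ne, one_ne_zero, rfl⟩
  rw [psiB_pr, psi_T0] at e
  have h3 := pr_inj_two h2 e
  have h4 : SS e0 ((1 : F) • e1) * sympT e0 0 ≠ sympT u a :=
    rank_two_ne h2 e0_ne (e0_smul_e1 1) (fun k => e1_not k)
  rw [sympT_zero, mul_one] at h4
  exact h4 h3

lemma psiB_sq_adm (h2 : (2 : F) = 0) : Adm (psiB h2 * psiB h2) := by
  apply adm_of_one h2 e0_ne
  rw [psiB_sq_T0, one_pow]
  exact ⟨e0, 1, e0_ne, one_ne_zero, rfl⟩

/-- the dichotomy -/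
theorem dichotomy {p : ℕ} [Fact p.Prime] [CharP F p] (h2 : (2 : F) = 0) (α : MulAut P2) :
    Adm α ∨ Adm (psiB h2 * α) := by
  obtain ⟨v, hv0, hv⟩ := exists_form (p := p) h2 α e0_ne
  obtain ⟨w, c, hvw, e⟩ := hv (pr (Fin 2) F (sympT e0 1)) (mem_RT.mpr ⟨1, rfl⟩)
  by_cases hw : ∀ k : F, w ≠ k • v
  · by_cases hc : c = 0
    · right
      subst hc
      rw [sympT_zero, mul_one] at e
      apply adm_of_one h2 e0_ne
      have hw0 : w ≠ 0 := fun h0 => hw 0 (by rw [h0, zero_smul])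
      have hne1 : ∀ t : F, (1 : F) • (e1 : I4 → F) ≠ t • e0 := e1_not
      obtain ⟨g, hg1, hg2⟩ := exists_move_pair (a := (1 : F) • (e1 : I4 → F)) (b := e0) (perp_swap (e0_smul_e1 1))
        (by rw [one_smul]; exact e1_ne) e0_ne hne1 (perp_swap hvw) hw0 hv0 hw
      have e2 : SS v w = g * SS e0 ((1 : F) • e1) * g⁻¹ := by
        rw [conj_SS, hg1, hg2]
      change B1 (psiB h2 (α _))
      have e3 : psiHom h2 (g * SS e0 ((1 : F) • e1) * g⁻¹) = psiHom h2 g * sympT e0 1 * (psiHom h2 g)⁻¹ := by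
        rw [map_mul, map_mul, map_inv, psi_T0_aux h2]
      rw [e, e2, psiB_pr, e3, conj_sympT']
      exact ⟨_, 1, ap_ne _ e0_ne, one_ne_zero, rfl⟩
    · exfalso
      exact no_rank_two_c h2 (by simp) α e0_ne hv0 hvw hw hc e
  · left
    push Not at hw
    obtain ⟨k, rfl⟩ := hw
    rw [SS_par_T h2] at e
    apply adm_of_one h2 e0_ne
    rw [e]
    refine ⟨v, c, hv0, ?_, rfl⟩
    rintro rfl
    rw [sympT_zero, map_one] at e
    have : pr (Fin 2) F (sympT e0 1) = 1 := α.injective (by rw [e, map_one])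
    exact pr_sympT_ne_one one_ne_zero e0_ne this

/-- the admissible subgroup has index two -/
lemma admS_index {p : ℕ} [Fact p.Prime] [CharP F p] (h2 : (2 : F) = 0) : (admS (Fin 2) F).index = 2 := by
  rw [Subgroup.index_eq_two_iff]
  refine ⟨(psiB h2)⁻¹, fun b => ?_⟩
  have hnot : ∀ c : MulAut P2, Adm c → Adm (psiB h2 * c) → False := by
    intro c hc hc'
    apply psiB_not_adm h2
    have := adm_mul hc' (adm_inv hc)
    simpa using this
  have hI : ∀ c : MulAut P2, c ∈ admS (Fin 2) F ↔ c⁻¹ ∈ admS (Fin 2) F := fun c => (Subgroup.inv_mem_iff _).symm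
  have hd := dichotomy (p := p) h2 b⁻¹
  have e1 : b * (psiB h2)⁻¹ ∈ admS (Fin 2) F ↔ Adm (psiB h2 * b⁻¹) := by
    rw [hI, mem_admS]
    simp
  have e2 : b ∈ admS (Fin 2) F ↔ Adm b⁻¹ := by
    rw [hI, mem_admS]
  rw [e1, e2]
  rcases hd with h | h
  · right
    exact ⟨h, fun h' => hnot _ h h'⟩
  · left
    exact ⟨h, fun h' => hnot _ h' h⟩

/-- the order of `Aut(PSp₄)` in characteristic two -/
theorem card_aut_exc {p : ℕ} [Fact p.Prime] [CharP F p] (h2 : (2 : F) = 0) :
    Nat.card (MulAut P2) = 2 * (Nat.card (symplecticGroup (Fin 2) F) * Nat.card (F ≃+* F)) := by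
  have h := Subgroup.index_mul_card (admS (Fin 2) F)
  rw [admS_index (p := p) h2, card_of_factor (m := 2) (F := F) (admS (Fin 2) F) kk_adm fldS_adm
    (fun α hα => adm_factor (p := p) le_rfl h2 hα)] at h
  exact h.symm

end Exc

section OutSec

local notation "P2" => (symplecticGroup (Fin 2) F ⧸ Subgroup.center (symplecticGroup (Fin 2) F))

variable {m : ℕ}

local notation "PM" => (symplecticGroup (Fin m) F ⧸ Subgroup.center (symplecticGroup (Fin m) F))

/-- `Sp` inside `GSp` -/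
def toGSp (s : symplecticGroup (Fin m) F) : Cfsg.GSp m F :=
  ⟨⟨(s : Matrix (Fin m ⊕ Fin m) (Fin m ⊕ Fin m) F), ((s⁻¹ : symplecticGroup (Fin m) F) : Matrix (Fin m ⊕ Fin m) (Fin m ⊕ Fin m) F),
      congrArg Subtype.val (mul_inv_cancel s), congrArg Subtype.val (inv_mul_cancel s)⟩,
    ⟨1, fun u v => by
      change sympForm _ _ = _
      have := sympForm_mulVec s.2 u v
      rw [Units.val_one, one_mul]
      exact this⟩⟩

lemma kk_toGSp (s : symplecticGroup (Fin m) F) : kk (toGSp s) = MulAut.conj (pr (Fin m) F s) := by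
  ext x
  induction x using QuotientGroup.induction_on with
  | H t =>
    change pr (Fin m) F (cHom (ssOf (toGSp s)) t) = pr (Fin m) F s * pr (Fin m) F t * (pr (Fin m) F s)⁻¹
    rw [← map_mul, ← map_inv, ← map_mul]
    congr 1

/-- in characteristic two the conformal automorphisms are inner -/
lemma range_kk_eq_inn [Nonempty (Fin m)] (h2 : (2 : F) = 0) :
    (kk : Cfsg.GSp m F →* MulAut PM).range = Cfsg.Inn PM := by
  apply le_antisymm
  · rintro _ ⟨g, rfl⟩
    obtain ⟨d, hd⟩ := exists_sq h2 (mulC g : F)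
    have hd0 : d ≠ 0 := by
      rintro rfl
      have := (mulC g).ne_zero
      rw [← hd] at this
      simp at this
    -- `g₁ = d⁻¹ g` is symplectic
    let M : Matrix (Fin m ⊕ Fin m) (Fin m ⊕ Fin m) F := d⁻¹ • (g.1 : Matrix (Fin m ⊕ Fin m) (Fin m ⊕ Fin m) F)
    have hM : M ∈ symplecticGroup (Fin m) F := by
      apply mem_sp_of_form
      intro x y
      simp only [M, Matrix.smul_mulVec, sympForm_smul_left, sympForm_smul_right, mulC_spec, ← hd]
      field_simp
    refine ⟨pr (Fin m) F ⟨M, hM⟩, ?_⟩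
    rw [← kk_toGSp]
    ext x
    induction x using QuotientGroup.induction_on with
    | H t =>
      change pr (Fin m) F (cHom (ssOf (toGSp _)) t) = pr (Fin m) F (cHom (ssOf g) t)
      congr 1
      apply Subtype.ext
      simp only [cHom_coe, map_refl']
      change M * (t : Matrix _ _ F) * ((⟨M, hM⟩ : symplecticGroup (Fin m) F)⁻¹ : symplecticGroup (Fin m) F).1 = _
      -- both sides are `N` with `N g = g t`
      have h1 : ((⟨M, hM⟩ : symplecticGroup (Fin m) F)⁻¹ : symplecticGroup (Fin m) F).1 * M = 1 :=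
        congrArg Subtype.val (inv_mul_cancel (⟨M, hM⟩ : symplecticGroup (Fin m) F))
      have h3 : ((⟨M, hM⟩ : symplecticGroup (Fin m) F)⁻¹ : symplecticGroup (Fin m) F).1 =
          d • ((g.1⁻¹ : GL (Fin m ⊕ Fin m) F) : Matrix (Fin m ⊕ Fin m) (Fin m ⊕ Fin m) F) := by
        have h4 : (d • ((g.1⁻¹ : GL (Fin m ⊕ Fin m) F) : Matrix (Fin m ⊕ Fin m) (Fin m ⊕ Fin m) F)) * M = 1 := by
          simp only [M, Matrix.smul_mul, Matrix.mul_smul, gl_inv_mul', smul_smul]
          rw [inv_mul_cancel₀ hd0, one_smul]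
        exact left_inv_eq_right_inv h1 (mul_eq_one_comm.mp h4)
      rw [h3]
      simp only [M, Matrix.mul_smul, Matrix.smul_mul, smul_smul]
      rw [mul_inv_cancel₀ hd0, one_smul]
  · rintro _ ⟨x, rfl⟩
    obtain ⟨s, rfl⟩ := QuotientGroup.mk'_surjective _ x
    exact ⟨toGSp s, kk_toGSp s⟩

end OutSec

end Cfsg.Agent.Lead.AutPSp
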