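import Cfsg.Agent.Lib.Lead.AutPSpBase
import Cfsg.Agent.Lib.Lead.AutPSLSyl
/-! The unipotent radical of the stabiliser of a point in `Sp`. -/
set_option autoImplicit false
set_option linter.style.haveILetI false
set_option linter.unusedSimpArgs false
set_option linter.unusedSectionVars false
set_option linter.unusedVariables false
namespace Cfsg.Agent.Lead.AutPSp
open Matrix
open scoped LinearAlgebra.Projectivization Pointwise

variable {l : Type*} [Fintype l] [DecidableEq l] {F : Type*} [Field F]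

lemma form_zero_right (x : l ⊕ l → F) : sympForm x 0 = 0 := isSF.zero_right x

lemma perp_swap {x y : l ⊕ l → F} (h : sympForm x y = 0) : sympForm y x = 0 := by
  rw [sympForm_swap, h, neg_zero]

/-- the radical of the stabiliser of the point `v` -/
def Qt (v : l ⊕ l → F) : Subgroup (symplecticGroup l F) where
  carrier := {s | ap s v = v ∧ ∀ y, sympForm y v = 0 → ∃ a : F, ap s y = y + a • v}
  mul_mem' := by
    rintro s t ⟨hs, hs'⟩ ⟨ht, ht'⟩
    refine ⟨by rw [ap_mul, ht, hs], fun y hy => ?_⟩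
    obtain ⟨a, ha⟩ := ht' y hy
    obtain ⟨b, hb⟩ := hs' y hy
    refine ⟨b + a, ?_⟩
    rw [ap_mul, ha, ap_add, ap_smul, hs, hb, add_smul, add_assoc]
  one_mem' := ⟨ap_one v, fun y _ => ⟨0, by simp⟩⟩
  inv_mem' := by
    rintro s ⟨hs, hs'⟩
    have h1 : ap s⁻¹ v = v := by
      conv_lhs => rw [← hs]
      exact ap_inv_ap s v
    refine ⟨h1, fun y hy => ?_⟩
    have h2 : sympForm (ap s⁻¹ y) v = 0 := by
      rw [← form_ap s, ap_ap_inv, hs]
      exact hy
    obtain ⟨a, ha⟩ := hs' _ h2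
    rw [ap_ap_inv] at ha
    refine ⟨-a, ?_⟩
    have h3 : ap s⁻¹ y = y - a • v := by
      rw [eq_sub_iff_add_eq]; exact ha.symm
    rw [h3, neg_smul, sub_eq_add_neg]

lemma mem_Qt {v : l ⊕ l → F} {s : symplecticGroup l F} :
    s ∈ Qt v ↔ ap s v = v ∧ ∀ y, sympForm y v = 0 → ∃ a : F, ap s y = y + a • v := Iff.rfl

lemma sympT_mem_Qt (v : l ⊕ l → F) (c : F) : sympT v c ∈ Qt v := by
  refine ⟨?_, fun y hy => ⟨0, ?_⟩⟩
  · rw [ap_sympT, sympForm_self]; simp
  · rw [ap_sympT, hy]; simp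

/-- the elements `x ↦ x + ω(x,w) v + ω(x,v) w` -/
def SS (v w : l ⊕ l → F) : symplecticGroup l F := sympT (v + w) 1 * sympT v (-1) * sympT w (-1)

lemma ap_SS {v w : l ⊕ l → F} (h : sympForm v w = 0) (x : l ⊕ l → F) :
    ap (SS v w) x = x + sympForm x w • v + sympForm x v • w := by
  have h' : sympForm w v = 0 := perp_swap h
  simp only [SS, ap_mul, ap_sympT, sympForm_add_left, sympForm_add_right, sympForm_smul_left, sympForm_self, h, h']
  simp only [mul_zero, add_zero, one_mul, neg_mul, mul_neg, neg_zero, zero_add, neg_smul, smul_add, add_smul]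
  abel

lemma SS_mem_Qt {v w : l ⊕ l → F} (h : sympForm v w = 0) : SS v w ∈ Qt v := by
  refine ⟨?_, fun y hy => ⟨sympForm y w, ?_⟩⟩
  · rw [ap_SS h, h, sympForm_self]; simp
  · rw [ap_SS h, hy]; simp

lemma conj_SS (g : symplecticGroup l F) (v w : l ⊕ l → F) :
    g * SS v w * g⁻¹ = SS (ap g v) (ap g w) := by
  simp only [SS]
  rw [← ap_add, ← conj_sympT', ← conj_sympT', ← conj_sympT']
  group

lemma Qt_conj {v : l ⊕ l → F} {g t : symplecticGroup l F} {c : F} (hc : c ≠ 0) (hg : ap g v = c • v) (ht : t ∈ Qt v) :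
    g * t * g⁻¹ ∈ Qt v := by
  have h0 : ap g⁻¹ v = c⁻¹ • v := by
    apply ap_inj g
    rw [ap_ap_inv, ap_smul, hg, smul_smul, inv_mul_cancel₀ hc, one_smul]
  refine ⟨?_, fun y hy => ?_⟩
  · rw [ap_mul, ap_mul, h0, ap_smul, ht.1, ap_smul, hg, smul_smul, inv_mul_cancel₀ hc, one_smul]
  · have h1 : sympForm (ap g⁻¹ y) v = 0 := by
      rw [← form_ap g, ap_ap_inv, hg, sympForm_smul_right, hy, mul_zero]
    obtain ⟨a, ha⟩ := ht.2 _ h1
    refine ⟨a * c, ?_⟩
    rw [ap_mul, ap_mul, ha, ap_add, ap_ap_inv, ap_smul, hg, smul_smul]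

/-- a vector perpendicular to the perp of `v` is a multiple of `v` -/
lemma mul_of_perp_perp {v a : l ⊕ l → F} (hv : v ≠ 0) (h : ∀ y, sympForm y v = 0 → sympForm y a = 0) :
    ∃ k : F, a = k • v := by
  obtain ⟨z, hz⟩ := sympForm_nondeg hv
  have hz' : sympForm z v ≠ 0 := by
    rw [sympForm_swap, neg_ne_zero]; exact hz
  set x₀ : l ⊕ l → F := (sympForm z v)⁻¹ • z with hx₀
  have h1 : sympForm x₀ v = 1 := by
    rw [hx₀, sympForm_smul_left]; exact inv_mul_cancel₀ hz'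
  refine ⟨sympForm x₀ a, ?_⟩
  rw [← sub_eq_zero]
  by_contra hne
  obtain ⟨y, hy⟩ := sympForm_nondeg hne
  apply hy
  rw [sympForm_swap, neg_eq_zero]
  have h2 : sympForm (y - sympForm y v • x₀) v = 0 := by
    rw [sympForm_sub_left, sympForm_smul_left, h1, mul_one, sub_self]
  have h3 := h _ h2
  rw [sympForm_sub_left, sympForm_smul_left] at h3
  rw [sympForm_sub_right, sympForm_smul_right]
  linear_combination h3

lemma exists_x0 {v : l ⊕ l → F} (hv : v ≠ 0) : ∃ x₀ : l ⊕ l → F, sympForm x₀ v = 1 := by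
  obtain ⟨z, hz⟩ := sympForm_nondeg hv
  have hz' : sympForm z v ≠ 0 := by
    rw [sympForm_swap, neg_ne_zero]; exact hz
  exact ⟨(sympForm z v)⁻¹ • z, by rw [sympForm_smul_left]; exact inv_mul_cancel₀ hz'⟩

/-- an element fixing `v^⊥` pointwise is a transvection -/
lemma eq_sympT_of_fix {v : l ⊕ l → F} (hv : v ≠ 0) {s : symplecticGroup l F}
    (h : ∀ y, sympForm y v = 0 → ap s y = y) : ∃ c : F, s = sympT v c := by
  obtain ⟨x₀, hx₀⟩ := exists_x0 hv
  have h1 : ∀ x, ∃ k : F, ap s x - x = k • v := by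
    intro x
    apply mul_of_perp_perp hv
    intro y hy
    rw [sympForm_sub_right]
    have := form_ap s y x
    rw [h y hy] at this
    rw [this, sub_self]
  obtain ⟨c, hc⟩ := h1 x₀
  refine ⟨c, ?_⟩
  apply sp_ext
  intro x
  have h2 : sympForm (x - sympForm x v • x₀) v = 0 := by
    rw [sympForm_sub_left, sympForm_smul_left, hx₀, mul_one, sub_self]
  have h3 := h _ h2
  rw [ap_sub, ap_smul] at h3
  have h4 : ap s x₀ = x₀ + c • v := by rw [← hc]; abel
  rw [h4] at h3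
  rw [ap_sympT]
  have h5 : ap s x = (x - sympForm x v • x₀) + sympForm x v • (x₀ + c • v) := by
    rw [← h3]; abel
  rw [h5, smul_add, smul_smul, mul_comm c]
  abel

/-- structure of `Qt v`: each element is `SS v w * sympT v c` -/
lemma Qt_structure {v : l ⊕ l → F} (hv : v ≠ 0) {s : symplecticGroup l F} (hs : s ∈ Qt v) :
    ∃ (w : l ⊕ l → F) (c : F), sympForm v w = 0 ∧ s = SS v w * sympT v c := by
  obtain ⟨x₀, hx₀⟩ := exists_x0 hv
  set w := ap s x₀ - x₀ with hw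
  have hvw : sympForm v w = 0 := by
    rw [hw, sympForm_sub_right]
    have := form_ap s v x₀
    rw [hs.1] at this
    rw [this, sub_self]
  refine ⟨w, ?_⟩
  have h1 : ∀ y, sympForm y v = 0 → ap s y = y + sympForm y w • v := by
    intro y hy
    obtain ⟨a, ha⟩ := hs.2 y hy
    rw [ha]
    congr 2
    have h2 := form_ap s y x₀
    rw [ha, sympForm_add_left, sympForm_smul_left] at h2
    have h3 : sympForm v (ap s x₀) = -1 := by
      have := form_ap s v x₀
      rw [hs.1] at this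
      rw [this, sympForm_swap, hx₀]
    rw [h3] at h2
    rw [hw, sympForm_sub_right]
    linear_combination -h2
  obtain ⟨c, hc⟩ := eq_sympT_of_fix hv (s := (SS v w)⁻¹ * s) (by
    intro y hy
    rw [ap_mul, h1 y hy]
    apply ap_inj (SS v w)
    rw [ap_ap_inv, ap_SS hvw, hy]
    simp)
  refine ⟨c, hvw, ?_⟩
  rw [← hc]
  group

section PGroup
variable {p : ℕ} [Fact p.Prime] [CharP F p] [Nonempty l]

lemma Qt_cube {v : l ⊕ l → F} {s : symplecticGroup l F} (hs : s ∈ Qt v) :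
    ((s : Matrix (l ⊕ l) (l ⊕ l) F) - 1) ^ 3 = 0 := by
  apply mat_ext_mulVec
  intro x
  have h0 : ∀ y, ((s : Matrix (l ⊕ l) (l ⊕ l) F) - 1) *ᵥ y = ap s y - y := by
    intro y
    rw [Matrix.sub_mulVec, Matrix.one_mulVec]
    rfl
  have h3 : ((s : Matrix (l ⊕ l) (l ⊕ l) F) - 1) ^ 3 =
      ((s : Matrix (l ⊕ l) (l ⊕ l) F) - 1) * ((s : Matrix (l ⊕ l) (l ⊕ l) F) - 1) * ((s : Matrix (l ⊕ l) (l ⊕ l) F) - 1) := by
    rw [pow_succ, pow_two]
  rw [h3, ← Matrix.mulVec_mulVec, ← Matrix.mulVec_mulVec, Matrix.zero_mulVec, h0 x]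
  have h1 : sympForm (ap s x - x) v = 0 := by
    rw [sympForm_sub_left]
    have := form_ap s x v
    rw [hs.1] at this
    rw [this, sub_self]
  obtain ⟨a, ha⟩ := hs.2 _ h1
  have h2 : ((s : Matrix (l ⊕ l) (l ⊕ l) F) - 1) *ᵥ (ap s x - x) = a • v := by
    rw [h0, ha]; abel
  rw [h2, h0, ap_smul, hs.1, sub_self]

lemma pow_Qt {v : l ⊕ l → F} {s : symplecticGroup l F} (hs : s ∈ Qt v) : s ^ (p ^ 2) = 1 := by
  apply Subtype.ext
  have h1 := Qt_cube hs
  have h2 : (p ^ 2 : ℕ) = 3 + (p ^ 2 - 3) := by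
    have : 2 ≤ p := (Fact.out : p.Prime).two_le
    have : 4 ≤ p ^ 2 := by nlinarith
    omega
  have h3 : ((s : Matrix (l ⊕ l) (l ⊕ l) F) - 1) ^ (p ^ 2) = 0 := by
    rw [h2, pow_add, h1, zero_mul]
  rw [sub_pow_char_pow_of_commute p 2 (Commute.one_right _), one_pow, sub_eq_zero] at h3
  change ((s ^ (p ^ 2) : symplecticGroup l F) : Matrix (l ⊕ l) (l ⊕ l) F) = 1
  rw [SubmonoidClass.coe_pow]
  exact h3

lemma isPGroup_Qt (v : l ⊕ l → F) : IsPGroup p (Qt v) := by
  intro s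
  refine ⟨2, ?_⟩
  apply Subtype.ext
  exact pow_Qt s.2

/-- the image of `Qt` in `PSp` -/
def QQ (v : l ⊕ l → F) : Subgroup (symplecticGroup l F ⧸ Subgroup.center (symplecticGroup l F)) :=
  (Qt v).map (pr l F)

lemma isPGroup_QQ (v : l ⊕ l → F) : IsPGroup p (QQ v) :=
  (isPGroup_Qt v).map _

omit [Fact p.Prime] [CharP F p] in
lemma RT_le_QQ (v : l ⊕ l → F) : RT v ≤ QQ v := by
  rintro _ ⟨_, ⟨c, rfl⟩, rfl⟩
  exact ⟨_, sympT_mem_Qt v c, rfl⟩

omit [Fact p.Prime] [CharP F p] in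
lemma pr_mem_QQ {v : l ⊕ l → F} {s : symplecticGroup l F} (h : s ∈ Qt v) : pr l F s ∈ QQ v := ⟨s, h, rfl⟩

variable [Fintype F]

/-- `P` fixes the point `⟨v⟩` -/
def Fix (P : Subgroup (symplecticGroup l F ⧸ Subgroup.center (symplecticGroup l F))) (v : l ⊕ l → F) : Prop :=
  ∀ s : symplecticGroup l F, pr l F s ∈ P → ∃ c : F, c ≠ 0 ∧ ap s v = c • v

include p in
lemma not_dvd_card_proj : ¬ p ∣ Nat.card (ℙ F (l ⊕ l → F)) := by
  classical
  have hfr : Module.finrank F (l ⊕ l → F) = Fintype.card (l ⊕ l) := Module.finrank_fintype_fun_eq_card F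
  have hn : Fintype.card (l ⊕ l) ≠ 0 := by
    have : Nonempty (l ⊕ l) := ⟨Sum.inl (Classical.arbitrary l)⟩
    exact Fintype.card_ne_zero
  rw [Projectivization.card_of_finrank F (l ⊕ l → F) hfr]
  obtain ⟨n, hn'⟩ : ∃ n, Fintype.card (l ⊕ l) = n + 1 := Nat.exists_eq_succ_of_ne_zero hn
  rw [hn', Finset.sum_range_succ']
  have hp : p ∣ Nat.card F := by
    rw [Nat.card_eq_fintype_card]
    obtain ⟨f, hpp, hq⟩ := FiniteField.card F p
    rw [hq]
    exact dvd_pow_self p f.ne_zero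
  have h1 : p ∣ ∑ i ∈ Finset.range n, Nat.card F ^ (i + 1) :=
    Finset.dvd_sum fun i _ => dvd_pow hp (Nat.succ_ne_zero i)
  intro h2
  have h3 := (Nat.dvd_add_right h1).mp h2
  rw [pow_zero] at h3
  exact (Fact.out : p.Prime).one_lt.ne' (Nat.dvd_one.mp h3)

include p in
/-- a `p`-subgroup fixes a point -/
lemma exists_fix {P : Subgroup (symplecticGroup l F ⧸ Subgroup.center (symplecticGroup l F))} (hP : IsPGroup p P) :
    ∃ v : l ⊕ l → F, v ≠ 0 ∧ Fix P v := by
  obtain ⟨x, hx⟩ := hP.nonempty_fixed_point_of_prime_not_dvd_card (ℙ F (l ⊕ l → F)) (not_dvd_card_proj (p := p))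
  induction x using Projectivization.ind with | _ v hv =>
  refine ⟨v, hv, fun s hs => ?_⟩
  have h1 : (⟨pr l F s, hs⟩ : P) • (Projectivization.mk F v hv) = Projectivization.mk F v hv := hx ⟨_, hs⟩
  have h2 : s • (Projectivization.mk F v hv) = Projectivization.mk F v hv := h1
  rw [Projectivization.smul_mk, Projectivization.mk_eq_mk_iff'] at h2
  obtain ⟨c, hc⟩ := h2
  refine ⟨c, ?_, hc.symm⟩
  rintro rfl
  rw [zero_smul] at hc
  exact ap_ne s hv hc.symm

end PGroup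

end Cfsg.Agent.Lead.AutPSp
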