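import Cfsg.Agent.Lib.Lead.AutPSpFinal
import Cfsg.Agent.Lib.Lead.AutPSLOut
/-! Diagonal and field automorphisms of `PSp`, and the order of the group they generate. -/
set_option autoImplicit false
set_option linter.style.haveILetI false
set_option linter.unusedSimpArgs false
set_option linter.unusedSectionVars false
set_option linter.unusedVariables false
namespace Cfsg.Agent.Lead.AutPSp
open Matrix
open scoped LinearAlgebra.Projectivization Pointwise

variable {F : Type*} [Field F] [Fintype F] {m : ℕ}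

local notation "PG" => (symplecticGroup (Fin m) F ⧸ Subgroup.center (symplecticGroup (Fin m) F))

/-- a multiplier of an element of `GSp` -/
noncomputable def mulC (g : Cfsg.GSp m F) : Fˣ := Classical.choose g.2

lemma mulC_spec (g : Cfsg.GSp m F) (x y : Fin m ⊕ Fin m → F) :
    sympForm ((g.1 : Matrix (Fin m ⊕ Fin m) (Fin m ⊕ Fin m) F) *ᵥ x) ((g.1 : Matrix (Fin m ⊕ Fin m) (Fin m ⊕ Fin m) F) *ᵥ y) =
      (mulC g : F) * sympForm x y :=
  Classical.choose_spec g.2 x y

lemma ssOf (g : Cfsg.GSp m F) : SemiSim g.1 (RingEquiv.refl F) (mulC g : F) :=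
  ⟨(mulC g).ne_zero, mulC_spec g⟩

lemma ss_one (σ : F ≃+* F) : SemiSim (1 : GL (Fin m ⊕ Fin m) F) σ 1 :=
  ⟨one_ne_zero, fun x y => by simp⟩

lemma map_refl' (M : Matrix (Fin m ⊕ Fin m) (Fin m ⊕ Fin m) F) : M.map (RingEquiv.refl F) = M := by
  ext i j; simp

lemma cHom_coe {g : GL (Fin m ⊕ Fin m) F} {σ : F ≃+* F} {c : F} (H : SemiSim g σ c) (s : symplecticGroup (Fin m) F) :
    ((cHom H s : symplecticGroup (Fin m) F) : Matrix (Fin m ⊕ Fin m) (Fin m ⊕ Fin m) F) =
      (g : Matrix (Fin m ⊕ Fin m) (Fin m ⊕ Fin m) F) * (s : Matrix (Fin m ⊕ Fin m) (Fin m ⊕ Fin m) F).map σ *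
        ((g⁻¹ : GL (Fin m ⊕ Fin m) F) : Matrix (Fin m ⊕ Fin m) (Fin m ⊕ Fin m) F) := rfl

/-- conformal automorphisms -/
noncomputable def kk : Cfsg.GSp m F →* MulAut PG where
  toFun g := cP (ssOf g)
  map_one' := by
    ext x
    induction x using QuotientGroup.induction_on with
    | H s =>
      change pr (Fin m) F (cHom (ssOf (1 : Cfsg.GSp m F)) s) = pr (Fin m) F s
      congr 1
      apply Subtype.ext
      rw [cHom_coe]
      have e1 : ((1 : Cfsg.GSp m F) : GL (Fin m ⊕ Fin m) F) = 1 := rfl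
      rw [map_refl', e1]
      simp
  map_mul' g g' := by
    ext x
    induction x using QuotientGroup.induction_on with
    | H s =>
      change pr (Fin m) F (cHom (ssOf (g * g')) s) = pr (Fin m) F (cHom (ssOf g) (cHom (ssOf g') s))
      congr 1
      apply Subtype.ext
      simp only [cHom_coe, map_refl']
      have e1 : ((g * g' : Cfsg.GSp m F) : GL (Fin m ⊕ Fin m) F) = g.1 * g'.1 := rfl
      rw [e1, _root_.mul_inv_rev, Units.val_mul, Units.val_mul]
      simp only [Matrix.mul_assoc]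

lemma kk_pr (g : Cfsg.GSp m F) (s : symplecticGroup (Fin m) F) :
    kk g (pr (Fin m) F s) = pr (Fin m) F (cHom (ssOf g) s) := rfl

/-- field automorphisms -/
noncomputable def fldS : (F ≃+* F) →* MulAut PG where
  toFun σ := cP (ss_one (m := m) σ)
  map_one' := by
    ext x
    induction x using QuotientGroup.induction_on with
    | H s =>
      change pr (Fin m) F (cHom (ss_one (m := m) (1 : F ≃+* F)) s) = pr (Fin m) F s
      congr 1
      apply Subtype.ext
      rw [cHom_coe]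
      have e1 : (s : Matrix (Fin m ⊕ Fin m) (Fin m ⊕ Fin m) F).map (1 : F ≃+* F) = s := by
        ext i j; simp
      rw [e1]
      simp
  map_mul' σ τ := by
    ext x
    induction x using QuotientGroup.induction_on with
    | H s =>
      change pr (Fin m) F (cHom (ss_one (m := m) (σ * τ)) s) = pr (Fin m) F (cHom (ss_one σ) (cHom (ss_one τ) s))
      congr 1
      apply Subtype.ext
      rw [cHom_coe, cHom_coe, cHom_coe]
      simp only [Units.val_one, one_mul, inv_one, mul_one]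
      ext i j
      simp

lemma fldS_pr (σ : F ≃+* F) (s : symplecticGroup (Fin m) F) :
    fldS σ (pr (Fin m) F s) = pr (Fin m) F (cHom (ss_one σ) s) := rfl

/-- each semilinear automorphism factors -/
lemma cP_eq {g : GL (Fin m ⊕ Fin m) F} {σ : F ≃+* F} {c : F} (H : SemiSim g σ c) :
    cP H = kk ⟨g, semiSim_mem_GSp H⟩ * fldS σ := by
  ext x
  induction x using QuotientGroup.induction_on with
  | H s =>
    change pr (Fin m) F (cHom H s) = pr (Fin m) F (cHom (ssOf ⟨g, semiSim_mem_GSp H⟩) (cHom (ss_one σ) s))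
    congr 1
    apply Subtype.ext
    rw [cHom_coe, cHom_coe, cHom_coe, map_refl']
    simp

lemma kk_sympT (g : Cfsg.GSp m F) (u : Fin m ⊕ Fin m → F) (a : F) :
    kk g (pr (Fin m) F (sympT u a)) =
      pr (Fin m) F (sympT ((g.1 : Matrix (Fin m ⊕ Fin m) (Fin m ⊕ Fin m) F) *ᵥ u) ((mulC g : F)⁻¹ * a)) := by
  rw [kk_pr, cHom_sympT]
  have e : smap (RingEquiv.refl F) u = u := by funext i; rfl
  rw [e]
  rfl

lemma fldS_sympT (σ : F ≃+* F) (u : Fin m ⊕ Fin m → F) (a : F) :
    fldS σ (pr (Fin m) F (sympT u a)) = pr (Fin m) F (sympT (smap σ u) (σ a)) := by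
  rw [fldS_pr, cHom_sympT]
  simp

/-- a field automorphism which is conformal is trivial -/
lemma fldS_eq_kk [Nonempty (Fin m)] {τ : F ≃+* F} {g : Cfsg.GSp m F} (h : fldS τ = (kk g : MulAut PG)) : τ = 1 := by
  classical
  let i : Fin m := Classical.arbitrary _
  let e : Fin m ⊕ Fin m → F := Pi.single (Sum.inl i) 1
  have he : e ≠ 0 := by
    intro h0
    have := congrFun h0 (Sum.inl i)
    simp [e] at this
  have hfix : smap τ e = e := by
    funext j
    by_cases hj : j = Sum.inl i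
    · subst hj; simp [smap, e]
    · simp [smap, e, Pi.single_apply, hj]
  have key : ∀ a : F, sympT e (τ a) = sympT ((g.1 : Matrix (Fin m ⊕ Fin m) (Fin m ⊕ Fin m) F) *ᵥ e) ((mulC g : F)⁻¹ * a) := by
    intro a
    have h1 := congrArg (fun β : MulAut PG => β (pr (Fin m) F (sympT e a))) h
    simp only [fldS_sympT, kk_sympT, hfix] at h1
    exact pr_sympT_inj h1
  have h1 := key 1
  rw [map_one] at h1
  obtain ⟨k, hk, e1⟩ := par_of_sympT_eq one_ne_zero he h1
  -- `e = k • g e`
  have h2 : (g.1 : Matrix (Fin m ⊕ Fin m) (Fin m ⊕ Fin m) F) *ᵥ e = k⁻¹ • e := by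
    calc (g.1 : Matrix (Fin m ⊕ Fin m) (Fin m ⊕ Fin m) F) *ᵥ e
        = k⁻¹ • (k • (g.1 : Matrix (Fin m ⊕ Fin m) (Fin m ⊕ Fin m) F) *ᵥ e) := by
          rw [smul_smul, inv_mul_cancel₀ hk, one_smul]
      _ = k⁻¹ • e := by rw [← e1]
  simp only [h2, sympT_smul] at key
  have hinj : ∀ a b : F, sympT e a = sympT e b → a = b := by
    intro a b hab
    obtain ⟨z, hz⟩ := exists_x0 he
    have h3 := congrArg (fun t => ap t z) hab
    simp only [ap_sympT, hz, mul_one] at h3
    have h4 := add_left_cancel h3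
    have h5 : (a - b) • e = 0 := by rw [sub_smul, h4, sub_self]
    exact sub_eq_zero.mp ((smul_eq_zero.mp h5).resolve_right he)
  have h3 : (mulC g : F)⁻¹ * (k⁻¹) ^ 2 = 1 := by
    have := hinj _ _ (key 1)
    rw [map_one, mul_one] at this
    exact this.symm
  ext a
  have := hinj _ _ (key a)
  rw [this]
  change (mulC g : F)⁻¹ * a * (k⁻¹) ^ 2 = a
  calc (mulC g : F)⁻¹ * a * (k⁻¹) ^ 2 = ((mulC g : F)⁻¹ * (k⁻¹) ^ 2) * a := by ring
    _ = a := by rw [h3, one_mul]

/-- uniqueness of the factorisation -/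
lemma factor_unique [Nonempty (Fin m)] {g g' : Cfsg.GSp m F} {σ σ' : F ≃+* F}
    (h : (kk g * fldS σ : MulAut PG) = kk g' * fldS σ') : kk g = (kk g' : MulAut PG) ∧ σ = σ' := by
  have h1 : fldS (σ' * σ⁻¹) = (kk (g'⁻¹ * g) : MulAut PG) := by
    rw [map_mul, map_mul, map_inv, map_inv]
    have : (kk g : MulAut PG) = kk g' * fldS σ' * (fldS σ)⁻¹ := by
      rw [← h]; group
    rw [this]
    group
  have h2 := fldS_eq_kk h1
  have h3 : σ' = σ := by
    have := congrArg (fun t => t * σ) h2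
    simpa using this
  subst h3
  exact ⟨mul_right_cancel h, rfl⟩

/-- a nondegeneracy helper -/
lemma exists_form_one [Nonempty (Fin m)] : ∃ x y : Fin m ⊕ Fin m → F, sympForm x y = 1 := by
  classical
  let i : Fin m := Classical.arbitrary _
  refine ⟨Pi.single (Sum.inr i) 1, Pi.single (Sum.inl i) 1, ?_⟩
  rw [sympForm_apply]
  simp [Pi.single_apply, Finset.sum_ite_eq]

/-- the multiplier as a homomorphism -/
noncomputable def mu [Nonempty (Fin m)] : Cfsg.GSp m F →* Fˣ where
  toFun := mulC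
  map_one' := by
    obtain ⟨x, y, h⟩ := exists_form_one (m := m) (F := F)
    have h1 := mulC_spec (1 : Cfsg.GSp m F) x y
    have e1 : (((1 : Cfsg.GSp m F) : GL (Fin m ⊕ Fin m) F) : Matrix (Fin m ⊕ Fin m) (Fin m ⊕ Fin m) F) = 1 := rfl
    rw [e1, Matrix.one_mulVec, Matrix.one_mulVec, h, mul_one] at h1
    apply Units.ext
    exact h1.symm
  map_mul' g g' := by
    obtain ⟨x, y, h⟩ := exists_form_one (m := m) (F := F)
    have h1 := mulC_spec (g * g') x y
    have e1 : (((g * g' : Cfsg.GSp m F) : GL (Fin m ⊕ Fin m) F) : Matrix (Fin m ⊕ Fin m) (Fin m ⊕ Fin m) F) =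
      (g.1 : Matrix (Fin m ⊕ Fin m) (Fin m ⊕ Fin m) F) * (g'.1 : Matrix (Fin m ⊕ Fin m) (Fin m ⊕ Fin m) F) := rfl
    rw [e1, ← Matrix.mulVec_mulVec, ← Matrix.mulVec_mulVec, mulC_spec, mulC_spec, h, mul_one] at h1
    apply Units.ext
    rw [Units.val_mul]
    rw [mul_one] at h1
    exact h1.symm

/-- the diagonal similarities -/
noncomputable def dC (c : Fˣ) : GL (Fin m ⊕ Fin m) F :=
  Matrix.GeneralLinearGroup.mkOfDetNeZero (Matrix.diagonal (Sum.elim (fun _ => (c : F)) (fun _ => 1))) (by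
    rw [Matrix.det_diagonal]
    exact Finset.prod_ne_zero_iff.mpr (by
      rintro (i | i) -
      · simp
      · simp))

lemma dC_mulVec (c : Fˣ) (x : Fin m ⊕ Fin m → F) :
    ((dC c : GL (Fin m ⊕ Fin m) F) : Matrix (Fin m ⊕ Fin m) (Fin m ⊕ Fin m) F) *ᵥ x =
      fun i => Sum.elim (fun _ => (c : F)) (fun _ => 1) i * x i := by
  funext i
  change (Matrix.diagonal (Sum.elim (fun _ => (c : F)) (fun _ => 1)) *ᵥ x) i = _
  rw [Matrix.mulVec_diagonal]

lemma dC_mem (c : Fˣ) : (dC c : GL (Fin m ⊕ Fin m) F) ∈ Cfsg.GSp m F := by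
  refine ⟨c, fun u v => ?_⟩
  change sympForm _ _ = (c : F) * sympForm u v
  rw [dC_mulVec, dC_mulVec, sympForm_apply, sympForm_apply, Finset.mul_sum]
  apply Finset.sum_congr rfl
  intro i _
  simp only [Sum.elim_inl, Sum.elim_inr]
  ring

/-- the multiplier is surjective -/
lemma mu_surj [Nonempty (Fin m)] : Function.Surjective (mu : Cfsg.GSp m F →* Fˣ) := by
  intro c
  refine ⟨⟨dC c, dC_mem c⟩, ?_⟩
  obtain ⟨x, y, h⟩ := exists_form_one (m := m) (F := F)
  have h1 := mulC_spec (⟨dC c, dC_mem c⟩ : Cfsg.GSp m F) x y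
  have h2 : sympForm (((dC c : GL (Fin m ⊕ Fin m) F) : Matrix (Fin m ⊕ Fin m) (Fin m ⊕ Fin m) F) *ᵥ x)
      (((dC c : GL (Fin m ⊕ Fin m) F) : Matrix (Fin m ⊕ Fin m) (Fin m ⊕ Fin m) F) *ᵥ y) = (c : F) * sympForm x y := by
    rw [dC_mulVec, dC_mulVec, sympForm_apply, sympForm_apply, Finset.mul_sum]
    apply Finset.sum_congr rfl
    intro i _
    simp only [Sum.elim_inl, Sum.elim_inr]
    ring
  apply Units.ext
  have h3 : (mulC (⟨dC c, dC_mem c⟩ : Cfsg.GSp m F) : F) * sympForm x y = (c : F) * sympForm x y := h1.symm.trans h2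
  rw [h, mul_one, mul_one] at h3
  exact h3

/-- the kernel of the multiplier is `Sp` -/
lemma card_ker_mu [Nonempty (Fin m)] :
    Nat.card (mu : Cfsg.GSp m F →* Fˣ).ker = Nat.card (symplecticGroup (Fin m) F) := by
  classical
  let f : (mu : Cfsg.GSp m F →* Fˣ).ker → symplecticGroup (Fin m) F := fun g =>
    ⟨(g.1.1 : Matrix (Fin m ⊕ Fin m) (Fin m ⊕ Fin m) F), by
      apply mem_sp_of_form
      intro x y
      rw [mulC_spec]
      have : (mulC g.1 : F) = 1 := by
        have h := g.2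
        rw [MonoidHom.mem_ker] at h
        exact congrArg Units.val h
      rw [this, one_mul]⟩
  apply Nat.card_eq_of_bijective f
  constructor
  · intro a b hab
    apply Subtype.ext
    apply Subtype.ext
    apply Units.ext
    exact congrArg Subtype.val hab
  · intro s
    let gg : GL (Fin m ⊕ Fin m) F :=
      ⟨(s : Matrix (Fin m ⊕ Fin m) (Fin m ⊕ Fin m) F), ((s⁻¹ : symplecticGroup (Fin m) F) : Matrix (Fin m ⊕ Fin m) (Fin m ⊕ Fin m) F),
        congrArg Subtype.val (mul_inv_cancel s), congrArg Subtype.val (inv_mul_cancel s)⟩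
    have hmem : gg ∈ Cfsg.GSp m F := ⟨1, fun u v => by
      change sympForm _ _ = _
      have := sympForm_mulVec s.2 u v
      rw [Units.val_one, one_mul]
      exact this⟩
    have hker : (⟨gg, hmem⟩ : Cfsg.GSp m F) ∈ (mu : Cfsg.GSp m F →* Fˣ).ker := by
      rw [MonoidHom.mem_ker]
      apply Units.ext
      obtain ⟨x, y, h⟩ := exists_form_one (m := m) (F := F)
      have h1 := mulC_spec (⟨gg, hmem⟩ : Cfsg.GSp m F) x y
      have h2 : sympForm ((gg : Matrix (Fin m ⊕ Fin m) (Fin m ⊕ Fin m) F) *ᵥ x) ((gg : Matrix (Fin m ⊕ Fin m) (Fin m ⊕ Fin m) F) *ᵥ y) = sympForm x y :=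
        sympForm_mulVec s.2 x y
      rw [h2, h, mul_one] at h1
      exact h1.symm
    exact ⟨⟨⟨gg, hmem⟩, hker⟩, Subtype.ext rfl⟩

lemma card_GSp [Nonempty (Fin m)] :
    Nat.card (Cfsg.GSp m F) = (Fintype.card F - 1) * Nat.card (symplecticGroup (Fin m) F) := by
  classical
  rw [Subgroup.card_eq_card_quotient_mul_card_subgroup (mu : Cfsg.GSp m F →* Fˣ).ker,
    Nat.card_congr (QuotientGroup.quotientKerEquivOfSurjective _ mu_surj).toEquiv, card_ker_mu,
    Nat.card_eq_fintype_card (α := Fˣ), Fintype.card_units]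

/-- the kernel of `kk` -/
lemma kk_eq_one_iff [Nonempty (Fin m)] {g : Cfsg.GSp m F} :
    (kk g : MulAut PG) = 1 ↔ ∃ z : F, (g.1 : Matrix (Fin m ⊕ Fin m) (Fin m ⊕ Fin m) F) = z • 1 := by
  constructor
  · intro h
    have hp : ∀ v : Fin m ⊕ Fin m → F, ¬ LinearIndependent F
        ![v, Matrix.mulVecLin (g.1 : Matrix (Fin m ⊕ Fin m) (Fin m ⊕ Fin m) F) v] := by
      intro v
      by_cases hv : v = 0
      · simp [hv, linearIndependent_fin2]
      · rw [LinearIndependent.pair_iff' hv]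
        push Not
        have h1 := congrArg (fun β : MulAut PG => β (pr (Fin m) F (sympT v 1))) h
        simp only [kk_sympT, MulAut.one_apply] at h1
        obtain ⟨k, hk, e⟩ := par_of_sympT_eq one_ne_zero hv (pr_sympT_inj h1).symm
        refine ⟨k⁻¹, ?_⟩
        change k⁻¹ • v = (g.1 : Matrix (Fin m ⊕ Fin m) (Fin m ⊕ Fin m) F) *ᵥ v
        conv_lhs => rw [e]
        rw [smul_smul, inv_mul_cancel₀ hk, one_smul]
    obtain ⟨c, hc⟩ := LinearMap.exists_eq_smul_id_of_forall_notLinearIndependent hp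
    refine ⟨c, ?_⟩
    ext i j
    have := congrFun (congrArg (fun f => f (Pi.single j 1)) hc) i
    simpa [Matrix.one_apply, Pi.single_apply] using this
  · rintro ⟨z, hz⟩
    ext x
    induction x using QuotientGroup.induction_on with
    | H s =>
      change pr (Fin m) F (cHom (ssOf g) s) = pr (Fin m) F s
      congr 1
      apply Subtype.ext
      rw [cHom_coe, map_refl']
      have h1 : (g.1 : Matrix (Fin m ⊕ Fin m) (Fin m ⊕ Fin m) F) * (s : Matrix (Fin m ⊕ Fin m) (Fin m ⊕ Fin m) F) =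
          (s : Matrix (Fin m ⊕ Fin m) (Fin m ⊕ Fin m) F) * (g.1 : Matrix (Fin m ⊕ Fin m) (Fin m ⊕ Fin m) F) := by
        rw [hz]; simp
      rw [h1, Matrix.mul_assoc, gl_mul_inv', Matrix.mul_one]

/-- the number of scalars -/
lemma card_ker_kk [Nonempty (Fin m)] :
    Nat.card (kk : Cfsg.GSp m F →* MulAut PG).ker = Fintype.card F - 1 := by
  classical
  rw [← Fintype.card_units, ← Nat.card_eq_fintype_card]
  symm
  let gz : Fˣ → GL (Fin m ⊕ Fin m) F := fun z => Matrix.GeneralLinearGroup.scalar _ z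
  have hgz : ∀ z : Fˣ, ((gz z : GL (Fin m ⊕ Fin m) F) : Matrix (Fin m ⊕ Fin m) (Fin m ⊕ Fin m) F) = (z : F) • 1 := by
    intro z
    change Matrix.scalar _ (z : F) = _
    ext i j
    simp [Matrix.scalar_apply, Matrix.diagonal_apply, Matrix.one_apply]
  have hmem : ∀ z : Fˣ, gz z ∈ Cfsg.GSp m F := fun z => ⟨z * z, fun u v => by
    change sympForm _ _ = _
    simp only [hgz, Matrix.smul_mulVec, Matrix.one_mulVec, sympForm_smul_left, sympForm_smul_right, Units.val_mul, mul_assoc]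
    rfl⟩
  have hker : ∀ z : Fˣ, (⟨gz z, hmem z⟩ : Cfsg.GSp m F) ∈ (kk : Cfsg.GSp m F →* MulAut PG).ker := fun z => by
    rw [MonoidHom.mem_ker, kk_eq_one_iff]
    exact ⟨z, hgz z⟩
  apply Nat.card_eq_of_bijective (fun z : Fˣ => (⟨⟨gz z, hmem z⟩, hker z⟩ : (kk : Cfsg.GSp m F →* MulAut PG).ker))
  constructor
  · intro a b hab
    have h1 := congrArg (fun g : (kk : Cfsg.GSp m F →* MulAut PG).ker => ((g.1.1 : GL (Fin m ⊕ Fin m) F) : Matrix (Fin m ⊕ Fin m) (Fin m ⊕ Fin m) F)) hab
    simp only [hgz] at h1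
    let i : Fin m := Classical.arbitrary _
    have h2 := congrFun (congrFun h1 (Sum.inl i)) (Sum.inl i)
    simp at h2
    exact Units.ext h2
  · rintro ⟨g, hg⟩
    rw [MonoidHom.mem_ker, kk_eq_one_iff] at hg
    obtain ⟨z, hz⟩ := hg
    have hz0 : z ≠ 0 := by
      rintro rfl
      rw [zero_smul] at hz
      have h1 := gl_mul_inv' g.1
      rw [hz, zero_mul] at h1
      let i : Fin m := Classical.arbitrary _
      have h2 := congrFun (congrFun h1 (Sum.inl i)) (Sum.inl i)
      simp at h2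
    refine ⟨Units.mk0 z hz0, ?_⟩
    apply Subtype.ext
    apply Subtype.ext
    apply Units.ext
    change _ = (g.1 : Matrix (Fin m ⊕ Fin m) (Fin m ⊕ Fin m) F)
    rw [hz]
    exact hgz _

/-- the order of the conformal part -/
lemma card_kk_range [Nonempty (Fin m)] :
    Nat.card (kk : Cfsg.GSp m F →* MulAut PG).range = Nat.card (symplecticGroup (Fin m) F) := by
  have h1 := Subgroup.card_eq_card_quotient_mul_card_subgroup (kk : Cfsg.GSp m F →* MulAut PG).ker
  rw [Nat.card_congr (QuotientGroup.quotientKerEquivRange (kk : Cfsg.GSp m F →* MulAut PG)).toEquiv, card_ker_kk, card_GSp, mul_comm] at h1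
  have hq : 0 < Fintype.card F - 1 := by
    have := Fintype.one_lt_card (α := F)
    omega
  exact (Nat.eq_of_mul_eq_mul_right hq h1).symm

/-- the order of `Sp` modulo its centre -/
lemma card_Sp_eq [Nonempty (Fin m)] :
    Nat.card (symplecticGroup (Fin m) F) =
      Nat.gcd 2 (Fintype.card F - 1) * Nat.card (symplecticGroup (Fin m) F ⧸ Subgroup.center (symplecticGroup (Fin m) F)) := by
  rw [Subgroup.card_eq_card_quotient_mul_card_subgroup (Subgroup.center (symplecticGroup (Fin m) F)), card_center_Sp, mul_comm]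

end Cfsg.Agent.Lead.AutPSp
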