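import Cfsg.Agent.Lib.Lead.AutPSpQ
/-! Sylow subgroups of `PSp` and their centres. -/
set_option autoImplicit false
set_option linter.style.haveILetI false
set_option linter.unusedSimpArgs false
set_option linter.unusedSectionVars false
set_option linter.unusedVariables false
namespace Cfsg.Agent.Lead.AutPSp
open Matrix
open scoped LinearAlgebra.Projectivization Pointwise
open Cfsg.Agent.Lead.AutPSL (zc image_zc)

variable {l : Type*} [Fintype l] [DecidableEq l] {F : Type*} [Field F]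
variable {p : ℕ} [Fact p.Prime] [CharP F p] [Nonempty l] [Fintype F]

local notation "PG" => (symplecticGroup l F ⧸ Subgroup.center (symplecticGroup l F))

lemma QQ_le_of_fix (P : Sylow p PG) {v : l ⊕ l → F} (hv : Fix (P : Subgroup PG) v) : QQ v ≤ (P : Subgroup PG) := by
  have hN : (P : Subgroup PG) ≤ Subgroup.normalizer (QQ v : Set PG) := by
    intro x hx
    obtain ⟨s, rfl⟩ := QuotientGroup.mk'_surjective _ x
    obtain ⟨c, hc, hsv⟩ := hv s hx
    rw [Subgroup.mem_normalizer_iff]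
    intro h
    constructor
    · rintro ⟨t, ht, rfl⟩
      refine ⟨s * t * s⁻¹, Qt_conj hc hsv ht, ?_⟩
      simp only [map_mul, map_inv]
    · rintro ⟨t, ht, e⟩
      have h0 : ap s⁻¹ v = c⁻¹ • v := by
        apply ap_inj s
        rw [ap_ap_inv, ap_smul, hsv, smul_smul, inv_mul_cancel₀ hc, one_smul]
      refine ⟨s⁻¹ * t * s⁻¹⁻¹, Qt_conj (inv_ne_zero hc) h0 ht, ?_⟩
      simp only [map_mul, map_inv]
      rw [e]
      simp only [QuotientGroup.mk'_apply]
      group
  have h1 := P.is_maximal' (P.isPGroup'.to_sup_of_normal_right' (isPGroup_QQ v) hN) le_sup_left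
  exact sup_eq_left.mp h1

lemma ap_pow_eigen {s : symplecticGroup l F} {v : l ⊕ l → F} {c : F} (h : ap s v = c • v) (n : ℕ) :
    ap (s ^ n) v = c ^ n • v := by
  induction n with
  | zero => simp
  | succ n ih => rw [pow_succ, ap_mul, h, ap_smul, ih, smul_smul, pow_succ, mul_comm]

include p in
/-- elements of a `p`-subgroup act on a fixed point by `±1` -/
lemma sq_of_fix {P : Subgroup PG} (hP : IsPGroup p P) {v : l ⊕ l → F} (hv0 : v ≠ 0)
    {s : symplecticGroup l F} (hs : pr l F s ∈ P) {c : F} (hc : ap s v = c • v) : c ^ 2 = 1 := by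
  obtain ⟨k, hk⟩ := hP ⟨_, hs⟩
  have h1 : pr l F (s ^ (p ^ k)) = pr l F 1 := by
    have := congrArg Subtype.val hk
    rw [map_pow, map_one]
    exact this
  obtain ⟨d, hd, hx⟩ := pr_eq_iff.mp h1
  have h2 := hx v
  rw [ap_pow_eigen hc, ap_one] at h2
  have h3 : c ^ p ^ k = d := by
    have : (c ^ p ^ k - d) • v = 0 := by rw [sub_smul, h2, sub_self]
    exact sub_eq_zero.mp ((smul_eq_zero.mp this).resolve_right hv0)
  have h4 : ((c ^ 2) - 1) ^ p ^ k = 0 := by
    rw [sub_pow_char_pow, one_pow, ← pow_mul, mul_comm, pow_mul, h3, hd, sub_self]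
  exact sub_eq_zero.mp (pow_eq_zero_iff (pow_ne_zero _ (Fact.out : p.Prime).ne_zero) |>.mp h4)

include p in
lemma sympT_smul_eq {v : l ⊕ l → F} {c : F} (hc : c ^ 2 = 1) (a : F) : sympT (c • v) a = sympT v a := by
  rw [sympT_smul, hc, mul_one]

lemma RT_sub_zc (P : Sylow p PG) {v : l ⊕ l → F} (hv0 : v ≠ 0) (hv : Fix (P : Subgroup PG) v) :
    (RT v : Set PG) ⊆ zc (P : Subgroup PG) := by
  rintro _ ⟨_, ⟨a, rfl⟩, rfl⟩
  refine ⟨QQ_le_of_fix P hv (RT_le_QQ v ⟨_, ⟨a, rfl⟩, rfl⟩), fun y hy => ?_⟩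
  obtain ⟨s, rfl⟩ := QuotientGroup.mk'_surjective _ y
  obtain ⟨c, hc, hsv⟩ := hv s hy
  have hc2 := sq_of_fix P.isPGroup' hv0 hy hsv
  have h1 : s * sympT v a * s⁻¹ = sympT v a := by
    rw [conj_sympT', hsv]
    exact sympT_smul_eq (p := p) hc2 a
  have h2 : s * sympT v a = sympT v a * s := by
    conv_rhs => rw [← h1]
    group
  change pr l F (sympT v a) * pr l F s = pr l F s * pr l F (sympT v a)
  rw [← map_mul, ← map_mul, h2]

/-- lifting a central element -/
lemma zc_lift (P : Sylow p PG) {v : l ⊕ l → F} (hv0 : v ≠ 0) (hv : Fix (P : Subgroup PG) v) {z : PG}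
    (hz : z ∈ zc (P : Subgroup PG)) :
    ∃ s : symplecticGroup l F, pr l F s = z ∧ ap s v = v ∧
      ∀ w, sympForm v w = 0 → ∃ k : F, (2 : F) * k = 0 ∧ ap s w = w + k • v := by
  obtain ⟨s₀, rfl⟩ := QuotientGroup.mk'_surjective _ z
  obtain ⟨c, hc, hsv⟩ := hv s₀ hz.1
  have hc2 := sq_of_fix P.isPGroup' hv0 hz.1 hsv
  set s : symplecticGroup l F := scal c hc2 * s₀ with hs
  have hprs : pr l F s = pr l F s₀ := by
    rw [pr_eq_iff]
    refine ⟨c, hc2, fun x => ?_⟩
    rw [hs, ap_mul, ap_scal]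
  have hsv' : ap s v = v := by
    rw [hs, ap_mul, hsv, ap_scal, smul_smul, ← sq, hc2, one_smul]
  have hsi : ap s⁻¹ v = v := by
    apply ap_inj s
    rw [ap_ap_inv, hsv']
  refine ⟨s, hprs, hsv', fun w hw => ?_⟩
  have hmem : pr l F (SS v w) ∈ (P : Subgroup PG) := QQ_le_of_fix P hv (pr_mem_QQ (SS_mem_Qt hw))
  have hcomm := hz.2 _ hmem
  have hc1 : pr l F (s * SS v w * s⁻¹) = pr l F (SS v w) := by
    have e : pr l F s * pr l F (SS v w) = pr l F (SS v w) * pr l F s := by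
      rw [hprs]; exact hcomm
    rw [map_mul, map_mul, map_inv, e]
    group
  obtain ⟨d, hd, hx⟩ := pr_eq_iff.mp hc1
  have hd1 : d = 1 := by
    have h1 := hx v
    rw [ap_mul, ap_mul, hsi, (SS_mem_Qt hw).1, hsv'] at h1
    have h2 : (d - 1) • v = 0 := by
      rw [sub_smul, one_smul, ← h1, sub_self]
    exact sub_eq_zero.mp ((smul_eq_zero.mp h2).resolve_right hv0)
  subst hd1
  have h3 : s * SS v w * s⁻¹ = SS v w := by
    apply sp_ext
    intro x
    rw [hx, one_smul]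
  rw [conj_SS, hsv'] at h3
  have hw' : sympForm v (ap s w) = 0 := by
    have := form_ap s v w
    rw [hsv'] at this
    rw [this, hw]
  obtain ⟨x₀, hx₀⟩ := exists_x0 hv0
  have h4 := congrArg (fun t => ap t x₀) h3
  simp only [ap_SS hw', ap_SS hw, hx₀, one_smul] at h4
  set k := sympForm x₀ w - sympForm x₀ (ap s w) with hk
  have h5 : ap s w = w + k • v := by
    have : sympForm x₀ (ap s w) • v + ap s w = sympForm x₀ w • v + w := by
      have h6 := add_assoc x₀ (sympForm x₀ (ap s w) • v) (ap s w)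
      have h7 := add_assoc x₀ (sympForm x₀ w • v) w
      rw [h6, h7] at h4
      exact add_left_cancel h4
    rw [hk, sub_smul]
    rw [← sub_eq_zero] at this ⊢
    rw [← this]
    abel
  refine ⟨k, ?_, h5⟩
  have h8 := congrArg (sympForm x₀) h5
  rw [sympForm_add_right, sympForm_smul_right, hx₀, mul_one] at h8
  rw [two_mul]
  rw [hk] at h8 ⊢
  linear_combination -h8

/-- the odd case: the centre of a Sylow subgroup is a root group -/
lemma zc_odd (h2 : (2 : F) ≠ 0) (P : Sylow p PG) {v : l ⊕ l → F} (hv0 : v ≠ 0) (hv : Fix (P : Subgroup PG) v) :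
    zc (P : Subgroup PG) ⊆ (RT v : Set PG) := by
  intro z hz
  obtain ⟨s, rfl, hs, hw⟩ := zc_lift P hv0 hv hz
  obtain ⟨c, rfl⟩ := eq_sympT_of_fix hv0 (s := s) (by
    intro y hy
    obtain ⟨k, hk, e⟩ := hw y (perp_swap hy)
    rw [e, (mul_eq_zero.mp hk).resolve_left h2, zero_smul, add_zero])
  exact mem_RT.mpr ⟨c, rfl⟩

/-- the even case -/
lemma zc_even (h2 : (2 : F) = 0) (P : Sylow p PG) {v : l ⊕ l → F} (hv0 : v ≠ 0) (hv : Fix (P : Subgroup PG) v) :
    zc (P : Subgroup PG) ⊆ (QQ v : Set PG) := by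
  intro z hz
  obtain ⟨s, rfl, hs, hw⟩ := zc_lift P hv0 hv hz
  refine ⟨s, ⟨hs, fun y hy => ?_⟩, rfl⟩
  obtain ⟨k, -, e⟩ := hw y (perp_swap hy)
  exact ⟨k, e⟩

/-- a Sylow subgroup containing the radical of `u` fixes only the point `u` -/
lemma par_of_QQ_le {P : Subgroup PG} {u v : l ⊕ l → F} (hu : u ≠ 0) (hv0 : v ≠ 0) (hv : Fix P v) (h : QQ u ≤ P) :
    PolarFT.Par F u v := by
  have hval : ∀ (a : F) (b : F), v + a • u = b • v → a ≠ 0 → PolarFT.Par F u v := by
    intro a b e ha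
    have h1 : a • u = (b - 1) • v := by
      rw [sub_smul, one_smul, ← e]; abel
    have hb : b - 1 ≠ 0 := by
      intro h0
      rw [h0, zero_smul] at h1
      exact (smul_ne_zero ha hu) h1
    refine ⟨(b - 1)⁻¹ * a, mul_ne_zero (inv_ne_zero hb) ha, ?_⟩
    rw [← smul_smul, h1, smul_smul, inv_mul_cancel₀ hb, one_smul]
  -- first `ω(v,u) = 0`
  by_contra hnp
  have h0 : sympForm v u = 0 := by
    by_contra hne
    obtain ⟨c, hc, e⟩ := hv (sympT u 1) (h (RT_le_QQ u ⟨_, ⟨1, rfl⟩, rfl⟩))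
    rw [ap_sympT, one_mul] at e
    exact hnp (hval _ _ e hne)
  have h1 : ∀ w, sympForm w u = 0 → sympForm w v = 0 := by
    intro w hw
    have hw' := perp_swap hw
    by_contra hne
    obtain ⟨c, hc, e⟩ := hv (SS u w) (h (pr_mem_QQ (SS_mem_Qt hw')))
    rw [ap_SS hw', h0, zero_smul, add_zero] at e
    have hne' : sympForm v w ≠ 0 := by
      rw [sympForm_swap, neg_ne_zero]; exact hne
    exact hnp (hval _ _ e hne')
  obtain ⟨k, hk⟩ := mul_of_perp_perp hu h1
  refine hnp ⟨k, ?_, hk⟩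
  rintro rfl
  rw [zero_smul] at hk
  exact hv0 hk

lemma Fix.of_par {P : Subgroup PG} {u v : l ⊕ l → F} (hv : Fix P v) (hp : PolarFT.Par F u v) : Fix P u := by
  intro s hs
  obtain ⟨c, hc, e⟩ := hv s hs
  obtain ⟨k, hk, rfl⟩ := hp
  refine ⟨c, hc, ?_⟩
  rw [ap_smul, smul_comm] at e
  exact smul_right_injective _ hk e

include p in
/-- each point is fixed by a Sylow subgroup -/
lemma exists_sylow_fix {u : l ⊕ l → F} (hu : u ≠ 0) : ∃ P : Sylow p PG, Fix (P : Subgroup PG) u := by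
  obtain ⟨P, hP⟩ := (isPGroup_QQ (p := p) u).exists_le_sylow
  obtain ⟨v, hv0, hv⟩ := exists_fix (p := p) P.isPGroup'
  exact ⟨P, hv.of_par (par_of_QQ_le hu hv0 hv hP)⟩

/-- the image of a Sylow subgroup under an automorphism -/
lemma exists_sylow_map (P : Sylow p PG) (α : MulAut PG) :
    ∃ Q : Sylow p PG, (Q : Subgroup PG) = (P : Subgroup PG).map α.toMonoidHom := by
  refine ⟨α • P, ?_⟩
  rw [Sylow.pointwise_smul_def]
  ext x
  rw [Subgroup.mem_smul_pointwise_iff_exists]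
  rfl

end Cfsg.Agent.Lead.AutPSp
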