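import Mathlib
/-! Sylow `p`-subgroups of `GL_2(q)`, `q` a power of the characteristic `p`. -/
set_option autoImplicit false
set_option linter.style.haveILetI false
set_option linter.unusedSimpArgs false
set_option linter.unusedSectionVars false
namespace Cfsg.Agent.Lead
open Matrix
open scoped MatrixGroups

section Basic
variable {F : Type*} [Field F]

/-- Upper triangular invertible matrix. -/
def bGL (a d : Fˣ) (b : F) : GL (Fin 2) F where
  val := !![(a : F), b; 0, (d : F)]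
  inv := !![((a⁻¹ : Fˣ) : F), -b * ((a⁻¹ : Fˣ) : F) * ((d⁻¹ : Fˣ) : F); 0, ((d⁻¹ : Fˣ) : F)]
  val_inv := by
    ext i j
    fin_cases i <;> fin_cases j <;> simp [Matrix.mul_apply, Fin.sum_univ_two]
    field_simp; ring
  inv_val := by
    ext i j
    fin_cases i <;> fin_cases j <;> simp [Matrix.mul_apply, Fin.sum_univ_two]
    field_simp; ring

@[simp] lemma bGL_val (a d : Fˣ) (b : F) :
    ((bGL a d b : GL (Fin 2) F) : Matrix (Fin 2) (Fin 2) F) = !![(a : F), b; 0, (d : F)] := rfl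

/-- The unipotent element `[[1,x],[0,1]]`. -/
def uGL (x : F) : GL (Fin 2) F := bGL 1 1 x

@[simp] lemma uGL_val (x : F) :
    ((uGL x : GL (Fin 2) F) : Matrix (Fin 2) (Fin 2) F) = !![1, x; 0, 1] := by
  simp [uGL]

lemma uGL_add (x y : F) : uGL (x + y) = uGL x * uGL y := by
  apply Units.ext
  ext i j
  fin_cases i <;> fin_cases j <;> simp [Matrix.mul_apply, Fin.sum_univ_two, add_comm]

lemma uGL_zero : uGL (0 : F) = 1 := by
  apply Units.ext
  ext i j
  fin_cases i <;> fin_cases j <;> simp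

lemma uGL_injective : Function.Injective (uGL : F → GL (Fin 2) F) := by
  intro x y h
  have := congrArg (fun g : GL (Fin 2) F => (g : Matrix (Fin 2) (Fin 2) F) 0 1) h
  simpa using this

/-- The unipotent homomorphism. -/
def uHom : Multiplicative F →* GL (Fin 2) F where
  toFun x := uGL x.toAdd
  map_one' := by simp [uGL_zero]
  map_mul' x y := by simp [uGL_add]

/-- The upper unitriangular subgroup of `GL_2`. -/
def P0 : Subgroup (GL (Fin 2) F) := (uHom (F := F)).range

lemma mem_P0 {g : GL (Fin 2) F} : g ∈ (P0 : Subgroup (GL (Fin 2) F)) ↔ ∃ x : F, uGL x = g := by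
  constructor
  · rintro ⟨x, rfl⟩; exact ⟨x.toAdd, rfl⟩
  · rintro ⟨x, rfl⟩; exact ⟨Multiplicative.ofAdd x, rfl⟩

lemma uHom_injective : Function.Injective (uHom (F := F)) := by
  intro x y h
  exact Multiplicative.toAdd.injective (uGL_injective h)

lemma card_P0 : Nat.card (P0 : Subgroup (GL (Fin 2) F)) = Nat.card F := by
  have h := Nat.card_congr (MonoidHom.ofInjective (uHom_injective (F := F))).toEquiv
  have h2 : Nat.card (Multiplicative F) = Nat.card F := rfl
  rw [← h2, h]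
  rfl

/-- Entries of a `GL_2` element conjugating a nontrivial `u x` into `u y`. -/
lemma conj_u_entries {g : GL (Fin 2) F} {x y : F} (hx : x ≠ 0)
    (h : g * uGL x = uGL y * g) :
    (g : Matrix (Fin 2) (Fin 2) F) 1 0 = 0 ∧
      (g : Matrix (Fin 2) (Fin 2) F) 0 0 * x = y * (g : Matrix (Fin 2) (Fin 2) F) 1 1 := by
  have h1 := congrArg (fun k : GL (Fin 2) F => (k : Matrix (Fin 2) (Fin 2) F)) h
  simp only [Units.val_mul, uGL_val] at h1
  have e11 := congrFun (congrFun h1 1) 1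
  have e01 := congrFun (congrFun h1 0) 1
  simp [Matrix.mul_apply, Fin.sum_univ_two] at e11 e01
  have hc : (g : Matrix (Fin 2) (Fin 2) F) 1 0 = 0 := by
    rcases e11 with h | h
    · exact h
    · exact absurd h hx
  refine ⟨hc, ?_⟩
  rw [hc] at *
  linear_combination e01

lemma det_upper {g : GL (Fin 2) F} (hc : (g : Matrix (Fin 2) (Fin 2) F) 1 0 = 0) :
    (g : Matrix (Fin 2) (Fin 2) F) 0 0 ≠ 0 ∧ (g : Matrix (Fin 2) (Fin 2) F) 1 1 ≠ 0 := by
  have hdet : ((g : Matrix (Fin 2) (Fin 2) F)).det ≠ 0 := by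
    have := g.isUnit.map (Matrix.detMonoidHom (n := Fin 2) (R := F))
    exact this.ne_zero
  rw [Matrix.det_fin_two, hc] at hdet
  simp only [mul_zero, sub_zero] at hdet
  exact ⟨left_ne_zero_of_mul hdet, right_ne_zero_of_mul hdet⟩

lemma eq_bGL_of_upper {g : GL (Fin 2) F} (hc : (g : Matrix (Fin 2) (Fin 2) F) 1 0 = 0) :
    ∃ (a d : Fˣ) (b : F), g = bGL a d b := by
  obtain ⟨ha, hd⟩ := det_upper hc
  refine ⟨Units.mk0 _ ha, Units.mk0 _ hd, (g : Matrix (Fin 2) (Fin 2) F) 0 1, ?_⟩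
  apply Units.ext
  ext i j
  fin_cases i <;> fin_cases j <;> simp [hc]

lemma bGL_mul_u (a d : Fˣ) (b x : F) :
    bGL a d b * uGL x = uGL ((a : F) * x * ((d⁻¹ : Fˣ) : F)) * bGL a d b := by
  apply Units.ext
  ext i j
  fin_cases i <;> fin_cases j <;> simp [Matrix.mul_apply, Fin.sum_univ_two, add_comm, mul_comm]

/-- The normalizer of `P0` is the group of upper triangular matrices. -/
lemma mem_normalizer_P0 {g : GL (Fin 2) F} :
    g ∈ Subgroup.normalizer ((P0 : Subgroup (GL (Fin 2) F)) : Set (GL (Fin 2) F)) ↔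
      (g : Matrix (Fin 2) (Fin 2) F) 1 0 = 0 := by
  rw [Subgroup.mem_normalizer_iff]
  constructor
  · intro h
    have h1 : g * uGL 1 * g⁻¹ ∈ (P0 : Subgroup (GL (Fin 2) F)) :=
      (h _).1 (mem_P0.2 ⟨1, rfl⟩)
    obtain ⟨y, hy⟩ := mem_P0.1 h1
    have h2 : g * uGL 1 = uGL y * g := by rw [hy]; group
    exact (conj_u_entries one_ne_zero h2).1
  · intro hc h
    obtain ⟨a, d, b, rfl⟩ := eq_bGL_of_upper hc
    constructor
    · intro hh
      obtain ⟨x, rfl⟩ := mem_P0.1 hh
      refine mem_P0.2 ⟨(a : F) * x * ((d⁻¹ : Fˣ) : F), ?_⟩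
      rw [bGL_mul_u]; group
    · intro hh
      obtain ⟨y, hy⟩ := mem_P0.1 hh
      -- y = a x d⁻¹ with x = a⁻¹ y d
      have h3 := bGL_mul_u a d b (((a⁻¹ : Fˣ) : F) * y * (d : F))
      have h4 : (a : F) * (((a⁻¹ : Fˣ) : F) * y * (d : F)) * ((d⁻¹ : Fˣ) : F) = y := by
        calc (a : F) * (((a⁻¹ : Fˣ) : F) * y * (d : F)) * ((d⁻¹ : Fˣ) : F)
            = ((a : F) * ((a⁻¹ : Fˣ) : F)) * y * ((d : F) * ((d⁻¹ : Fˣ) : F)) := by ring
          _ = y := by simp
      rw [h4] at h3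
      refine mem_P0.2 ⟨((a⁻¹ : Fˣ) : F) * y * (d : F), ?_⟩
      have h5 : bGL a d b * uGL (((a⁻¹ : Fˣ) : F) * y * (d : F)) = bGL a d b * h := by
        rw [h3, hy]; group
      exact mul_left_cancel h5

end Basic

section Finite
variable {F : Type*} [Field F] [Fintype F]

/-- Cardinality of the upper triangular group. -/
lemma card_normalizer_P0 :
    Nat.card (Subgroup.normalizer ((P0 : Subgroup (GL (Fin 2) F)) : Set (GL (Fin 2) F)))
      = Fintype.card F * (Fintype.card F - 1) ^ 2 := by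
  classical
  let f : Fˣ × Fˣ × F → Subgroup.normalizer ((P0 : Subgroup (GL (Fin 2) F)) : Set (GL (Fin 2) F)) :=
    fun t => ⟨bGL t.1 t.2.1 t.2.2, mem_normalizer_P0.2 (by simp)⟩
  have hf : Function.Bijective f := by
    constructor
    · rintro ⟨a, d, b⟩ ⟨a', d', b'⟩ h
      have h1 := congrArg (fun k : Subgroup.normalizer ((P0 : Subgroup (GL (Fin 2) F)) : Set (GL (Fin 2) F)) =>
        ((k : GL (Fin 2) F) : Matrix (Fin 2) (Fin 2) F)) h
      simp only [f, bGL_val] at h1
      have e00 := congrFun (congrFun h1 0) 0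
      have e11 := congrFun (congrFun h1 1) 1
      have e01 := congrFun (congrFun h1 0) 1
      simp at e00 e11 e01
      simp only [Prod.mk.injEq]
      exact ⟨Units.ext e00, Units.ext e11, e01⟩
    · rintro ⟨g, hg⟩
      obtain ⟨a, d, b, rfl⟩ := eq_bGL_of_upper (mem_normalizer_P0.1 hg)
      exact ⟨⟨a, d, b⟩, rfl⟩
  rw [← Nat.card_eq_of_bijective f hf, Nat.card_eq_fintype_card, Fintype.card_prod,
    Fintype.card_prod, Fintype.card_units]
  ring

/-- Cardinality of the centralizer of a nontrivial unipotent element. -/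
lemma card_centralizer_u (x : F) (hx : x ≠ 0) :
    Nat.card (Subgroup.centralizer ({uGL x} : Set (GL (Fin 2) F)))
      = Fintype.card F * (Fintype.card F - 1) := by
  classical
  have hmem : ∀ g : GL (Fin 2) F, g ∈ Subgroup.centralizer ({uGL x} : Set (GL (Fin 2) F)) ↔
      ((g : Matrix (Fin 2) (Fin 2) F) 1 0 = 0 ∧
        (g : Matrix (Fin 2) (Fin 2) F) 0 0 = (g : Matrix (Fin 2) (Fin 2) F) 1 1) := by
    intro g
    rw [Subgroup.mem_centralizer_singleton_iff]
    constructor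
    · intro h
      have := conj_u_entries hx h
      refine ⟨this.1, ?_⟩
      have h2 := this.2
      have : x * ((g : Matrix (Fin 2) (Fin 2) F) 0 0 - (g : Matrix (Fin 2) (Fin 2) F) 1 1) = 0 := by
        linear_combination h2
      exact sub_eq_zero.1 ((mul_eq_zero.1 this).resolve_left hx)
    · rintro ⟨hc, he⟩
      obtain ⟨a, d, b, rfl⟩ := eq_bGL_of_upper hc
      simp at he
      have had : a = d := Units.ext he
      subst had
      rw [bGL_mul_u]
      congr 2
      calc (a : F) * x * ((a⁻¹ : Fˣ) : F) = x * ((a : F) * ((a⁻¹ : Fˣ) : F)) := by ring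
        _ = x := by simp
  let f : Fˣ × F → Subgroup.centralizer ({uGL x} : Set (GL (Fin 2) F)) :=
    fun t => ⟨bGL t.1 t.1 t.2, (hmem _).2 (by simp)⟩
  have hf : Function.Bijective f := by
    constructor
    · rintro ⟨a, b⟩ ⟨a', b'⟩ h
      have h1 := congrArg (fun k : Subgroup.centralizer ({uGL x} : Set (GL (Fin 2) F)) =>
        ((k : GL (Fin 2) F) : Matrix (Fin 2) (Fin 2) F)) h
      simp only [f, bGL_val] at h1
      have e00 := congrFun (congrFun h1 0) 0
      have e01 := congrFun (congrFun h1 0) 1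
      simp at e00 e01
      simp only [Prod.mk.injEq]
      exact ⟨Units.ext e00, e01⟩
    · rintro ⟨g, hg⟩
      obtain ⟨hc, he⟩ := (hmem g).1 hg
      obtain ⟨a, d, b, rfl⟩ := eq_bGL_of_upper hc
      simp at he
      have had : a = d := Units.ext he
      subst had
      exact ⟨⟨a, b⟩, rfl⟩
  rw [← Nat.card_eq_of_bijective f hf, Nat.card_eq_fintype_card, Fintype.card_prod,
    Fintype.card_units]
  ring

variable (p : ℕ) [Fact p.Prime] [CharP F p]

/-- Factorization of `|GL_2(q)|` at the characteristic. -/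
lemma card_GL2 : Nat.card (GL (Fin 2) F) =
    Fintype.card F * ((Fintype.card F - 1) * (Fintype.card F ^ 2 - 1)) := by
  have h := Matrix.card_GL_field (𝔽 := F) 2
  rw [h, Fin.prod_univ_two]
  simp only [Fin.val_zero, Fin.val_one, pow_zero, pow_one]
  have hq : 1 ≤ Fintype.card F := Fintype.card_pos
  obtain ⟨k, hk⟩ : ∃ k, Fintype.card F = k + 1 := ⟨Fintype.card F - 1, by omega⟩
  rw [hk]
  have h1 : (k + 1) ^ 2 - (k + 1) = (k + 1) * k := by
    have : (k + 1) ^ 2 = (k + 1) * k + (k + 1) := by ring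
    omega
  rw [h1]
  simp only [Nat.add_sub_cancel]
  ring

omit [Fintype F] in
lemma card_eq_pow [Finite F] : ∃ f : ℕ, f ≠ 0 ∧ Nat.card F = p ^ f := by
  haveI := Fintype.ofFinite F
  obtain ⟨n, hp, hn⟩ := FiniteField.card F p
  exact ⟨n, n.ne_zero, by rw [Nat.card_eq_fintype_card]; exact hn⟩

lemma factorization_card_GL2 :
    (Nat.card (GL (Fin 2) F)).factorization p = (Nat.card F).factorization p := by
  obtain ⟨f, hf0, hf⟩ := card_eq_pow (F := F) p
  have hp : p.Prime := Fact.out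
  have hq : Nat.card F = Fintype.card F := Nat.card_eq_fintype_card
  rw [card_GL2 (F := F), ← hq]
  have hq2 : 2 ≤ Nat.card F := by
    rw [hf]; exact le_trans hp.two_le (Nat.le_self_pow hf0 p)
  have hdvd : p ∣ Nat.card F := by rw [hf]; exact dvd_pow_self p hf0
  have h1 : ¬ p ∣ (Nat.card F - 1) := by
    intro h
    have := (Nat.dvd_sub_iff_right (by omega) hdvd).1 h
    exact hp.one_lt.ne' (Nat.dvd_one.1 this)
  have h2 : ¬ p ∣ (Nat.card F ^ 2 - 1) := by
    intro h
    have h3 : p ∣ Nat.card F ^ 2 := dvd_pow hdvd two_ne_zero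
    have := (Nat.dvd_sub_iff_right (by nlinarith) h3).1 h
    exact hp.one_lt.ne' (Nat.dvd_one.1 this)
  have hA : Nat.card F ≠ 0 := by omega
  have hB : Nat.card F - 1 ≠ 0 := by omega
  have hC : Nat.card F ^ 2 - 1 ≠ 0 := by
    have : 4 ≤ Nat.card F ^ 2 := by nlinarith
    omega
  rw [Nat.factorization_mul hA (mul_ne_zero hB hC)]
  simp only [Finsupp.coe_add, Pi.add_apply]
  rw [Nat.factorization_eq_zero_of_not_dvd (fun h => (hp.dvd_mul.1 h).elim h1 h2)]
  simp

/-- `P0` as a Sylow subgroup. -/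
noncomputable def P0Sylow : Sylow p (GL (Fin 2) F) :=
  Sylow.ofCard P0 (by
    obtain ⟨f, _, hf⟩ := card_eq_pow (F := F) p
    have hp : p.Prime := Fact.out
    rw [card_P0, factorization_card_GL2 (F := F) p, hf, hp.factorization_pow]
    simp)

@[simp] lemma coe_P0Sylow : ((P0Sylow p : Sylow p (GL (Fin 2) F)) : Subgroup (GL (Fin 2) F)) = P0 :=
  Sylow.coe_ofCard _ _

/-- The number of Sylow `p`-subgroups of `GL_2(q)` is `q + 1`. -/
theorem card_sylow_GL2 : Nat.card (Sylow p (GL (Fin 2) F)) = Fintype.card F + 1 := by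
  classical
  have h := Sylow.card_eq_index_normalizer (P0Sylow (F := F) p)
  have e : ((P0Sylow (F := F) p : Sylow p (GL (Fin 2) F)) : Set (GL (Fin 2) F))
      = ((P0 : Subgroup (GL (Fin 2) F)) : Set (GL (Fin 2) F)) := by
    rw [← coe_P0Sylow (F := F) p]; rfl
  rw [h, e]
  have h2 := (Subgroup.normalizer ((P0 : Subgroup (GL (Fin 2) F)) : Set (GL (Fin 2) F))).card_mul_index
  rw [card_normalizer_P0, card_GL2 (F := F)] at h2
  have hq : 2 ≤ Fintype.card F := Fintype.one_lt_card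
  obtain ⟨k, hk⟩ : ∃ k, Fintype.card F = k + 2 := ⟨Fintype.card F - 2, by omega⟩
  rw [hk] at h2 ⊢
  have h3 : (k + 2) ^ 2 - 1 = (k + 1) * (k + 3) := by
    have : (k + 2) ^ 2 = (k + 1) * (k + 3) + 1 := by ring
    omega
  rw [h3] at h2
  simp only [show k + 2 - 1 = k + 1 by omega] at h2
  have hpos : 0 < (k + 2) * (k + 1) ^ 2 := by positivity
  have h4 : (k + 2) * (k + 1) ^ 2 * ((Subgroup.normalizer ((P0 : Subgroup (GL (Fin 2) F)) : Set (GL (Fin 2) F))).index)
      = (k + 2) * (k + 1) ^ 2 * (k + 3) := by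
    rw [h2]; ring
  have := Nat.eq_of_mul_eq_mul_left hpos h4
  rw [this]

/-- Any Sylow subgroup is a conjugate of `P0`. -/
lemma exists_conj_P0 (P : Sylow p (GL (Fin 2) F)) : ∃ g : GL (Fin 2) F,
    (P : Subgroup (GL (Fin 2) F)) = (P0 : Subgroup (GL (Fin 2) F)).map (MulAut.conj g).toMonoidHom := by
  obtain ⟨g, hg⟩ := MulAction.exists_smul_eq (GL (Fin 2) F) (P0Sylow (F := F) p) P
  refine ⟨g, ?_⟩
  rw [← hg, Sylow.coe_subgroup_smul, coe_P0Sylow]
  rfl

/-- Distinct Sylow `p`-subgroups of `GL_2(q)` meet trivially. -/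
theorem sylow_inf_eq_bot (P Q : Sylow p (GL (Fin 2) F)) (h : P ≠ Q) :
    (P : Subgroup (GL (Fin 2) F)) ⊓ (Q : Subgroup (GL (Fin 2) F)) = ⊥ := by
  classical
  obtain ⟨g, hg⟩ := exists_conj_P0 (F := F) p P
  obtain ⟨k, hk⟩ := exists_conj_P0 (F := F) p Q
  rw [eq_bot_iff]
  rintro z ⟨hzP, hzQ⟩
  rw [Subgroup.mem_bot]
  by_contra hz
  apply h
  rw [SetLike.mem_coe, hg] at hzP
  rw [SetLike.mem_coe, hk] at hzQ
  obtain ⟨u1, hu1, rfl⟩ := hzP
  obtain ⟨u2, hu2, hu2'⟩ := hzQ
  obtain ⟨x, rfl⟩ := mem_P0.1 hu1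
  obtain ⟨y, rfl⟩ := mem_P0.1 hu2
  simp only [MulEquiv.coe_toMonoidHom, MulAut.conj_apply] at hu2' hz
  have hx : x ≠ 0 := by
    rintro rfl
    apply hz
    rw [uGL_zero]; group
  -- `k⁻¹ g` normalizes `P0`
  have hrel : (k⁻¹ * g) * uGL x = uGL y * (k⁻¹ * g) := by
    have : g * uGL x * g⁻¹ = k * uGL y * k⁻¹ := hu2'.symm
    calc (k⁻¹ * g) * uGL x = k⁻¹ * (g * uGL x * g⁻¹) * g := by group
      _ = k⁻¹ * (k * uGL y * k⁻¹) * g := by rw [this]
      _ = uGL y * (k⁻¹ * g) := by group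
  have hc := (conj_u_entries hx hrel).1
  have hn : (k⁻¹ * g) ∈ Subgroup.normalizer ((P0 : Subgroup (GL (Fin 2) F)) : Set (GL (Fin 2) F)) :=
    mem_normalizer_P0.2 hc
  rw [Subgroup.mem_normalizer_iff_map_conj_eq] at hn
  apply Sylow.ext
  rw [hg, hk]
  have hcomp : (MulAut.conj g).toMonoidHom =
      (MulAut.conj k).toMonoidHom.comp (MulAut.conj (k⁻¹ * g)).toMonoidHom := by
    ext w; simp [mul_assoc]
  rw [hcomp, ← Subgroup.map_map]
  exact congrArg _ hn

/-- The normalizer of any Sylow `p`-subgroup of `GL_2(q)` has order `q (q-1)^2`. -/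
theorem card_normalizer_sylow (P : Sylow p (GL (Fin 2) F)) :
    Nat.card (Subgroup.normalizer ((P : Subgroup (GL (Fin 2) F)) : Set (GL (Fin 2) F)))
      = Fintype.card F * (Fintype.card F - 1) ^ 2 := by
  classical
  have h1 := Sylow.card_eq_index_normalizer P
  have h2 := Sylow.card_eq_index_normalizer (P0Sylow (F := F) p)
  have e : ((P0Sylow (F := F) p : Sylow p (GL (Fin 2) F)) : Set (GL (Fin 2) F))
      = ((P0 : Subgroup (GL (Fin 2) F)) : Set (GL (Fin 2) F)) := by
    rw [← coe_P0Sylow (F := F) p]; rfl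
  rw [e] at h2
  have h3 := (Subgroup.normalizer ((P0 : Subgroup (GL (Fin 2) F)) : Set (GL (Fin 2) F))).card_mul_index
  have h4 := (Subgroup.normalizer ((P : Subgroup (GL (Fin 2) F)) : Set (GL (Fin 2) F))).card_mul_index
  have h5 : (Subgroup.normalizer ((P : Subgroup (GL (Fin 2) F)) : Set (GL (Fin 2) F))).index
      = (Subgroup.normalizer ((P0 : Subgroup (GL (Fin 2) F)) : Set (GL (Fin 2) F))).index := by
    rw [← h2]; exact h1.symm
  rw [h5, ← h3] at h4
  have hpos : 0 < (Subgroup.normalizer ((P0 : Subgroup (GL (Fin 2) F)) : Set (GL (Fin 2) F))).index := by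
    rw [← h2]; exact Nat.card_pos
  have h6 := Nat.eq_of_mul_eq_mul_right hpos h4
  rw [h6, card_normalizer_P0]

/-- The centralizer of a nontrivial `p`-element in `GL_2(q)` has order `q (q-1)`. -/
theorem card_centralizer_sylow (P : Sylow p (GL (Fin 2) F)) (a : GL (Fin 2) F)
    (ha : a ∈ P) (ha1 : a ≠ 1) :
    Nat.card (Subgroup.centralizer ({a} : Set (GL (Fin 2) F)))
      = Fintype.card F * (Fintype.card F - 1) := by
  classical
  obtain ⟨g, hg⟩ := exists_conj_P0 (F := F) p P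
  have ha' : a ∈ (P : Subgroup (GL (Fin 2) F)) := ha
  rw [hg] at ha'
  obtain ⟨u, hu, rfl⟩ := ha'
  obtain ⟨x, rfl⟩ := mem_P0.1 hu
  have hx : x ≠ 0 := by
    rintro rfl
    apply ha1
    simp [uGL_zero]
  rw [← card_centralizer_u x hx]
  -- conjugation gives a bijection of centralizers
  have hcen : ∀ h : GL (Fin 2) F, h ∈ Subgroup.centralizer ({uGL x} : Set (GL (Fin 2) F)) ↔
      g * h * g⁻¹ ∈ Subgroup.centralizer ({(MulAut.conj g).toMonoidHom (uGL x)} : Set (GL (Fin 2) F)) := by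
    intro h
    rw [Subgroup.mem_centralizer_singleton_iff, Subgroup.mem_centralizer_singleton_iff]
    simp only [MulEquiv.coe_toMonoidHom, MulAut.conj_apply]
    constructor
    · intro hh
      calc g * h * g⁻¹ * (g * uGL x * g⁻¹) = g * (h * uGL x) * g⁻¹ := by group
        _ = g * (uGL x * h) * g⁻¹ := by rw [hh]
        _ = _ := by group
    · intro hh
      have : g * (h * uGL x) * g⁻¹ = g * (uGL x * h) * g⁻¹ := by
        calc g * (h * uGL x) * g⁻¹ = g * h * g⁻¹ * (g * uGL x * g⁻¹) := by group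
          _ = g * uGL x * g⁻¹ * (g * h * g⁻¹) := hh
          _ = _ := by group
      exact mul_left_cancel (mul_right_cancel this)
  symm
  refine Nat.card_congr ?_
  exact
    { toFun := fun h => ⟨g * h.1 * g⁻¹, (hcen h.1).1 h.2⟩
      invFun := fun h => ⟨g⁻¹ * h.1 * g, (hcen _).2 (by
        have : g * (g⁻¹ * h.1 * g) * g⁻¹ = h.1 := by group
        rw [this]; exact h.2)⟩
      left_inv := fun h => by ext1; simp [mul_assoc]
      right_inv := fun h => by ext1; simp [mul_assoc] }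

end Finite

end Cfsg.Agent.Lead
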