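import Mathlib
/-! Galois descent (Hilbert 90) for `GL_n` and norm surjectivity over finite fields. -/
set_option autoImplicit false
set_option linter.style.haveILetI false
set_option linter.unusedSimpArgs false
set_option linter.unusedSectionVars false
set_option linter.unusedVariables false
namespace Cfsg.Agent.Lead.Lang
open Matrix
open scoped MatrixGroups

variable {F : Type*} [Field F]

section Fix
variable {V : Type*} [AddCommGroup V] [Module F V]

/-- Galois descent for semilinear operators of finite order -/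
theorem span_fix (σ : F ≃+* F) (hr : 0 < orderOf σ) (T : V → V) (hadd : ∀ x y, T (x + y) = T x + T y)
    (hsm : ∀ (c : F) x, T (c • x) = σ c • T x) (hT : ∀ x, T^[orderOf σ] x = x) :
    Submodule.span F {v | T v = v} = ⊤ := by
  set r := orderOf σ with hrd
  by_contra hne
  have hlt : Submodule.span F {v | T v = v} < ⊤ := lt_top_iff_ne_top.mpr hne
  obtain ⟨f, hf0, hf⟩ := Submodule.exists_le_ker_of_lt_top _ hlt
  obtain ⟨v, hv⟩ : ∃ v, f v ≠ 0 := by
    by_contra hall
    push Not at hall
    exact hf0 (LinearMap.ext hall)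
  let Th : V →+ V := AddMonoidHom.mk' T hadd
  have hfix : ∀ a : F, T (∑ i ∈ Finset.range r, (σ ^ i) a • T^[i] v) = ∑ i ∈ Finset.range r, (σ ^ i) a • T^[i] v := by
    intro a
    have e1 : T (∑ i ∈ Finset.range r, (σ ^ i) a • T^[i] v) = ∑ i ∈ Finset.range r, (σ ^ (i + 1)) a • T^[i + 1] v := by
      change Th _ = _
      rw [map_sum]
      apply Finset.sum_congr rfl
      intro i _
      change T _ = _
      rw [hsm, Function.iterate_succ_apply', pow_succ']
      rfl
    rw [e1]
    have e2 := Finset.sum_range_succ (fun i => (σ ^ i) a • T^[i] v) r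
    have e3 := Finset.sum_range_succ' (fun i => (σ ^ i) a • T^[i] v) r
    have e4 : (σ ^ r) a • T^[r] v = (σ ^ 0) a • T^[0] v := by
      rw [hT v, hrd, pow_orderOf_eq_one]
      simp
    rw [e2, e4] at e3
    exact (add_right_cancel e3).symm
  have hzero : ∀ a : F, ∑ i : Fin r, f (T^[(i : ℕ)] v) * (σ ^ (i : ℕ)) a = 0 := by
    intro a
    have h1 : (∑ i ∈ Finset.range r, (σ ^ i) a • T^[i] v) ∈ Submodule.span F {v | T v = v} :=
      Submodule.subset_span (hfix a)
    have h2 := hf h1
    rw [LinearMap.mem_ker, map_sum, Finset.sum_range] at h2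
    rw [← h2]
    apply Finset.sum_congr rfl
    intro i _
    rw [map_smul, smul_eq_mul, mul_comm]
  -- Dedekind independence
  have hli := linearIndependent_monoidHom F F
  let e : Fin r → (F →* F) := fun i => ((σ ^ (i : ℕ) : F ≃+* F) : F →* F)
  have he : Function.Injective e := by
    intro i j hij
    have h1 : (σ ^ (i : ℕ) : F ≃+* F) = σ ^ (j : ℕ) := by
      apply RingEquiv.ext
      intro a
      have := DFunLike.congr_fun hij a
      exact this
    exact Fin.ext (pow_injOn_Iio_orderOf (x := σ) (show (i : ℕ) ∈ Set.Iio (orderOf σ) from i.2) (show (j : ℕ) ∈ Set.Iio (orderOf σ) from j.2) h1)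
  have hli2 := hli.comp e he
  rw [Fintype.linearIndependent_iff] at hli2
  have h0 := hli2 (fun i => f (T^[(i : ℕ)] v)) (by
    funext a
    simp only [Finset.sum_apply, Pi.smul_apply, smul_eq_mul, Function.comp, Pi.zero_apply]
    exact hzero a) ⟨0, hr⟩
  exact hv h0

end Fix

section Scalar

/-- Hilbert 90 for scalars -/
theorem h90_scalar (σ : F ≃+* F) (hr : 0 < orderOf σ) (a : F)
    (hN : ∏ i ∈ Finset.range (orderOf σ), (σ ^ i) a = 1) : ∃ x : F, x ≠ 0 ∧ a * σ x = x := by
  let T : F → F := fun x => a * σ x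
  have hit : ∀ k x, T^[k] x = (∏ i ∈ Finset.range k, (σ ^ i) a) * (σ ^ k) x := by
    intro k
    induction k with
    | zero => intro x; simp
    | succ k ih =>
      intro x
      rw [Function.iterate_succ_apply', ih, Finset.prod_range_succ']
      change a * σ _ = _
      rw [map_mul, map_prod]
      have e1 : ∏ i ∈ Finset.range k, (σ ^ (i + 1)) a = ∏ i ∈ Finset.range k, σ ((σ ^ i) a) :=
        Finset.prod_congr rfl (fun i _ => by rw [pow_succ']; rfl)
      have e2 : (σ ^ (k + 1)) x = σ ((σ ^ k) x) := by rw [pow_succ']; rfl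
      have e3 : (σ ^ 0) a = a := rfl
      rw [e1, e2, e3]
      ring
  have h := span_fix σ hr T (fun x y => by simp [T, mul_add]) (fun c x => by
    simp only [T, smul_eq_mul, map_mul]
    ring) (fun x => by rw [hit, hN, one_mul, pow_orderOf_eq_one]; rfl)
  by_contra hne
  push Not at hne
  have hb : {v : F | T v = v} ⊆ {0} := by
    intro v hv
    by_contra hv0
    exact hne v hv0 hv
  have h2 : Submodule.span F {v : F | T v = v} ≤ ⊥ := by
    rw [Submodule.span_le]
    intro v hv
    exact hb hv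
  rw [h] at h2
  have h3 : (1 : F) ∈ (⊥ : Submodule F F) := h2 (Submodule.mem_top)
  exact one_ne_zero ((Submodule.mem_bot F).mp h3)

/-- the norm is onto the fixed points -/
theorem norm_surj [Finite F] (σ : F ≃+* F) {l : F} (hl0 : l ≠ 0) (hl : σ l = l) :
    ∃ μ : F, μ ≠ 0 ∧ ∏ i ∈ Finset.range (orderOf σ), (σ ^ i) μ = l := by
  classical
  haveI : Finite (F ≃+* F) := Finite.of_injective (fun σ : F ≃+* F => (σ : F → F)) DFunLike.coe_injective
  have hr : 0 < orderOf σ := orderOf_pos σ
  set r := orderOf σ with hrd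
  let N : Fˣ →* Fˣ :=
    { toFun := fun u => ∏ i ∈ Finset.range r, Units.map (((σ ^ i : F ≃+* F) : F →* F)) u
      map_one' := by simp
      map_mul' := fun u v => by simp [Finset.prod_mul_distrib] }
  have hN : ∀ u : Fˣ, ((N u : Fˣ) : F) = ∏ i ∈ Finset.range r, (σ ^ i) (u : F) := by
    intro u
    change ((∏ i ∈ Finset.range r, Units.map (((σ ^ i : F ≃+* F) : F →* F)) u : Fˣ) : F) = _
    rw [Units.coe_prod]
    rfl
  let τ : Fˣ →* Fˣ := Units.map (σ : F →* F)
  have hτ : ∀ u : Fˣ, ((τ u : Fˣ) : F) = σ (u : F) := fun u => rfl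
  let ρ : Fˣ →* Fˣ :=
    { toFun := fun u => u * (τ u)⁻¹
      map_one' := by simp
      map_mul' := fun u v => by
        simp only [map_mul, _root_.mul_inv_rev]
        rw [mul_comm (τ v)⁻¹, mul_mul_mul_comm] }
  have hshift : ∀ u : Fˣ, σ ((N u : Fˣ) : F) = ((N u : Fˣ) : F) := by
    intro u
    rw [hN, map_prod]
    have e2 := Finset.prod_range_succ (fun i => (σ ^ i) (u : F)) r
    have e3 := Finset.prod_range_succ' (fun i => (σ ^ i) (u : F)) r
    have e4 : (σ ^ r) (u : F) = (σ ^ 0) (u : F) := by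
      rw [hrd, pow_orderOf_eq_one]
      rfl
    rw [e2, e4] at e3
    have h0 : (σ ^ 0) (u : F) ≠ 0 := by simp
    have e5 := mul_right_cancel₀ h0 e3
    rw [e5]
    apply Finset.prod_congr rfl
    intro i _
    rw [pow_succ']
    rfl
  have hNτ : ∀ u, N (τ u) = N u := by
    intro u
    apply Units.ext
    rw [hN, ← hshift u, hN, map_prod]
    apply Finset.prod_congr rfl
    intro i _
    rw [hτ]
    have h1 : σ ^ i * σ = σ * σ ^ i := (Commute.refl σ).pow_left i
    exact DFunLike.congr_fun h1 (u : F)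
  have hkerρ : ∀ u : Fˣ, u ∈ ρ.ker ↔ σ (u : F) = u := by
    intro u
    rw [MonoidHom.mem_ker]
    change u * (τ u)⁻¹ = 1 ↔ _
    rw [mul_inv_eq_one]
    constructor
    · intro h
      rw [← hτ, ← h]
    · intro h
      exact Units.ext (by rw [hτ, h])
  have hk : N.ker = ρ.range := by
    apply le_antisymm
    · intro a ha
      obtain ⟨x, hx0, hx⟩ := h90_scalar σ hr (a : F) (by
        rw [← hN, MonoidHom.mem_ker.mp ha]
        rfl)
      refine ⟨Units.mk0 x hx0, ?_⟩
      change Units.mk0 x hx0 * (τ (Units.mk0 x hx0))⁻¹ = a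
      rw [mul_inv_eq_iff_eq_mul]
      apply Units.ext
      rw [Units.val_mul, hτ]
      exact hx.symm
    · rintro _ ⟨u, rfl⟩
      rw [MonoidHom.mem_ker]
      change N (u * (τ u)⁻¹) = 1
      rw [map_mul, map_inv, hNτ, mul_inv_cancel]
  have hle : N.range ≤ ρ.ker := by
    rintro _ ⟨u, rfl⟩
    rw [hkerρ]
    exact hshift u
  have h1 := Subgroup.card_mul_index N.ker
  have h2 := Subgroup.card_mul_index ρ.ker
  rw [Subgroup.index_ker] at h1 h2
  rw [hk] at h1
  have hcard : Nat.card N.range = Nat.card ρ.ker := by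
    have hpos : 0 < Nat.card ρ.range := Nat.card_pos
    apply Nat.eq_of_mul_eq_mul_left hpos
    rw [h1, mul_comm, h2]
  have heq : N.range = ρ.ker := Subgroup.eq_of_le_of_card_ge hle (le_of_eq hcard.symm)
  have hlu : Units.mk0 l hl0 ∈ ρ.ker := by
    rw [hkerρ]
    exact hl
  rw [← heq] at hlu
  obtain ⟨u, hu⟩ := hlu
  refine ⟨u, u.ne_zero, ?_⟩
  rw [← hN, hu]
  rfl

end Scalar

section GLsec
variable {ι : Type*} [Fintype ι] [DecidableEq ι]

/-- entrywise action of a field automorphism on `GL` -/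
noncomputable abbrev gm (σ : F ≃+* F) : GL ι F →* GL ι F := Matrix.GeneralLinearGroup.map (σ : F →+* F)

lemma gm_coe (σ : F ≃+* F) (g : GL ι F) : ((gm σ g : GL ι F) : Matrix ι ι F) = (g : Matrix ι ι F).map σ := rfl

lemma gm_gm (σ τ : F ≃+* F) (g : GL ι F) : gm σ (gm τ g) = gm (σ * τ) g := by
  apply Units.ext
  ext i j
  rfl

lemma gm_one (g : GL ι F) : gm (1 : F ≃+* F) g = g := by
  apply Units.ext
  ext i j
  rfl

/-- the twisted norm -/
noncomputable def nrm (σ : F ≃+* F) (g : GL ι F) : ℕ → GL ι F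
  | 0 => 1
  | k + 1 => g * gm σ (nrm σ g k)

@[simp] lemma nrm_zero (σ : F ≃+* F) (g : GL ι F) : nrm σ g 0 = 1 := rfl
lemma nrm_succ (σ : F ≃+* F) (g : GL ι F) (k : ℕ) : nrm σ g (k + 1) = g * gm σ (nrm σ g k) := rfl

lemma nrm_succ' (σ : F ≃+* F) (g : GL ι F) (k : ℕ) : nrm σ g (k + 1) = nrm σ g k * gm (σ ^ k) g := by
  induction k with
  | zero =>
    simp [nrm_succ, gm_one]
  | succ k ih =>
    calc nrm σ g (k + 1 + 1) = g * gm σ (nrm σ g (k + 1)) := rfl
      _ = g * gm σ (nrm σ g k * gm (σ ^ k) g) := by rw [ih]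
      _ = (g * gm σ (nrm σ g k)) * gm (σ * σ ^ k) g := by rw [map_mul, gm_gm, mul_assoc]
      _ = nrm σ g (k + 1) * gm (σ ^ (k + 1)) g := by rw [pow_succ']; rfl

/-- the semilinear operator -/
noncomputable def sOp (σ : F ≃+* F) (g : GL ι F) (v : ι → F) : ι → F :=
  (g : Matrix ι ι F) *ᵥ (fun i => σ (v i))

lemma map_mulVec_aux (σ : F ≃+* F) (M : Matrix ι ι F) (w : ι → F) :
    (fun i => σ ((M *ᵥ w) i)) = (M.map σ) *ᵥ (fun i => σ (w i)) := by
  funext i
  simp [Matrix.mulVec, dotProduct, map_sum]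

lemma sOp_iter (σ : F ≃+* F) (g : GL ι F) (k : ℕ) (v : ι → F) :
    (sOp σ g)^[k] v = ((nrm σ g k : GL ι F) : Matrix ι ι F) *ᵥ (fun i => (σ ^ k) (v i)) := by
  induction k with
  | zero =>
    simp
  | succ k ih =>
    rw [Function.iterate_succ_apply', ih, sOp, map_mulVec_aux, Matrix.mulVec_mulVec, nrm_succ, Units.val_mul, gm_coe]
    congr 1
    funext i
    rw [pow_succ']
    rfl

/-- Hilbert 90 for `GL_n` -/
theorem h90GL (σ : F ≃+* F) (hr : 0 < orderOf σ) (g : GL ι F) (hN : nrm σ g (orderOf σ) = 1) :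
    ∃ h : GL ι F, g * gm σ h = h := by
  classical
  have hspan := span_fix σ hr (sOp σ g)
    (fun x y => by
      simp only [sOp]
      rw [← Matrix.mulVec_add]
      congr 1
      funext i
      simp)
    (fun c x => by
      simp only [sOp]
      have : (fun i => σ ((c • x) i)) = σ c • (fun i => σ (x i)) := by
        funext i
        simp
      rw [this, Matrix.mulVec_smul])
    (fun x => by
      rw [sOp_iter, hN, pow_orderOf_eq_one]
      simp)
  obtain ⟨b, hb, hbs, hli⟩ := exists_linearIndependent F {v : ι → F | sOp σ g v = v}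
  let B : Module.Basis b F (ι → F) := Module.Basis.mk hli (by
    rw [Subtype.range_coe, hbs, hspan])
  let e : b ≃ ι := B.indexEquiv (Pi.basisFun F ι)
  let B' : Module.Basis ι F (ι → F) := B.reindex e
  have hB' : ∀ j, sOp σ g (B' j) = B' j := by
    intro j
    have h1 : B' j = ((e.symm j : b) : ι → F) := by
      simp [B', B, Module.Basis.reindex_apply, Module.Basis.mk_apply]
    rw [h1]
    exact hb (e.symm j).2
  let E := Pi.basisFun F ι
  let h : GL ι F := ⟨E.toMatrix B', B'.toMatrix E, E.toMatrix_mul_toMatrix_flip B', B'.toMatrix_mul_toMatrix_flip E⟩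
  refine ⟨h, ?_⟩
  apply Units.ext
  ext i j
  rw [Units.val_mul, gm_coe]
  have h1 := congrFun (hB' j) i
  have h2 : (h : Matrix ι ι F) i j = B' j i := by
    change E.toMatrix B' i j = _
    simp [Module.Basis.toMatrix_apply, E]
  rw [h2, ← h1]
  change _ = ((g : Matrix ι ι F) *ᵥ (fun i => σ (B' j i))) i
  simp only [Matrix.mul_apply, Matrix.mulVec, dotProduct, Matrix.map_apply]
  apply Finset.sum_congr rfl
  intro k _
  rw [show (h : Matrix ι ι F) k j = B' j k from by
    change E.toMatrix B' k j = _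
    simp [Module.Basis.toMatrix_apply, E]]

end GLsec

end Cfsg.Agent.Lead.Lang
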