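import Cfsg.Agent.Lib.Lead.LangCen4
import Cfsg.Agent.Lib.H08.PCoreL
/-! Local balance: the abstract argument. -/
set_option autoImplicit false
set_option linter.style.haveILetI false
set_option linter.unusedSimpArgs false
set_option linter.unusedSectionVars false
set_option linter.unusedVariables false
set_option linter.deprecated false
namespace Cfsg.Agent.Lead.LangBal

lemma core_ne_bot_iff {G : Type*} [Group G] {p : ℕ} :
    Cfsg.pPrimeCore p G ≠ ⊥ ↔ ∃ N : Subgroup G, N.Normal ∧ (Nat.card N).Coprime p ∧ N ≠ ⊥ := by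
  constructor
  · intro h
    by_contra hn
    simp only [not_exists, not_and, not_not] at hn
    apply h
    unfold Cfsg.pPrimeCore
    rw [sSup_eq_bot]
    rintro N ⟨h1, h2⟩
    exact hn N h1 h2
  · rintro ⟨N, h1, h2, h3⟩ h
    apply h3
    rw [eq_bot_iff, ← h]
    unfold Cfsg.pPrimeCore
    exact le_sSup ⟨h1, h2⟩

variable {K K₀ S : Type*} [Group K] [Group K₀] [Group S]

lemma conj_map (x : MulAut K) (z : K) : x * MulAut.conj z * x⁻¹ = MulAut.conj (x z) := by
  ext u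
  simp [MulAut.mul_apply, MulAut.conj_apply]

lemma conj_inj (hz : Subgroup.center K = ⊥) : Function.Injective (MulAut.conj : K → MulAut K) := by
  intro a b e
  have e0 : MulAut.conj (a * b⁻¹) = 1 := by
    rw [map_mul, map_inv, e, mul_inv_cancel]
  have h : a * b⁻¹ ∈ Subgroup.center K := by
    rw [Subgroup.mem_center_iff]
    intro u
    have e1 := congrArg (fun f : MulAut K => f u) e0
    simp only [MulAut.conj_apply, MulAut.one_apply] at e1
    calc u * (a * b⁻¹) = (a * b⁻¹ * u * (a * b⁻¹)⁻¹) * (a * b⁻¹) := by rw [e1]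
      _ = a * b⁻¹ * u := by group
  rw [hz, Subgroup.mem_bot] at h
  exact mul_inv_eq_one.1 h

lemma card_inn (hz : Subgroup.center K = ⊥) : Nat.card (Cfsg.Inn K) = Nat.card K :=
  Nat.card_congr (MonoidHom.ofInjective (f := (MulAut.conj : K →* MulAut K)) (conj_inj hz)).toEquiv.symm

/-- a nontrivial subgroup of the automorphism group normalized by the inner automorphisms contains them -/
lemma inn_le_of_normalized (hK₀ : IsSimpleGroup K₀) (hz : Subgroup.center K₀ = ⊥) (M : Subgroup (MulAut K₀))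
    (hM : ∀ z : K₀, ∀ β ∈ M, MulAut.conj z * β * (MulAut.conj z)⁻¹ ∈ M) (hne : M ≠ ⊥) : Cfsg.Inn K₀ ≤ M := by
  obtain ⟨β, hβ, hβ1⟩ : ∃ β ∈ M, β ≠ 1 := by
    by_contra hn
    simp only [not_exists, not_and, not_not] at hn
    apply hne
    rw [eq_bot_iff]
    intro b hb
    rw [Subgroup.mem_bot]
    exact hn b hb
  have ⟨z, hzz⟩ : ∃ z, β z ≠ z := by
    by_contra hn
    simp only [not_exists, not_not] at hn
    apply hβ1
    ext u
    exact hn u
  have hc : MulAut.conj (β z * z⁻¹) ∈ M := by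
    have e : MulAut.conj (β z * z⁻¹) = β * (MulAut.conj z * β⁻¹ * (MulAut.conj z)⁻¹) := by
      rw [map_mul, map_inv, ← conj_map]
      group
    rw [e]
    exact M.mul_mem hβ (hM z _ (M.inv_mem hβ))
  let P : Subgroup K₀ := M.comap (MulAut.conj : K₀ →* MulAut K₀)
  have hPn : P.Normal := by
    refine ⟨fun n hn g => ?_⟩
    change MulAut.conj (g * n * g⁻¹) ∈ M
    rw [map_mul, map_mul, map_inv]
    exact hM g _ hn
  have hP : P = ⊤ := by
    rcases hK₀.eq_bot_or_eq_top_of_normal P hPn with h | h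
    · exfalso
      have h1 : β z * z⁻¹ ∈ P := hc
      rw [h, Subgroup.mem_bot] at h1
      exact hzz (mul_inv_eq_one.1 h1)
    · exact h
  rintro _ ⟨u, rfl⟩
  have : u ∈ P := by
    rw [hP]
    trivial
  exact this

/-- the fixed points and the centralizing inner automorphisms -/
lemma card_fix (hz : Subgroup.center K = ⊥) (x : MulAut K) :
    Nat.card ↥(MonoidHom.eqLocus x.toMonoidHom (MonoidHom.id K)) = Nat.card ↥(Cfsg.Inn K ⊓ Subgroup.centralizer {x}) := by
  have hfix : ∀ z : K, MulAut.conj z ∈ Subgroup.centralizer {x} ↔ x z = z := by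
    intro z
    rw [Subgroup.mem_centralizer_singleton_iff]
    constructor
    · intro h
      apply conj_inj hz
      rw [← conj_map, ← h]
      group
    · intro h
      have e := conj_map x z
      rw [h] at e
      exact (mul_inv_eq_iff_eq_mul.1 e).symm
  let f : ↥(MonoidHom.eqLocus x.toMonoidHom (MonoidHom.id K)) → ↥(Cfsg.Inn K ⊓ Subgroup.centralizer {x}) :=
    fun z => ⟨MulAut.conj z.1, ⟨z.1, rfl⟩, (hfix z.1).2 z.2⟩
  refine Nat.card_congr (Equiv.ofBijective f ⟨?_, ?_⟩)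
  · intro a b e
    apply Subtype.ext
    exact conj_inj hz (congrArg Subtype.val e)
  · rintro ⟨_, ⟨z, rfl⟩, hc⟩
    exact ⟨⟨z, (hfix z).1 hc⟩, rfl⟩

/-- **The abstract local balance argument.** -/
theorem balance_core [Finite K] [Finite K₀] (hK₀ : IsSimpleGroup K₀) (hz : Subgroup.center K = ⊥)
    (hz₀ : Subgroup.center K₀ = ⊥) {p : ℕ} (ℓ : S →* MulAut K) (ℓ₁ : S →* MulAut K₀) (hker : ℓ.ker = ℓ₁.ker)
    (A I : Subgroup (MulAut K)) (x : MulAut K) [hIn : I.Normal] (hInnA : Cfsg.Inn K ≤ A) (hInnI : Cfsg.Inn K ≤ I)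
    (hrange : ℓ.range = I ⊓ Subgroup.centralizer {x}) (hI₀ : Cfsg.Inn K₀ ≤ ℓ₁.range)
    (hL : ∀ g, ℓ₁ g ∈ Cfsg.Inn K₀ → ℓ g ∈ Cfsg.Inn K)
    (hcard : Nat.card ℓ₁.range ∣ 2 * Nat.card K₀) (heven : 2 ∣ Nat.card K₀)
    (hcent : ∀ y ∈ Subgroup.centralizer {x}, (orderOf y).Coprime p → (∀ g, ℓ₁ g ∈ Cfsg.Inn K₀ → Commute y (ℓ g)) → y = 1) :
    Cfsg.pPrimeCore p ↥(A ⊓ Subgroup.centralizer {x}) ≠ ⊥ ↔
      Nat.Coprime p (Nat.card ↥(MonoidHom.eqLocus x.toMonoidHom (MonoidHom.id K))) := by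
  classical
  have hker' : ∀ g, ℓ g = 1 ↔ ℓ₁ g = 1 := by
    intro g
    rw [← MonoidHom.mem_ker, ← MonoidHom.mem_ker, hker]
  have hrg : ∀ g, ℓ g ∈ I ⊓ Subgroup.centralizer {x} := by
    intro g
    rw [← hrange]
    exact ⟨g, rfl⟩
  constructor
  · intro hne
    obtain ⟨N, hNn, hNc, hN1⟩ := core_ne_bot_iff.1 hne
    let G := A ⊓ Subgroup.centralizer {x}
    let N' : Subgroup (MulAut K) := N.map G.subtype
    have hcN' : Nat.card N' = Nat.card N :=
      Nat.card_congr (N.equivMapOfInjective G.subtype G.subtype_injective).toEquiv.symm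
    have hN'G : ∀ y ∈ N', y ∈ G := by
      rintro _ ⟨u, -, rfl⟩
      exact u.2
    have hN'conj : ∀ y ∈ N', ∀ g ∈ G, g * y * g⁻¹ ∈ N' := by
      rintro _ ⟨u, hu, rfl⟩ g hg
      exact ⟨⟨g, hg⟩ * u * ⟨g, hg⟩⁻¹, hNn.conj_mem u hu _, rfl⟩
    have hLG : ∀ g, ℓ₁ g ∈ Cfsg.Inn K₀ → ℓ g ∈ G := fun g hg => ⟨hInnA (hL g hg), (hrg g).2⟩
    by_cases H : ∀ g, ℓ g ∈ N' → ℓ g = 1
    · exfalso
      apply hN1
      rw [eq_bot_iff]
      rintro ⟨y, hy⟩ hyN
      have hyN' : y ∈ N' := ⟨⟨y, hy⟩, hyN, rfl⟩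
      have hord : (orderOf y).Coprime p := by
        have h1 : orderOf y ∣ Nat.card N' := by
          have := orderOf_dvd_natCard (⟨y, hyN'⟩ : N')
          rwa [Subgroup.orderOf_mk] at this
        rw [hcN'] at h1
        exact Nat.Coprime.coprime_dvd_left h1 hNc
      have hy1 : y = 1 := by
        refine hcent y hy.2 hord (fun g hg => ?_)
        have hgG := hLG g hg
        -- the commutator
        have hcI : y * ℓ g * y⁻¹ * (ℓ g)⁻¹ ∈ I ⊓ Subgroup.centralizer {x} := by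
          refine ⟨I.mul_mem (hIn.conj_mem _ (hrg g).1 y) (I.inv_mem (hrg g).1), ?_⟩
          exact Subgroup.mul_mem _ (Subgroup.mul_mem _ (Subgroup.mul_mem _ hy.2 (hrg g).2) (Subgroup.inv_mem _ hy.2))
            (Subgroup.inv_mem _ (hrg g).2)
        rw [← hrange] at hcI
        obtain ⟨g', hg'⟩ := hcI
        have hcN : y * ℓ g * y⁻¹ * (ℓ g)⁻¹ ∈ N' := by
          have e : y * ℓ g * y⁻¹ * (ℓ g)⁻¹ = y * (ℓ g * y⁻¹ * (ℓ g)⁻¹) := by group
          rw [e]
          exact N'.mul_mem hyN' (hN'conj _ (N'.inv_mem hyN') _ hgG)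
        rw [← hg'] at hcN
        have e1 := H g' hcN
        rw [hg'] at e1
        have e2 : y * ℓ g * y⁻¹ = ℓ g := mul_inv_eq_one.1 e1
        exact (mul_inv_eq_iff_eq_mul.1 e2)
      rw [Subgroup.mem_bot]
      exact Subtype.ext hy1
    · simp only [not_forall] at H
      obtain ⟨g₀, h1, h2⟩ := H
      let P₁ : Subgroup (MulAut K₀) := (N'.comap ℓ).map ℓ₁
      have hP : Cfsg.Inn K₀ ≤ P₁ := by
        apply inn_le_of_normalized hK₀ hz₀
        · rintro z _ ⟨g, hg, rfl⟩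
          have hzI : (MulAut.conj z : MulAut K₀) ∈ Cfsg.Inn K₀ := ⟨z, rfl⟩
          obtain ⟨g_z, hgz⟩ := hI₀ hzI
          refine ⟨g_z * g * g_z⁻¹, ?_, ?_⟩
          · change ℓ (g_z * g * g_z⁻¹) ∈ N'
            rw [map_mul, map_mul, map_inv]
            refine hN'conj _ hg _ (hLG g_z ?_)
            rw [hgz]
            exact ⟨z, rfl⟩
          · rw [map_mul, map_mul, map_inv, hgz]
        · intro hbot
          have : ℓ₁ g₀ ∈ P₁ := ⟨g₀, h1, rfl⟩
          rw [hbot, Subgroup.mem_bot] at this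
          exact h2 ((hker' g₀).2 this)
      -- the order of `K₀` divides the order of `N`
      let Ω' : Subgroup S := N'.comap ℓ ⊓ (Cfsg.Inn K₀).comap ℓ₁
      have hmap₁ : Ω'.map ℓ₁ = Cfsg.Inn K₀ := by
        apply le_antisymm
        · rintro _ ⟨g, hg, rfl⟩
          exact hg.2
        · intro β hβ
          obtain ⟨g, hg, e⟩ := hP hβ
          have hg2 : g ∈ (Cfsg.Inn K₀).comap ℓ₁ := by
            rw [Subgroup.mem_comap, e]
            exact hβ
          exact ⟨g, ⟨hg, hg2⟩, e⟩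
      have hmap : Ω'.map ℓ ≤ N' := by
        rintro _ ⟨g, hg, rfl⟩
        exact hg.1
      have hcc : Nat.card (Ω'.map ℓ) = Nat.card (Ω'.map ℓ₁) := by
        have e := Cfsg.Agent.Lead.LangOm.range_iso_of_ker (ℓ.comp Ω'.subtype) (ℓ₁.comp Ω'.subtype) (by
          ext g
          simp only [MonoidHom.mem_ker, MonoidHom.comp_apply, Subgroup.subtype_apply]
          exact hker' g.1)
        obtain ⟨E⟩ := e
        rw [MonoidHom.range_comp, MonoidHom.range_comp, Subgroup.range_subtype] at E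
        exact Nat.card_congr E.toEquiv
      have hdvd : Nat.card K₀ ∣ Nat.card N := by
        rw [← card_inn hz₀, ← hmap₁, ← hcc, ← hcN']
        exact Subgroup.card_dvd_of_le hmap
      have hc₀ : (Nat.card K₀).Coprime p := Nat.Coprime.coprime_dvd_left hdvd hNc
      have hc2 : Nat.Coprime 2 p := Nat.Coprime.coprime_dvd_left heven hc₀
      rw [card_fix hz]
      have hW : Cfsg.Inn K ⊓ Subgroup.centralizer {x} ≤ ℓ.range := by
        rw [hrange]
        exact inf_le_inf_right _ hInnI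
      have hdv : Nat.card ↥(Cfsg.Inn K ⊓ Subgroup.centralizer {x}) ∣ 2 * Nat.card K₀ := by
        refine dvd_trans (Subgroup.card_dvd_of_le hW) ?_
        obtain ⟨E⟩ := Cfsg.Agent.Lead.LangOm.range_iso_of_ker ℓ ℓ₁ hker
        rw [Nat.card_congr E.toEquiv]
        exact hcard
      exact (Nat.Coprime.coprime_dvd_left hdv (Nat.Coprime.mul_left hc2 hc₀)).symm
  · intro hc
    rw [card_fix hz] at hc
    let G := A ⊓ Subgroup.centralizer {x}
    let W : Subgroup (MulAut K) := Cfsg.Inn K ⊓ Subgroup.centralizer {x}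
    have hWG : W ≤ G := inf_le_inf_right _ hInnA
    have hInnN : (Cfsg.Inn K).Normal := inferInstance
    refine core_ne_bot_iff.2 ⟨W.subgroupOf G, ⟨?_⟩, ?_, ?_⟩
    · rintro ⟨y, hy⟩ hyW ⟨g, hg⟩
      rw [Subgroup.mem_subgroupOf] at hyW ⊢
      refine ⟨hInnN.conj_mem y hyW.1 g, ?_⟩
      exact Subgroup.mul_mem _ (Subgroup.mul_mem _ hg.2 hyW.2) (Subgroup.inv_mem _ hg.2)
    · rw [Nat.card_congr (Subgroup.subgroupOfEquivOfLe hWG).toEquiv]
      exact hc.symm
    · obtain ⟨z, hz1⟩ : ∃ z : K₀, z ≠ 1 := exists_ne 1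
      have hzI : (MulAut.conj z : MulAut K₀) ∈ Cfsg.Inn K₀ := ⟨z, rfl⟩
      obtain ⟨g, hg⟩ := hI₀ hzI
      have hne : ℓ g ≠ 1 := by
        intro h
        have h1 := (hker' g).1 h
        rw [hg] at h1
        apply hz1
        apply conj_inj hz₀
        rw [h1, map_one]
      intro hbot
      have hg' : ℓ₁ g ∈ Cfsg.Inn K₀ := by
        rw [hg]
        exact hzI
      have hmem : ℓ g ∈ W := ⟨hL g hg', (hrg g).2⟩
      have : (⟨ℓ g, hWG hmem⟩ : ↥G) ∈ W.subgroupOf G := hmem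
      rw [hbot, Subgroup.mem_bot] at this
      exact hne (congrArg Subtype.val this)

end Cfsg.Agent.Lead.LangBal
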