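import Cfsg.Agent.Lib.Lead.LangBal
/-! Local balance: semilinear maps normalizing reflection products. -/
set_option autoImplicit false
set_option linter.style.haveILetI false
set_option linter.unusedSimpArgs false
set_option linter.unusedSectionVars false
set_option linter.unusedVariables false
set_option linter.deprecated false
namespace Cfsg.Agent.Lead.LangOm
open Matrix Module Cfsg.Agent.Lead.Ortho Cfsg.Agent.Lead.Omega Cfsg.Agent.H01.Om Cfsg.Agent.Lead.Lang

variable {F : Type*} [Field F] [Fintype F] {ι : Type} [Fintype ι] [DecidableEq ι]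
variable {Q : (ι → F) → F} {B : (ι → F) → (ι → F) → F}
variable {m : ℕ} {t₀ : Fin m → (ι → F) × (ι → F)}

/-- the product of two orthogonal reflections -/
lemma act_RR (h : QF Q B) {a b : ι → F} (ha : Q a ≠ 0) (hb : Q b ≠ 0) (hab : B a b = 0) (z : ι → F) :
    act (R h a ha * R h b hb) z = z - (B z a / Q a) • a - (B z b / Q b) • b := by
  rw [act_mul, act_R, act_R]
  have e : B (z - (B z b / Q b) • b) a = B z a := by
    rw [h.sub_left, h.smul_left, h.symm b a, hab, mul_zero, sub_zero]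
  rw [e]
  abel

/-- a nonzero vector orthogonal to four given ones -/
lemma exists_perp4 (h : QF Q B) (hcard : 4 < Fintype.card ι) (v₀ v₁ v₂ v₃ : ι → F) :
    ∃ z : ι → F, z ≠ 0 ∧ B z v₀ = 0 ∧ B z v₁ = 0 ∧ B z v₂ = 0 ∧ B z v₃ = 0 := by
  let L : (ι → F) →ₗ[F] (Fin 4 → F) :=
    { toFun := fun z => ![B z v₀, B z v₁, B z v₂, B z v₃]
      map_add' := by
        intro x y
        funext i
        fin_cases i <;> simp [h.add_left]
      map_smul' := by
        intro c x
        funext i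
        fin_cases i <;> simp [h.smul_left] }
  have hk : LinearMap.ker L ≠ ⊥ := by
    apply LinearMap.ker_ne_bot_of_finrank_lt
    simpa using hcard
  obtain ⟨z, hz, hz0⟩ := Submodule.exists_mem_ne_zero_of_ne_bot hk
  refine ⟨z, hz0, ?_, ?_, ?_, ?_⟩
  · exact congrFun hz 0
  · exact congrFun hz 1
  · exact congrFun hz 2
  · exact congrFun hz 3

/-- a semilinear similarity commuting with the product of two orthogonal reflections preserves their plane -/
lemma plane_fixed (C : Cx Q B t₀) (h2 : (2 : F) ≠ 0) (hcard : 4 < Fintype.card ι) {T : GS Q} {σ : F ≃+* F} {κ : F}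
    (H : IsSemi Q (T : Equiv.Perm (ι → F)) σ κ) {a b : ι → F} (ha : Q a ≠ 0) (hb : Q b ≠ 0) (hab : B a b = 0)
    (hcomm : Commute (Th C.h C.nd T) (cc Q (R C.h a ha * R C.h b hb))) :
    ∃ μ l : F, a = μ • (T : Equiv.Perm (ι → F)) a + l • (T : Equiv.Perm (ι → F)) b := by
  classical
  set s : OG F Q := R C.h a ha * R C.h b hb with hs
  have hTT : ∀ u v, B ((T : Equiv.Perm (ι → F)) u) ((T : Equiv.Perm (ι → F)) v) = κ * σ (B u v) := semi_B C.h H
  have e1 : cc Q (conjA C.h C.nd T s) = cc Q s := by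
    rw [← Th_conj, hcomm.eq, mul_inv_cancel_right]
  have e2 : Th C.h C.nd (ofO (conjA C.h C.nd T s) * (ofO s)⁻¹) = 1 := by
    rw [map_mul, map_inv, Th_ofO, Th_ofO, e1, mul_inv_cancel]
  obtain ⟨α, hα, hsc⟩ := C.scalar_of_Th _ e2
  have e3 : ∀ z, act (conjA C.h C.nd T s) z = α • act s z := by
    intro z
    have e := hsc (act s z)
    have e' : ((ofO (conjA C.h C.nd T s) * (ofO s)⁻¹ : GS Q) : Equiv.Perm (ι → F)) (act s z) = act (conjA C.h C.nd T s) z := by
      change ((ofO (conjA C.h C.nd T s) : GS Q) : Equiv.Perm (ι → F)) (((ofO s : GS Q) : Equiv.Perm (ι → F))⁻¹ (act s z)) = _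
      have e4 : ((ofO s : GS Q) : Equiv.Perm (ι → F))⁻¹ (act s z) = z :=
        Tinv_T ((ofO s : GS Q) : Equiv.Perm (ι → F)) z
      rw [e4, ofO_apply]
    rw [← e', e]
  have hsz : ∀ z, act s z = z - (B z a / Q a) • a - (B z b / Q b) • b := act_RR C.h ha hb hab
  have hQT : ∀ u, Q u ≠ 0 → Q ((T : Equiv.Perm (ι → F)) u) ≠ 0 := by
    intro u hu
    rw [H.hQ]
    exact mul_ne_zero H.hκ ((map_ne_zero σ).2 hu)
  have hconj : ∀ z, act (conjA C.h C.nd T s) z = z - (B z ((T : Equiv.Perm (ι → F)) a) / Q ((T : Equiv.Perm (ι → F)) a)) • (T : Equiv.Perm (ι → F)) a -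
      (B z ((T : Equiv.Perm (ι → F)) b) / Q ((T : Equiv.Perm (ι → F)) b)) • (T : Equiv.Perm (ι → F)) b := by
    intro z
    rw [act_conjA, hsz]
    set w := (T : Equiv.Perm (ι → F))⁻¹ z with hw
    have hzw : z = (T : Equiv.Perm (ι → F)) w := (T_Tinv _ z).symm
    have e5 : w - (B w a / Q a) • a - (B w b / Q b) • b = w + (-(B w a / Q a)) • a + (-(B w b / Q b)) • b := by
      simp only [neg_smul]
      abel
    rw [e5, H.hadd, H.hadd, H.hsmul, H.hsmul, hzw, hTT, hTT, H.hQ, H.hQ, map_neg, map_neg, map_div₀, map_div₀]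
    have e6 : ∀ u v, κ * σ u / (κ * σ v) = σ u / σ v := by
      intro u v
      rw [mul_div_mul_left _ _ H.hκ]
    rw [e6, e6, neg_smul, neg_smul]
    abel
  -- the scalar is one
  obtain ⟨z₀, hz₀, h1, h2', h3, h4⟩ := exists_perp4 C.h hcard a b ((T : Equiv.Perm (ι → F)) a) ((T : Equiv.Perm (ι → F)) b)
  have hα1 : α = 1 := by
    have e5 := e3 z₀
    rw [hconj, hsz, h1, h2', h3, h4] at e5
    simp only [zero_div, zero_smul, sub_zero] at e5
    have e6 : (α - 1) • z₀ = 0 := by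
      rw [sub_smul, one_smul, ← e5, sub_self]
    rcases smul_eq_zero.1 e6 with e7 | e7
    · exact sub_eq_zero.1 e7
    · exact absurd e7 hz₀
  -- evaluate at `a`
  have e5 := e3 a
  rw [hconj, hsz, hα1, one_smul, C.h.self, hab, zero_div, zero_smul, sub_zero, mul_div_assoc, div_self ha, mul_one] at e5
  refine ⟨2⁻¹ * (B a ((T : Equiv.Perm (ι → F)) a) / Q ((T : Equiv.Perm (ι → F)) a)), 2⁻¹ * (B a ((T : Equiv.Perm (ι → F)) b) / Q ((T : Equiv.Perm (ι → F)) b)), ?_⟩
  rw [mul_smul, mul_smul, ← smul_add]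
  have e6 : (2 : F) • a = (B a ((T : Equiv.Perm (ι → F)) a) / Q ((T : Equiv.Perm (ι → F)) a)) • (T : Equiv.Perm (ι → F)) a +
      (B a ((T : Equiv.Perm (ι → F)) b) / Q ((T : Equiv.Perm (ι → F)) b)) • (T : Equiv.Perm (ι → F)) b := by
    have e7 : a - (2 : F) • a = -a := by
      rw [two_smul]
      abel
    rw [e7] at e5
    have e8 : (2 : F) • a = a - (-a) := by
      rw [two_smul]
      abel
    rw [e8, ← e5]
    abel
  rw [← e6, smul_smul, inv_mul_cancel₀ h2, one_smul]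

/-- a semilinear similarity commuting with two such products preserves a line -/
lemma line_fixed (C : Cx Q B t₀) (h2 : (2 : F) ≠ 0) (hcard : 4 < Fintype.card ι) {T : GS Q} {σ : F ≃+* F} {κ : F}
    (H : IsSemi Q (T : Equiv.Perm (ι → F)) σ κ) {a b c : ι → F} (ha : Q a ≠ 0) (hb : Q b ≠ 0) (hc : Q c ≠ 0)
    (hab : B a b = 0) (hac : B a c = 0) (hbc : B b c = 0)
    (hcomm₁ : Commute (Th C.h C.nd T) (cc Q (R C.h a ha * R C.h b hb)))
    (hcomm₂ : Commute (Th C.h C.nd T) (cc Q (R C.h a ha * R C.h c hc))) :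
    ∃ μ : F, μ ≠ 0 ∧ (T : Equiv.Perm (ι → F)) a = μ • a := by
  obtain ⟨μ₁, l₁, e1⟩ := plane_fixed C h2 hcard H ha hb hab hcomm₁
  obtain ⟨μ₂, l₂, e2⟩ := plane_fixed C h2 hcard H ha hc hac hcomm₂
  have hTT : ∀ u v, B ((T : Equiv.Perm (ι → F)) u) ((T : Equiv.Perm (ι → F)) v) = κ * σ (B u v) := semi_B C.h H
  have hTb : Q ((T : Equiv.Perm (ι → F)) b) ≠ 0 := by
    rw [H.hQ]
    exact mul_ne_zero H.hκ ((map_ne_zero σ).2 hb)
  have e3 : B a ((T : Equiv.Perm (ι → F)) b) = l₁ * (2 * Q ((T : Equiv.Perm (ι → F)) b)) := by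
    conv_lhs => rw [e1]
    rw [C.h.add_left, C.h.smul_left, C.h.smul_left, hTT, hab, map_zero, mul_zero, mul_zero, zero_add, C.h.self]
  have e4 : B a ((T : Equiv.Perm (ι → F)) b) = 0 := by
    conv_lhs => rw [e2]
    rw [C.h.add_left, C.h.smul_left, C.h.smul_left, hTT, hTT, hab, C.h.symm c b, hbc]
    simp
  have hl : l₁ = 0 := by
    rw [e3] at e4
    rcases mul_eq_zero.1 e4 with e5 | e5
    · exact e5
    · exact absurd e5 (mul_ne_zero h2 hTb)
  rw [hl, zero_smul, add_zero] at e1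
  have hμ : μ₁ ≠ 0 := by
    rintro rfl
    rw [zero_smul] at e1
    rw [e1, C.h.Q_zero] at ha
    exact ha rfl
  refine ⟨μ₁⁻¹, inv_ne_zero hμ, ?_⟩
  conv_rhs => rw [e1]
  rw [smul_smul, inv_mul_cancel₀ hμ, one_smul]

/-- automorphisms fixing a subfield of prime degree -/
lemma pow_eq_one_of_fix {F₀ : Type*} [Field F₀] [Fintype F₀] (ε : F₀ →+* F) {p : ℕ} (hcard : Fintype.card F = (Fintype.card F₀) ^ p)
    (τ : F ≃+* F) (hτ : ∀ t, τ (ε t) = ε t) : τ ^ p = 1 := by
  classical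
  letI := ε.toAlgebra
  have halg : ∀ r, τ (algebraMap F₀ F r) = algebraMap F₀ F r := hτ
  let τ' : F ≃ₐ[F₀] F := AlgEquiv.ofRingEquiv (f := τ) halg
  have hfin : finrank F₀ F = p := by
    have h1 := Module.card_eq_pow_finrank (K := F₀) (V := F)
    rw [hcard] at h1
    exact (Nat.pow_right_injective (Fintype.one_lt_card (α := F₀))) h1.symm
  have hc : Nat.card (F ≃ₐ[F₀] F) = p := by
    rw [IsGalois.card_aut_eq_finrank, hfin]
  have h1 : τ' ^ p = 1 := by
    rw [← hc]
    exact pow_card_eq_one'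
  have key : ∀ (n : ℕ) (x : F), (τ' ^ n) x = (τ ^ n) x := by
    intro n
    induction n with
    | zero => intro x; rfl
    | succ n ih =>
      intro x
      rw [pow_succ, pow_succ, AlgEquiv.mul_apply, ih]
      rfl
  ext x
  rw [← key, h1]
  rfl

end Cfsg.Agent.Lead.LangOm
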