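import Cfsg.Agent.Lib.Lead.LangBal2
/-! Local balance for odd dimensional orthogonal groups: concrete computations. -/
set_option autoImplicit false
set_option linter.style.haveILetI false
set_option linter.unusedSimpArgs false
set_option linter.unusedSectionVars false
set_option linter.unusedVariables false
set_option linter.deprecated false
namespace Cfsg.Agent.Lead.LangOm
open Matrix Module Cfsg.Agent.Lead.Ortho Cfsg.Agent.Lead.Omega Cfsg.Agent.H01.Om Cfsg.Agent.Lead.Lang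

section General
variable {F : Type*} [Field F] [Fintype F] {ι : Type} [Fintype ι] [DecidableEq ι]
variable {Q : (ι → F) → F} {B : (ι → F) → (ι → F) → F}
variable {F₀ : Type*} [Field F₀] [Fintype F₀] {ε : F₀ →+* F}
variable {Q₁ : (ι → F₀) → F₀} {B₁ : (ι → F₀) → (ι → F₀) → F₀}
variable {m : ℕ} {t₀ : Fin m → (ι → F) × (ι → F)} {t₁ : Fin m → (ι → F₀) × (ι → F₀)}

/-- isometries as similarities -/
def toSG (t : OG F Q) : ↥(Cfsg.Geo.quadSimilarityGroup Q) :=
  ⟨t.1, ⟨1, fun v => by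
    rw [Units.val_one, one_mul]
    exact t.2 v v⟩⟩

lemma Th_toSG (C : Cx Q B t₀) (t : OG F Q) : Th C.h C.nd (simG Q (toSG t)) = cc Q t := by
  refine C.Th_of_scalar one_ne_zero (fun x => ?_)
  rw [one_smul]
  rfl

/-- the lift of an element of `Ω` over the small field is inner -/
lemma lift_SS {C₁ : Cx Q₁ B₁ t₁} {C : Cx Q B t₀} (X₁ : SD C₁) (X : SD C) (hc : ∀ x, Q (eV ε x) = ε (Q₁ x)) {t : OG F₀ Q₁}
    (ht : t ∈ SS C₁.h) : Th C.h C.nd (simG Q (liftS C₁.h C.h hc (toSG t))) ∈ Cfsg.Inn (Cfsg.POmega F Q) := by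
  obtain ⟨L, hL, hs⟩ := X₁.list t
  obtain ⟨hev, hsq⟩ := (X₁.mem_iff t L hL hs).1 ht
  obtain ⟨s, hs', hL', e⟩ := Th_lift_list C₁ X hc (toSG t) (c := 1) (L := L) one_ne_zero hL (by rw [one_smul]; exact hs)
  rw [e, C.cc_inn_iff]
  left
  refine (X.mem_iff s _ hL' hs').2 ⟨by simpa using hev, ?_⟩
  rw [prod_map_eV hc]
  exact hsq.map ε

/-- lifts of similarities inducing an inner automorphism are inner -/
lemma lift_inner {C₁ : Cx Q₁ B₁ t₁} {C : Cx Q B t₀} (X₁ : SD C₁) (X : SD C) (hc : ∀ x, Q (eV ε x) = ε (Q₁ x)) [Nonempty ι]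
    (g : ↥(Cfsg.Geo.quadSimilarityGroup Q₁)) (hg : Th C₁.h C₁.nd (simG Q₁ g) ∈ Cfsg.Inn (Cfsg.POmega F₀ Q₁)) :
    Th C.h C.nd (simG Q (liftS C₁.h C.h hc g)) ∈ Cfsg.Inn (Cfsg.POmega F Q) := by
  obtain ⟨z, hz⟩ := hg
  obtain ⟨t, rfl⟩ := QuotientGroup.mk_surjective z
  have e0 : MulAut.conj (QuotientGroup.mk t : Cfsg.POmega F₀ Q₁) = cc Q₁ (t : OG F₀ Q₁) := conj_mk_eq C₁ t
  have ht : (t : OG F₀ Q₁) ∈ SS C₁.h := by
    rw [← C₁.hΩ]
    exact t.2
  have e1 : Th C₁.h C₁.nd (simG Q₁ (g * (toSG (t : OG F₀ Q₁))⁻¹)) = 1 := by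
    rw [map_mul, map_mul, map_inv, map_inv, Th_toSG C₁, ← hz]
    change MulAut.conj (QuotientGroup.mk t : Cfsg.POmega F₀ Q₁) * _ = 1
    rw [e0, mul_inv_cancel]
  have e2 : IsScal ((g * (toSG (t : OG F₀ Q₁))⁻¹ : ↥(Cfsg.Geo.quadSimilarityGroup Q₁)).1) := (Th_simG_eq_one_iff C₁ _).1 e1
  have e3 : Th C.h C.nd (simG Q (liftS C₁.h C.h hc (g * (toSG (t : OG F₀ Q₁))⁻¹))) = 1 :=
    (Th_simG_eq_one_iff C _).2 ((isScal_lift (ε := ε) _).2 e2)
  rw [map_mul, map_mul, map_mul, map_inv, map_inv, map_inv, mul_inv_eq_one] at e3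
  rw [e3]
  exact lift_SS X₁ X hc ht

/-- the index of the inner automorphisms -/
lemma card_range_of_index {C : Cx Q B t₀} (hz : Subgroup.center (Cfsg.POmega F Q) = ⊥)
    (hidx : ((Cfsg.Inn (Cfsg.POmega F Q)).subgroupOf ((GLS Q).map (Th C.h C.nd))).index = 2) :
    Nat.card ((Th C.h C.nd).comp (simG Q)).range = 2 * Nat.card (Cfsg.POmega F Q) := by
  have e : ((Th C.h C.nd).comp (simG Q)).range = (GLS Q).map (Th C.h C.nd) := by
    rw [MonoidHom.range_eq_map, range_simG C.h C.nd]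
  rw [e, ← Subgroup.card_mul_index ((Cfsg.Inn (Cfsg.POmega F Q)).subgroupOf ((GLS Q).map (Th C.h C.nd))), hidx,
    Nat.card_congr (Subgroup.subgroupOfEquivOfLe (inn_le_map_GLS C)).toEquiv, Cfsg.Agent.Lead.LangBal.card_inn hz, mul_comm]

/-- consequences of the existence of an involution acting nontrivially -/
lemma center_of_invol {C : Cx Q B t₀} (hS : IsSimpleGroup (Cfsg.POmega F Q)) {t : ↥(Cfsg.Omega F Q)}
    (ht : cc Q (t : OG F Q) ≠ 1) : Subgroup.center (Cfsg.POmega F Q) = ⊥ := by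
  rcases hS.eq_bot_or_eq_top_of_normal (Subgroup.center (Cfsg.POmega F Q)) inferInstance with h | h
  · exact h
  · exfalso
    apply ht
    rw [← conj_mk_eq C t]
    ext u
    have hu : (QuotientGroup.mk t : Cfsg.POmega F Q) ∈ Subgroup.center (Cfsg.POmega F Q) := by
      rw [h]
      trivial
    rw [MulAut.conj_apply, ← (Subgroup.mem_center_iff.1 hu) u, mul_inv_cancel_right]
    rfl

lemma even_of_invol {C : Cx Q B t₀} {t : ↥(Cfsg.Omega F Q)} (ht2 : (t : OG F Q) * (t : OG F Q) = 1)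
    (ht : cc Q (t : OG F Q) ≠ 1) [Finite (Cfsg.POmega F Q)] : 2 ∣ Nat.card (Cfsg.POmega F Q) := by
  have h1 : (QuotientGroup.mk t : Cfsg.POmega F Q) ^ 2 = 1 := by
    rw [pow_two, ← QuotientGroup.mk_mul]
    have : t * t = 1 := Subtype.ext ht2
    rw [this]
    rfl
  have h2 : (QuotientGroup.mk t : Cfsg.POmega F Q) ≠ 1 := by
    intro h
    apply ht
    rw [← conj_mk_eq C t, h, map_one]
  haveI : Fact (Nat.Prime 2) := ⟨Nat.prime_two⟩
  have h3 := orderOf_eq_prime h1 h2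
  rw [← h3]
  exact orderOf_dvd_natCard _

end General

section Odd
variable {F : Type*} [Field F] [Fintype F] {F₀ : Type*} [Field F₀] [Fintype F₀] {m : ℕ}

lemma polarOdd_vecB (w : Unit ⊕ (Fin m ⊕ Fin m) → F) (k : Fin m) (ν : F) :
    polarOdd m F w (vecB k ν) = w (Sum.inr (Sum.inr k)) + ν * w (Sum.inr (Sum.inl k)) := by
  unfold vecB
  rw [(qfOdd m).add_right, (qfOdd m).smul_right, polarOdd_inl, polarOdd_inr]

lemma vecB_ortho {k k' : Fin m} (h : k ≠ k') (ν ν' : F) : polarOdd m F (vecB k ν) (vecB k' ν') = 0 := by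
  classical
  rw [polarOdd_vecB]
  simp [vecB, Pi.single_apply, h, h.symm]

/-- the vectors of the local argument -/
noncomputable def vecC (j : Fin m ⊕ Fin m) (τ : F) : Unit ⊕ (Fin m ⊕ Fin m) → F :=
  vecA m F + τ • Pi.single (Sum.inr j) 1

lemma Q_comb (j : Fin m ⊕ Fin m) (α β : F) :
    Cfsg.quadFormOdd m F (α • vecA m F + β • Pi.single (Sum.inr j) 1) = α ^ 2 := by
  classical
  rcases j with k | k <;>
    simp [Cfsg.quadFormOdd, vecA, Pi.single_apply]

lemma Q_vecC (j : Fin m ⊕ Fin m) (τ : F) : Cfsg.quadFormOdd m F (vecC j τ) = 1 := by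
  have := Q_comb (F := F) j 1 τ
  rw [one_smul, one_pow] at this
  exact this

lemma eV_vecC (ε : F₀ →+* F) (j : Fin m ⊕ Fin m) (τ : F₀) : eV ε (vecC j τ) = vecC j (ε τ) := by
  unfold vecC
  rw [eV_add, eV_smul, eV_vecA, eV_single]

lemma vecC_ortho {j : Fin m ⊕ Fin m} {k : Fin m} (h : ∀ i, j = Sum.inl i ∨ j = Sum.inr i → i ≠ k) (τ ν : F) :
    polarOdd m F (vecC j τ) (vecB k ν) = 0 := by
  classical
  rw [polarOdd_vecB]
  rcases j with i | i
  · have := h i (Or.inl rfl)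
    simp [vecC, vecA, Pi.single_apply, this]
  · have := h i (Or.inr rfl)
    simp [vecC, vecA, Pi.single_apply, this]

lemma exists_two (hm : 3 ≤ m) (i : Fin m) : ∃ k k' : Fin m, k ≠ i ∧ k' ≠ i ∧ k ≠ k' := by
  have h1 : 1 < (Finset.univ.erase i).card := by
    rw [Finset.card_erase_of_mem (Finset.mem_univ _), Finset.card_univ, Fintype.card_fin]
    omega
  obtain ⟨a, ha, b, hb, hab⟩ := Finset.one_lt_card.1 h1
  exact ⟨a, b, Finset.ne_of_mem_erase ha, Finset.ne_of_mem_erase hb, hab⟩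

/-- an index of a coordinate -/
def jIdx : Fin m ⊕ Fin m → Fin m := Sum.elim id id

lemma jIdx_spec (j : Fin m ⊕ Fin m) (i : Fin m) (h : j = Sum.inl i ∨ j = Sum.inr i) : i = jIdx j := by
  rcases h with rfl | rfl <;> rfl

variable {t₀ : Fin m → (Unit ⊕ (Fin m ⊕ Fin m) → F) × (Unit ⊕ (Fin m ⊕ Fin m) → F)}

/-- a semilinear similarity commuting with the lifts of reflection products is standard -/
theorem std_of_comm (C : Cx (Cfsg.quadFormOdd m F) (polarOdd m F) t₀) (h2 : (2 : F) ≠ 0) (hm : 3 ≤ m) (ε : F₀ →+* F)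
    {T : GS (Cfsg.quadFormOdd m F)} {σ : F ≃+* F} {κ : F} (H : IsSemi (Cfsg.quadFormOdd m F) T.1 σ κ)
    (hC : ∀ (a b : Unit ⊕ (Fin m ⊕ Fin m) → F₀) (ha : Cfsg.quadFormOdd m F (eV ε a) ≠ 0) (hb : Cfsg.quadFormOdd m F (eV ε b) ≠ 0),
      Cfsg.quadFormOdd m F (eV ε a) = 1 → Cfsg.quadFormOdd m F (eV ε b) = 1 → polarOdd m F (eV ε a) (eV ε b) = 0 →
      Commute (Th C.h C.nd T) (cc (Cfsg.quadFormOdd m F) (R C.h (eV ε a) ha * R C.h (eV ε b) hb))) :
    ∃ c : F, c ≠ 0 ∧ (∀ x, T.1 x = c • smap σ x) ∧ ∀ t : F₀, σ (ε t) = ε t := by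
  classical
  have hcard : 4 < Fintype.card (Unit ⊕ (Fin m ⊕ Fin m)) := by
    simp only [Fintype.card_sum, Fintype.card_unit, Fintype.card_fin]
    omega
  have hone : (1 : F) ≠ 0 := one_ne_zero
  have QB : ∀ (k : Fin m), Cfsg.quadFormOdd m F (vecB k 1) = 1 := fun k => Q_vecB k 1
  have eB : ∀ k : Fin m, eV ε (vecB k (1 : F₀)) = vecB k (1 : F) := by
    intro k
    rw [eV_vecB, map_one]
  have key : ∀ (j : Fin m ⊕ Fin m) (t : F₀), ∃ c : F, c ≠ 0 ∧ T.1 (vecC j (ε t)) = c • vecC j (ε t) := by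
    intro j t
    obtain ⟨k, k', hk, hk', hkk⟩ := exists_two hm (jIdx j)
    have ha : Cfsg.quadFormOdd m F (eV ε (vecC j t)) ≠ 0 := by
      rw [eV_vecC, Q_vecC]
      exact hone
    have hb : Cfsg.quadFormOdd m F (eV ε (vecB k (1 : F₀))) ≠ 0 := by
      rw [eB, QB]
      exact hone
    have hc : Cfsg.quadFormOdd m F (eV ε (vecB k' (1 : F₀))) ≠ 0 := by
      rw [eB, QB]
      exact hone
    have hab : polarOdd m F (eV ε (vecC j t)) (eV ε (vecB k (1 : F₀))) = 0 := by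
      rw [eV_vecC, eB]
      apply vecC_ortho
      intro i hi
      rw [jIdx_spec j i hi]
      exact hk.symm
    have hac : polarOdd m F (eV ε (vecC j t)) (eV ε (vecB k' (1 : F₀))) = 0 := by
      rw [eV_vecC, eB]
      apply vecC_ortho
      intro i hi
      rw [jIdx_spec j i hi]
      exact hk'.symm
    have hbc : polarOdd m F (eV ε (vecB k (1 : F₀))) (eV ε (vecB k' (1 : F₀))) = 0 := by
      rw [eB, eB]
      exact vecB_ortho hkk 1 1
    have h1 : Cfsg.quadFormOdd m F (eV ε (vecC j t)) = 1 := by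
      rw [eV_vecC, Q_vecC]
    have h3 : Cfsg.quadFormOdd m F (eV ε (vecB k (1 : F₀))) = 1 := by
      rw [eB, QB]
    have h4 : Cfsg.quadFormOdd m F (eV ε (vecB k' (1 : F₀))) = 1 := by
      rw [eB, QB]
    obtain ⟨μ, hμ, e⟩ := line_fixed C h2 hcard H ha hb hc hab hac hbc (hC _ _ ha hb h1 h3 hab) (hC _ _ ha hc h1 h4 hac)
    rw [eV_vecC] at e
    exact ⟨μ, hμ, e⟩
  let i₀ : Fin m := ⟨0, by omega⟩
  obtain ⟨c₀, hc₀, e₀⟩ := key (Sum.inl i₀) 0
  have hv₀ : T.1 (vecA m F) = c₀ • vecA m F := by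
    simpa [vecC] using e₀
  have hexp : ∀ (j : Fin m ⊕ Fin m) (τ : F), T.1 (vecC j τ) =
      c₀ • vecA m F + σ τ • T.1 (Pi.single (Sum.inr j) 1) := by
    intro j τ
    unfold vecC
    rw [H.hadd, H.hsmul, hv₀]
  have he : ∀ j : Fin m ⊕ Fin m, T.1 (Pi.single (Sum.inr j) 1) = c₀ • Pi.single (Sum.inr j) 1 := by
    intro j
    obtain ⟨c', hc', e'⟩ := key j 1
    rw [map_one, hexp, map_one, one_smul] at e'
    have e1 : T.1 (Pi.single (Sum.inr j) 1) = (c' - c₀) • vecA m F + c' • Pi.single (Sum.inr j) 1 := by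
      have e2 : c' • vecC j (1 : F) = c' • vecA m F + c' • Pi.single (Sum.inr j) 1 := by
        unfold vecC
        rw [one_smul, smul_add]
      rw [e2] at e'
      rw [sub_smul]
      rw [eq_sub_of_add_eq' e']
      abel
    have e3 : Cfsg.quadFormOdd m F (T.1 (Pi.single (Sum.inr j) 1)) = 0 := by
      rw [H.hQ]
      have e4 := Q_comb (F := F) j 0 1
      rw [zero_smul, zero_add, one_smul] at e4
      rw [e4]
      simp
    rw [e1, Q_comb] at e3
    have e4 : c' = c₀ := sub_eq_zero.1 (pow_eq_zero_iff (two_ne_zero)|>.1 e3)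
    rw [e1, e4, sub_self, zero_smul, zero_add]
  refine ⟨c₀, hc₀, ?_, ?_⟩
  · intro x
    have e1 : x = ∑ i, x i • (Pi.single i 1 : Unit ⊕ (Fin m ⊕ Fin m) → F) := by
      funext j
      simp [Finset.sum_apply, Pi.single_apply]
    have hs : ∀ i : Unit ⊕ (Fin m ⊕ Fin m), T.1 (Pi.single i 1) = c₀ • Pi.single i 1 := by
      rintro (⟨⟨⟩⟩ | j)
      · exact hv₀
      · exact he j
    conv_lhs => rw [e1]
    rw [semi_sum H]
    funext j
    simp only [Finset.sum_apply, Pi.smul_apply, smul_eq_mul, hs, smap, Pi.single_apply]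
    simp
    ring
  · intro t
    obtain ⟨c', hc', e'⟩ := key (Sum.inl i₀) t
    rw [hexp, he] at e'
    have e1 := congrFun e' (Sum.inl ())
    have e2 := congrFun e' (Sum.inr (Sum.inl i₀))
    simp [vecC, vecA, Pi.single_apply] at e1 e2
    rw [← e1] at e2
    have e3 : c₀ * (σ (ε t) - ε t) = 0 := by
      linear_combination e2
    rcases mul_eq_zero.1 e3 with e4 | e4
    · exact absurd e4 hc₀
    · exact sub_eq_zero.1 e4

end Odd

end Cfsg.Agent.Lead.LangOm
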