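import Cfsg.Agent.Lib.Lead.LangBal3
/-! Local balance for odd dimensional orthogonal groups. -/
set_option autoImplicit false
set_option linter.style.haveILetI false
set_option linter.unusedSimpArgs false
set_option linter.unusedSectionVars false
set_option linter.unusedVariables false
set_option linter.deprecated false
namespace Cfsg.Agent.Lead.LangOm
open Matrix Module Cfsg.Agent.Lead.Ortho Cfsg.Agent.Lead.Omega Cfsg.Agent.H01.Om Cfsg.Agent.Lead.Lang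

section General
variable {F : Type*} [Field F] [Fintype F] {ι : Type} [Fintype ι] [DecidableEq ι]
variable {Q : (ι → F) → F} {B : (ι → F) → (ι → F) → F}
variable {m : ℕ} {t₀ : Fin m → (ι → F) × (ι → F)}

lemma SD.val_RR {C : Cx Q B t₀} (X : SD C) {a b : ι → F} (ha : Q a ≠ 0) (hb : Q b ≠ 0) :
    (((R C.h a ha * R C.h b hb : OG F Q) : GL ι F) : Matrix ι ι F) = prodR Q [a, b] := by
  obtain ⟨Q₀, hQ₀, -⟩ := X.ex
  rw [prodR_cons, prodR_cons, prodR_nil, mul_one, ← R_val Q₀ hQ₀ C.h ha, ← R_val Q₀ hQ₀ C.h hb]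
  rfl

end General

section Odd
variable {F : Type*} [Field F] [Fintype F] {m : ℕ}
variable {t₀ : Fin m → (Unit ⊕ (Fin m ⊕ Fin m) → F) × (Unit ⊕ (Fin m ⊕ Fin m) → F)}

/-- an involution in `Ω` -/
lemma exists_invol_odd {C : Cx (Cfsg.quadFormOdd m F) (polarOdd m F) t₀} (X : SD C) (hm : 3 ≤ m) :
    ∃ t : ↥(Cfsg.Omega F (Cfsg.quadFormOdd m F)), (t : OG F (Cfsg.quadFormOdd m F)) * (t : OG F (Cfsg.quadFormOdd m F)) = 1 ∧
      cc (Cfsg.quadFormOdd m F) (t : OG F (Cfsg.quadFormOdd m F)) ≠ 1 := by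
  classical
  let i₀ : Fin m := ⟨0, by omega⟩
  let i₁ : Fin m := ⟨1, by omega⟩
  have hne : i₀ ≠ i₁ := by
    intro h
    have := congrArg Fin.val h
    simp [i₀, i₁] at this
  have Qa : Cfsg.quadFormOdd m F (vecB i₀ 1) = 1 := Q_vecB i₀ 1
  have Qb : Cfsg.quadFormOdd m F (vecB i₁ 1) = 1 := Q_vecB i₁ 1
  have ha : Cfsg.quadFormOdd m F (vecB i₀ 1) ≠ 0 := by
    rw [Qa]
    exact one_ne_zero
  have hb : Cfsg.quadFormOdd m F (vecB i₁ 1) ≠ 0 := by
    rw [Qb]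
    exact one_ne_zero
  have hab : polarOdd m F (vecB i₀ 1) (vecB i₁ 1) = 0 := vecB_ortho hne 1 1
  have hba : polarOdd m F (vecB i₁ 1) (vecB i₀ 1) = 0 := vecB_ortho hne.symm 1 1
  have hL : ∀ v ∈ [vecB i₀ (1 : F), vecB i₁ (1 : F)], Cfsg.quadFormOdd m F v ≠ 0 := by
    intro v hv
    simp only [List.mem_cons, List.not_mem_nil, or_false] at hv
    rcases hv with rfl | rfl
    · exact ha
    · exact hb
  have hS : R C.h _ ha * R C.h _ hb ∈ SS C.h := by
    refine (X.mem_iff _ _ hL (X.val_RR ha hb)).2 ⟨by simp, ?_⟩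
    simp [Qa, Qb]
  refine ⟨⟨R C.h _ ha * R C.h _ hb, by rw [C.hΩ]; exact hS⟩, ?_, ?_⟩
  · apply og_ext
    intro z
    change act ((R C.h _ ha * R C.h _ hb) * (R C.h _ ha * R C.h _ hb)) z = act 1 z
    rw [act_mul, act_one, act_RR C.h ha hb hab, act_RR C.h ha hb hab, Qa, Qb]
    simp only [div_one]
    have e1 : polarOdd m F (z - polarOdd m F z (vecB i₀ 1) • vecB i₀ 1 - polarOdd m F z (vecB i₁ 1) • vecB i₁ 1) (vecB i₀ 1) = - polarOdd m F z (vecB i₀ 1) := by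
      rw [C.h.sub_left, C.h.sub_left, C.h.smul_left, C.h.smul_left, C.h.self, hba, Qa]
      ring
    have e2 : polarOdd m F (z - polarOdd m F z (vecB i₀ 1) • vecB i₀ 1 - polarOdd m F z (vecB i₁ 1) • vecB i₁ 1) (vecB i₁ 1) = - polarOdd m F z (vecB i₁ 1) := by
      rw [C.h.sub_left, C.h.sub_left, C.h.smul_left, C.h.smul_left, C.h.self, hab, Qb]
      ring
    rw [e1, e2, neg_smul, neg_smul]
    abel
  · intro h1
    change cc (Cfsg.quadFormOdd m F) (R C.h _ ha * R C.h _ hb) = 1 at h1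
    have e1 : Th C.h C.nd (ofO (R C.h _ ha * R C.h _ hb)) = 1 := by
      rw [Th_ofO, h1]
    obtain ⟨α, hα, hT⟩ := C.scalar_of_Th _ e1
    have hact : ∀ z, act (R C.h _ ha * R C.h _ hb) z = α • z := hT
    have e2 := hact (vecB i₀ 1)
    rw [act_RR C.h ha hb hab, C.h.self, hab, Qa] at e2
    have e3 := congrFun e2 (Sum.inr (Sum.inl i₀))
    simp [vecB, Pi.single_apply, hne] at e3
    have e4 := hact (vecA m F)
    rw [act_RR C.h ha hb hab, polarOdd_vecB, polarOdd_vecB] at e4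
    have e5 := congrFun e4 (Sum.inl ())
    simp [vecA, vecB, Pi.single_apply] at e5
    apply X.h2
    rw [← e5] at e3
    linear_combination -e3

/-- the inner automorphisms have index two -/
lemma index_inn_odd {C : Cx (Cfsg.quadFormOdd m F) (polarOdd m F) t₀} (X : SD C) (hodd : Odd (Fintype.card F)) (hm : 3 ≤ m) :
    ((Cfsg.Inn (Cfsg.POmega F (Cfsg.quadFormOdd m F))).subgroupOf ((GLS (Cfsg.quadFormOdd m F)).map (Th C.h C.nd))).index = 2 := by
  classical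
  have hcardι : Odd (Fintype.card (Unit ⊕ (Fin m ⊕ Fin m))) := by
    simp only [Fintype.card_sum, Fintype.card_unit, Fintype.card_fin]
    exact ⟨m, by ring⟩
  let i₀ : Fin m := ⟨0, by omega⟩
  obtain ⟨ν, hν⟩ := Cfsg.Agent.H01.Om.exists_nonsq hodd
  have hν0 : ν ≠ 0 := by
    rintro rfl
    exact hν IsSquare.zero
  have ha₁ : Cfsg.quadFormOdd m F (vecA m F) ≠ 0 := by
    rw [Q_vecA]
    exact one_ne_zero
  have ha₂ : Cfsg.quadFormOdd m F (vecB i₀ ν) ≠ 0 := by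
    rw [Q_vecB]
    exact hν0
  have hns : ¬ IsSquare (Cfsg.quadFormOdd m F (vecA m F) * Cfsg.quadFormOdd m F (vecB i₀ ν)) := by
    rw [Q_vecA, Q_vecB, one_mul]
    exact hν
  have hL : ∀ v ∈ [vecA m F, vecB i₀ ν], Cfsg.quadFormOdd m F v ≠ 0 := by
    intro v hv
    simp only [List.mem_cons, List.not_mem_nil, or_false] at hv
    rcases hv with rfl | rfl
    · exact ha₁
    · exact ha₂
  obtain ⟨s, hs⟩ := X.og_of_list _ hL
  have hsI : cc (Cfsg.quadFormOdd m F) s ∈ (GLS (Cfsg.quadFormOdd m F)).map (Th C.h C.nd) :=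
    ⟨ofO s, ⟨1, isSemi_permO _⟩, Th_ofO _ _ _⟩
  have hsn := X.not_inn hcardι ha₁ ha₂ hns s hs
  rw [Subgroup.index_eq_two_iff]
  refine ⟨⟨_, hsI⟩, ?_⟩
  rintro ⟨β, hβ⟩
  obtain ⟨T, hT, rfl⟩ := hβ
  simp only [Subgroup.mem_subgroupOf, Subgroup.coe_mul]
  rcases X.dich hcardι ha₁ ha₂ hns s hs hT with h | h
  · right
    refine ⟨h, fun h' => hsn ?_⟩
    have := Subgroup.mul_mem _ (Subgroup.inv_mem _ h) h'
    simpa using this
  · left
    refine ⟨h, fun h' => hsn ?_⟩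
    have := Subgroup.mul_mem _ (Subgroup.inv_mem _ h') h
    simpa using this

/-- the standard field automorphism is of field type -/
lemma field_of_sigT (C : Cx (Cfsg.quadFormOdd m F) (polarOdd m F) t₀) (σ : F ≃+* F)
    (hQσ : ∀ x, Cfsg.quadFormOdd m F (smap σ x) = σ (Cfsg.quadFormOdd m F x)) :
    Cfsg.IsFieldAutPOmegaOf (Cfsg.quadFormOdd m F) σ (Th C.h C.nd (sigT σ hQσ)) := by
  have H : SemiM (Cfsg.quadFormOdd m F) (1 : GL _ F) σ 1 := ⟨one_ne_zero, fun v => by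
    rw [Units.val_one, Matrix.one_mulVec, hQσ, one_mul]⟩
  rw [Th_of_matrix C.h C.nd H (T := sigT σ hQσ) (fun x => by
    rw [Units.val_one, Matrix.one_mulVec]
    rfl)]
  intro s s' hs
  apply cP_induced H s s'
  rw [hs]
  simp

/-- an automorphism of prime order outside the inner-diagonal group is a conjugate of a standard field automorphism -/
theorem exists_std_odd (C : Cx (Cfsg.quadFormOdd m F) (polarOdd m F) t₀) (hodd : Odd (Fintype.card F)) (hm : 3 ≤ m)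
    (x : MulAut (Cfsg.POmega F (Cfsg.quadFormOdd m F))) {p : ℕ} (hp : p.Prime) (hord : orderOf x = p)
    (hnot : ¬ Cfsg.IsInnerDiagonalAutPOmegaOdd m x) :
    ∃ (σ : F ≃+* F) (h : MulAut (Cfsg.POmega F (Cfsg.quadFormOdd m F))),
      σ ≠ RingEquiv.refl F ∧ orderOf σ = p ∧ h ∈ (GLS (Cfsg.quadFormOdd m F)).map (Th C.h C.nd) ∧
      x = h * Th C.h C.nd (sigT σ (fun y => smap_odd σ y)) * h⁻¹ := by
  classical
  haveI : Fact p.Prime := ⟨hp⟩
  have hΓ := gamma_top_odd hodd hm (F := F)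
  have hI : Cfsg.inndiagPOmegaOdd m F = (GLS (Cfsg.quadFormOdd m F)).map (Th C.h C.nd) := pgo_eq C.h C.nd
  have hx : x ∈ (Th C.h C.nd).range := by
    apply gamma_le_range C.h C.nd
    rw [hΓ]
    trivial
  obtain ⟨A, rfl⟩ := hx
  obtain ⟨σ, κ, HA⟩ : ∃ (σ : F ≃+* F) (κ : F), IsSemi (Cfsg.quadFormOdd m F) A.1 σ κ := A.2
  have hσ : σ ≠ 1 := by
    intro h1
    subst h1
    obtain ⟨g, hg⟩ := GLS_eq_simG C.h C.nd (T := A) ⟨κ, HA⟩
    apply hnot
    obtain ⟨c, hc⟩ := g.2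
    have H' : SemiM (Cfsg.quadFormOdd m F) g.1 (RingEquiv.refl F) c := ⟨c.ne_zero, fun v => hc v⟩
    rw [← hg, Th_of_matrix C.h C.nd H' (T := simG _ g) (fun x => rfl)]
    exact ⟨g.1, g.2, cP_induced H'⟩
  have h1r : Th C.h C.nd (A ^ p) = 1 := by
    rw [map_pow, ← hord]
    exact pow_orderOf_eq_one _
  have hσp : σ ^ p = 1 := sigma_of_Th_eq_one C (semi_pow HA p) h1r
  have hσr : orderOf σ = p := orderOf_eq_prime hσp hσ
  have hQσ := fun y => smap_odd (m := m) σ y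
  let φ := Th C.h C.nd (sigT σ hQσ)
  have hφ : Cfsg.IsFieldAutClassPOmega (Cfsg.quadFormOdd m F) φ :=
    ⟨1, φ, σ, hσ, field_of_sigT C σ hQσ, by simp⟩
  have hφr : orderOf φ = p := by
    rw [orderOf_sigT C σ hQσ, hσr]
  have hD : A * (sigT σ hQσ)⁻¹ ∈ GLS (Cfsg.quadFormOdd m F) :=
    ⟨_, semi_congr (HA.mul (sigT_semi σ hQσ).inv) (by simp) rfl⟩
  have hδ : Th C.h C.nd (A * (sigT σ hQσ)⁻¹) ∈ Cfsg.inndiagPOmegaOdd m F := by
    rw [hI]
    exact ⟨_, hD, rfl⟩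
  have e0 : Th C.h C.nd (A * (sigT σ hQσ)⁻¹) * φ = Th C.h C.nd A := by
    change Th C.h C.nd (A * (sigT σ hQσ)⁻¹) * Th C.h C.nd (sigT σ hQσ) = _
    rw [← map_mul, inv_mul_cancel_right]
  have e1 := (coset_conj_odd hodd hm φ _ hφ hφr hδ).1 (by rw [e0]; exact hord)
  obtain ⟨h, hh, e2⟩ := e1
  rw [e0] at e2
  rw [hI] at hh
  exact ⟨σ, h, hσ, hσr, hh, e2⟩

end Odd

end Cfsg.Agent.Lead.LangOm
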