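import Cfsg.Agent.Lib.Lead.LangBal4
/-! Local balance for odd dimensional orthogonal groups: the theorem. -/
set_option autoImplicit false
set_option linter.style.haveILetI false
set_option linter.unusedSimpArgs false
set_option linter.unusedSectionVars false
set_option linter.unusedVariables false
set_option linter.deprecated false
namespace Cfsg.Agent.Lead.LangOm
open Matrix Module Cfsg.Agent.Lead.Ortho Cfsg.Agent.Lead.Omega Cfsg.Agent.H01.Om Cfsg.Agent.Lead.Lang

variable {F : Type*} [Field F] [Fintype F] {m : ℕ}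

set_option maxHeartbeats 1000000 in
/-- **Local balance in odd dimension.** -/
theorem balance_odd {r : ℕ} [Fact r.Prime] [CharP F r] (hodd : Odd (Fintype.card F)) (hm : 3 ≤ m)
    (A : Subgroup (MulAut (Cfsg.POmega F (Cfsg.quadFormOdd m F))))
    (hinn : ∀ k : Cfsg.POmega F (Cfsg.quadFormOdd m F), MulAut.conj k ∈ A) {p : ℕ} [hpp : Fact p.Prime]
    (x : MulAut (Cfsg.POmega F (Cfsg.quadFormOdd m F))) (hord : orderOf x = p)
    (hnot : ¬ Cfsg.IsInnerDiagonalAutPOmegaOdd m x) :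
    Cfsg.pPrimeCore p ↥(A ⊓ Subgroup.centralizer {x}) ≠ ⊥ ↔
      (Cfsg.IsFieldAutClassPOmega (Cfsg.quadFormOdd m F) x ∧
        Nat.Coprime p (Nat.card ↥(MonoidHom.eqLocus x.toMonoidHom (MonoidHom.id (Cfsg.POmega F (Cfsg.quadFormOdd m F)))))) := by
  classical
  have h2 : (2 : F) ≠ 0 := two_ne_zero_of_odd rfl hodd
  obtain ⟨t₀, C, X⟩ := exists_SD_odd (F := F) hodd hm
  obtain ⟨σ, h, hσ, hσr, hhI, ex⟩ := exists_std_odd C hodd hm x hpp.out hord hnot
  set hQσ := fun y => smap_odd (m := m) σ y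
  set φ := Th C.h C.nd (sigT σ hQσ) with hφ
  have hfield : Cfsg.IsFieldAutClassPOmega (Cfsg.quadFormOdd m F) x :=
    ⟨h⁻¹, φ, σ, hσ, field_of_sigT C σ hQσ, by rw [ex]; group⟩
  -- the small field
  obtain ⟨f, hf, hF⟩ : ∃ f : ℕ, 1 ≤ f ∧ Fintype.card F = r ^ f := by
    obtain ⟨n, hn, e⟩ := FiniteField.card F r
    exact ⟨n, Nat.succ_le_of_lt (PNat.pos n), e⟩
  haveI : Finite (F ≃+* F) := Finite.of_injective (fun σ : F ≃+* F => (σ : F → F)) DFunLike.coe_injective
  have hdvd : p ∣ f := by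
    rw [← hσr, ← Cfsg.Agent.Lead.AutPSL.card_ringAut hF hf]
    exact orderOf_dvd_natCard σ
  obtain ⟨K, hK, hcardK⟩ := exists_fixed_field hF σ hσr hpp.out.ne_zero hdvd
  haveI : Fintype K := Fintype.ofFinite _
  have hF₀ : Fintype.card K = r ^ (f / p) := by
    rw [← Nat.card_eq_fintype_card, hcardK]
  obtain ⟨-, ε, hε, hcard⟩ := field_setup (F₀ := K) hF hf σ hσr hpp.out hF₀
  have hp2 : Odd (Fintype.card K) := by
    by_contra hev
    rw [Nat.not_odd_iff_even] at hev
    have : Even (Fintype.card F) := by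
      rw [hcard]
      exact hev.pow_of_ne_zero hpp.out.ne_zero
    exact (Nat.not_even_iff_odd.2 hodd) this
  obtain ⟨t₁, C₁, X₁⟩ := exists_SD_odd (F := K) (m := m) hp2 hm
  have hc : ∀ y, Cfsg.quadFormOdd m F (eV ε y) = ε (Cfsg.quadFormOdd m K y) := eV_Q_odd ε
  have hS := pomega_odd_simple hodd m hm
  have hS₀ := pomega_odd_simple hp2 m hm
  obtain ⟨τ, hτ2, hτ⟩ := exists_invol_odd X hm
  obtain ⟨τ₁, hτ₁2, hτ₁⟩ := exists_invol_odd X₁ hm
  have hz := center_of_invol (C := C) hS hτ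
  have hz₀ := center_of_invol (C := C₁) hS₀ hτ₁
  have heven := even_of_invol (C := C₁) hτ₁2 hτ₁
  haveI : Finite (Cfsg.POmega K (Cfsg.quadFormOdd m K)) := inferInstance
  have hne : Nonempty (Unit ⊕ (Fin m ⊕ Fin m)) := ⟨Sum.inl ()⟩
  haveI hnorm : ((GLS (Cfsg.quadFormOdd m F)).map (Th C.h C.nd)).Normal := range_GLS_normal C (gamma_top_odd hodd hm)
  let ℓ₀ := ((Th C.h C.nd).comp (simG (Cfsg.quadFormOdd m F))).comp (liftS C₁.h C.h hc)
  let ℓ₁ := (Th C₁.h C₁.nd).comp (simG (Cfsg.quadFormOdd m K))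
  let ℓ := (MulAut.conj h).toMonoidHom.comp ℓ₀
  have hℓ : ∀ g, ℓ g = h * ℓ₀ g * h⁻¹ := fun g => rfl
  have hrS := range_simG C.h C.nd
  have hcen := cen_range C₁ C hc hQσ hε ⊤ ⊤ (fun _ _ => trivial) (fun _ => by simp)
  rw [hrS, ← MonoidHom.range_eq_map] at hcen
  have hcen' : ℓ₀.range = (GLS (Cfsg.quadFormOdd m F)).map (Th C.h C.nd) ⊓ Subgroup.centralizer {φ} := hcen
  have key := Cfsg.Agent.Lead.LangBal.balance_core (S := ↥(Cfsg.Geo.quadSimilarityGroup (Cfsg.quadFormOdd m K))) (p := p) hS₀ hz hz₀ ℓ ℓ₁ ?_ A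
    ((GLS (Cfsg.quadFormOdd m F)).map (Th C.h C.nd)) x ?_ (inn_le_map_GLS C) ?_ ?_ ?_ ?_ heven ?_
  · rw [key]
    exact ⟨fun H => ⟨hfield, H⟩, fun H => H.2⟩
  · -- kernels
    ext g
    rw [MonoidHom.mem_ker, MonoidHom.mem_ker, hℓ]
    change h * Th C.h C.nd (simG _ (liftS C₁.h C.h hc g)) * h⁻¹ = 1 ↔ Th C₁.h C₁.nd (simG _ g) = 1
    rw [Th_simG_eq_one_iff C₁, ← isScal_lift (ε := ε), ← liftS_val C₁.h C.h hc g, ← Th_simG_eq_one_iff C]
    constructor
    · intro e
      have : Th C.h C.nd (simG _ (liftS C₁.h C.h hc g)) = h⁻¹ * (h * Th C.h C.nd (simG _ (liftS C₁.h C.h hc g)) * h⁻¹) * h := by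
        group
      rw [this, e]
      group
    · intro e
      rw [e]
      group
  · -- inner automorphisms lie in `A`
    rintro _ ⟨k, rfl⟩
    exact hinn k
  · -- the range
    ext β
    constructor
    · rintro ⟨g, rfl⟩
      have hg : ℓ₀ g ∈ ℓ₀.range := ⟨g, rfl⟩
      rw [hcen'] at hg
      refine ⟨?_, ?_⟩
      · rw [hℓ]
        exact hnorm.conj_mem _ hg.1 h
      · have h3 : _ ∈ Subgroup.centralizer {φ} := hg.2
        rw [Subgroup.mem_centralizer_singleton_iff] at h3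
        change _ ∈ Subgroup.centralizer {x}
        rw [Subgroup.mem_centralizer_singleton_iff, hℓ, ex]
        calc h * ℓ₀ g * h⁻¹ * (h * φ * h⁻¹) = h * (ℓ₀ g * φ) * h⁻¹ := by group
          _ = h * (φ * ℓ₀ g) * h⁻¹ := by rw [h3]
          _ = _ := by group
    · rintro ⟨h1, h3⟩
      have h3 : β ∈ Subgroup.centralizer {x} := h3
      rw [Subgroup.mem_centralizer_singleton_iff, ex] at h3
      have hmem : h⁻¹ * β * h ∈ ℓ₀.range := by
        rw [hcen']
        refine ⟨?_, ?_⟩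
        · have := hnorm.conj_mem _ h1 h⁻¹
          simpa using this
        · change _ ∈ Subgroup.centralizer {φ}
          rw [Subgroup.mem_centralizer_singleton_iff]
          calc h⁻¹ * β * h * φ = h⁻¹ * (β * (h * φ * h⁻¹)) * h := by group
            _ = h⁻¹ * ((h * φ * h⁻¹) * β) * h := by rw [h3]
            _ = _ := by group
      obtain ⟨g, hg⟩ := hmem
      refine ⟨g, ?_⟩
      rw [hℓ, hg]
      group
  · -- the inner automorphisms of the small group
    have e : ℓ₁.range = (GLS (Cfsg.quadFormOdd m K)).map (Th C₁.h C₁.nd) := by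
      rw [MonoidHom.range_eq_map]
      exact range_simG C₁.h C₁.nd
    rw [e]
    exact inn_le_map_GLS C₁
  · -- lifts of inner automorphisms
    intro g hg
    rw [hℓ]
    have := lift_inner X₁ X hc g hg
    exact (inferInstance : (Cfsg.Inn (Cfsg.POmega F (Cfsg.quadFormOdd m F))).Normal).conj_mem _ this h
  · -- the order
    have e := card_range_of_index (C := C₁) hz₀ (index_inn_odd X₁ hp2 hm)
    rw [show ℓ₁.range = ((Th C₁.h C₁.nd).comp (simG (Cfsg.quadFormOdd m K))).range from rfl, e]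
  · -- the centralizer
    intro y _ hyo hcomm
    have hy₁ : Th C.h C.nd = Th C.h C.nd := rfl
    -- conjugate back
    let y₁ := h⁻¹ * y * h
    have hord₁ : (orderOf y₁).Coprime p := by
      have : orderOf y₁ = orderOf y := by
        have e := orderOf_conj' h⁻¹ y
        simpa [y₁] using e
      rw [this]
      exact hyo
    have hcomm₁ : ∀ g, ℓ₁ g ∈ Cfsg.Inn (Cfsg.POmega K (Cfsg.quadFormOdd m K)) → Commute y₁ (ℓ₀ g) := by
      intro g hg
      have e : y * ℓ g = ℓ g * y := hcomm g hg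
      rw [hℓ] at e
      change (h⁻¹ * y * h) * ℓ₀ g = ℓ₀ g * (h⁻¹ * y * h)
      calc h⁻¹ * y * h * ℓ₀ g = h⁻¹ * (y * (h * ℓ₀ g * h⁻¹)) * h := by group
        _ = h⁻¹ * ((h * ℓ₀ g * h⁻¹) * y) * h := by rw [e]
        _ = _ := by group
    have hmemT : y₁ ∈ (Th C.h C.nd).range := by
      apply gamma_le_range C.h C.nd
      rw [gamma_top_odd hodd hm]
      trivial
    obtain ⟨T, hT⟩ := hmemT
    obtain ⟨τ', κ, H⟩ : ∃ (σ : F ≃+* F) (κ : F), IsSemi (Cfsg.quadFormOdd m F) T.1 σ κ := T.2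
    obtain ⟨c, hc0, hTx, hfix⟩ := std_of_comm C h2 hm ε H (by
      intro a b ha hb Qa Qb hab
      have Qa₁ : Cfsg.quadFormOdd m K a = 1 := by
        apply ε.injective
        rw [← hc, Qa, map_one]
      have Qb₁ : Cfsg.quadFormOdd m K b = 1 := by
        apply ε.injective
        rw [← hc, Qb, map_one]
      have hL : ∀ v ∈ [a, b], Cfsg.quadFormOdd m K v ≠ 0 := by
        intro v hv
        simp only [List.mem_cons, List.not_mem_nil, or_false] at hv
        rcases hv with rfl | rfl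
        · rw [Qa₁]
          exact one_ne_zero
        · rw [Qb₁]
          exact one_ne_zero
      obtain ⟨t, ht⟩ := X₁.og_of_list _ hL
      have htS : t ∈ SS C₁.h := by
        refine (X₁.mem_iff t _ hL ht).2 ⟨by simp, ?_⟩
        simp [Qa₁, Qb₁]
      have e1 : ℓ₁ (toSG t) ∈ Cfsg.Inn (Cfsg.POmega K (Cfsg.quadFormOdd m K)) := by
        change Th C₁.h C₁.nd (simG _ (toSG t)) ∈ _
        rw [Th_toSG C₁, C₁.cc_inn_iff]
        exact Or.inl htS
      obtain ⟨s, hs, hL', e2⟩ := Th_lift_list C₁ X hc (toSG t) (c := 1) (L := [a, b]) one_ne_zero hL (by rw [one_smul]; exact ht)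
      have e3 : s = R C.h (eV ε a) ha * R C.h (eV ε b) hb := by
        apply Subtype.ext
        apply Units.ext
        rw [hs]
        exact (X.val_RR ha hb).symm
      have e4 := hcomm₁ (toSG t) e1
      change Commute _ (Th C.h C.nd (simG _ (liftS C₁.h C.h hc (toSG t)))) at e4
      rw [e2, e3, ← hT] at e4
      exact e4)
    have hτp : τ' ^ p = 1 := pow_eq_one_of_fix ε hcard τ' hfix
    have hQτ := fun y => smap_odd (m := m) τ' y
    have eT : T = C.scalarG (Units.mk0 c hc0) * sigT τ' hQτ := by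
      apply Subtype.ext
      apply Equiv.ext
      intro z
      exact hTx z
    have ey : y₁ = Th C.h C.nd (sigT τ' hQτ) := by
      rw [← hT, eT, map_mul, C.Th_scalar, one_mul]
    have hoy : orderOf y₁ = orderOf τ' := by
      rw [ey]
      exact orderOf_sigT C τ' hQτ
    have ho1 : orderOf τ' = 1 := by
      apply Nat.Coprime.eq_one_of_dvd
      · rw [← hoy]
        exact hord₁
      · exact orderOf_dvd_of_pow_eq_one hτp
    have hy1 : y₁ = 1 := by
      rw [← orderOf_eq_one_iff, hoy, ho1]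
    have : y = h * y₁ * h⁻¹ := by
      simp only [y₁]
      group
    rw [this, hy1]
    group

end Cfsg.Agent.Lead.LangOm
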