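import Cfsg.Agent.Lib.Lead.LangBal
/-! Local balance: the abstract argument, when the small group need not be simple. -/
set_option autoImplicit false
set_option linter.style.haveILetI false
set_option linter.unusedSimpArgs false
set_option linter.unusedSectionVars false
set_option linter.unusedVariables false
set_option linter.deprecated false
namespace Cfsg.Agent.Lead.LangBal

variable {K K₀ S : Type*} [Group K] [Group K₀] [Group S]

/-- **The abstract local balance argument**, for a small group which need not be simple. -/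
theorem balance_core' [Finite K] [Finite K₀] [Nontrivial K₀] (hz : Subgroup.center K = ⊥)
    (hz₀ : Subgroup.center K₀ = ⊥) {p : ℕ} (ℓ : S →* MulAut K) (ℓ₁ : S →* MulAut K₀) (hker : ℓ.ker = ℓ₁.ker)
    (A I : Subgroup (MulAut K)) (x : MulAut K) [hIn : I.Normal] (hInnA : Cfsg.Inn K ≤ A) (hInnI : Cfsg.Inn K ≤ I)
    (hrange : ℓ.range = I ⊓ Subgroup.centralizer {x}) (hI₀ : Cfsg.Inn K₀ ≤ ℓ₁.range)
    (hL : ∀ g, ℓ₁ g ∈ Cfsg.Inn K₀ → ℓ g ∈ Cfsg.Inn K)
    (hcard : Nat.card ℓ₁.range ∣ 2 * Nat.card K₀)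
    (hnorm₀ : ∀ M : Subgroup (MulAut K₀), (∀ z : K₀, ∀ β ∈ M, MulAut.conj z * β * (MulAut.conj z)⁻¹ ∈ M) → M ≠ ⊥ →
      ∃ D : Subgroup (MulAut K₀), D ≤ M ∧ D ≤ Cfsg.Inn K₀ ∧ Nat.card K₀ ∣ 2 * Nat.card D ∧ 2 ∣ Nat.card D)
    (hcent : ∀ y ∈ Subgroup.centralizer {x}, (orderOf y).Coprime p → (∀ g, ℓ₁ g ∈ Cfsg.Inn K₀ → Commute y (ℓ g)) → y = 1) :
    Cfsg.pPrimeCore p ↥(A ⊓ Subgroup.centralizer {x}) ≠ ⊥ ↔
      Nat.Coprime p (Nat.card ↥(MonoidHom.eqLocus x.toMonoidHom (MonoidHom.id K))) := by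
  classical
  have hker' : ∀ g, ℓ g = 1 ↔ ℓ₁ g = 1 := by
    intro g
    rw [← MonoidHom.mem_ker, ← MonoidHom.mem_ker, hker]
  have hrg : ∀ g, ℓ g ∈ I ⊓ Subgroup.centralizer {x} := by
    intro g
    rw [← hrange]
    exact ⟨g, rfl⟩
  constructor
  · intro hne
    obtain ⟨N, hNn, hNc, hN1⟩ := core_ne_bot_iff.1 hne
    let G := A ⊓ Subgroup.centralizer {x}
    let N' : Subgroup (MulAut K) := N.map G.subtype
    have hcN' : Nat.card N' = Nat.card N :=
      Nat.card_congr (N.equivMapOfInjective G.subtype G.subtype_injective).toEquiv.symm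
    have hN'G : ∀ y ∈ N', y ∈ G := by
      rintro _ ⟨u, -, rfl⟩
      exact u.2
    have hN'conj : ∀ y ∈ N', ∀ g ∈ G, g * y * g⁻¹ ∈ N' := by
      rintro _ ⟨u, hu, rfl⟩ g hg
      exact ⟨⟨g, hg⟩ * u * ⟨g, hg⟩⁻¹, hNn.conj_mem u hu _, rfl⟩
    have hLG : ∀ g, ℓ₁ g ∈ Cfsg.Inn K₀ → ℓ g ∈ G := fun g hg => ⟨hInnA (hL g hg), (hrg g).2⟩
    by_cases H : ∀ g, ℓ g ∈ N' → ℓ g = 1
    · exfalso
      apply hN1
      rw [eq_bot_iff]
      rintro ⟨y, hy⟩ hyN
      have hyN' : y ∈ N' := ⟨⟨y, hy⟩, hyN, rfl⟩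
      have hord : (orderOf y).Coprime p := by
        have h1 : orderOf y ∣ Nat.card N' := by
          have := orderOf_dvd_natCard (⟨y, hyN'⟩ : N')
          rwa [Subgroup.orderOf_mk] at this
        rw [hcN'] at h1
        exact Nat.Coprime.coprime_dvd_left h1 hNc
      have hy1 : y = 1 := by
        refine hcent y hy.2 hord (fun g hg => ?_)
        have hgG := hLG g hg
        -- the commutator
        have hcI : y * ℓ g * y⁻¹ * (ℓ g)⁻¹ ∈ I ⊓ Subgroup.centralizer {x} := by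
          refine ⟨I.mul_mem (hIn.conj_mem _ (hrg g).1 y) (I.inv_mem (hrg g).1), ?_⟩
          exact Subgroup.mul_mem _ (Subgroup.mul_mem _ (Subgroup.mul_mem _ hy.2 (hrg g).2) (Subgroup.inv_mem _ hy.2))
            (Subgroup.inv_mem _ (hrg g).2)
        rw [← hrange] at hcI
        obtain ⟨g', hg'⟩ := hcI
        have hcN : y * ℓ g * y⁻¹ * (ℓ g)⁻¹ ∈ N' := by
          have e : y * ℓ g * y⁻¹ * (ℓ g)⁻¹ = y * (ℓ g * y⁻¹ * (ℓ g)⁻¹) := by group
          rw [e]
          exact N'.mul_mem hyN' (hN'conj _ (N'.inv_mem hyN') _ hgG)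
        rw [← hg'] at hcN
        have e1 := H g' hcN
        rw [hg'] at e1
        have e2 : y * ℓ g * y⁻¹ = ℓ g := mul_inv_eq_one.1 e1
        exact (mul_inv_eq_iff_eq_mul.1 e2)
      rw [Subgroup.mem_bot]
      exact Subtype.ext hy1
    · simp only [not_forall] at H
      obtain ⟨g₀, h1, h2⟩ := H
      let P₁ : Subgroup (MulAut K₀) := (N'.comap ℓ).map ℓ₁
      obtain ⟨D, hDP, hDI, hDc, hD2⟩ := hnorm₀ P₁ (by
          rintro z _ ⟨g, hg, rfl⟩
          have hzI : (MulAut.conj z : MulAut K₀) ∈ Cfsg.Inn K₀ := ⟨z, rfl⟩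
          obtain ⟨g_z, hgz⟩ := hI₀ hzI
          refine ⟨g_z * g * g_z⁻¹, ?_, ?_⟩
          · change ℓ (g_z * g * g_z⁻¹) ∈ N'
            rw [map_mul, map_mul, map_inv]
            refine hN'conj _ hg _ (hLG g_z ?_)
            rw [hgz]
            exact ⟨z, rfl⟩
          · rw [map_mul, map_mul, map_inv, hgz]) (by
          intro hbot
          have : ℓ₁ g₀ ∈ P₁ := ⟨g₀, h1, rfl⟩
          rw [hbot, Subgroup.mem_bot] at this
          exact h2 ((hker' g₀).2 this))
      -- the order of `D` divides the order of `N`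
      let Ω' : Subgroup S := N'.comap ℓ ⊓ D.comap ℓ₁
      have hmap₁ : Ω'.map ℓ₁ = D := by
        apply le_antisymm
        · rintro _ ⟨g, hg, rfl⟩
          exact hg.2
        · intro β hβ
          obtain ⟨g, hg, e⟩ := hDP hβ
          have hg2 : g ∈ D.comap ℓ₁ := by
            rw [Subgroup.mem_comap, e]
            exact hβ
          exact ⟨g, ⟨hg, hg2⟩, e⟩
      have hmap : Ω'.map ℓ ≤ N' := by
        rintro _ ⟨g, hg, rfl⟩
        exact hg.1
      have hcc : Nat.card (Ω'.map ℓ) = Nat.card (Ω'.map ℓ₁) := by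
        have e := Cfsg.Agent.Lead.LangOm.range_iso_of_ker (ℓ.comp Ω'.subtype) (ℓ₁.comp Ω'.subtype) (by
          ext g
          simp only [MonoidHom.mem_ker, MonoidHom.comp_apply, Subgroup.subtype_apply]
          exact hker' g.1)
        obtain ⟨E⟩ := e
        rw [MonoidHom.range_comp, MonoidHom.range_comp, Subgroup.range_subtype] at E
        exact Nat.card_congr E.toEquiv
      have hdvd : Nat.card D ∣ Nat.card N := by
        rw [← hmap₁, ← hcc, ← hcN']
        exact Subgroup.card_dvd_of_le hmap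
      have hcD : (Nat.card D).Coprime p := Nat.Coprime.coprime_dvd_left hdvd hNc
      have hc2 : Nat.Coprime 2 p := Nat.Coprime.coprime_dvd_left hD2 hcD
      have hc₀ : (Nat.card K₀).Coprime p :=
        Nat.Coprime.coprime_dvd_left hDc (Nat.Coprime.mul_left hc2 hcD)
      rw [card_fix hz]
      have hW : Cfsg.Inn K ⊓ Subgroup.centralizer {x} ≤ ℓ.range := by
        rw [hrange]
        exact inf_le_inf_right _ hInnI
      have hdv : Nat.card ↥(Cfsg.Inn K ⊓ Subgroup.centralizer {x}) ∣ 2 * Nat.card K₀ := by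
        refine dvd_trans (Subgroup.card_dvd_of_le hW) ?_
        obtain ⟨E⟩ := Cfsg.Agent.Lead.LangOm.range_iso_of_ker ℓ ℓ₁ hker
        rw [Nat.card_congr E.toEquiv]
        exact hcard
      exact (Nat.Coprime.coprime_dvd_left hdv (Nat.Coprime.mul_left hc2 hc₀)).symm
  · intro hc
    rw [card_fix hz] at hc
    let G := A ⊓ Subgroup.centralizer {x}
    let W : Subgroup (MulAut K) := Cfsg.Inn K ⊓ Subgroup.centralizer {x}
    have hWG : W ≤ G := inf_le_inf_right _ hInnA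
    have hInnN : (Cfsg.Inn K).Normal := inferInstance
    refine core_ne_bot_iff.2 ⟨W.subgroupOf G, ⟨?_⟩, ?_, ?_⟩
    · rintro ⟨y, hy⟩ hyW ⟨g, hg⟩
      rw [Subgroup.mem_subgroupOf] at hyW ⊢
      refine ⟨hInnN.conj_mem y hyW.1 g, ?_⟩
      exact Subgroup.mul_mem _ (Subgroup.mul_mem _ hg.2 hyW.2) (Subgroup.inv_mem _ hg.2)
    · rw [Nat.card_congr (Subgroup.subgroupOfEquivOfLe hWG).toEquiv]
      exact hc.symm
    · obtain ⟨z, hz1⟩ : ∃ z : K₀, z ≠ 1 := exists_ne 1
      have hzI : (MulAut.conj z : MulAut K₀) ∈ Cfsg.Inn K₀ := ⟨z, rfl⟩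
      obtain ⟨g, hg⟩ := hI₀ hzI
      have hne : ℓ g ≠ 1 := by
        intro h
        have h1 := (hker' g).1 h
        rw [hg] at h1
        apply hz1
        apply conj_inj hz₀
        rw [h1, map_one]
      intro hbot
      have hg' : ℓ₁ g ∈ Cfsg.Inn K₀ := by
        rw [hg]
        exact hzI
      have hmem : ℓ g ∈ W := ⟨hL g hg', (hrg g).2⟩
      have : (⟨ℓ g, hWG hmem⟩ : ↥G) ∈ W.subgroupOf G := hmem
      rw [hbot, Subgroup.mem_bot] at this
      exact hne (congrArg Subtype.val this)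

end Cfsg.Agent.Lead.LangBal
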