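import Cfsg.Agent.Lib.Lead.LangPSp2
/-! Lang-Steinberg for field automorphisms of `PSp_{2m}(F)`: centralizers and class counts. -/
set_option autoImplicit false
set_option linter.style.haveILetI false
set_option linter.unusedSimpArgs false
set_option linter.unusedSectionVars false
set_option linter.unusedVariables false
namespace Cfsg.Agent.Lead.Lang
open Matrix
open Cfsg.Agent.Lead.AutPSp
open scoped MatrixGroups

variable {F : Type*} [Field F] [Fintype F] {m : ℕ}

local notation "PG" => (symplecticGroup (Fin m) F ⧸ Subgroup.center (symplecticGroup (Fin m) F))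
local notation "II" => (Fin m ⊕ Fin m)

/-- the diagonal similarity -/
noncomputable def dCS (c : Fˣ) : Cfsg.GSp m F := ⟨dC c, dC_mem c⟩

lemma mu_dCS [Nonempty (Fin m)] (c : Fˣ) : mu (dCS c : Cfsg.GSp m F) = c := by
  obtain ⟨x, y, h⟩ := exists_form_one (m := m) (F := F)
  have h1 := mulC_spec (dCS c : Cfsg.GSp m F) x y
  have h2 : sympForm (((dC c : GL (Fin m ⊕ Fin m) F) : Matrix (Fin m ⊕ Fin m) (Fin m ⊕ Fin m) F) *ᵥ x)
      (((dC c : GL (Fin m ⊕ Fin m) F) : Matrix (Fin m ⊕ Fin m) (Fin m ⊕ Fin m) F) *ᵥ y) = (c : F) * sympForm x y := by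
    rw [dC_mulVec, dC_mulVec, sympForm_apply, sympForm_apply, Finset.mul_sum]
    apply Finset.sum_congr rfl
    intro i _
    simp only [Sum.elim_inl, Sum.elim_inr]
    ring
  apply Units.ext
  have h3 : (mulC (dCS c : Cfsg.GSp m F) : F) * sympForm x y = (c : F) * sympForm x y := h1.symm.trans h2
  rw [h, mul_one, mul_one] at h3
  exact h3

lemma mu_scS [Nonempty (Fin m)] (z : Fˣ) : mu (scS z : Cfsg.GSp m F) = z * z := by
  obtain ⟨x, y, h⟩ := exists_form_one (m := m) (F := F)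
  have h1 := mulC_spec (scS z : Cfsg.GSp m F) x y
  have h2 : sympForm ((((scS z : Cfsg.GSp m F).1 : GL II F) : Matrix II II F) *ᵥ x)
      ((((scS z : Cfsg.GSp m F).1 : GL II F) : Matrix II II F) *ᵥ y) = (z : F) * (z : F) * sympForm x y := by
    rw [scS_coe]
    simp only [sc_coe, Matrix.smul_mulVec, Matrix.one_mulVec, sympForm_smul_left, sympForm_smul_right, mul_assoc]
  apply Units.ext
  have h3 : (mulC (scS z : Cfsg.GSp m F) : F) * sympForm x y = (z : F) * (z : F) * sympForm x y := h1.symm.trans h2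
  rw [h, mul_one, mul_one] at h3
  exact h3

lemma exists_toGSp [Nonempty (Fin m)] {g : Cfsg.GSp m F} (h : mu g = 1) : ∃ s, toGSp s = g := by
  refine ⟨⟨(g.1 : Matrix II II F), ?_⟩, ?_⟩
  · apply mem_sp_of_form
    intro x y
    rw [mulC_spec]
    have : (mulC g : F) = 1 := congrArg Units.val h
    rw [this, one_mul]
  · apply Subtype.ext
    apply Units.ext
    rfl

lemma mu_gmS [Nonempty (Fin m)] (σ : F ≃+* F) (g : Cfsg.GSp m F) : mu (gmS σ g) = Units.map (σ : F →* F) (mu g) := by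
  obtain ⟨x, y, h⟩ := exists_form_one (m := m) (F := F)
  have h1 := mulC_spec (gmS σ g) x y
  rw [gmS_coe, gm_coe, form_gm, mulC_spec, map_mul, form_symm, h, mul_one, mul_one] at h1
  apply Units.ext
  exact h1.symm

lemma mu_toGSp [Nonempty (Fin m)] (s : symplecticGroup (Fin m) F) : mu (toGSp s) = 1 := by
  obtain ⟨x, y, h⟩ := exists_form_one (m := m) (F := F)
  have h1 := mulC_spec (toGSp s) x y
  have h2 : sympForm (((toGSp s).1 : Matrix II II F) *ᵥ x) (((toGSp s).1 : Matrix II II F) *ᵥ y) = sympForm x y :=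
    sympForm_mulVec s.2 x y
  rw [h2, h, mul_one] at h1
  apply Units.ext
  exact h1.symm

/-- the count of classes as an index, for `PSp` -/
theorem split_PSp [Nonempty (Fin m)] (x : MulAut PG) (D : Subgroup Fˣ)
    (hD : ∀ w, w ∈ D ↔ ∃ g : Cfsg.GSp m F, mu g = w ∧ (kk g * x : MulAut PG) = x * kk g) :
    Cfsg.splitClassCount (kk : Cfsg.GSp m F →* MulAut PG).range (Cfsg.Inn PG) x = D.index := by
  classical
  apply split_count (kk : Cfsg.GSp m F →* MulAut PG).range (Cfsg.Inn PG) x D (fun a => kk (dCS a)) (fun a => ⟨_, rfl⟩)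
  · rintro _ ⟨g, rfl⟩
    have h1 : mu (g * (dCS (mu g))⁻¹) = 1 := by
      rw [map_mul, map_inv, mu_dCS, mul_inv_cancel]
    obtain ⟨s, hs⟩ := exists_toGSp h1
    refine ⟨kk (toGSp s), ⟨pr (Fin m) F s, (kk_toGSp s).symm⟩, mu g, ?_⟩
    rw [← map_mul, hs, inv_mul_cancel_right]
  · intro a b
    rw [hD]
    constructor
    · rintro ⟨k, ⟨y, rfl⟩, e⟩
      obtain ⟨s, rfl⟩ := QuotientGroup.mk_surjective y
      have e1 : (kk (toGSp s) : MulAut PG) = MulAut.conj (QuotientGroup.mk s : PG) := kk_toGSp s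
      refine ⟨(dCS a)⁻¹ * (toGSp s)⁻¹ * dCS b, ?_, ?_⟩
      · rw [map_mul, map_mul, map_inv, map_inv, mu_dCS, mu_dCS, mu_toGSp, inv_one, mul_one]
      · rw [map_mul, map_mul, map_inv, map_inv, e1]
        have e2 : (kk (dCS b) * x * (kk (dCS b))⁻¹ : MulAut PG) =
            MulAut.conj (QuotientGroup.mk s : PG) * (kk (dCS a) * x * (kk (dCS a))⁻¹) * (MulAut.conj (QuotientGroup.mk s : PG))⁻¹ := e
        have e3 : (kk (dCS b) * x : MulAut PG) = (MulAut.conj (QuotientGroup.mk s : PG) * (kk (dCS a) * x * (kk (dCS a))⁻¹) * (MulAut.conj (QuotientGroup.mk s : PG))⁻¹) * kk (dCS b) := by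
          rw [← e2, inv_mul_cancel_right]
        calc ((kk (dCS a))⁻¹ * (MulAut.conj (QuotientGroup.mk s : PG))⁻¹ * kk (dCS b) * x : MulAut PG)
            = (kk (dCS a))⁻¹ * (MulAut.conj (QuotientGroup.mk s : PG))⁻¹ * (kk (dCS b) * x) := by group
          _ = _ := by
            rw [e3]
            group
    · rintro ⟨g, hg, hc⟩
      have h1 : mu (dCS b * g⁻¹ * (dCS a)⁻¹) = 1 := by
        rw [map_mul, map_mul, map_inv, map_inv, mu_dCS, mu_dCS, hg, _root_.mul_inv_rev, inv_inv]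
        rw [mul_inv_cancel_left, mul_inv_cancel]
      obtain ⟨s, hs⟩ := exists_toGSp h1
      refine ⟨kk (toGSp s), ⟨pr (Fin m) F s, (kk_toGSp s).symm⟩, ?_⟩
      have e1 : dCS b = toGSp s * dCS a * g := by
        rw [hs]
        group
      have e2 : (kk (dCS b) : MulAut PG) = kk (toGSp s) * kk (dCS a) * kk g := by
        rw [e1, map_mul, map_mul]
      rw [e2]
      have e3 : (kk g * x * (kk g)⁻¹ : MulAut PG) = x := by
        rw [hc, mul_inv_cancel_right]
      calc (kk (toGSp s) * kk (dCS a) * kk g * x * (kk (toGSp s) * kk (dCS a) * kk g)⁻¹ : MulAut PG)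
          = kk (toGSp s) * kk (dCS a) * (kk g * x * (kk g)⁻¹) * (kk (dCS a))⁻¹ * (kk (toGSp s))⁻¹ := by group
        _ = _ := by
          rw [e3]
          group

/-- descent of a matrix fixed up to a scalar -/
lemma descend_GL [Nonempty (Fin m)] (σ : F ≃+* F) (g : GL II F) (c : Fˣ) (hc' : gm σ g = sc c * g) :
    ∃ u : Fˣ, gm σ (sc u * g) = sc u * g := by
  classical
  haveI : Finite (F ≃+* F) := Finite.of_injective (fun σ : F ≃+* F => (σ : F → F)) DFunLike.coe_injective
  have hit : ∀ k, gm (σ ^ k) g = sc (∏ i ∈ Finset.range k, Units.map (((σ ^ i : F ≃+* F) : F →* F)) c) * g := by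
    intro k
    induction k with
    | zero =>
      simp [gm_one]
    | succ k ih =>
      have e1 : σ ^ (k + 1) = σ ^ k * σ := pow_succ σ k
      rw [e1, ← gm_gm, hc', map_mul, ih, gm_sc, Finset.prod_range_succ]
      have e9 : ∀ a b : Fˣ, (sc (a * b) : GL II F) = sc a * sc b := fun a b => map_mul _ _ _
      rw [e9, ← mul_assoc]
      congr 1
      exact sc_comm _ _
  have hN := hit (orderOf σ)
  rw [pow_orderOf_eq_one, gm_one] at hN
  have hN2 : (sc (∏ i ∈ Finset.range (orderOf σ), Units.map (((σ ^ i : F ≃+* F) : F →* F)) c) : GL II F) = sc 1 := by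
    have e2 : (sc 1 : GL II F) = 1 := map_one _
    rw [e2]
    exact (mul_eq_right.mp hN.symm)
  have hN3 := sc_inj hN2
  obtain ⟨y, hy0, hy⟩ := h90_scalar σ (orderOf_pos σ) (c : F) (by
    have := congrArg Units.val hN3
    rw [Units.coe_prod] at this
    exact this)
  refine ⟨Units.mk0 y hy0, ?_⟩
  rw [map_mul, gm_sc, hc', ← mul_assoc]
  congr 1
  have e9 : ∀ a b : Fˣ, (sc (a * b) : GL II F) = sc a * sc b := fun a b => map_mul _ _ _
  rw [← e9]
  congr 1
  apply Units.ext
  rw [Units.val_mul]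
  change σ y * (c : F) = y
  rw [mul_comm]
  exact hy

/-- descent in `GSp` -/
lemma descend_S [Nonempty (Fin m)] (σ : F ≃+* F) (g : Cfsg.GSp m F) (h : (kk (gmS σ g) : MulAut PG) = kk g) :
    ∃ u : Fˣ, gmS σ (scS u * g) = scS u * g := by
  have h1 : (kk (gmS σ g * g⁻¹) : MulAut PG) = 1 := by
    rw [map_mul, map_inv, h, mul_inv_cancel]
  rw [kk_eq_one_iff] at h1
  obtain ⟨z, hz⟩ := h1
  have hz0 : z ≠ 0 := by
    rintro rfl
    rw [zero_smul] at hz
    have h2 := (gmS σ g * g⁻¹).1.isUnit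
    rw [hz] at h2
    exact not_isUnit_zero h2
  have hc' : gm σ g.1 = sc (Units.mk0 z hz0) * g.1 := by
    have e1 : gm σ g.1 * g.1⁻¹ = sc (Units.mk0 z hz0) := by
      apply Units.ext
      rw [sc_coe]
      exact hz
    rw [← e1, inv_mul_cancel_right]
  obtain ⟨u, hu⟩ := descend_GL σ g.1 _ hc'
  exact ⟨u, Subtype.ext hu⟩

lemma gmS_dCS (σ : F ≃+* F) (d : Fˣ) (hd : σ (d : F) = d) : gmS σ (dCS d : Cfsg.GSp m F) = dCS d := by
  apply Subtype.ext
  apply Units.ext
  rw [gmS_coe, gm_coe]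
  change (Matrix.diagonal (Sum.elim (fun _ => (d : F)) (fun _ => 1))).map σ = Matrix.diagonal (Sum.elim (fun _ => (d : F)) (fun _ => 1))
  rw [Matrix.diagonal_map (map_zero σ)]
  congr 1
  funext i
  rcases i with i | i
  · simpa using hd
  · simp

/-- the description of the multipliers centralizing a field automorphism -/
lemma mem_fieldS_iff [Nonempty (Fin m)] (σ : F ≃+* F) (w : Fˣ) :
    w ∈ (powMonoidHom 2 : Fˣ →* Fˣ).range ⊔ fixS σ ↔
      ∃ g : Cfsg.GSp m F, mu g = w ∧ (kk g * fldS σ : MulAut PG) = fldS σ * kk g := by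
  classical
  constructor
  · intro hw
    obtain ⟨_, ⟨c, rfl⟩, d, hd, rfl⟩ := Subgroup.mem_sup.mp hw
    refine ⟨scS c * dCS d, ?_, ?_⟩
    · rw [map_mul, mu_scS, mu_dCS]
      change _ = c ^ 2 * d
      rw [pow_two]
    · rw [map_mul, kk_scS, one_mul, fldS_kk, gmS_dCS σ d hd]
  · rintro ⟨g, rfl, hg⟩
    have h1 : (kk (gmS σ g) : MulAut PG) = kk g := by
      have e := fldS_kk σ g
      rw [← hg] at e
      exact (mul_right_cancel e).symm
    obtain ⟨u, hu⟩ := descend_S σ g h1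
    have h2 : mu (scS u * g) ∈ fixS σ := by
      rw [mem_fixS]
      have := mu_gmS σ (scS u * g)
      rw [hu] at this
      have e2 := congrArg Units.val this
      exact e2.symm
    have h3 : mu g = (u⁻¹) ^ 2 * mu (scS u * g) := by
      rw [map_mul, mu_scS, pow_two]
      group
    rw [h3]
    exact Subgroup.mul_mem _ (Subgroup.mem_sup_left ⟨u⁻¹, rfl⟩) (Subgroup.mem_sup_right h2)

section Cent
variable {F₀ : Type*} [Field F₀] [Fintype F₀]

omit [Fintype F] [Fintype F₀] in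
lemma form_map (ε : F₀ →+* F) (x y : II → F₀) :
    sympForm (fun i => ε (x i)) (fun i => ε (y i)) = ε (sympForm x y) := by
  rw [sympForm_apply, sympForm_apply, map_sum]
  apply Finset.sum_congr rfl
  intro i _
  simp [map_sub, map_mul]

omit [Fintype F] [Fintype F₀] in
lemma map_mulVec_fun (ε : F₀ →+* F) (M : Matrix II II F₀) (x : II → F₀) :
    M.map ε *ᵥ (fun i => ε (x i)) = fun i => ε ((M *ᵥ x) i) := by
  funext i
  exact (RingHom.map_mulVec ε M x i).symm

/-- the embedding of `GSp(F₀)` -/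
lemma gε_mem (ε : F₀ →+* F) (g₀ : Cfsg.GSp m F₀) :
    (Matrix.GeneralLinearGroup.map ε (g₀.1 : GL II F₀) : GL II F) ∈ Cfsg.GSp m F := by
  refine ⟨Units.map (ε : F₀ →* F) (mulC g₀), fun u v => ?_⟩
  change sympForm (((g₀.1 : Matrix II II F₀).map ε) *ᵥ u) (((g₀.1 : Matrix II II F₀).map ε) *ᵥ v) = ε (mulC g₀ : F₀) * sympForm u v
  have key : ∀ a b : II, sympForm (fun i => ((g₀.1 : Matrix II II F₀).map ε) i a) (fun i => ((g₀.1 : Matrix II II F₀).map ε) i b) =
      ε (mulC g₀ : F₀) * sympForm (fun i => (1 : Matrix II II F) i a) (fun i => (1 : Matrix II II F) i b) := by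
    intro a b
    have e1 : ∀ c : II, (fun i => ((g₀.1 : Matrix II II F₀).map ε) i c) = fun i => ε (((g₀.1 : Matrix II II F₀) *ᵥ (Pi.single c 1)) i) := by
      intro c
      funext i
      simp
    have e2 : ∀ c : II, (fun i => (1 : Matrix II II F) i c) = fun i => ε ((Pi.single c 1 : II → F₀) i) := by
      intro c
      funext i
      by_cases h : i = c
      · subst h
        simp
      · simp [h, Pi.single_apply]
    rw [e1, e1, e2, e2, form_map, form_map, mulC_spec, map_mul]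
  have hone : ∀ z : II → F, z = (1 : Matrix II II F) *ᵥ z := fun z => (Matrix.one_mulVec z).symm
  conv_rhs => rw [hone u, hone v, form_expand, Finset.mul_sum]
  rw [form_expand]
  apply Finset.sum_congr rfl
  intro a _
  rw [Finset.mul_sum]
  apply Finset.sum_congr rfl
  intro b _
  rw [key]
  ring

/-- the lift of a similarity with entries in the subfield -/
lemma lift_GSp (ε : F₀ →+* F) (g₀ : GL II F₀) (g : Cfsg.GSp m F) (h : Matrix.GeneralLinearGroup.map ε g₀ = g.1)
    (c₀ : F₀) (hc : ε c₀ = mulC g) : g₀ ∈ Cfsg.GSp m F₀ := by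
  have hc0 : c₀ ≠ 0 := by
    rintro rfl
    rw [map_zero] at hc
    exact (mulC g).ne_zero hc.symm
  refine ⟨Units.mk0 c₀ hc0, fun u v => ?_⟩
  change sympForm ((g₀ : Matrix II II F₀) *ᵥ u) ((g₀ : Matrix II II F₀) *ᵥ v) = c₀ * sympForm u v
  apply ε.injective
  rw [← form_map, map_mul, ← form_map, hc, ← mulC_spec, ← map_mulVec_fun, ← map_mulVec_fun]
  have e : (g₀ : Matrix II II F₀).map ε = (g.1 : Matrix II II F) := by
    rw [← h]
    rfl
  rw [e]

set_option maxHeartbeats 3000000 in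
/-- the centralizer of a field automorphism -/
theorem centralizer_fieldS [Nonempty (Fin m)] (σ : F ≃+* F) (ε : F₀ →+* F)
    (hε : ∀ a, σ a = a ↔ a ∈ Set.range ε) :
    Nonempty (↥((kk : Cfsg.GSp m F →* MulAut PG).range ⊓ Subgroup.centralizer {(fldS σ : MulAut PG)}) ≃* Cfsg.PGSp m F₀) := by
  classical
  let gε : Cfsg.GSp m F₀ →* Cfsg.GSp m F :=
    MonoidHom.codRestrict ((Matrix.GeneralLinearGroup.map ε).comp (Cfsg.GSp m F₀).subtype) _ (gε_mem ε)
  have hgε : ∀ g₀ : Cfsg.GSp m F₀, gmS σ (gε g₀) = gε g₀ := by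
    intro g₀
    apply Subtype.ext
    apply Units.ext
    ext i j
    change σ (ε ((g₀.1 : Matrix II II F₀) i j)) = ε ((g₀.1 : Matrix II II F₀) i j)
    exact (hε _).mpr ⟨_, rfl⟩
  have hmem : ∀ g₀ : Cfsg.GSp m F₀, (kk (gε g₀) : MulAut PG) ∈
      (kk : Cfsg.GSp m F →* MulAut PG).range ⊓ Subgroup.centralizer {(fldS σ : MulAut PG)} := by
    intro g₀
    refine Subgroup.mem_inf.mpr ⟨⟨_, rfl⟩, Subgroup.mem_centralizer_singleton_iff.mpr ?_⟩
    rw [fldS_kk, hgε]
  let Φ : Cfsg.GSp m F₀ →* ↥((kk : Cfsg.GSp m F →* MulAut PG).range ⊓ Subgroup.centralizer {(fldS σ : MulAut PG)}) :=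
    MonoidHom.codRestrict (kk.comp gε) _ hmem
  have hΦ : ∀ h : Cfsg.GSp m F₀, ((Φ h : ↥((kk : Cfsg.GSp m F →* MulAut PG).range ⊓ Subgroup.centralizer {(fldS σ : MulAut PG)})) : MulAut PG) =
      kk (gε h) := fun h => rfl
  have hsurj : Function.Surjective Φ := by
    rintro ⟨_, ⟨g, rfl⟩, hz⟩
    have hz' : (kk g * fldS σ : MulAut PG) = fldS σ * kk g := Subgroup.mem_centralizer_singleton_iff.mp hz
    have h1 : (kk (gmS σ g) : MulAut PG) = kk g := by
      have e := fldS_kk σ g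
      rw [← hz'] at e
      exact (mul_right_cancel e).symm
    obtain ⟨u, hu⟩ := descend_S σ g h1
    set g' := scS u * g with hg'
    have hfix : ∀ i j, (g'.1 : Matrix II II F) i j ∈ Set.range ε := by
      intro i j
      rw [← hε]
      have h4 : ((gmS σ g').1 : Matrix II II F) i j = (g'.1 : Matrix II II F) i j := by rw [hu]
      exact h4
    have hfix' : ∀ i j, ((g'⁻¹).1 : Matrix II II F) i j ∈ Set.range ε := by
      intro i j
      rw [← hε]
      have h3 : gmS σ g'⁻¹ = g'⁻¹ := by rw [map_inv, hu]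
      have h4 : ((gmS σ g'⁻¹).1 : Matrix II II F) i j = ((g'⁻¹).1 : Matrix II II F) i j := by rw [h3]
      exact h4
    choose M₀ hM₀ using hfix
    choose N₀ hN₀ using hfix'
    have hM₀' : (Matrix.of M₀).map ε = (g'.1 : Matrix II II F) := by
      ext i j
      exact hM₀ i j
    have hN₀' : (Matrix.of N₀).map ε = ((g'⁻¹).1 : Matrix II II F) := by
      ext i j
      exact hN₀ i j
    have hinj : Function.Injective (fun A : Matrix II II F₀ => A.map ε) :=
      Matrix.map_injective ε.injective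
    have h1' : (Matrix.of M₀) * (Matrix.of N₀) = 1 := by
      apply hinj
      change ((Matrix.of M₀) * (Matrix.of N₀)).map ε = (1 : Matrix II II F₀).map ε
      rw [Matrix.map_mul, hM₀', hN₀']
      have e : (g'.1 : Matrix II II F) * ((g'⁻¹).1 : Matrix II II F) = 1 := by
        rw [← Units.val_mul]
        have : g'.1 * (g'⁻¹).1 = 1 := congrArg Subtype.val (mul_inv_cancel g')
        rw [this, Units.val_one]
      rw [e]
      ext i j
      by_cases hij : i = j
      · subst hij; simp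
      · simp [Matrix.one_apply, hij]
    have h2' : (Matrix.of N₀) * (Matrix.of M₀) = 1 := mul_eq_one_comm.mp h1'
    let g₀ : GL II F₀ := ⟨Matrix.of M₀, Matrix.of N₀, h1', h2'⟩
    have hg₀ : Matrix.GeneralLinearGroup.map ε g₀ = g'.1 := by
      apply Units.ext
      exact hM₀'
    have hmu : σ (mulC g' : F) = mulC g' := by
      have := mu_gmS σ g'
      rw [hu] at this
      exact (congrArg Units.val this).symm
    obtain ⟨c₀, hc₀⟩ := (hε _).mp hmu
    refine ⟨⟨g₀, lift_GSp ε g₀ g' hg₀ c₀ hc₀⟩, ?_⟩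
    apply Subtype.ext
    rw [hΦ]
    have e1 : gε ⟨g₀, lift_GSp ε g₀ g' hg₀ c₀ hc₀⟩ = g' := Subtype.ext hg₀
    rw [e1, hg', map_mul, kk_scS, one_mul]
  have hker : Φ.ker = (Cfsg.Geo.scalars II F₀).subgroupOf (Cfsg.GSp m F₀) := by
    ext g₀
    rw [MonoidHom.mem_ker, Subgroup.mem_subgroupOf, Cfsg.Geo.mem_scalars_iff]
    have e1 : Φ g₀ = 1 ↔ (kk (gε g₀) : MulAut PG) = 1 := by
      constructor
      · intro h
        exact congrArg Subtype.val h
      · intro h
        exact Subtype.ext h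
    rw [e1, kk_eq_one_iff]
    have hm : ∀ i j, ((gε g₀).1 : Matrix II II F) i j = ε ((g₀.1 : Matrix II II F₀) i j) := fun i j => rfl
    obtain ⟨l₀⟩ : Nonempty (Fin m) := inferInstance
    let i₀ : II := Sum.inl l₀
    constructor
    · rintro ⟨z, hz⟩
      have hz2 : ∀ i j, ε ((g₀.1 : Matrix II II F₀) i j) = (z • (1 : Matrix II II F)) i j := by
        intro i j
        rw [← hm, hz]
      have hz3 : z = ε ((g₀.1 : Matrix II II F₀) i₀ i₀) := by
        rw [hz2]
        simp
      have hd : (g₀.1 : Matrix II II F₀) i₀ i₀ ≠ 0 := by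
        intro h0
        rw [h0, map_zero] at hz3
        subst hz3
        have h5 : (g₀.1 : Matrix II II F₀) = 0 := by
          ext i j
          apply ε.injective
          rw [hz2]
          simp
        have h6 : (g₀.1 : Matrix II II F₀) * ((g₀.1⁻¹ : GL II F₀) : Matrix II II F₀) = 1 := by
          rw [← Units.val_mul, mul_inv_cancel, Units.val_one]
        rw [h5, zero_mul] at h6
        have h7 := congrFun (congrFun h6 i₀) i₀
        simp at h7
      refine ⟨Units.mk0 _ hd, ?_⟩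
      ext i j
      apply ε.injective
      rw [hz2]
      change z • (1 : Matrix II II F) i j = ε (((g₀.1 : Matrix II II F₀) i₀ i₀) • (1 : Matrix II II F₀) i j)
      rw [hz3]
      by_cases hij : i = j
      · subst hij
        simp
      · simp [hij]
    · rintro ⟨c, hc⟩
      refine ⟨ε c, ?_⟩
      ext i j
      rw [hm]
      have : (g₀.1 : Matrix II II F₀) i j = ((c : F₀) • (1 : Matrix II II F₀)) i j := by rw [hc]
      rw [this]
      by_cases hij : i = j
      · subst hij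
        simp
      · simp [hij]
  exact ⟨(QuotientGroup.quotientKerEquivOfSurjective Φ hsurj).symm.trans
    (QuotientGroup.quotientMulEquivOfEq hker)⟩

end Cent

/-- the arithmetic of the class count -/
lemma gcd_arith {p f r : ℕ} (hp : p.Prime) (hf : 1 ≤ f) (hr : r.Prime) (hdvd : r ∣ f) :
    Nat.gcd 2 ((p ^ f - 1) / (p ^ (f / r) - 1)) = Nat.gcd (Nat.gcd 2 (p ^ f - 1)) r := by
  have hr0 : 0 < r := hr.pos
  have hfr : 1 ≤ f / r := Nat.div_pos (Nat.le_of_dvd (by omega) hdvd) hr0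
  set q₀ := p ^ (f / r) with hq₀
  have hq₀2 : 2 ≤ q₀ := by
    have h1 : p ^ 1 ≤ p ^ (f / r) := Nat.pow_le_pow_right hp.pos hfr
    rw [pow_one] at h1
    exact le_trans hp.two_le h1
  have hqq : p ^ f = q₀ ^ r := by
    rw [hq₀, ← pow_mul, Nat.div_mul_cancel hdvd]
  rw [hqq, ← Nat.geomSum_eq hq₀2 r]
  by_cases h2 : p = 2
  · have hev : Even q₀ := by
      rw [hq₀, h2]
      exact (Nat.even_pow.mpr ⟨even_two, by omega⟩)
    have h3 : ∑ i ∈ Finset.range r, q₀ ^ i ≡ 1 [MOD 2] := by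
      obtain ⟨r', rfl⟩ : ∃ r', r = r' + 1 := ⟨r - 1, by omega⟩
      rw [Finset.sum_range_succ']
      have : 2 ∣ ∑ i ∈ Finset.range r', q₀ ^ (i + 1) := by
        apply Finset.dvd_sum
        intro i _
        rw [pow_succ]
        exact Dvd.dvd.mul_left hev.two_dvd _
      obtain ⟨t, ht⟩ := this
      rw [ht]
      simp [Nat.ModEq, Nat.add_mod]
    have h4 : Nat.gcd 2 (∑ i ∈ Finset.range r, q₀ ^ i) = 1 := by
      rw [Nat.gcd_comm, h3.gcd_eq]
      simp
    have h5 : Nat.gcd 2 (q₀ ^ r - 1) = 1 := by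
      have hev2 : Even (q₀ ^ r) := Nat.even_pow.mpr ⟨hev, by omega⟩
      have hpos : 1 ≤ q₀ ^ r := Nat.one_le_pow _ _ (by omega)
      have : Odd (q₀ ^ r - 1) := Nat.Even.sub_odd hpos hev2 odd_one
      exact Nat.Coprime.symm (Nat.Coprime.symm (Nat.coprime_two_left.mpr this))
    rw [h4, h5]
    simp
  · have hodd : Odd q₀ := by
      rw [hq₀]
      exact (hp.odd_of_ne_two h2).pow
    have h3 : ∀ k, ∑ i ∈ Finset.range k, q₀ ^ i ≡ k [MOD 2] := by
      intro k
      induction k with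
      | zero => rfl
      | succ k ih =>
        rw [Finset.sum_range_succ]
        have h6 : q₀ ^ k ≡ 1 [MOD 2] := by
          have : Odd (q₀ ^ k) := hodd.pow
          exact Nat.odd_iff.mp this
        exact Nat.ModEq.add ih h6
    have h4 : Nat.gcd 2 (∑ i ∈ Finset.range r, q₀ ^ i) = Nat.gcd 2 r := by
      rw [Nat.gcd_comm, (h3 r).gcd_eq, Nat.gcd_comm]
    have h5 : Nat.gcd 2 (q₀ ^ r - 1) = 2 := by
      have h6 : Odd (q₀ ^ r) := hodd.pow
      have hpos : 1 ≤ q₀ ^ r := Nat.one_le_pow _ _ (by omega)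
      have : Even (q₀ ^ r - 1) := Nat.Odd.sub_odd h6 odd_one
      exact Nat.gcd_eq_left this.two_dvd
    rw [h4, h5]

/-- S2712 -/
theorem field_aut_data_Sp {p f : ℕ} [Fact p.Prime] (hF : Fintype.card F = p ^ f) (hf : 1 ≤ f) (hm : 2 ≤ m)
    (x : MulAut PG) (hx : Cfsg.IsFieldAutClassPSp x) {r : ℕ} (hr : r.Prime) (hxr : orderOf x = r)
    (F₀ : Type*) [Field F₀] [Fintype F₀] (hF₀ : Fintype.card F₀ = p ^ (f / r)) :
    r ∣ f ∧ Nonempty (↥(Cfsg.inndiagPSp m F ⊓ Subgroup.centralizer {x}) ≃* Cfsg.PGSp m F₀) ∧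
      Cfsg.splitClassCount (Cfsg.inndiagPSp m F) (Cfsg.Inn PG) x = Nat.gcd (Nat.gcd 2 (p ^ f - 1)) r := by
  classical
  haveI : Nonempty (Fin m) := ⟨⟨0, by omega⟩⟩
  haveI : Finite (F ≃+* F) := Finite.of_injective (fun σ : F ≃+* F => (σ : F → F)) DFunLike.coe_injective
  have hI := inndiagS_eq (F := F) (m := m)
  haveI hnorm : (kk : Cfsg.GSp m F →* MulAut PG).range.Normal := range_kk_normal hm
  obtain ⟨α, σ, hσ, hstd⟩ := hx
  have e := (stdS_iff σ _).mp hstd
  have hσr : orderOf σ = r := by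
    rw [← orderOf_fldS (m := m), ← e, orderOf_conj', hxr]
  have hdvd : r ∣ f := by
    rw [← hσr, ← Cfsg.Agent.Lead.AutPSL.card_ringAut hF hf]
    exact orderOf_dvd_natCard σ
  refine ⟨hdvd, ?_, ?_⟩
  · rw [hI]
    obtain ⟨E1⟩ := centralizer_conj_equiv (kk : Cfsg.GSp m F →* MulAut PG).range α x
    rw [e] at E1
    obtain ⟨K, hK, hcard⟩ := exists_fixed_field hF σ hσr hr.ne_zero hdvd
    haveI : Fintype K := Fintype.ofFinite _
    have hc : Fintype.card F₀ = Fintype.card K := by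
      rw [hF₀, ← Nat.card_eq_fintype_card (α := K), hcard]
    let e₀ : F₀ ≃+* K := FiniteField.ringEquivOfCardEq hc
    let ε : F₀ →+* F := K.subtype.comp (e₀ : F₀ →+* K)
    have hε : ∀ a, σ a = a ↔ a ∈ Set.range ε := by
      intro a
      constructor
      · intro ha
        refine ⟨e₀.symm ⟨a, (hK a).mpr ha⟩, ?_⟩
        simp [ε]
      · rintro ⟨b, rfl⟩
        exact (hK _).mp (e₀ b).2
    obtain ⟨E2⟩ := centralizer_fieldS (m := m) σ ε hε
    exact ⟨E1.trans E2⟩
  · rw [hI]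
    haveI : (Cfsg.Inn PG).Normal := inferInstance
    rw [split_conj _ _ α x, e, split_PSp _ _ (mem_fieldS_iff σ), index_sup_fix hF hf σ hσr hr.ne_zero hdvd 2]
    exact gcd_arith (Fact.out : p.Prime) hf hr hdvd

end Cfsg.Agent.Lead.Lang
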