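import Cfsg.Agent.Lib.Lead.SpGen
import Cfsg.Prelude.Def_Classical
/-! `PSp_{2m}(q)` is simple: Iwasawa's criterion. -/
set_option autoImplicit false
set_option linter.unusedSimpArgs false
set_option linter.style.haveILetI false
set_option linter.unusedSectionVars false
set_option linter.unusedVariables false
namespace Cfsg.Agent.Lead
open Matrix
open scoped LinearAlgebra.Projectivization Pointwise

variable {l : Type*} [Fintype l] [DecidableEq l] {F : Type*} [Field F] [Fintype F]

local notation "V" => l ⊕ l → F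

lemma isPartial_one {a b : l ⊕ l → F} (h : sympForm a b = -1) :
    IsPartial (fun _ : Fin 1 => a) (fun _ : Fin 1 => b) := by
  refine ⟨fun _ _ => sympForm_self a, fun _ _ => sympForm_self b, fun i j => ?_⟩
  rw [if_pos (Subsingleton.elim i j)]
  exact h

/-- Witt: the stabiliser of `a` moves `b` to `c` up to scalars, when both pair nontrivially with `a`. -/
lemma exists_fix_move_nonperp {a b c : l ⊕ l → F} (hab : sympForm a b ≠ 0) (hac : sympForm a c ≠ 0) :
    ∃ (g : symplecticGroup l F) (t : F), t ≠ 0 ∧ g • a = a ∧ g • b = t • c := by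
  set b' := (-(sympForm a b)⁻¹) • b with hb'
  set c' := (-(sympForm a c)⁻¹) • c with hc'
  have h1 : sympForm a b' = -1 := by
    rw [hb', sympForm_smul_right]; field_simp
  have h2 : sympForm a c' = -1 := by
    rw [hc', sympForm_smul_right]; field_simp
  obtain ⟨g, -, h3, h4⟩ := tuple_transitive 1 _ _ _ _ (isPartial_one h1) (isPartial_one h2)
  have h3' : g • a = a := h3 0
  have h4' : g • b' = c' := h4 0
  have hs : -(sympForm a b)⁻¹ ≠ 0 := neg_ne_zero.2 (inv_ne_zero hab)
  have hr : -(sympForm a c)⁻¹ ≠ 0 := neg_ne_zero.2 (inv_ne_zero hac)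
  refine ⟨g, (-(sympForm a b)⁻¹)⁻¹ * (-(sympForm a c)⁻¹), mul_ne_zero (inv_ne_zero hs) hr, h3', ?_⟩
  have h5 : g • b = (-(sympForm a b)⁻¹)⁻¹ • (g • b') := by
    rw [hb', smul_comm g, smul_smul, inv_mul_cancel₀ hs, one_smul]
  rw [h5, h4', hc', smul_smul]

/-- A partial basis of length two starting from an isotropic independent pair. -/
lemma exists_partial_two {a b : l ⊕ l → F} (hab : sympForm a b = 0) (ha : a ≠ 0) (hb : b ≠ 0)
    (hne : ∀ t : F, a ≠ t • b) :
    ∃ f₁ f₂ : l ⊕ l → F, IsPartial (Fin.cons b (fun _ : Fin 1 => a) : Fin 2 → (l ⊕ l → F))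
      (Fin.cons f₂ (fun _ : Fin 1 => f₁)) := by
  classical
  -- first partner: `ω(a,f₁) = -1`, `ω(b,f₁) = 0`
  obtain ⟨z₁, hz₁⟩ := sympForm_nondeg hb
  obtain ⟨z, hz0, hz⟩ : ∃ z, sympForm b z = 0 ∧ sympForm a z ≠ 0 := by
    by_contra hcon
    push Not at hcon
    apply hne (sympForm a z₁ / sympForm b z₁)
    rw [← sub_eq_zero]
    by_contra hx
    obtain ⟨y, hy⟩ := sympForm_nondeg hx
    apply hy
    have h1 := hcon (y - (sympForm b y / sympForm b z₁) • z₁) (by
      rw [sympForm_sub_right, sympForm_smul_right]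
      field_simp
      ring)
    rw [sympForm_sub_right, sympForm_smul_right] at h1
    rw [sympForm_sub_left, sympForm_smul_left]
    field_simp at h1 ⊢
    linear_combination h1
  set f₁ := (-(sympForm a z)⁻¹) • z with hf₁
  have h1 : sympForm a f₁ = -1 := by
    rw [hf₁, sympForm_smul_right]; field_simp
  have h2 : sympForm b f₁ = 0 := by
    rw [hf₁, sympForm_smul_right, hz0, mul_zero]
  have hp1 := isPartial_one h1
  have hb1 : Perp (fun _ : Fin 1 => a) (fun _ : Fin 1 => f₁) b :=
    ⟨fun _ => by rw [sympForm_swap, hab, neg_zero], fun _ => h2⟩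
  obtain ⟨f₂', hf₂', h3⟩ := exists_perp_form_one hp1 hb1 hb
  refine ⟨f₁, (-1 : F) • f₂', (isPartial_cons_iff _ _).2 ⟨hp1, hb1, perp_smul _ hf₂', ?_⟩⟩
  rw [sympForm_smul_right, h3]
  ring

/-- Witt: the stabiliser of `a` moves `b` to `c` when both are orthogonal to `a` and independent of it. -/
lemma exists_fix_move_perp {a b c : l ⊕ l → F} (ha : a ≠ 0) (hb : b ≠ 0) (hc : c ≠ 0)
    (hab : sympForm a b = 0) (hac : sympForm a c = 0) (hne : ∀ t : F, a ≠ t • b)
    (hne' : ∀ t : F, a ≠ t • c) :
    ∃ g : symplecticGroup l F, g • a = a ∧ g • b = c := by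
  obtain ⟨f₁, f₂, h1⟩ := exists_partial_two hab ha hb hne
  obtain ⟨f₁', f₂', h2⟩ := exists_partial_two hac ha hc hne'
  obtain ⟨g, -, h3, h4⟩ := tuple_transitive 2 _ _ _ _ h1 h2
  exact ⟨g, h3 1, h3 0⟩

lemma mk_ne_iff {a c : l ⊕ l → F} (ha : a ≠ 0) (hc : c ≠ 0) :
    Projectivization.mk F a ha ≠ Projectivization.mk F c hc ↔ ∀ t : F, a ≠ t • c := by
  rw [Ne, Projectivization.mk_eq_mk_iff']
  push Not
  exact ⟨fun h t ht => h t ht.symm, fun h t ht => h t ht.symm⟩

instance sp_pretransitive : MulAction.IsPretransitive (symplecticGroup l F) (ℙ F (l ⊕ l → F)) := by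
  refine ⟨fun x y => ?_⟩
  induction x using Projectivization.ind with | _ a ha =>
  induction y using Projectivization.ind with | _ b hb =>
  obtain ⟨g, hg⟩ := sp_transitive ha hb
  refine ⟨g, ?_⟩
  rw [Projectivization.smul_mk]
  congr 1

lemma block_nonperp {B : Set (ℙ F (l ⊕ l → F))} (hB : MulAction.IsBlock (symplecticGroup l F) B)
    {a b c : l ⊕ l → F} (ha : a ≠ 0) (hb : b ≠ 0) (hc : c ≠ 0)
    (h1 : Projectivization.mk F a ha ∈ B) (h2 : Projectivization.mk F b hb ∈ B)
    (hab : sympForm a b ≠ 0) (hac : sympForm a c ≠ 0) : Projectivization.mk F c hc ∈ B := by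
  obtain ⟨g, t, ht, hga, hgb⟩ := exists_fix_move_nonperp hab hac
  have h3 : g • Projectivization.mk F a ha = Projectivization.mk F a ha := by
    rw [Projectivization.smul_mk]
    congr 1
  have h4 : g • B = B := hB.smul_eq_of_mem h1 (by rw [h3]; exact h1)
  have h5 : g • Projectivization.mk F b hb = Projectivization.mk F c hc := by
    rw [Projectivization.smul_mk, Projectivization.mk_eq_mk_iff']
    exact ⟨t, hgb.symm⟩
  rw [← h4, ← h5]
  exact Set.smul_mem_smul_set h2

lemma block_perp {B : Set (ℙ F (l ⊕ l → F))} (hB : MulAction.IsBlock (symplecticGroup l F) B)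
    {a b c : l ⊕ l → F} (ha : a ≠ 0) (hb : b ≠ 0) (hc : c ≠ 0)
    (h1 : Projectivization.mk F a ha ∈ B) (h2 : Projectivization.mk F b hb ∈ B)
    (hab : sympForm a b = 0) (hac : sympForm a c = 0)
    (hne : Projectivization.mk F a ha ≠ Projectivization.mk F b hb)
    (hne' : Projectivization.mk F a ha ≠ Projectivization.mk F c hc) :
    Projectivization.mk F c hc ∈ B := by
  obtain ⟨g, hga, hgb⟩ := exists_fix_move_perp ha hb hc hab hac ((mk_ne_iff ha hb).1 hne)
    ((mk_ne_iff ha hc).1 hne')
  have h3 : g • Projectivization.mk F a ha = Projectivization.mk F a ha := by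
    rw [Projectivization.smul_mk]
    congr 1
  have h4 : g • B = B := hB.smul_eq_of_mem h1 (by rw [h3]; exact h1)
  have h5 : g • Projectivization.mk F b hb = Projectivization.mk F c hc := by
    rw [Projectivization.smul_mk]
    congr 1
  rw [← h4, ← h5]
  exact Set.smul_mem_smul_set h2

lemma exists_both {v w : l ⊕ l → F} (hv : v ≠ 0) (hw : w ≠ 0) :
    ∃ z : l ⊕ l → F, sympForm v z ≠ 0 ∧ sympForm z w ≠ 0 := by
  obtain ⟨z₁, hz₁⟩ := sympForm_nondeg hv
  obtain ⟨z₂, hz₂⟩ := sympForm_nondeg hw
  have hz₂' : sympForm z₂ w ≠ 0 := by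
    rw [sympForm_swap, neg_ne_zero]; exact hz₂
  by_cases h1 : sympForm z₁ w = 0
  · by_cases h2 : sympForm v z₂ = 0
    · refine ⟨z₁ + z₂, ?_, ?_⟩
      · rwa [sympForm_add_right, h2, add_zero]
      · rwa [sympForm_add_left, h1, zero_add]
    · exact ⟨z₂, h2, hz₂'⟩
  · exact ⟨z₁, hz₁, h1⟩

/-- The linear form `ω(a, ·)`. -/
def sympFormL (a : l ⊕ l → F) : (l ⊕ l → F) →ₗ[F] F where
  toFun := sympForm a
  map_add' := sympForm_add_right a
  map_smul' c x := by rw [sympForm_smul_right]; rfl

lemma exists_perp_two (hl : 2 ≤ Fintype.card l) (a w : l ⊕ l → F) :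
    ∃ y : l ⊕ l → F, sympForm a y = 0 ∧ sympForm w y = 0 ∧ y ∉ Submodule.span F {a} := by
  classical
  let L : (l ⊕ l → F) →ₗ[F] F × F := (sympFormL a).prod (sympFormL w)
  have h1 := LinearMap.finrank_range_add_finrank_ker L
  have h2 : Module.finrank F (LinearMap.range L) ≤ 2 := by
    calc Module.finrank F (LinearMap.range L) ≤ Module.finrank F (F × F) := Submodule.finrank_le _
      _ = 2 := by simp [Module.finrank_prod]
  have h3 : Module.finrank F (l ⊕ l → F) = 2 * Fintype.card l := by
    simp [Module.finrank_fintype_fun_eq_card, two_mul]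
  have h4 : ¬ LinearMap.ker L ≤ Submodule.span F {a} := by
    intro hle
    have h5 := Submodule.finrank_mono hle
    have h6 : Module.finrank F (Submodule.span F {a}) ≤ 1 := by
      simpa using finrank_span_le_card (R := F) ({a} : Set (l ⊕ l → F))
    omega
  obtain ⟨y, hy, hya⟩ := Set.not_subset.1 h4
  have hy' : L y = 0 := hy
  exact ⟨y, congrArg Prod.fst hy', congrArg Prod.snd hy', hya⟩

/-- `Sp` is primitive on the points of projective space. -/
theorem sp_preprimitive (hl : 2 ≤ Fintype.card l) :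
    MulAction.IsPreprimitive (symplecticGroup l F) (ℙ F (l ⊕ l → F)) := by
  classical
  haveI : Nonempty l := Fintype.card_pos_iff.1 (by omega)
  let i₀ : l := Classical.arbitrary l
  have h00 : (Pi.single (Sum.inl i₀) 1 : l ⊕ l → F) ≠ 0 := by
    intro h
    have := congrFun h (Sum.inl i₀)
    simp at this
  refine MulAction.IsPreprimitive.of_isTrivialBlock_base (Projectivization.mk F _ h00) ?_
  intro B hp hB
  by_cases hsub : B.Subsingleton
  · exact Or.inl hsub
  refine Or.inr ?_
  obtain ⟨x, hx, hxp⟩ := (Set.not_subsingleton_iff.1 hsub).exists_ne (Projectivization.mk F _ h00)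
  set a : l ⊕ l → F := Pi.single (Sum.inl i₀) 1 with ha_def
  have ha : a ≠ 0 := h00
  rw [Set.eq_univ_iff_forall]
  intro w'
  induction x using Projectivization.ind with | _ b hb =>
  induction w' using Projectivization.ind with | _ w hw =>
  by_cases hab : sympForm a b = 0
  · -- isotropic case
    by_cases hwa : Projectivization.mk F w hw = Projectivization.mk F a ha
    · rw [hwa]; exact hp
    obtain ⟨y, hy1, hy2, hy3⟩ := exists_perp_two hl a w
    have hy0 : y ≠ 0 := by
      rintro rfl
      exact hy3 (Submodule.zero_mem _)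
    have hane : Projectivization.mk F a ha ≠ Projectivization.mk F y hy0 := by
      rw [mk_ne_iff]
      intro t ht
      apply hy3
      rcases eq_or_ne t 0 with rfl | ht0
      · rw [zero_smul] at ht
        exact absurd ht ha
      · have : y = t⁻¹ • a := by rw [ht, smul_smul, inv_mul_cancel₀ ht0, one_smul]
        rw [this]
        exact Submodule.smul_mem _ _ (Submodule.mem_span_singleton_self a)
    have hyB : Projectivization.mk F y hy0 ∈ B :=
      block_perp hB ha hb hy0 hp hx hab hy1 (Ne.symm hxp) hane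
    by_cases hwy : Projectivization.mk F y hy0 = Projectivization.mk F w hw
    · rw [← hwy]; exact hyB
    · exact block_perp hB hy0 ha hw hyB hp (by rw [sympForm_swap, hy1, neg_zero])
        (by rw [sympForm_swap, hy2, neg_zero]) (Ne.symm hane) hwy
  · obtain ⟨c, hc1, hc2⟩ := exists_both ha hw
    have hc0 : c ≠ 0 := by
      rintro rfl
      exact hc1 (by rw [sympForm_apply]; simp)
    have hcB : Projectivization.mk F c hc0 ∈ B := block_nonperp hB ha hb hc0 hp hx hab hc1
    exact block_nonperp hB hc0 ha hw hcB hp (by rw [sympForm_swap, neg_ne_zero]; exact hc1) hc2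

section Action
variable [Nonempty l]

lemma sp_action_ker :
    (MulAction.toPermHom (symplecticGroup l F) (ℙ F (l ⊕ l → F))).ker
      = Subgroup.center (symplecticGroup l F) := by
  ext g
  simp only [MonoidHom.mem_ker, MulAction.toPermHom_apply, Equiv.Perm.one_def, DFunLike.ext_iff,
    MulAction.toPerm_apply, Equiv.refl_apply]
  constructor
  · intro h
    have : ∀ v : l ⊕ l → F, ¬ LinearIndependent F
        ![v, Matrix.mulVecLin (g : Matrix (l ⊕ l) (l ⊕ l) F) v] := by
      intro v
      by_cases hv : v = 0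
      · simp [hv, linearIndependent_fin2]
      · rw [LinearIndependent.pair_iff' hv]
        push Not
        have h1 := h (Projectivization.mk F v hv)
        rw [Projectivization.smul_mk, Projectivization.mk_eq_mk_iff'] at h1
        obtain ⟨c, hc⟩ := h1
        exact ⟨c, hc⟩
    obtain ⟨c, hc⟩ := LinearMap.exists_eq_smul_id_of_forall_notLinearIndependent this
    have hg : (g : Matrix (l ⊕ l) (l ⊕ l) F) = c • 1 := by
      ext i j
      have := congrFun (congrArg (fun f => f (Pi.single j 1)) hc) i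
      simpa [Matrix.one_apply, Pi.single_apply] using this
    rw [Subgroup.mem_center_iff]
    intro B
    apply Subtype.ext
    change (B : Matrix (l ⊕ l) (l ⊕ l) F) * (g : Matrix (l ⊕ l) (l ⊕ l) F) =
      (g : Matrix (l ⊕ l) (l ⊕ l) F) * (B : Matrix (l ⊕ l) (l ⊕ l) F)
    rw [hg]
    simp
  · intro hg p
    obtain ⟨c, hc⟩ := center_scalar hg
    have hc2 : c ^ 2 = 1 := (scalar_mem_iff c).1 (hc ▸ g.2)
    have hc0 : c ≠ 0 := by
      rintro rfl
      simp at hc2
    induction p using Projectivization.ind with | _ v hv =>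
    rw [Projectivization.smul_mk, Projectivization.mk_eq_mk_iff']
    refine ⟨c, ?_⟩
    change c • v = (g : Matrix (l ⊕ l) (l ⊕ l) F) *ᵥ v
    rw [hc, Matrix.smul_mulVec, Matrix.one_mulVec]

/-- The permutation action of `PSp`. -/
noncomputable def pspToPerm :
    (symplecticGroup l F ⧸ Subgroup.center (symplecticGroup l F)) →* Equiv.Perm (ℙ F (l ⊕ l → F)) :=
  QuotientGroup.lift _ (MulAction.toPermHom _ _) (le_of_eq sp_action_ker.symm)

noncomputable instance pspAction :
    MulAction (symplecticGroup l F ⧸ Subgroup.center (symplecticGroup l F)) (ℙ F (l ⊕ l → F)) :=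
  MulAction.compHom _ pspToPerm

lemma psp_smul_mk (g : symplecticGroup l F) (p : ℙ F (l ⊕ l → F)) :
    (g : symplecticGroup l F ⧸ Subgroup.center (symplecticGroup l F)) • p = g • p := rfl

lemma pspToPerm_injective : Function.Injective (pspToPerm (l := l) (F := F)) := by
  rw [injective_iff_map_eq_one]
  intro g hg
  rwa [← MonoidHom.mem_ker, pspToPerm, QuotientGroup.ker_lift, sp_action_ker,
    QuotientGroup.map_mk'_self, Subgroup.mem_bot] at hg

instance pspFaithful :
    FaithfulSMul (symplecticGroup l F ⧸ Subgroup.center (symplecticGroup l F)) (ℙ F (l ⊕ l → F)) :=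
  faithfulSMul_iff.2 fun g hg ↦ pspToPerm_injective <| Equiv.ext fun x ↦ by
    simpa using! hg x

theorem psp_preprimitive (hl : 2 ≤ Fintype.card l) :
    MulAction.IsPreprimitive (symplecticGroup l F ⧸ Subgroup.center (symplecticGroup l F))
      (ℙ F (l ⊕ l → F)) := by
  haveI := sp_preprimitive (l := l) (F := F) hl
  exact @MulAction.IsPreprimitive.of_surjective _ _ _ _ _ _ _ _ (QuotientGroup.mk' _)
    { toFun := id, map_smul' := by intros; simp; rfl } _ Function.surjective_id

/-- The subgroup of transvections with direction `u`. -/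
def lineT (u : l ⊕ l → F) : Subgroup (symplecticGroup l F) where
  carrier := {g | ∃ c, sympT u c = g}
  mul_mem' := by
    rintro _ _ ⟨a, rfl⟩ ⟨b, rfl⟩
    exact ⟨a + b, (sympT_mul_same u a b).symm⟩
  one_mem' := ⟨0, sympT_zero u⟩
  inv_mem' := by
    rintro _ ⟨a, rfl⟩
    exact ⟨-a, (sympT_inv u a).symm⟩

lemma lineT_smul (a : F) (ha : a ≠ 0) (u : l ⊕ l → F) : lineT (a • u) = lineT u := by
  ext g
  constructor
  · rintro ⟨c, rfl⟩
    exact ⟨c * a ^ 2, (sympT_smul a c u).symm⟩
  · rintro ⟨c, rfl⟩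
    refine ⟨c / a ^ 2, ?_⟩
    rw [sympT_smul]
    congr 1
    field_simp

lemma lineT_comm (u : l ⊕ l → F) : IsMulCommutative (lineT u) := by
  refine ⟨⟨?_⟩⟩
  rintro ⟨_, a, rfl⟩ ⟨_, b, rfl⟩
  apply Subtype.ext
  change sympT u a * sympT u b = sympT u b * sympT u a
  rw [sympT_mul_same, sympT_mul_same, add_comm]

lemma lineT_conj (g : symplecticGroup l F) (u : l ⊕ l → F) :
    lineT ((g : Matrix (l ⊕ l) (l ⊕ l) F) *ᵥ u) = MulAut.conj g • lineT u := by
  ext x
  rw [Subgroup.mem_pointwise_smul_iff_inv_smul_mem]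
  simp only [MulAut.smul_def, map_inv, MulAut.conj_inv_apply]
  constructor
  · rintro ⟨c, rfl⟩
    refine ⟨c, ?_⟩
    rw [← conj_sympT]
    group
  · rintro ⟨c, hc⟩
    refine ⟨c, ?_⟩
    rw [← conj_sympT, hc]
    group

/-- The Iwasawa subgroups of `PSp`. -/
noncomputable def pspT (p : ℙ F (l ⊕ l → F)) :
    Subgroup (symplecticGroup l F ⧸ Subgroup.center (symplecticGroup l F)) :=
  (lineT p.rep).map (QuotientGroup.mk' _)

lemma lineT_rep_mk {u : l ⊕ l → F} (hu : u ≠ 0) : lineT (Projectivization.mk F u hu).rep = lineT u := by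
  obtain ⟨a, ha⟩ := Projectivization.exists_smul_eq_mk_rep F u hu
  rw [← ha, Units.smul_def, lineT_smul _ a.ne_zero]

lemma iSup_lineT (m : ℕ) [Nonempty (Fin m)] :
    (⨆ p : ℙ F (Fin m ⊕ Fin m → F), lineT p.rep) = (⊤ : Subgroup (symplecticGroup (Fin m) F)) := by
  refine sp_induction _ (fun u c => ?_)
  by_cases hu : u = 0
  · rw [hu, sympT_zero_vec]; exact one_mem _
  · apply (le_iSup (fun p : ℙ F (Fin m ⊕ Fin m → F) => lineT p.rep) (Projectivization.mk F u hu))
    rw [lineT_rep_mk]
    exact ⟨c, rfl⟩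

/-- Iwasawa structure for `PSp`. -/
noncomputable def pspIwasawa {m : ℕ} [Nonempty (Fin m)] :
    MulAction.IwasawaStructure (symplecticGroup (Fin m) F ⧸ Subgroup.center (symplecticGroup (Fin m) F))
      (ℙ F (Fin m ⊕ Fin m → F)) where
  T := pspT
  is_comm p := by
    haveI := lineT_comm (F := F) p.rep
    exact Subgroup.map_isMulCommutative _ _
  is_conj g p := by
    obtain ⟨g', rfl⟩ := QuotientGroup.mk_surjective g
    have h1 : lineT (((g' : symplecticGroup (Fin m) F ⧸ Subgroup.center (symplecticGroup (Fin m) F))) • p).rep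
        = MulAut.conj g' • lineT p.rep := by
      rw [psp_smul_mk]
      conv_lhs => rw [← Projectivization.mk_rep p, Projectivization.smul_mk]
      rw [lineT_rep_mk]
      exact lineT_conj g' p.rep
    change (lineT _).map _ = _
    rw [h1]
    ext x
    rw [Subgroup.mem_pointwise_smul_iff_inv_smul_mem]
    simp only [MulAut.smul_def, map_inv, MulAut.conj_inv_apply]
    constructor
    · rintro ⟨y, hy, rfl⟩
      rw [SetLike.mem_coe, Subgroup.mem_pointwise_smul_iff_inv_smul_mem] at hy
      simp only [MulAut.smul_def, map_inv, MulAut.conj_inv_apply] at hy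
      exact ⟨_, hy, by simp [QuotientGroup.mk_mul, QuotientGroup.mk_inv]⟩
    · rintro ⟨y, hy, hyx⟩
      refine ⟨g' * y * g'⁻¹, ?_, ?_⟩
      · rw [SetLike.mem_coe, Subgroup.mem_pointwise_smul_iff_inv_smul_mem]
        simp only [MulAut.smul_def, map_inv, MulAut.conj_inv_apply]
        have e : g'⁻¹ * (g' * y * g'⁻¹) * g' = y := by group
        rw [e]
        exact hy
      · simp only [QuotientGroup.mk'_apply, QuotientGroup.mk_mul, QuotientGroup.mk_inv] at hyx ⊢
        rw [hyx]
        group
  is_generator := by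
    have step1 : iSup (pspT (l := Fin m) (F := F)) =
        Subgroup.map (QuotientGroup.mk' (Subgroup.center (symplecticGroup (Fin m) F)))
          (⨆ p : ℙ F (Fin m ⊕ Fin m → F), lineT p.rep) := by
      rw [Subgroup.map_iSup]
      rfl
    rw [step1, iSup_lineT]
    exact Subgroup.map_top_of_surjective _ (QuotientGroup.mk'_surjective _)

end Action

/-- `PSp_{2m}(q)` is simple. -/
theorem psp_simple (m : ℕ) (hm : 2 ≤ m) (h : m = 2 → 3 ≤ Fintype.card F) :
    IsSimpleGroup (Cfsg.PSp m F) := by
  haveI : Nonempty (Fin m) := ⟨⟨0, by omega⟩⟩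
  have hp := sp_perfect (F := F) m (by
    by_cases h3 : 3 ≤ m
    · exact Or.inl h3
    · exact Or.inr (Or.inl ⟨by omega, h (by omega)⟩))
  have hperf : Group.IsPerfect (symplecticGroup (Fin m) F) := ⟨hp⟩
  have hperf' : Group.IsPerfect (Cfsg.PSp m F) := inferInstance
  haveI := psp_preprimitive (l := Fin m) (F := F) (by simpa using hm)
  haveI : Nontrivial (Cfsg.PSp m F) := by
    classical
    let i₀ : Fin m := ⟨0, by omega⟩
    have h1 : (Pi.single (Sum.inl i₀) 1 : Fin m ⊕ Fin m → F) ≠ 0 := by
      intro h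
      have := congrFun h (Sum.inl i₀)
      simp at this
    have h2 : (Pi.single (Sum.inr i₀) 1 : Fin m ⊕ Fin m → F) ≠ 0 := by
      intro h
      have := congrFun h (Sum.inr i₀)
      simp at this
    have hne : Projectivization.mk F _ h1 ≠ Projectivization.mk F _ h2 := by
      rw [Ne, Projectivization.mk_eq_mk_iff']
      rintro ⟨a, ha⟩
      have := congrFun ha (Sum.inl i₀)
      simp at this
    obtain ⟨g, hg⟩ := MulAction.exists_smul_eq (Cfsg.PSp m F)
      (Projectivization.mk F _ h1) (Projectivization.mk F _ h2)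
    refine nontrivial_of_ne g 1 ?_
    rintro rfl
    rw [one_smul] at hg
    exact hne hg
  exact MulAction.IwasawaStructure.isSimpleGroup hperf'.commutator_eq_top pspIwasawa inferInstance

end Cfsg.Agent.Lead
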