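import Cfsg.Agent.Lib.Lead.LangBalS
import Cfsg.Agent.Lib.Lead.LangBal2
import Cfsg.Agent.Lib.Lead.LangPSp3
import Cfsg.Agent.Lib.Lead.SpSimple
import Cfsg.Agent.Lib.Lead.Sp42
/-! Local balance for the symplectic groups: preliminaries. -/
set_option autoImplicit false
set_option linter.style.haveILetI false
set_option linter.unusedSimpArgs false
set_option linter.unusedSectionVars false
set_option linter.unusedVariables false
set_option linter.deprecated false
namespace Cfsg.Agent.Lead.LangSB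
open Matrix
open Cfsg.Agent.Lead Cfsg.Agent.Lead.AutPSp Cfsg.Agent.Lead.Lang
open scoped MatrixGroups

variable {F : Type*} [Field F] [Fintype F] {m : ℕ}

local notation "PG" => (symplecticGroup (Fin m) F ⧸ Subgroup.center (symplecticGroup (Fin m) F))
local notation "II" => (Fin m ⊕ Fin m)

/-- the centre of `PSp` is trivial -/
lemma center_PG [Nonempty (Fin m)] : Subgroup.center PG = ⊥ := by
  rw [eq_bot_iff]
  intro z hz
  obtain ⟨s, rfl⟩ := QuotientGroup.mk_surjective z
  have h1 : MulAut.conj (QuotientGroup.mk s : PG) = 1 := by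
    ext y
    have := Subgroup.mem_center_iff.1 hz y
    rw [MulAut.conj_apply, MulAut.one_apply, ← this, mul_inv_cancel_right]
  have h2 : (kk (toGSp s) : MulAut PG) = 1 := by
    rw [kk_toGSp]
    exact h1
  obtain ⟨c, hc⟩ := kk_eq_one_iff.1 h2
  rw [Subgroup.mem_bot]
  refine (QuotientGroup.eq_one_iff s).2 (Subgroup.mem_center_iff.2 fun t => ?_)
  apply Subtype.ext
  have hc' : (s : Matrix II II F) = c • 1 := hc
  change (t : Matrix II II F) * (s : Matrix II II F) = (s : Matrix II II F) * (t : Matrix II II F)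
  rw [hc']
  simp

/-- the order of `PSp` is even -/
lemma even_PG (hm : 1 ≤ m) : 2 ∣ Nat.card PG := by
  haveI : Nonempty (Fin m) := ⟨⟨0, by omega⟩⟩
  have h1 := card_Sp_eq (F := F) (m := m)
  rw [card_Sp rfl m] at h1
  have hq : 2 ≤ Fintype.card F := Fintype.one_lt_card
  generalize Fintype.card F = q at h1 hq
  rcases Nat.even_or_odd q with he | ho
  · have hg : Nat.gcd 2 (q - 1) = 1 := by
      have : Odd (q - 1) := Nat.Even.sub_odd (by omega) he odd_one
      exact Nat.coprime_two_left.2 this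
    rw [hg, one_mul] at h1
    rw [← h1]
    exact Dvd.dvd.mul_right (dvd_pow he.two_dvd (by positivity)) _
  · have hg : Nat.gcd 2 (q - 1) = 2 := by
      have : Even (q - 1) := Nat.Odd.sub_odd ho odd_one
      exact Nat.gcd_eq_left this.two_dvd
    rw [hg] at h1
    obtain ⟨k, rfl⟩ := ho
    have h4 : 4 ∣ (2 * k + 1) ^ (2 * (0 + 1)) - 1 := by
      refine ⟨k * (k + 1), ?_⟩
      have : (2 * k + 1) ^ (2 * (0 + 1)) = 4 * (k * (k + 1)) + 1 := by ring
      rw [this, Nat.add_sub_cancel]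
    have h5 : (2 * k + 1) ^ (2 * (0 + 1)) - 1 ∣ ∏ i ∈ Finset.range m, ((2 * k + 1) ^ (2 * (i + 1)) - 1) :=
      Finset.dvd_prod_of_mem _ (Finset.mem_range.2 (by omega))
    have h6 : 4 ∣ 2 * Nat.card PG := by
      rw [← h1]
      exact Dvd.dvd.mul_left (dvd_trans h4 h5) _
    omega

section Abstract
variable {K₀ : Type*} [Group K₀]

/-- the inner part of a subgroup normalized by the inner automorphisms -/
lemma comap_normal_ne (hz : Subgroup.center K₀ = ⊥) (M : Subgroup (MulAut K₀))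
    (hM : ∀ z : K₀, ∀ β ∈ M, MulAut.conj z * β * (MulAut.conj z)⁻¹ ∈ M) (hne : M ≠ ⊥) :
    (M.comap (MulAut.conj : K₀ →* MulAut K₀)).Normal ∧ M.comap (MulAut.conj : K₀ →* MulAut K₀) ≠ ⊥ := by
  constructor
  · refine ⟨fun n hn g => ?_⟩
    change MulAut.conj (g * n * g⁻¹) ∈ M
    rw [map_mul, map_mul, map_inv]
    exact hM g _ hn
  · obtain ⟨β, hβ, hβ1⟩ : ∃ β ∈ M, β ≠ 1 := by
      by_contra hn
      simp only [not_exists, not_and, not_not] at hn
      apply hne
      rw [eq_bot_iff]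
      intro b hb
      rw [Subgroup.mem_bot]
      exact hn b hb
    have ⟨z, hzz⟩ : ∃ z, β z ≠ z := by
      by_contra hn
      simp only [not_exists, not_not] at hn
      apply hβ1
      ext u
      exact hn u
    have hc : MulAut.conj (β z * z⁻¹) ∈ M := by
      have e : MulAut.conj (β z * z⁻¹) = β * (MulAut.conj z * β⁻¹ * (MulAut.conj z)⁻¹) := by
        rw [map_mul, map_inv, ← LangBal.conj_map]
        group
      rw [e]
      exact M.mul_mem hβ (hM z _ (M.inv_mem hβ))
    intro hbot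
    have h1 : β z * z⁻¹ ∈ M.comap (MulAut.conj : K₀ →* MulAut K₀) := hc
    rw [hbot, Subgroup.mem_bot] at h1
    exact hzz (mul_inv_eq_one.1 h1)

/-- the hypothesis on normal subgroups for a simple group -/
lemma hnorm_simple [Finite K₀] (hK₀ : IsSimpleGroup K₀) (hz : Subgroup.center K₀ = ⊥) (heven : 2 ∣ Nat.card K₀)
    (M : Subgroup (MulAut K₀)) (hM : ∀ z : K₀, ∀ β ∈ M, MulAut.conj z * β * (MulAut.conj z)⁻¹ ∈ M) (hne : M ≠ ⊥) :
    ∃ D : Subgroup (MulAut K₀), D ≤ M ∧ D ≤ Cfsg.Inn K₀ ∧ Nat.card K₀ ∣ 2 * Nat.card D ∧ 2 ∣ Nat.card D :=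
  ⟨Cfsg.Inn K₀, LangBal.inn_le_of_normalized hK₀ hz M hM hne, le_rfl,
    by rw [LangBal.card_inn hz]; exact dvd_mul_left _ _, by rw [LangBal.card_inn hz]; exact heven⟩

/-- the hypothesis on normal subgroups for the symmetric group of degree six -/
lemma hnorm_perm (E : K₀ ≃* Equiv.Perm (Fin 6)) (hz : Subgroup.center K₀ = ⊥)
    (M : Subgroup (MulAut K₀)) (hM : ∀ z : K₀, ∀ β ∈ M, MulAut.conj z * β * (MulAut.conj z)⁻¹ ∈ M) (hne : M ≠ ⊥) :
    ∃ D : Subgroup (MulAut K₀), D ≤ M ∧ D ≤ Cfsg.Inn K₀ ∧ Nat.card K₀ ∣ 2 * Nat.card D ∧ 2 ∣ Nat.card D := by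
  classical
  obtain ⟨Pn, P1⟩ := comap_normal_ne hz M hM hne
  set P := M.comap (MulAut.conj : K₀ →* MulAut K₀) with hP
  let P' : Subgroup (Equiv.Perm (Fin 6)) := P.map E.toMonoidHom
  haveI hP'n : P'.Normal := Subgroup.Normal.map Pn _ E.surjective
  have ntP' : Nontrivial P' := by
    obtain ⟨a, ha, ha1⟩ : ∃ a ∈ P, a ≠ 1 := by
      by_contra hn
      simp only [not_exists, not_and, not_not] at hn
      apply P1
      rw [eq_bot_iff]
      intro b hb
      rw [Subgroup.mem_bot]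
      exact hn b hb
    refine ⟨⟨⟨E a, ⟨a, ha, rfl⟩⟩, 1, ?_⟩⟩
    intro h
    have h1 : E a = 1 := congrArg Subtype.val h
    exact ha1 (by simpa using h1)
  have hA : alternatingGroup (Fin 6) ≤ P' :=
    Equiv.Perm.alternatingGroup_le_of_normal (by simp) ntP'
  have hinj : Function.Injective (MulAut.conj : K₀ →* MulAut K₀) := LangBal.conj_inj hz
  let D₀ : Subgroup K₀ := (alternatingGroup (Fin 6)).map E.symm.toMonoidHom
  let D : Subgroup (MulAut K₀) := D₀.map (MulAut.conj : K₀ →* MulAut K₀)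
  have hcD₀ : Nat.card D₀ = Nat.card (alternatingGroup (Fin 6)) :=
    Subgroup.card_map_of_injective E.symm.injective
  have hcD : Nat.card D = Nat.card (alternatingGroup (Fin 6)) := by
    rw [← hcD₀]
    exact Subgroup.card_map_of_injective hinj
  have hA6 : Nat.card (alternatingGroup (Fin 6)) = 360 := by
    have h0 := two_mul_nat_card_alternatingGroup (α := Fin 6)
    have h720 : (Nat.card (Fin 6)).factorial = 720 := by simp [Nat.factorial]
    rw [Nat.card_perm, h720] at h0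
    omega
  have hK6 : Nat.card K₀ = 720 := by
    rw [Nat.card_congr E.toEquiv, Nat.card_perm]
    simp [Nat.factorial]
  refine ⟨D, ?_, ?_, ?_, ?_⟩
  · rintro _ ⟨_, ⟨a, ha, rfl⟩, rfl⟩
    obtain ⟨b, hb, e⟩ := hA ha
    have : E.symm.toMonoidHom a = b := by
      change E.symm a = b
      rw [← e]
      exact E.symm_apply_apply b
    rw [this]
    exact hb
  · rintro _ ⟨b, -, rfl⟩
    exact ⟨b, rfl⟩
  · rw [hcD, hA6, hK6]
  · rw [hcD, hA6]
    norm_num

end Abstract

section Lift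
variable {F₀ : Type*} [Field F₀] [Fintype F₀]

local notation "P₀" => (symplecticGroup (Fin m) F₀ ⧸ Subgroup.center (symplecticGroup (Fin m) F₀))

/-- the embedding of `GSp` -/
noncomputable def gE (ε : F₀ →+* F) : Cfsg.GSp m F₀ →* Cfsg.GSp m F :=
  MonoidHom.codRestrict ((Matrix.GeneralLinearGroup.map ε).comp (Cfsg.GSp m F₀).subtype) _ (gε_mem ε)

lemma gE_apply (ε : F₀ →+* F) (g₀ : Cfsg.GSp m F₀) (i j : II) :
    ((gE ε g₀).1 : Matrix II II F) i j = ε ((g₀.1 : Matrix II II F₀) i j) := rfl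

lemma gmS_gE (σ : F ≃+* F) (ε : F₀ →+* F) (hε : ∀ a, σ a = a ↔ a ∈ Set.range ε) (g₀ : Cfsg.GSp m F₀) :
    gmS σ (gE ε g₀) = gE ε g₀ := by
  apply Subtype.ext
  apply Units.ext
  ext i j
  change σ (ε ((g₀.1 : Matrix II II F₀) i j)) = ε ((g₀.1 : Matrix II II F₀) i j)
  exact (hε _).mpr ⟨_, rfl⟩

set_option maxHeartbeats 3000000 in
/-- the centralizer of a field automorphism, as a range -/
theorem range_gE [Nonempty (Fin m)] (σ : F ≃+* F) (ε : F₀ →+* F)
    (hε : ∀ a, σ a = a ↔ a ∈ Set.range ε) :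
    ((kk : Cfsg.GSp m F →* MulAut PG).comp (gE ε)).range =
      (kk : Cfsg.GSp m F →* MulAut PG).range ⊓ Subgroup.centralizer {(fldS σ : MulAut PG)} := by
  classical
  apply le_antisymm
  · rintro _ ⟨g₀, rfl⟩
    refine Subgroup.mem_inf.mpr ⟨⟨_, rfl⟩, Subgroup.mem_centralizer_singleton_iff.mpr ?_⟩
    change (kk (gE ε g₀) : MulAut PG) * _ = _ * kk (gE ε g₀)
    rw [fldS_kk, gmS_gE σ ε hε]
  · rintro _ ⟨⟨g, rfl⟩, hz⟩
    have hz' : (kk g * fldS σ : MulAut PG) = fldS σ * kk g := Subgroup.mem_centralizer_singleton_iff.mp hz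
    have h1 : (kk (gmS σ g) : MulAut PG) = kk g := by
      have e := fldS_kk σ g
      rw [← hz'] at e
      exact (mul_right_cancel e).symm
    obtain ⟨u, hu⟩ := descend_S σ g h1
    set g' := scS u * g with hg'
    have hfix : ∀ i j, (g'.1 : Matrix II II F) i j ∈ Set.range ε := by
      intro i j
      rw [← hε]
      have h4 : ((gmS σ g').1 : Matrix II II F) i j = (g'.1 : Matrix II II F) i j := by rw [hu]
      exact h4
    have hfix' : ∀ i j, ((g'⁻¹).1 : Matrix II II F) i j ∈ Set.range ε := by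
      intro i j
      rw [← hε]
      have h3 : gmS σ g'⁻¹ = g'⁻¹ := by rw [map_inv, hu]
      have h4 : ((gmS σ g'⁻¹).1 : Matrix II II F) i j = ((g'⁻¹).1 : Matrix II II F) i j := by rw [h3]
      exact h4
    choose M₀ hM₀ using hfix
    choose N₀ hN₀ using hfix'
    have hM₀' : (Matrix.of M₀).map ε = (g'.1 : Matrix II II F) := by
      ext i j
      exact hM₀ i j
    have hN₀' : (Matrix.of N₀).map ε = ((g'⁻¹).1 : Matrix II II F) := by
      ext i j
      exact hN₀ i j
    have hinj : Function.Injective (fun A : Matrix II II F₀ => A.map ε) :=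
      Matrix.map_injective ε.injective
    have h1' : (Matrix.of M₀) * (Matrix.of N₀) = 1 := by
      apply hinj
      change ((Matrix.of M₀) * (Matrix.of N₀)).map ε = (1 : Matrix II II F₀).map ε
      rw [Matrix.map_mul, hM₀', hN₀']
      have e : (g'.1 : Matrix II II F) * ((g'⁻¹).1 : Matrix II II F) = 1 := by
        rw [← Units.val_mul]
        have : g'.1 * (g'⁻¹).1 = 1 := congrArg Subtype.val (mul_inv_cancel g')
        rw [this, Units.val_one]
      rw [e]
      ext i j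
      by_cases hij : i = j
      · subst hij; simp
      · simp [Matrix.one_apply, hij]
    have h2' : (Matrix.of N₀) * (Matrix.of M₀) = 1 := mul_eq_one_comm.mp h1'
    let g₀ : GL II F₀ := ⟨Matrix.of M₀, Matrix.of N₀, h1', h2'⟩
    have hg₀ : Matrix.GeneralLinearGroup.map ε g₀ = g'.1 := by
      apply Units.ext
      exact hM₀'
    have hmu : σ (mulC g' : F) = mulC g' := by
      have := mu_gmS σ g'
      rw [hu] at this
      exact (congrArg Units.val this).symm
    obtain ⟨c₀, hc₀⟩ := (hε _).mp hmu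
    refine ⟨⟨g₀, lift_GSp ε g₀ g' hg₀ c₀ hc₀⟩, ?_⟩
    have e1 : gE ε ⟨g₀, lift_GSp ε g₀ g' hg₀ c₀ hc₀⟩ = g' := Subtype.ext hg₀
    change (kk (gE ε ⟨g₀, lift_GSp ε g₀ g' hg₀ c₀ hc₀⟩) : MulAut PG) = _
    rw [e1, hg', map_mul, kk_scS, one_mul]

/-- the kernels agree -/
lemma kk_gE_eq_one_iff [Nonempty (Fin m)] (ε : F₀ →+* F) (g₀ : Cfsg.GSp m F₀) :
    (kk (gE ε g₀) : MulAut PG) = 1 ↔ (kk g₀ : MulAut P₀) = 1 := by
  rw [kk_eq_one_iff, kk_eq_one_iff]
  obtain ⟨l₀⟩ : Nonempty (Fin m) := inferInstance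
  let i₀ : II := Sum.inl l₀
  constructor
  · rintro ⟨z, hz⟩
    have hz2 : ∀ i j, ε ((g₀.1 : Matrix II II F₀) i j) = (z • (1 : Matrix II II F)) i j := by
      intro i j
      rw [← gE_apply, hz]
    have hz3 : z = ε ((g₀.1 : Matrix II II F₀) i₀ i₀) := by
      rw [hz2]
      simp
    refine ⟨(g₀.1 : Matrix II II F₀) i₀ i₀, ?_⟩
    ext i j
    apply ε.injective
    rw [hz2]
    by_cases hij : i = j
    · subst hij
      simp [hz3]
    · simp [hij]
  · rintro ⟨c, hc⟩
    refine ⟨ε c, ?_⟩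
    ext i j
    rw [gE_apply, hc]
    by_cases hij : i = j
    · subst hij
      simp
    · simp [hij]

/-- the multiplier of a lifted element -/
lemma mu_gE [Nonempty (Fin m)] (ε : F₀ →+* F) (g₀ : Cfsg.GSp m F₀) :
    mu (gE ε g₀) = Units.map (ε : F₀ →* F) (mu g₀) := by
  obtain ⟨x, y, h⟩ := exists_form_one (m := m) (F := F₀)
  have h1 := mulC_spec (gE ε g₀) (fun i => ε (x i)) (fun i => ε (y i))
  have e : ((gE ε g₀).1 : Matrix II II F) = (g₀.1 : Matrix II II F₀).map ε := rfl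
  rw [e, map_mulVec_fun, map_mulVec_fun, form_map, form_map, h, map_one, mul_one, mulC_spec, map_mul, h, map_one, mul_one] at h1
  apply Units.ext
  exact h1.symm

/-- lifts of inner automorphisms are inner -/
lemma lift_inner_S [Nonempty (Fin m)] (ε : F₀ →+* F) (g₀ : Cfsg.GSp m F₀) (h : (kk g₀ : MulAut P₀) ∈ Cfsg.Inn P₀) :
    (kk (gE ε g₀) : MulAut PG) ∈ Cfsg.Inn PG := by
  obtain ⟨z, hz⟩ := h
  obtain ⟨s₀, rfl⟩ := QuotientGroup.mk_surjective z
  have e1 : (kk g₀ : MulAut P₀) = kk (toGSp s₀) := by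
    rw [kk_toGSp]
    exact hz.symm
  have e2 : (kk (g₀ * (toGSp s₀)⁻¹) : MulAut P₀) = 1 := by
    rw [map_mul, map_inv, e1, mul_inv_cancel]
  rw [← kk_gE_eq_one_iff (F := F) ε, map_mul, map_mul, map_inv, map_inv] at e2
  have e3 : (kk (gE ε g₀) : MulAut PG) = kk (gE ε (toGSp s₀)) := mul_inv_eq_one.1 e2
  have e4 : mu (gE ε (toGSp s₀)) = 1 := by
    rw [mu_gE, mu_toGSp, map_one]
  obtain ⟨s, hs⟩ := exists_toGSp e4
  rw [e3, ← hs, kk_toGSp]
  exact ⟨_, rfl⟩

/-- the order of the conformal part divides twice the order -/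
lemma card_range_dvd [Nonempty (Fin m)] :
    Nat.card (kk : Cfsg.GSp m F →* MulAut PG).range ∣ 2 * Nat.card PG := by
  rw [card_kk_range, card_Sp_eq]
  exact Nat.mul_dvd_mul_right (Nat.gcd_dvd_left _ _) _

/-- the lift of a transvection -/
lemma gE_toGSp_sympT (ε : F₀ →+* F) (u : II → F₀) (a : F₀) :
    gE ε (toGSp (sympT u a)) = toGSp (sympT (fun i => ε (u i)) (ε a)) := by
  apply Subtype.ext
  apply Units.ext
  ext i j
  rw [gE_apply]
  change ε (sympTmat u a i j) = sympTmat (fun i => ε (u i)) (ε a) i j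
  have hJ : ε ((J (Fin m) F₀ *ᵥ u) j) = (J (Fin m) F *ᵥ fun i => ε (u i)) j := by
    rcases j with k | k
    · rw [J_mulVec_inl, J_mulVec_inl, map_neg]
    · rw [J_mulVec_inr, J_mulVec_inr]
  simp only [sympTmat, Matrix.add_apply, Matrix.smul_apply, vecMulVec_apply, smul_eq_mul, map_add, map_mul, hJ]
  congr 1
  by_cases hij : i = j
  · subst hij
    simp
  · simp [hij]

end Lift

/-- a transvection determines its parameter -/
lemma sympT_inj_right {e : II → F} (he : e ≠ 0) {a b : F} (hab : sympT e a = sympT e b) : a = b := by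
  obtain ⟨z, hz⟩ := exists_x0 he
  have h3 := congrArg (fun t => ap t z) hab
  simp only [ap_sympT, hz, mul_one] at h3
  have h4 := add_left_cancel h3
  have h5 : (a - b) • e = 0 := by rw [sub_smul, h4, sub_self]
  exact sub_eq_zero.mp ((smul_eq_zero.mp h5).resolve_right he)

end Cfsg.Agent.Lead.LangSB
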