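import Cfsg.Agent.Lib.Lead.LangBalS2
/-! Local balance for the symplectic groups: factorisations and the centralizer. -/
set_option autoImplicit false
set_option linter.style.haveILetI false
set_option linter.unusedSimpArgs false
set_option linter.unusedSectionVars false
set_option linter.unusedVariables false
set_option linter.deprecated false
namespace Cfsg.Agent.Lead.LangSB
open Matrix
open Cfsg.Agent.Lead Cfsg.Agent.Lead.AutPSp Cfsg.Agent.Lead.Lang
open scoped MatrixGroups

variable {F : Type*} [Field F] [Fintype F] {m : ℕ}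

local notation "PG" => (symplecticGroup (Fin m) F ⧸ Subgroup.center (symplecticGroup (Fin m) F))
local notation "II" => (Fin m ⊕ Fin m)

/-- an automorphism sending a transvection to a transvection factors -/
lemma factor_of_B1 {r : ℕ} [Fact r.Prime] [CharP F r] [Nonempty (Fin m)] (hm : 2 ≤ m) (y : MulAut PG)
    (hB : ∃ u : II → F, u ≠ 0 ∧ B1 (y (pr (Fin m) F (sympT u 1)))) :
    ∃ (g : Cfsg.GSp m F) (τ : F ≃+* F), y = kk g * fldS τ := by
  by_cases h : m = 2 ∧ r = 2
  · obtain ⟨rfl, rfl⟩ := h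
    have h2 : (2 : F) = 0 := by exact_mod_cast CharP.cast_eq_zero F 2
    obtain ⟨u, hu, hB⟩ := hB
    exact adm_factor (p := 2) hm h2 (adm_of_one h2 hu hB)
  · obtain ⟨g, σ, c, H, rfl⟩ := aut_semilinear (p := r) hm (fun a b => h ⟨a, b⟩) y
    exact ⟨_, σ, cP_eq H⟩

/-- an automorphism of prime order different from the characteristic factors -/
lemma factor_of_order {r : ℕ} [Fact r.Prime] [CharP F r] [Nonempty (Fin m)] (hm : 2 ≤ m) (x : MulAut PG) {p : ℕ}
    (hp : p.Prime) (hpr : p ≠ r) (hord : orderOf x = p) :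
    ∃ (g : Cfsg.GSp m F) (τ : F ≃+* F), x = kk g * fldS τ := by
  by_cases h : m = 2 ∧ r = 2
  · obtain ⟨rfl, rfl⟩ := h
    have h2 : (2 : F) = 0 := by exact_mod_cast CharP.cast_eq_zero F 2
    have hodd : Odd p := hp.odd_of_ne_two hpr
    have hI := admS_index (p := 2) (F := F) h2
    have hsq : x ^ 2 ∈ admS (Fin 2) F := Subgroup.sq_mem_of_index_two hI x
    have hxp : x ^ p = 1 := by
      rw [← hord]
      exact pow_orderOf_eq_one x
    obtain ⟨k, hk⟩ := hodd
    have e : x = (x ^ 2) ^ (k + 1) := by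
      rw [← pow_mul]
      have : 2 * (k + 1) = p + 1 := by omega
      rw [this, pow_succ, hxp, one_mul]
    have hmem : x ∈ admS (Fin 2) F := by
      rw [e]
      exact pow_mem hsq _
    exact adm_factor (p := 2) hm h2 hmem
  · obtain ⟨g, σ, c, H, rfl⟩ := aut_semilinear (p := r) hm (fun a b => h ⟨a, b⟩) x
    exact ⟨_, σ, cP_eq H⟩

/-- an automorphism of prime order which is not inner-diagonal is conjugate to a field automorphism -/
lemma exists_std_S {r : ℕ} [Fact r.Prime] [CharP F r] [Nonempty (Fin m)] (hm : 2 ≤ m) (x : MulAut PG) {p : ℕ}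
    (hp : p.Prime) (hpr : p ≠ r) (hord : orderOf x = p) (hnot : ¬ Cfsg.IsInnerDiagonalAutPSp x) :
    ∃ (σ : F ≃+* F) (k : Cfsg.GSp m F), σ ≠ 1 ∧ orderOf σ = p ∧ x = kk k * fldS σ * (kk k)⁻¹ := by
  obtain ⟨g, σ, rfl⟩ := factor_of_order hm x hp hpr hord
  have hσ : σ ≠ 1 := by
    rintro rfl
    apply hnot
    rw [isInnerS_iff]
    exact ⟨g, by simp⟩
  have h1 : (kk g * fldS σ : MulAut PG) ^ p = 1 := by
    rw [← hord]
    exact pow_orderOf_eq_one _
  have h1' := h1
  rw [kk_fld_pow] at h1'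
  have h2 : (fldS (σ ^ p) : MulAut PG) = kk (nrmS σ g p)⁻¹ := by
    rw [map_inv]
    exact eq_inv_of_mul_eq_one_right h1'
  have h3 : σ ^ p = 1 := fldS_eq_kk h2
  have h4 : orderOf σ = p := by
    haveI : Fact p.Prime := ⟨hp⟩
    exact orderOf_eq_prime h3 hσ
  have h5 : (kk g * fldS σ : MulAut PG) ^ (orderOf σ) = 1 := by
    rw [h4]
    exact h1
  obtain ⟨k, hk⟩ := field_coset_Sp σ g h5
  exact ⟨σ, k, hσ, h4, hk⟩

section Cent
variable {F₀ : Type*} [Field F₀] [Fintype F₀]

local notation "P₀" => (symplecticGroup (Fin m) F₀ ⧸ Subgroup.center (symplecticGroup (Fin m) F₀))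

omit [Fintype F] [Fintype F₀] in
lemma map_single (ε : F₀ →+* F) (i : II) :
    (fun j => ε ((Pi.single i 1 : II → F₀) j)) = (Pi.single i 1 : II → F) := by
  funext j
  by_cases h : j = i
  · subst h
    simp
  · simp [h]

omit [Fintype F] in
lemma smap_single (τ : F ≃+* F) (i : II) : smap τ (Pi.single i 1 : II → F) = Pi.single i 1 := by
  funext j
  by_cases h : j = i
  · subst h
    simp [smap]
  · simp [smap, h]

/-- the centralizer of the small group in the automorphism group is a group of field automorphisms -/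
theorem cent_trivial {r : ℕ} [Fact r.Prime] [CharP F r] [Nonempty (Fin m)] (hm : 2 ≤ m) (ε : F₀ →+* F) {p : ℕ}
    (hcard : Fintype.card F = (Fintype.card F₀) ^ p) (y : MulAut PG) (hy : (orderOf y).Coprime p)
    (hcomm : ∀ g : Cfsg.GSp m F₀, (kk g : MulAut P₀) ∈ Cfsg.Inn P₀ → Commute y (kk (gE ε g))) : y = 1 := by
  classical
  have hfix : ∀ (u : II → F₀) (a : F₀),
      y (pr (Fin m) F (sympT (fun i => ε (u i)) (ε a))) = pr (Fin m) F (sympT (fun i => ε (u i)) (ε a)) := by
    intro u a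
    have h1 := hcomm (toGSp (sympT u a)) (by
      rw [kk_toGSp]
      exact ⟨_, rfl⟩)
    rw [gE_toGSp_sympT, kk_toGSp] at h1
    apply LangBal.conj_inj center_PG
    rw [← LangBal.conj_map]
    have h2 : y * MulAut.conj (pr (Fin m) F (sympT (fun i => ε (u i)) (ε a))) =
        MulAut.conj (pr (Fin m) F (sympT (fun i => ε (u i)) (ε a))) * y := h1
    rw [h2, mul_inv_cancel_right]
  obtain ⟨l₀⟩ : Nonempty (Fin m) := inferInstance
  let i₀ : II := Sum.inl l₀
  let E : II → (II → F) := fun i => Pi.single i 1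
  have hE : ∀ i, E i ≠ 0 := by
    intro i h0
    have := congrFun h0 i
    simp [E] at this
  have hfixE : ∀ i (a : F₀), y (pr (Fin m) F (sympT (E i) (ε a))) = pr (Fin m) F (sympT (E i) (ε a)) := by
    intro i a
    have := hfix (Pi.single i 1) a
    rwa [map_single] at this
  obtain ⟨g, τ, rfl⟩ : ∃ (g : Cfsg.GSp m F) (τ : F ≃+* F), y = kk g * fldS τ := by
    apply factor_of_B1 (r := r) hm y
    refine ⟨E i₀, hE i₀, ?_⟩
    have h1 := hfixE i₀ 1
    rw [map_one] at h1
    rw [h1]
    exact ⟨E i₀, 1, hE i₀, one_ne_zero, rfl⟩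
  -- eigenvectors
  have heig : ∀ w₀ : II → F₀, smap τ (fun i => ε (w₀ i)) = (fun i => ε (w₀ i)) → (fun i => ε (w₀ i)) ≠ 0 →
      ∃ c : F, (g.1 : Matrix II II F) *ᵥ (fun i => ε (w₀ i)) = c • (fun i => ε (w₀ i)) := by
    intro w₀ hw hne
    have h1 := hfix w₀ 1
    rw [MulAut.mul_apply, map_one, fldS_sympT, hw, kk_sympT, map_one, mul_one] at h1
    have h2 := pr_sympT_inj h1
    obtain ⟨k, hk, e1⟩ := par_of_sympT_eq one_ne_zero hne h2.symm
    refine ⟨k⁻¹, ?_⟩
    conv_rhs => rw [e1]
    rw [smul_smul, inv_mul_cancel₀ hk, one_smul]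
  have heig1 : ∀ i, ∃ c : F, (g.1 : Matrix II II F) *ᵥ E i = c • E i := by
    intro i
    have := heig (Pi.single i 1) (by rw [map_single]; exact smap_single τ i) (by rw [map_single]; exact hE i)
    rwa [map_single] at this
  choose c hc using heig1
  have hc2 : ∀ i j, i ≠ j → c i = c j := by
    intro i j hij
    have e1 : (fun t => ε (((Pi.single i 1 : II → F₀) + (Pi.single j 1 : II → F₀)) t)) = E i + E j := by
      funext t
      have h1 := congrFun (map_single ε i) t
      have h2 := congrFun (map_single ε j) t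
      simp only [Pi.add_apply, map_add, E]
      rw [h1, h2]
    have h0 : E i + E j ≠ 0 := by
      intro h0
      have := congrFun h0 i
      simp [E, hij, Ne.symm hij, Pi.single_apply] at this
    obtain ⟨d, hd⟩ := heig ((Pi.single i 1 : II → F₀) + (Pi.single j 1 : II → F₀)) (by
        rw [e1, smap_add]
        simp only [E, smap_single]) (by rw [e1]; exact h0)
    rw [e1, Matrix.mulVec_add, hc, hc] at hd
    have hi := congrFun hd i
    have hj := congrFun hd j
    simp [E, Pi.single_apply, hij, Ne.symm hij] at hi hj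
    rw [hi, hj]
  -- the matrix is scalar
  have hg : (g.1 : Matrix II II F) = c i₀ • 1 := by
    ext a b
    have h1 := congrFun (hc b) a
    have e1 : ((g.1 : Matrix II II F) *ᵥ E b) a = (g.1 : Matrix II II F) a b := by
      simp [E]
    rw [e1] at h1
    rw [h1]
    have e2 : c b = c i₀ := by
      by_cases hb : b = i₀
      · rw [hb]
      · exact hc2 _ _ hb
    rw [e2]
    by_cases hab : a = b
    · subst hab
      simp [E]
    · simp [E, hab, Pi.single_apply, Matrix.one_apply]
  have hkk : (kk g : MulAut PG) = 1 := kk_eq_one_iff.2 ⟨_, hg⟩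
  rw [hkk, one_mul] at hfix hfixE hy ⊢
  -- `τ` fixes the small field
  have hτ : ∀ t, τ (ε t) = ε t := by
    intro t
    have h1 := hfixE i₀ t
    rw [fldS_sympT, smap_single] at h1
    exact sympT_inj_right (hE i₀) (pr_sympT_inj h1)
  have hτp : τ ^ p = 1 := LangOm.pow_eq_one_of_fix ε hcard τ hτ
  have hyp : (fldS τ : MulAut PG) ^ p = 1 := by
    rw [← map_pow, hτp, map_one]
  have h1 : orderOf (fldS τ : MulAut PG) = 1 :=
    Nat.Coprime.eq_one_of_dvd hy (orderOf_dvd_of_pow_eq_one hyp)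
  exact orderOf_eq_one_iff.1 h1

end Cent

/-- the centralizer after conjugation -/
lemma range_conj {A S : Type*} [Group A] [Group S] (I : Subgroup A) [hI : I.Normal] (ℓ₀ : S →* A) (φ h : A)
    (hcen : ℓ₀.range = I ⊓ Subgroup.centralizer {φ}) :
    ((MulAut.conj h).toMonoidHom.comp ℓ₀).range = I ⊓ Subgroup.centralizer {h * φ * h⁻¹} := by
  have hℓ : ∀ g, ((MulAut.conj h).toMonoidHom.comp ℓ₀) g = h * ℓ₀ g * h⁻¹ := fun g => rfl
  ext β
  constructor
  · rintro ⟨g, rfl⟩
    have hg : ℓ₀ g ∈ ℓ₀.range := ⟨g, rfl⟩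
    rw [hcen] at hg
    refine ⟨?_, ?_⟩
    · rw [hℓ]
      exact hI.conj_mem _ hg.1 h
    · have h3 : _ ∈ Subgroup.centralizer {φ} := hg.2
      rw [Subgroup.mem_centralizer_singleton_iff] at h3
      change _ ∈ Subgroup.centralizer {h * φ * h⁻¹}
      rw [Subgroup.mem_centralizer_singleton_iff, hℓ]
      calc h * ℓ₀ g * h⁻¹ * (h * φ * h⁻¹) = h * (ℓ₀ g * φ) * h⁻¹ := by group
        _ = h * (φ * ℓ₀ g) * h⁻¹ := by rw [h3]
        _ = _ := by group
  · rintro ⟨h1, h3⟩
    have h3 : β ∈ Subgroup.centralizer {h * φ * h⁻¹} := h3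
    rw [Subgroup.mem_centralizer_singleton_iff] at h3
    have hmem : h⁻¹ * β * h ∈ ℓ₀.range := by
      rw [hcen]
      refine ⟨?_, ?_⟩
      · have := hI.conj_mem _ h1 h⁻¹
        simpa using this
      · change _ ∈ Subgroup.centralizer {φ}
        rw [Subgroup.mem_centralizer_singleton_iff]
        calc h⁻¹ * β * h * φ = h⁻¹ * (β * (h * φ * h⁻¹)) * h := by group
          _ = h⁻¹ * ((h * φ * h⁻¹) * β) * h := by rw [h3]
          _ = _ := by group
    obtain ⟨g, hg⟩ := hmem
    refine ⟨g, ?_⟩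
    rw [hℓ, hg]
    group

end Cfsg.Agent.Lead.LangSB
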