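import Cfsg.Agent.Lib.Lead.LangBalS3
/-! Local balance for the symplectic groups: the theorem. -/
set_option autoImplicit false
set_option linter.style.haveILetI false
set_option linter.unusedSimpArgs false
set_option linter.unusedSectionVars false
set_option linter.unusedVariables false
set_option linter.deprecated false
namespace Cfsg.Agent.Lead.LangSB
open Matrix
open Cfsg.Agent.Lead Cfsg.Agent.Lead.AutPSp Cfsg.Agent.Lead.Lang
open scoped MatrixGroups

variable {F : Type*} [Field F] [Fintype F] {m : ℕ}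

local notation "PG" => (symplecticGroup (Fin m) F ⧸ Subgroup.center (symplecticGroup (Fin m) F))
local notation "II" => (Fin m ⊕ Fin m)

/-- subgroups normalized by the inner automorphisms of `PSp` -/
lemma hnorm_PG (hm : 2 ≤ m) (M : Subgroup (MulAut PG))
    (hM : ∀ z : PG, ∀ β ∈ M, MulAut.conj z * β * (MulAut.conj z)⁻¹ ∈ M) (hne : M ≠ ⊥) :
    ∃ D : Subgroup (MulAut PG), D ≤ M ∧ D ≤ Cfsg.Inn PG ∧ Nat.card PG ∣ 2 * Nat.card D ∧ 2 ∣ Nat.card D := by
  haveI : Nonempty (Fin m) := ⟨⟨0, by omega⟩⟩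
  by_cases hexc : m = 2 ∧ Fintype.card F = 2
  · obtain ⟨rfl, h2⟩ := hexc
    obtain ⟨E⟩ := sp42_equiv_perm h2
    have h20 : (2 : F) = 0 := by
      have := FiniteField.cast_card_eq_zero F
      rw [h2] at this
      exact_mod_cast this
    let prE : symplecticGroup (Fin 2) F ≃* (symplecticGroup (Fin 2) F ⧸ Subgroup.center (symplecticGroup (Fin 2) F)) :=
      MulEquiv.ofBijective (pr (Fin 2) F) ⟨fun a b h => pr_inj_two h20 h, QuotientGroup.mk'_surjective _⟩
    exact hnorm_perm (prE.symm.trans E) center_PG M hM hne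
  · have hS : IsSimpleGroup PG := psp_simple m hm (fun h => by
      have h1 : 2 ≤ Fintype.card F := Fintype.one_lt_card
      have h3 : Fintype.card F ≠ 2 := fun h' => hexc ⟨h, h'⟩
      omega)
    exact hnorm_simple hS center_PG (even_PG (by omega)) M hM hne

lemma inn_le_kk_range [Nonempty (Fin m)] : Cfsg.Inn PG ≤ (kk : Cfsg.GSp m F →* MulAut PG).range := by
  rintro _ ⟨z, rfl⟩
  obtain ⟨s, rfl⟩ := QuotientGroup.mk_surjective z
  exact ⟨toGSp s, kk_toGSp s⟩

/-- **Local balance for the symplectic groups.** -/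
theorem balance_S {r : ℕ} [Fact r.Prime] [CharP F r] (hm : 2 ≤ m)
    (A : Subgroup (MulAut PG)) (hinn : ∀ k : PG, MulAut.conj k ∈ A) {p : ℕ} [hpp : Fact p.Prime] (hpr : p ≠ r)
    (x : MulAut PG) (hord : orderOf x = p) (hnot : ¬ Cfsg.IsInnerDiagonalAutPSp x) :
    Cfsg.pPrimeCore p ↥(A ⊓ Subgroup.centralizer {x}) ≠ ⊥ ↔
      (Cfsg.IsFieldAutClassPSp x ∧ Nat.Coprime p (Nat.card ↥(MonoidHom.eqLocus x.toMonoidHom (MonoidHom.id PG)))) := by
  classical
  haveI : Nonempty (Fin m) := ⟨⟨0, by omega⟩⟩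
  obtain ⟨σ, k, hσ, hσr, ex⟩ := exists_std_S hm x hpp.out hpr hord hnot
  set h : MulAut PG := kk k with hh
  have hfield : Cfsg.IsFieldAutClassPSp x :=
    ⟨h⁻¹, σ, hσ, (stdS_iff σ _).mpr (by rw [ex]; group)⟩
  obtain ⟨f, hf, hF⟩ : ∃ f : ℕ, 1 ≤ f ∧ Fintype.card F = r ^ f := by
    obtain ⟨n, hn, e⟩ := FiniteField.card F r
    exact ⟨n, Nat.succ_le_of_lt (PNat.pos n), e⟩
  haveI : Finite (F ≃+* F) := Finite.of_injective (fun σ : F ≃+* F => (σ : F → F)) DFunLike.coe_injective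
  have hdvd : p ∣ f := by
    rw [← hσr, ← Cfsg.Agent.Lead.AutPSL.card_ringAut hF hf]
    exact orderOf_dvd_natCard σ
  obtain ⟨E₀, hE₀, hcardE⟩ := exists_fixed_field hF σ hσr hpp.out.ne_zero hdvd
  haveI : Fintype E₀ := Fintype.ofFinite _
  have hF₀ : Fintype.card E₀ = r ^ (f / p) := by
    rw [← Nat.card_eq_fintype_card, hcardE]
  obtain ⟨-, ε, hε, hcard⟩ := LangOm.field_setup (F₀ := E₀) hF hf σ hσr hpp.out hF₀
  haveI hnorm : (kk : Cfsg.GSp m F →* MulAut PG).range.Normal := range_kk_normal hm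
  haveI hnt : Nontrivial (symplecticGroup (Fin m) E₀ ⧸ Subgroup.center (symplecticGroup (Fin m) E₀)) := by
    rw [← Finite.one_lt_card_iff_nontrivial]
    have h2 := even_PG (F := E₀) (m := m) (by omega)
    have h3 : 0 < Nat.card (symplecticGroup (Fin m) E₀ ⧸ Subgroup.center (symplecticGroup (Fin m) E₀)) := Nat.card_pos
    have h4 := Nat.le_of_dvd h3 h2
    omega
  let ℓ₀ : Cfsg.GSp m E₀ →* MulAut PG := (kk : Cfsg.GSp m F →* MulAut PG).comp (gE ε)
  let ℓ₁ : Cfsg.GSp m E₀ →* MulAut (symplecticGroup (Fin m) E₀ ⧸ Subgroup.center (symplecticGroup (Fin m) E₀)) := kk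
  let ℓ : Cfsg.GSp m E₀ →* MulAut PG := (MulAut.conj h).toMonoidHom.comp ℓ₀
  have hℓ : ∀ g, ℓ g = h * ℓ₀ g * h⁻¹ := fun g => rfl
  have key := LangBal.balance_core' (S := Cfsg.GSp m E₀) (p := p) center_PG center_PG ℓ ℓ₁ ?_ A
    ((kk : Cfsg.GSp m F →* MulAut PG).range) x ?_ inn_le_kk_range ?_ inn_le_kk_range ?_ card_range_dvd (hnorm_PG hm) ?_
  · rw [key]
    exact ⟨fun H => ⟨hfield, H⟩, fun H => H.2⟩
  · -- kernels
    ext g
    rw [MonoidHom.mem_ker, MonoidHom.mem_ker, hℓ]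
    have e0 : ℓ₀ g = 1 ↔ ℓ₁ g = 1 := kk_gE_eq_one_iff ε g
    rw [← e0]
    constructor
    · intro e
      have : ℓ₀ g = h⁻¹ * (h * ℓ₀ g * h⁻¹) * h := by group
      rw [this, e]
      group
    · intro e
      rw [e]
      group
  · -- inner automorphisms lie in `A`
    rintro _ ⟨z, rfl⟩
    exact hinn z
  · -- the range
    have := range_conj (kk : Cfsg.GSp m F →* MulAut PG).range ℓ₀ (fldS σ) h (range_gE σ ε hε)
    rw [ex]
    exact this
  · -- lifts of inner automorphisms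
    intro g hg
    rw [hℓ]
    exact (inferInstance : (Cfsg.Inn PG).Normal).conj_mem _ (lift_inner_S ε g hg) h
  · -- the centralizer
    intro y _ hyo hcomm
    let y₁ := h⁻¹ * y * h
    have hord₁ : (orderOf y₁).Coprime p := by
      have : orderOf y₁ = orderOf y := by
        have e := orderOf_conj' h⁻¹ y
        simpa [y₁] using e
      rw [this]
      exact hyo
    have hcomm₁ : ∀ g : Cfsg.GSp m E₀, (kk g : MulAut (symplecticGroup (Fin m) E₀ ⧸ Subgroup.center (symplecticGroup (Fin m) E₀))) ∈ Cfsg.Inn _ →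
        Commute y₁ (kk (gE ε g)) := by
      intro g hg
      have e : y * ℓ g = ℓ g * y := hcomm g hg
      rw [hℓ] at e
      change (h⁻¹ * y * h) * ℓ₀ g = ℓ₀ g * (h⁻¹ * y * h)
      calc h⁻¹ * y * h * ℓ₀ g = h⁻¹ * (y * (h * ℓ₀ g * h⁻¹)) * h := by group
        _ = h⁻¹ * ((h * ℓ₀ g * h⁻¹) * y) * h := by rw [e]
        _ = _ := by group
    have hy1 := cent_trivial (r := r) hm ε hcard y₁ hord₁ hcomm₁
    have : y = h * y₁ * h⁻¹ := by
      simp only [y₁]
      group
    rw [this, hy1]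
    group

end Cfsg.Agent.Lead.LangSB
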