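import Cfsg.Agent.Lib.Lead.Lang
import Cfsg.Prelude.Def_LieTypeDatum
/-! Abstract counting for the splitting of classes. -/
set_option autoImplicit false
set_option linter.style.haveILetI false
set_option linter.unusedSimpArgs false
set_option linter.unusedSectionVars false
set_option linter.unusedVariables false
namespace Cfsg.Agent.Lead.Lang

/-- the number of fibres of a map with coset fibres -/
lemma card_of_fibers {G Y : Type*} [Group G] (D : Subgroup G) (Ψ : G → Y) (hs : Function.Surjective Ψ)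
    (h : ∀ a b, Ψ a = Ψ b ↔ a⁻¹ * b ∈ D) : Nat.card Y = D.index := by
  rw [Subgroup.index]
  symm
  let f : G ⧸ D → Y := Quotient.lift Ψ (fun a b hab => (h a b).mpr (QuotientGroup.leftRel_apply.mp hab))
  apply Nat.card_eq_of_bijective f
  constructor
  · intro x y
    induction x using QuotientGroup.induction_on with
    | H a =>
      induction y using QuotientGroup.induction_on with
      | H b =>
        intro hxy
        apply QuotientGroup.eq.mpr
        exact (h a b).mp hxy
  · intro y
    obtain ⟨a, rfl⟩ := hs y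
    exact ⟨(a : G ⧸ D), rfl⟩

lemma isConj_equiv {A : Type*} [Group A] (K : Subgroup A) : Equivalence (Cfsg.IsConjUnder K) where
  refl x := ⟨1, K.one_mem, by simp⟩
  symm := by
    rintro x y ⟨k, hk, rfl⟩
    exact ⟨k⁻¹, K.inv_mem hk, by group⟩
  trans := by
    rintro x y z ⟨k, hk, rfl⟩ ⟨k', hk', rfl⟩
    exact ⟨k' * k, K.mul_mem hk' hk, by group⟩

/-- the number of classes as an index -/
theorem split_count {A W : Type*} [Group A] [Group W] (I K : Subgroup A) (x : A) (D : Subgroup W) (τ : W → A)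
    (hτ : ∀ w, τ w ∈ I) (hs : ∀ h ∈ I, ∃ k ∈ K, ∃ w, h = k * τ w)
    (hf : ∀ a b : W, Cfsg.IsConjUnder K (τ a * x * (τ a)⁻¹) (τ b * x * (τ b)⁻¹) ↔ a⁻¹ * b ∈ D) :
    Cfsg.splitClassCount I K x = D.index := by
  rw [Cfsg.splitClassCount]
  let r : {y : A // Cfsg.IsConjUnder I x y} → {y : A // Cfsg.IsConjUnder I x y} → Prop :=
    fun y z => Cfsg.IsConjUnder K y.1 z.1
  have hr : Equivalence r :=
    { refl := fun y => (isConj_equiv K).refl _
      symm := fun h => (isConj_equiv K).symm h
      trans := fun h h' => (isConj_equiv K).trans h h' }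
  let Ψ : W → Quot r := fun w => Quot.mk r ⟨τ w * x * (τ w)⁻¹, τ w, hτ w, rfl⟩
  apply card_of_fibers D Ψ
  · intro y
    induction y using Quot.ind with
    | mk y =>
      obtain ⟨y₀, h, hh, e⟩ := y
      obtain ⟨k, hk, w, rfl⟩ := hs h hh
      refine ⟨w, Quot.sound ?_⟩
      refine ⟨k, hk, ?_⟩
      change y₀ = k * (τ w * x * (τ w)⁻¹) * k⁻¹
      rw [e]
      group
  · intro a b
    rw [← hf]
    constructor
    · intro h
      have := Quot.eqvGen_exact h
      rwa [hr.eqvGen_iff] at this
    · intro h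
      exact Quot.sound h

/-- transport of the number of classes along a conjugation -/
lemma split_conj {A : Type*} [Group A] (I K : Subgroup A) [I.Normal] [K.Normal] (α x : A) :
    Cfsg.splitClassCount I K x = Cfsg.splitClassCount I K (α * x * α⁻¹) := by
  rw [Cfsg.splitClassCount, Cfsg.splitClassCount]
  have hI : ∀ y, Cfsg.IsConjUnder I x y ↔ Cfsg.IsConjUnder I (α * x * α⁻¹) (α * y * α⁻¹) := by
    intro y
    constructor
    · rintro ⟨h, hh, rfl⟩
      refine ⟨α * h * α⁻¹, Subgroup.Normal.conj_mem ‹I.Normal› h hh α, by group⟩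
    · rintro ⟨h, hh, e⟩
      refine ⟨α⁻¹ * h * α, ?_, ?_⟩
      · have := Subgroup.Normal.conj_mem ‹I.Normal› h hh α⁻¹
        simpa using this
      · have e2 : y = α⁻¹ * (α * y * α⁻¹) * α := by group
        rw [e2, e]
        group
  have hK : ∀ y z, Cfsg.IsConjUnder K y z ↔ Cfsg.IsConjUnder K (α * y * α⁻¹) (α * z * α⁻¹) := by
    intro y z
    constructor
    · rintro ⟨h, hh, rfl⟩
      refine ⟨α * h * α⁻¹, Subgroup.Normal.conj_mem ‹K.Normal› h hh α, by group⟩
    · rintro ⟨h, hh, e⟩
      refine ⟨α⁻¹ * h * α, ?_, ?_⟩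
      · have := Subgroup.Normal.conj_mem ‹K.Normal› h hh α⁻¹
        simpa using this
      · have e2 : z = α⁻¹ * (α * z * α⁻¹) * α := by group
        rw [e2, e]
        group
  let E : {y : A // Cfsg.IsConjUnder I x y} ≃ {y : A // Cfsg.IsConjUnder I (α * x * α⁻¹) y} :=
    Equiv.subtypeEquiv (MulAut.conj α).toEquiv (fun y => by
      simpa using hI y)
  apply Nat.card_congr
  exact Quot.congr E (fun y z => hK y.1 z.1)

/-- transport of the centralizer along a conjugation -/
lemma centralizer_conj_equiv {A : Type*} [Group A] (I : Subgroup A) [I.Normal] (α x : A) :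
    Nonempty (↥(I ⊓ Subgroup.centralizer {x}) ≃* ↥(I ⊓ Subgroup.centralizer {α * x * α⁻¹})) := by
  refine ⟨MulEquiv.subgroupMap (MulAut.conj α) _ |>.trans (MulEquiv.subgroupCongr ?_)⟩
  ext z
  simp only [Subgroup.mem_map, Subgroup.mem_inf, Subgroup.mem_centralizer_singleton_iff]
  constructor
  · rintro ⟨y, ⟨hy1, hy2⟩, rfl⟩
    refine ⟨Subgroup.Normal.conj_mem ‹I.Normal› y hy1 α, ?_⟩
    change α * y * α⁻¹ * (α * x * α⁻¹) = α * x * α⁻¹ * (α * y * α⁻¹)
    have : α * y * α⁻¹ * (α * x * α⁻¹) = α * (y * x) * α⁻¹ := by group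
    rw [this, hy2]
    group
  · rintro ⟨hz1, hz2⟩
    refine ⟨α⁻¹ * z * α, ⟨?_, ?_⟩, ?_⟩
    · have := Subgroup.Normal.conj_mem ‹I.Normal› z hz1 α⁻¹
      simpa using this
    · have h1 : α⁻¹ * z * α * x = α⁻¹ * (z * (α * x * α⁻¹)) * α := by group
      rw [h1, hz2]
      group
    · change α * (α⁻¹ * z * α) * α⁻¹ = z
      group

section Cyc
variable {G : Type*} [CommGroup G]

lemma pow_range_sup (a b : ℕ) :
    (powMonoidHom a : G →* G).range ⊔ (powMonoidHom b : G →* G).range = (powMonoidHom (Nat.gcd a b) : G →* G).range := by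
  apply le_antisymm
  · apply sup_le
    · rintro _ ⟨c, rfl⟩
      obtain ⟨t, ht⟩ := Nat.gcd_dvd_left a b
      refine ⟨c ^ t, ?_⟩
      change (c ^ t) ^ Nat.gcd a b = c ^ a
      rw [← pow_mul, mul_comm, ← ht]
    · rintro _ ⟨c, rfl⟩
      obtain ⟨t, ht⟩ := Nat.gcd_dvd_right a b
      refine ⟨c ^ t, ?_⟩
      change (c ^ t) ^ Nat.gcd a b = c ^ b
      rw [← pow_mul, mul_comm, ← ht]
  · rintro _ ⟨c, rfl⟩
    change c ^ Nat.gcd a b ∈ _
    rw [← zpow_natCast, Nat.gcd_eq_gcd_ab, zpow_add, zpow_mul, zpow_mul]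
    apply Subgroup.mul_mem
    · apply Subgroup.mem_sup_left
      have : ((c ^ (a : ℤ)) ^ a.gcdA b) = (c ^ a.gcdA b) ^ a := by
        rw [← zpow_mul, mul_comm, zpow_mul, zpow_natCast]
      rw [this]
      exact ⟨_, rfl⟩
    · apply Subgroup.mem_sup_right
      have : ((c ^ (b : ℤ)) ^ a.gcdB b) = (c ^ a.gcdB b) ^ b := by
        rw [← zpow_mul, mul_comm, zpow_mul, zpow_natCast]
      rw [this]
      exact ⟨_, rfl⟩

lemma index_pow_range [IsCyclic G] [Finite G] (d : ℕ) :
    ((powMonoidHom d : G →* G).range).index = Nat.gcd (Nat.card G) d := by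
  have h1 := Subgroup.card_mul_index (powMonoidHom d : G →* G).range
  rw [IsCyclic.card_powMonoidHom_range] at h1
  have hpos : 0 < Nat.card G := Nat.card_pos
  have hg : Nat.gcd (Nat.card G) d ∣ Nat.card G := Nat.gcd_dvd_left _ _
  have hq : 0 < Nat.card G / Nat.gcd (Nat.card G) d :=
    Nat.div_pos (Nat.le_of_dvd hpos hg) (Nat.gcd_pos_of_pos_left _ hpos)
  apply Nat.eq_of_mul_eq_mul_left hq
  rw [h1, Nat.div_mul_cancel hg]

/-- a subgroup of known order in a cyclic group is a range of a power -/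
lemma eq_pow_range_of_card [IsCyclic G] [Finite G] (H : Subgroup G) {e m : ℕ} (he : e * m = Nat.card G)
    (hH : Nat.card H = m) : H = (powMonoidHom e : G →* G).range := by
  classical
  have hpos : 0 < Nat.card G := Nat.card_pos
  have hm : 0 < m := by
    rw [← hH]
    exact Nat.card_pos
  have he0 : 0 < e := by
    rcases Nat.eq_zero_or_pos e with h | h
    · subst h
      simp at he
      omega
    · exact h
  have h1 : Nat.card (powMonoidHom e : G →* G).range = m := by
    rw [IsCyclic.card_powMonoidHom_range]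
    have : Nat.gcd (Nat.card G) e = e := Nat.gcd_eq_right (Dvd.intro _ he)
    rw [this, ← he]
    exact Nat.mul_div_cancel_left _ he0
  -- both lie in the kernel of the `m`-th power map, which has at most `m` elements
  have hk : Nat.card (powMonoidHom m : G →* G).ker = m := by
    have h2 := Subgroup.card_mul_index (powMonoidHom m : G →* G).ker
    rw [Subgroup.index_ker, IsCyclic.card_powMonoidHom_range] at h2
    have : Nat.gcd (Nat.card G) m = m := Nat.gcd_eq_right (Dvd.intro_left _ he)
    rw [this] at h2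
    have hq : Nat.card G / m = e := by
      rw [← he]
      exact Nat.mul_div_cancel _ hm
    rw [hq] at h2
    have : Nat.card (powMonoidHom m : G →* G).ker * e = m * e := by
      rw [h2, mul_comm m e, he]
    exact Nat.eq_of_mul_eq_mul_right he0 this
  have h3 : H ≤ (powMonoidHom m : G →* G).ker := by
    intro x hx
    rw [MonoidHom.mem_ker]
    change x ^ m = 1
    have : (⟨x, hx⟩ : H) ^ m = 1 := by
      rw [← hH]
      exact pow_card_eq_one'
    exact congrArg Subtype.val this
  have h4 : (powMonoidHom e : G →* G).range ≤ (powMonoidHom m : G →* G).ker := by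
    rintro _ ⟨c, rfl⟩
    rw [MonoidHom.mem_ker]
    change (c ^ e) ^ m = 1
    rw [← pow_mul, he]
    exact pow_card_eq_one'
  have h5 : H = (powMonoidHom m : G →* G).ker :=
    Subgroup.eq_of_le_of_card_ge h3 (by rw [hH, hk])
  have h6 : (powMonoidHom e : G →* G).range = (powMonoidHom m : G →* G).ker :=
    Subgroup.eq_of_le_of_card_ge h4 (by rw [h1, hk])
  rw [h5, h6]

end Cyc

end Cfsg.Agent.Lead.Lang
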