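import Cfsg.Agent.Lib.Lead.LangPar5
import Cfsg.Agent.Lib.Lead.LangCount
/-! Centralizers of field automorphisms of orthogonal groups: the descent to the fixed field. -/
set_option autoImplicit false
set_option linter.style.haveILetI false
set_option linter.unusedSimpArgs false
set_option linter.unusedSectionVars false
set_option linter.unusedVariables false
namespace Cfsg.Agent.Lead.LangOm
open Matrix Module Cfsg.Agent.Lead.Ortho Cfsg.Agent.Lead.Omega Cfsg.Agent.H01.Om Cfsg.Agent.Lead.Lang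
open Cfsg.Agent.H11 (IsMTS Rf Pb triangle)

/-- the number of classes is an index -/
theorem split_eq_relIndex {A : Type*} [Group A] (I K : Subgroup A) [K.Normal] (hKI : K ≤ I) (x : A) :
    Cfsg.splitClassCount I K x = ((K ⊔ (I ⊓ Subgroup.centralizer {x})).subgroupOf I).index := by
  classical
  apply split_count I K x _ (fun w : I => (w : A)) (fun w => w.2)
  · intro h hh
    exact ⟨1, K.one_mem, ⟨h, hh⟩, by simp⟩
  · intro a b
    rw [Subgroup.mem_subgroupOf]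
    have hn : ((a⁻¹ * b : I) : A) = (a : A)⁻¹ * (b : A) := rfl
    rw [hn, Subgroup.mem_sup_of_normal_left]
    constructor
    · rintro ⟨k, hk, e⟩
      have e1 : (b : A) * x * (b : A)⁻¹ = (k * a) * x * (k * a)⁻¹ := by
        rw [e]
        group
      refine ⟨(a : A)⁻¹ * k * a, ?_, (a : A)⁻¹ * k⁻¹ * b, ⟨?_, ?_⟩, by group⟩
      · have := Subgroup.Normal.conj_mem ‹K.Normal› k hk (a : A)⁻¹
        simpa using this
      · exact I.mul_mem (I.mul_mem (I.inv_mem a.2) (I.inv_mem (hKI hk))) b.2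
      · change _ ∈ Subgroup.centralizer {x}
        rw [Subgroup.mem_centralizer_singleton_iff]
        have e2 : (b : A) * x = (k * a) * x * (k * a)⁻¹ * b := by
          rw [← e1]
          group
        calc (a : A)⁻¹ * k⁻¹ * b * x = (a : A)⁻¹ * k⁻¹ * (b * x) := by group
          _ = (a : A)⁻¹ * k⁻¹ * ((k * a) * x * (k * a)⁻¹ * b) := by rw [e2]
          _ = _ := by group
    · rintro ⟨k, hk, c, ⟨-, hc⟩, e⟩
      have hc : c ∈ Subgroup.centralizer {x} := hc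
      rw [Subgroup.mem_centralizer_singleton_iff] at hc
      have hb : (b : A) = (a : A) * k * c := by
        rw [mul_assoc, e]
        group
      refine ⟨(a : A) * k * (a : A)⁻¹, ?_, ?_⟩
      · exact Subgroup.Normal.conj_mem ‹K.Normal› k hk a
      · rw [hb]
        have e3 : (a : A) * k * c * x * ((a : A) * k * c)⁻¹ = (a : A) * k * (c * x * c⁻¹) * ((a : A) * k)⁻¹ := by
          group
        rw [e3, hc]
        group

/-- two homomorphisms with the same kernel have isomorphic images -/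
lemma range_iso_of_ker {H A B : Type*} [Group H] [Group A] [Group B] (f₁ : H →* A) (f₂ : H →* B) (e : f₁.ker = f₂.ker) :
    Nonempty (f₁.range ≃* f₂.range) :=
  ⟨(QuotientGroup.quotientKerEquivRange f₁).symm.trans
    ((QuotientGroup.quotientMulEquivOfEq e).trans (QuotientGroup.quotientKerEquivRange f₂))⟩

variable {F : Type*} [Field F] [Fintype F] {ι : Type} [Fintype ι] [DecidableEq ι]
variable {Q : (ι → F) → F} {B : (ι → F) → (ι → F) → F}

/-- an invertible matrix as a permutation -/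
def simPerm (g : GL ι F) : Equiv.Perm (ι → F) where
  toFun x := (g : Matrix ι ι F) *ᵥ x
  invFun x := ((g⁻¹ : GL ι F) : Matrix ι ι F) *ᵥ x
  left_inv x := by
    simp only [Matrix.mulVec_mulVec, gl_inv_mul, Matrix.one_mulVec]
  right_inv x := by
    simp only [Matrix.mulVec_mulVec, gl_mul_inv, Matrix.one_mulVec]

lemma simPerm_apply (g : GL ι F) (x : ι → F) : simPerm g x = (g : Matrix ι ι F) *ᵥ x := rfl

lemma isSemi_simPerm {g : GL ι F} {c : F} (hc : c ≠ 0) (hg : ∀ v, Q ((g : Matrix ι ι F) *ᵥ v) = c * Q v) :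
    IsSemi Q (simPerm g) 1 c where
  hκ := hc
  hadd x y := Matrix.mulVec_add _ _ _
  hsmul c x := Matrix.mulVec_smul _ _ _
  hQ x := hg x

/-- similarity matrices as elements of the group of semisimilarities -/
def simG (Q : (ι → F) → F) : ↥(Cfsg.Geo.quadSimilarityGroup Q) →* GS Q where
  toFun g := ⟨simPerm g.1, by
    obtain ⟨c, hc⟩ := g.2
    exact ⟨1, c, isSemi_simPerm c.ne_zero hc⟩⟩
  map_one' := by
    apply Subtype.ext
    apply Equiv.ext
    intro x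
    exact Matrix.one_mulVec x
  map_mul' a b := by
    apply Subtype.ext
    apply Equiv.ext
    intro x
    exact (Matrix.mulVec_mulVec x _ _).symm

lemma simG_apply (g : ↥(Cfsg.Geo.quadSimilarityGroup Q)) (x : ι → F) :
    (simG Q g : Equiv.Perm (ι → F)) x = ((g.1 : GL ι F) : Matrix ι ι F) *ᵥ x := rfl

lemma simG_GLS (g : ↥(Cfsg.Geo.quadSimilarityGroup Q)) : simG Q g ∈ GLS Q := by
  obtain ⟨c, hc⟩ := g.2
  exact ⟨c, isSemi_simPerm c.ne_zero hc⟩

lemma GLS_eq_simG (h : QF Q B) (hnd : ND B (⊤ : Submodule F (ι → F))) {T : GS Q} (hT : T ∈ GLS Q) :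
    ∃ g : ↥(Cfsg.Geo.quadSimilarityGroup Q), simG Q g = T := by
  obtain ⟨κ, HT⟩ := hT
  obtain ⟨g, H, hg⟩ := HT.matrix h hnd
  refine ⟨⟨g, Units.mk0 κ H.hκ, fun v => H.hQ v⟩, ?_⟩
  apply Subtype.ext
  apply Equiv.ext
  intro x
  exact (hg x).symm

/-- the image of all similarities -/
lemma range_simG (h : QF Q B) (hnd : ND B (⊤ : Submodule F (ι → F))) :
    ((⊤ : Subgroup ↥(Cfsg.Geo.quadSimilarityGroup Q)).map ((Th h hnd).comp (simG Q))) = (GLS Q).map (Th h hnd) := by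
  ext β
  constructor
  · rintro ⟨g, -, rfl⟩
    exact ⟨simG Q g, simG_GLS g, rfl⟩
  · rintro ⟨T, hT, rfl⟩
    obtain ⟨g, rfl⟩ := GLS_eq_simG h hnd hT
    exact ⟨g, trivial, rfl⟩

/-- scalar similarity matrices -/
def IsScal (g : GL ι F) : Prop := ∃ c : F, (g : Matrix ι ι F) = c • (1 : Matrix ι ι F)

lemma Th_simG_eq_one_iff {m : ℕ} {t₀ : Fin m → (ι → F) × (ι → F)} (C : Cx Q B t₀) (g : ↥(Cfsg.Geo.quadSimilarityGroup Q)) :
    Th C.h C.nd (simG Q g) = 1 ↔ IsScal g.1 := by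
  constructor
  · intro h1
    obtain ⟨α, hα, hT⟩ := C.scalar_of_Th _ h1
    refine ⟨α, ?_⟩
    apply Matrix.mulVec_injective
    funext x
    rw [Matrix.smul_mulVec, Matrix.one_mulVec]
    exact hT x
  · rintro ⟨c, hc⟩
    have hc0 : c ≠ 0 := by
      rintro rfl
      have h2 := g.1.isUnit
      rw [zero_smul] at hc
      obtain ⟨x, hx⟩ := exists_ne_zero' C
      apply hx
      have e1 := (g.1⁻¹ : GL ι F).val
      have e2 : ((g.1⁻¹ : GL ι F) : Matrix ι ι F) * (g.1 : Matrix ι ι F) = 1 := gl_inv_mul _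
      rw [hc, mul_zero] at e2
      have e3 := congrArg (fun M : Matrix ι ι F => M *ᵥ x) e2
      simpa using e3.symm
    have e : simG Q g = C.scalarG (Units.mk0 c hc0) := by
      apply Subtype.ext
      apply Equiv.ext
      intro x
      change ((g.1 : GL ι F) : Matrix ι ι F) *ᵥ x = c • x
      rw [hc, Matrix.smul_mulVec, Matrix.one_mulVec]
    rw [e, C.Th_scalar]

section Lift
variable {F₀ : Type*} [Field F₀] [Fintype F₀] (ε : F₀ →+* F)
variable {Q₁ : (ι → F₀) → F₀} {B₁ : (ι → F₀) → (ι → F₀) → F₀}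

/-- vectors over the small field -/
def eV (x : ι → F₀) : ι → F := fun i => ε (x i)

lemma eV_add (x y : ι → F₀) : eV ε (x + y) = eV ε x + eV ε y := by
  funext i
  simp [eV]

lemma eV_smul (c : F₀) (x : ι → F₀) : eV ε (c • x) = ε c • eV ε x := by
  funext i
  simp [eV]

lemma eV_single (j : ι) : eV ε (Pi.single j (1 : F₀)) = (Pi.single j (1 : F) : ι → F) := by
  funext i
  by_cases e : i = j
  · subst e
    simp [eV]
  · simp [eV, e]

lemma eV_inj : Function.Injective (eV (ι := ι) ε) := by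
  intro x y e
  funext i
  exact ε.injective (congrFun e i)

/-- the matrix over the large field -/
noncomputable abbrev liftM : GL ι F₀ →* GL ι F := Matrix.GeneralLinearGroup.map ε

lemma liftM_val (g : GL ι F₀) : ((liftM ε g : GL ι F) : Matrix ι ι F) = (g : Matrix ι ι F₀).map ε := rfl

lemma liftM_mulVec (g : GL ι F₀) (x : ι → F₀) :
    ((liftM ε g : GL ι F) : Matrix ι ι F) *ᵥ eV ε x = eV ε ((g : Matrix ι ι F₀) *ᵥ x) := by
  funext i
  simp only [liftM_val, eV, Matrix.mulVec, dotProduct, map_sum, map_mul, Matrix.map_apply]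

lemma mat_mulVec_sum (g : Matrix ι ι F) (x : ι → F) : g *ᵥ x = ∑ j, x j • (g *ᵥ (Pi.single j 1 : ι → F)) := by
  conv_lhs =>
    rw [show x = ∑ j, x j • (Pi.single j 1 : ι → F) by
      funext i
      simp [Finset.sum_apply, Pi.single_apply]]
  rw [Matrix.mulVec_sum]
  apply Finset.sum_congr rfl
  intro j _
  rw [Matrix.mulVec_smul]

variable {ε}

lemma B_compat (h₁ : QF Q₁ B₁) (h : QF Q B) (hc : ∀ x, Q (eV ε x) = ε (Q₁ x)) (x y : ι → F₀) :
    B (eV ε x) (eV ε y) = ε (B₁ x y) := by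
  have e := hc (x + y)
  rw [eV_add, h.add, hc, hc, h₁.add, map_add, map_add] at e
  linear_combination e

/-- similarities over the small field are similarities over the large field -/
lemma liftM_sim (h₁ : QF Q₁ B₁) (h : QF Q B) (hc : ∀ x, Q (eV ε x) = ε (Q₁ x)) {g : GL ι F₀}
    (hg : g ∈ Cfsg.Geo.quadSimilarityGroup Q₁) : liftM ε g ∈ Cfsg.Geo.quadSimilarityGroup Q := by
  obtain ⟨c, hgc⟩ := hg
  have hQg : ∀ v : ι → F₀, Q₁ ((g : Matrix ι ι F₀) *ᵥ v) = c * Q₁ v := fun v => hgc v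
  have hBg : ∀ u v : ι → F₀, B₁ ((g : Matrix ι ι F₀) *ᵥ u) ((g : Matrix ι ι F₀) *ᵥ v) = c * B₁ u v := by
    intro u v
    have e := hQg (u + v)
    rw [Matrix.mulVec_add, h₁.add, h₁.add, hQg, hQg] at e
    linear_combination e
  refine ⟨Units.map (ε : F₀ →* F) c, fun x => ?_⟩
  rw [mat_mulVec_sum]
  have e1 : ∀ j, ((liftM ε g : GL ι F) : Matrix ι ι F) *ᵥ (Pi.single j 1 : ι → F) = eV ε ((g : Matrix ι ι F₀) *ᵥ (Pi.single j 1 : ι → F₀)) := by
    intro j
    rw [← eV_single ε j, liftM_mulVec]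
  apply form_of_family h h
  · intro j
    rw [e1, hc, hQg, map_mul, ← eV_single ε j, hc]
    rfl
  · intro i j
    rw [e1, e1, B_compat h₁ h hc, hBg, map_mul, ← eV_single ε j, ← eV_single ε i, B_compat h₁ h hc]
    rfl

/-- the lift of similarity matrices -/
noncomputable def liftS (h₁ : QF Q₁ B₁) (h : QF Q B) (hc : ∀ x, Q (eV ε x) = ε (Q₁ x)) :
    ↥(Cfsg.Geo.quadSimilarityGroup Q₁) →* ↥(Cfsg.Geo.quadSimilarityGroup Q) where
  toFun g := ⟨liftM ε g.1, liftM_sim h₁ h hc g.2⟩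
  map_one' := Subtype.ext (map_one _)
  map_mul' a b := Subtype.ext (map_mul _ _ _)

lemma liftS_val (h₁ : QF Q₁ B₁) (h : QF Q B) (hc : ∀ x, Q (eV ε x) = ε (Q₁ x)) (g : ↥(Cfsg.Geo.quadSimilarityGroup Q₁)) :
    ((liftS h₁ h hc g).1 : GL ι F) = liftM ε g.1 := rfl

/-- scalars over the two fields -/
lemma isScal_lift [Nonempty ι] (g : GL ι F₀) : IsScal (liftM ε g) ↔ IsScal g := by
  constructor
  · rintro ⟨c, hc⟩
    obtain ⟨i₀⟩ := ‹Nonempty ι›
    refine ⟨(g : Matrix ι ι F₀) i₀ i₀, ?_⟩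
    ext i j
    have e : ∀ i j, ε ((g : Matrix ι ι F₀) i j) = (c • (1 : Matrix ι ι F)) i j := by
      intro i j
      rw [← hc]
      rfl
    apply ε.injective
    rw [e]
    have e0 := e i₀ i₀
    simp only [Matrix.smul_apply, Matrix.one_apply_eq, smul_eq_mul, mul_one] at e0
    by_cases hij : i = j
    · subst hij
      simp only [Matrix.smul_apply, Matrix.one_apply_eq, smul_eq_mul, mul_one, map_mul, map_one]
      exact e0.symm
    · simp [Matrix.one_apply_ne hij]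
  · rintro ⟨c, hc⟩
    refine ⟨ε c, ?_⟩
    rw [liftM_val, hc]
    ext i j
    by_cases hij : i = j
    · subst hij
      simp
    · simp [Matrix.one_apply_ne hij]

end Lift

section Desc
variable {F₀ : Type*} [Field F₀] [Fintype F₀] {ε : F₀ →+* F}
variable {Q₁ : (ι → F₀) → F₀} {B₁ : (ι → F₀) → (ι → F₀) → F₀} {σ : F ≃+* F}
variable {m₁ m : ℕ} {t₁ : Fin m₁ → (ι → F₀) × (ι → F₀)} {t₀ : Fin m → (ι → F) × (ι → F)}

lemma liftM_comm (hε : ∀ a, σ a = a ↔ a ∈ Set.range ε) (g : GL ι F₀) (x : ι → F) :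
    ((liftM ε g : GL ι F) : Matrix ι ι F) *ᵥ smap σ x = smap σ (((liftM ε g : GL ι F) : Matrix ι ι F) *ᵥ x) := by
  funext i
  simp only [liftM_val, smap, Matrix.mulVec, dotProduct, map_sum, map_mul, Matrix.map_apply]
  apply Finset.sum_congr rfl
  intro j _
  rw [(hε _).2 ⟨_, rfl⟩]

/-- the lifts commute with the field automorphism -/
lemma Th_lift_comm (h₁ : QF Q₁ B₁) (C : Cx Q B t₀) (hc : ∀ x, Q (eV ε x) = ε (Q₁ x)) (hQσ : ∀ x, Q (smap σ x) = σ (Q x))
    (hε : ∀ a, σ a = a ↔ a ∈ Set.range ε) (g : ↥(Cfsg.Geo.quadSimilarityGroup Q₁)) :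
    Th C.h C.nd (simG Q (liftS h₁ C.h hc g)) * Th C.h C.nd (sigT σ hQσ) =
      Th C.h C.nd (sigT σ hQσ) * Th C.h C.nd (simG Q (liftS h₁ C.h hc g)) := by
  rw [← map_mul, ← map_mul]
  congr 1
  apply Subtype.ext
  apply Equiv.ext
  intro x
  exact liftM_comm hε g.1 x

/-- **Descent of the centralizer.** -/
theorem descent (C₁ : Cx Q₁ B₁ t₁) (C : Cx Q B t₀) (hc : ∀ x, Q (eV ε x) = ε (Q₁ x)) (hQσ : ∀ x, Q (smap σ x) = σ (Q x))
    (hε : ∀ a, σ a = a ↔ a ∈ Set.range ε) (D : ↥(Cfsg.Geo.quadSimilarityGroup Q))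
    (hD : Th C.h C.nd (simG Q D) * Th C.h C.nd (sigT σ hQσ) = Th C.h C.nd (sigT σ hQσ) * Th C.h C.nd (simG Q D)) :
    ∃ (g₁ : ↥(Cfsg.Geo.quadSimilarityGroup Q₁)) (u : F), u ≠ 0 ∧
      ((D.1 : GL ι F) : Matrix ι ι F) = u • ((liftM ε g₁.1 : GL ι F) : Matrix ι ι F) := by
  classical
  haveI : Finite (F ≃+* F) := Finite.of_injective (fun σ : F ≃+* F => (σ : F → F)) DFunLike.coe_injective
  set M : Matrix ι ι F := ((D.1 : GL ι F) : Matrix ι ι F) with hM
  have h1 : Th C.h C.nd (simG Q D * sigT σ hQσ * (simG Q D)⁻¹ * (sigT σ hQσ)⁻¹) = 1 := by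
    rw [map_mul, map_mul, map_mul, map_inv, map_inv, hD]
    group
  obtain ⟨α, hα, hT⟩ := C.scalar_of_Th _ h1
  have key : ∀ y : ι → F, M *ᵥ smap σ y = α • smap σ (M *ᵥ y) := by
    intro y
    have e := hT ((sigT σ hQσ : Equiv.Perm (ι → F)) ((simG Q D : Equiv.Perm (ι → F)) y))
    have e1 : α • smap σ (M *ᵥ y) = _ := e.symm
    rw [e1]
    change M *ᵥ smap σ y = (simG Q D : Equiv.Perm (ι → F)) ((sigT σ hQσ : Equiv.Perm (ι → F))
      (((simG Q D : Equiv.Perm (ι → F)))⁻¹ (((sigT σ hQσ : Equiv.Perm (ι → F)))⁻¹ ((sigT σ hQσ : Equiv.Perm (ι → F)) ((simG Q D : Equiv.Perm (ι → F)) y)))))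
    have hinv : ∀ (f : Equiv.Perm (ι → F)) x, f⁻¹ (f x) = x := fun f x => f.symm_apply_apply x
    rw [hinv, hinv]
    rfl
  have hent : ∀ i j, M i j = α * σ (M i j) := by
    intro i j
    have e := congrFun (key (Pi.single j 1)) i
    have e1 : smap σ (Pi.single j (1 : F)) = (Pi.single j 1 : ι → F) := by
      funext k
      by_cases hk : k = j
      · subst hk
        simp [smap]
      · simp [smap, hk]
    rw [e1, Matrix.mulVec_single_one] at e
    simp only [Pi.smul_apply, smul_eq_mul, smap, Matrix.mulVec_single_one] at e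
    exact e
  have hiter : ∀ (k : ℕ) (i j : ι), M i j = (∏ l ∈ Finset.range k, (σ ^ l) α) * (σ ^ k) (M i j) := by
    intro k i j
    induction k with
    | zero => simp
    | succ k ih =>
      rw [Finset.prod_range_succ, pow_succ]
      have e2 : (σ ^ k * σ) (M i j) = (σ ^ k) (σ (M i j)) := rfl
      rw [e2]
      have e3 : (σ ^ k) (M i j) = (σ ^ k) α * (σ ^ k) (σ (M i j)) := by
        conv_lhs => rw [hent i j]
        rw [map_mul]
      calc M i j = _ := ih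
        _ = _ := by
          rw [e3]
          ring
  -- a nonzero entry
  have hdetM : M.det ≠ 0 := (Matrix.isUnits_det_units (D.1 : GL ι F)).ne_zero
  obtain ⟨x₀, hx₀⟩ := exists_ne_zero' C
  haveI : Nonempty ι := by
    by_contra hne
    rw [not_nonempty_iff] at hne
    exact hx₀ (Subsingleton.elim _ _)
  obtain ⟨i₀, j₀, hij⟩ : ∃ i j, M i j ≠ 0 := by
    by_contra hall
    push Not at hall
    have hM0 : M = 0 := by
      ext i j
      exact hall i j
    rw [hM0, Matrix.det_zero] at hdetM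
    exact hdetM rfl
  have hN : ∏ l ∈ Finset.range (orderOf σ), (σ ^ l) α = 1 := by
    have e := hiter (orderOf σ) i₀ j₀
    rw [pow_orderOf_eq_one] at e
    have e2 : (1 : F ≃+* F) (M i₀ j₀) = M i₀ j₀ := rfl
    rw [e2] at e
    apply mul_right_cancel₀ hij
    rw [← e, one_mul]
  obtain ⟨u, hu0, hu⟩ := h90_scalar σ (orderOf_pos σ) α hN
  have hE : ∀ i j, σ (u⁻¹ * M i j) = u⁻¹ * M i j := by
    intro i j
    have e1 : σ u = u / α := by
      rw [eq_div_iff hα, mul_comm]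
      exact hu
    have e2 : σ (M i j) = M i j / α := by
      rw [eq_div_iff hα, mul_comm]
      exact (hent i j).symm
    rw [map_mul, map_inv₀, e1, e2]
    field_simp
  choose g₁F hg₁F using fun i j => (hε _).1 (hE i j)
  let g₁M : Matrix ι ι F₀ := Matrix.of g₁F
  have hmap : g₁M.map ε = u⁻¹ • M := by
    ext i j
    simp [g₁M, hg₁F]
  have hdet : g₁M.det ≠ 0 := by
    intro e
    have e2 := RingHom.map_det ε g₁M
    rw [e, map_zero] at e2
    have e3 : (ε.mapMatrix g₁M).det = (g₁M.map ε).det := rfl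
    rw [e3, hmap, Matrix.det_smul] at e2
    exact (mul_ne_zero (pow_ne_zero _ (inv_ne_zero hu0)) hdetM) e2.symm
  let g₁ : GL ι F₀ := Matrix.GeneralLinearGroup.mkOfDetNeZero g₁M hdet
  have hg₁v : ((liftM ε g₁ : GL ι F) : Matrix ι ι F) = u⁻¹ • M := hmap
  obtain ⟨c, hc'⟩ := D.2
  have hQM : ∀ v : ι → F, Q ((u⁻¹ • M) *ᵥ v) = ((u⁻¹) ^ 2 * (c : F)) * Q v := by
    intro v
    rw [Matrix.smul_mulVec, C.h.smul, mul_assoc]
    congr 1
    exact hc' v
  have hvals : ∀ v : ι → F₀, ε (Q₁ (g₁M *ᵥ v)) = ((u⁻¹) ^ 2 * (c : F)) * ε (Q₁ v) := by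
    intro v
    rw [← hc, ← hc, ← hQM, ← hmap]
    congr 1
    exact (liftM_mulVec ε g₁ v).symm
  obtain ⟨v₀, hv₀⟩ := exists_Q_ne C₁
  have hεv₀ : ε (Q₁ v₀) ≠ 0 := (map_ne_zero ε).2 hv₀
  have hκ : (u⁻¹) ^ 2 * (c : F) ≠ 0 := mul_ne_zero (pow_ne_zero _ (inv_ne_zero hu0)) c.ne_zero
  have hc₁ : ε (Q₁ (g₁M *ᵥ v₀) / Q₁ v₀) = (u⁻¹) ^ 2 * (c : F) := by
    rw [map_div₀, hvals]
    field_simp
  have hc₁0 : Q₁ (g₁M *ᵥ v₀) / Q₁ v₀ ≠ 0 := by
    intro e
    rw [e, map_zero] at hc₁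
    exact hκ hc₁.symm
  refine ⟨⟨g₁, Units.mk0 _ hc₁0, fun v => ε.injective ?_⟩, u, hu0, ?_⟩
  · change ε (Q₁ (g₁M *ᵥ v)) = ε ((Q₁ (g₁M *ᵥ v₀) / Q₁ v₀) * Q₁ v)
    rw [map_mul, hc₁, hvals]
  · rw [hg₁v, smul_smul, mul_inv_cancel₀ hu0, one_smul]

/-- **The centralizer as an image.** -/
theorem cen_range (C₁ : Cx Q₁ B₁ t₁) (C : Cx Q B t₀) (hc : ∀ x, Q (eV ε x) = ε (Q₁ x)) (hQσ : ∀ x, Q (smap σ x) = σ (Q x))
    (hε : ∀ a, σ a = a ↔ a ∈ Set.range ε) (H₁ : Subgroup ↥(Cfsg.Geo.quadSimilarityGroup Q₁))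
    (I : Subgroup ↥(Cfsg.Geo.quadSimilarityGroup Q)) (hscal : ∀ g : ↥(Cfsg.Geo.quadSimilarityGroup Q), IsScal g.1 → g ∈ I)
    (hI : ∀ g₁, liftS C₁.h C.h hc g₁ ∈ I ↔ g₁ ∈ H₁) :
    H₁.map (((Th C.h C.nd).comp (simG Q)).comp (liftS C₁.h C.h hc)) =
      I.map ((Th C.h C.nd).comp (simG Q)) ⊓ Subgroup.centralizer {Th C.h C.nd (sigT σ hQσ)} := by
  classical
  apply le_antisymm
  · rintro _ ⟨g₁, hg₁, rfl⟩
    refine ⟨⟨_, (hI g₁).2 hg₁, rfl⟩, ?_⟩
    change _ ∈ Subgroup.centralizer {Th C.h C.nd (sigT σ hQσ)}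
    rw [Subgroup.mem_centralizer_singleton_iff]
    exact Th_lift_comm C₁.h C hc hQσ hε g₁
  · rintro _ ⟨⟨D, hDI, rfl⟩, hcomm⟩
    have hcomm : _ ∈ Subgroup.centralizer {Th C.h C.nd (sigT σ hQσ)} := hcomm
    rw [Subgroup.mem_centralizer_singleton_iff] at hcomm
    obtain ⟨g₁, u, hu0, hD⟩ := descent C₁ C hc hQσ hε D hcomm
    have hs : IsScal ((D⁻¹ * liftS C₁.h C.h hc g₁ : ↥(Cfsg.Geo.quadSimilarityGroup Q)).1) := by
      refine ⟨u⁻¹, ?_⟩
      have e1 : (((D⁻¹ * liftS C₁.h C.h hc g₁ : ↥(Cfsg.Geo.quadSimilarityGroup Q)).1 : GL ι F) : Matrix ι ι F) =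
          ((D.1⁻¹ : GL ι F) : Matrix ι ι F) * ((liftM ε g₁.1 : GL ι F) : Matrix ι ι F) := rfl
      have e2 : ((liftM ε g₁.1 : GL ι F) : Matrix ι ι F) = u⁻¹ • ((D.1 : GL ι F) : Matrix ι ι F) := by
        rw [hD, smul_smul, inv_mul_cancel₀ hu0, one_smul]
      rw [e1, e2, Matrix.mul_smul, gl_inv_mul]
    have hmem : liftS C₁.h C.h hc g₁ ∈ I := by
      have := I.mul_mem hDI (hscal _ hs)
      simpa using this
    refine ⟨g₁, (hI g₁).1 hmem, ?_⟩
    have hTh := (Th_simG_eq_one_iff C _).2 hs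
    change Th C.h C.nd (simG Q (liftS C₁.h C.h hc g₁)) = Th C.h C.nd (simG Q D)
    rw [map_mul, map_mul, map_inv, map_inv, inv_mul_eq_one] at hTh
    exact hTh.symm

/-- **The centralizer, abstractly.** -/
theorem cen_iso (C₁ : Cx Q₁ B₁ t₁) (C : Cx Q B t₀) (hc : ∀ x, Q (eV ε x) = ε (Q₁ x)) (hQσ : ∀ x, Q (smap σ x) = σ (Q x))
    (hε : ∀ a, σ a = a ↔ a ∈ Set.range ε) (H₁ : Subgroup ↥(Cfsg.Geo.quadSimilarityGroup Q₁))
    (I : Subgroup ↥(Cfsg.Geo.quadSimilarityGroup Q)) (hscal : ∀ g : ↥(Cfsg.Geo.quadSimilarityGroup Q), IsScal g.1 → g ∈ I)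
    (hI : ∀ g₁, liftS C₁.h C.h hc g₁ ∈ I ↔ g₁ ∈ H₁) :
    Nonempty (↥(I.map ((Th C.h C.nd).comp (simG Q)) ⊓ Subgroup.centralizer {Th C.h C.nd (sigT σ hQσ)}) ≃*
      ↥(H₁.map ((Th C₁.h C₁.nd).comp (simG Q₁)))) := by
  classical
  obtain ⟨x₀, hx₀⟩ := exists_ne_zero' C
  haveI : Nonempty ι := by
    by_contra hne
    rw [not_nonempty_iff] at hne
    exact hx₀ (Subsingleton.elim _ _)
  let f₁ : ↥H₁ →* MulAut (Cfsg.POmega F₀ Q₁) := ((Th C₁.h C₁.nd).comp (simG Q₁)).comp H₁.subtype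
  let f₂ : ↥H₁ →* MulAut (Cfsg.POmega F Q) := (((Th C.h C.nd).comp (simG Q)).comp (liftS C₁.h C.h hc)).comp H₁.subtype
  have hker : f₂.ker = f₁.ker := by
    ext g
    rw [MonoidHom.mem_ker, MonoidHom.mem_ker]
    change Th C.h C.nd (simG Q (liftS C₁.h C.h hc g.1)) = 1 ↔ Th C₁.h C₁.nd (simG Q₁ g.1) = 1
    rw [Th_simG_eq_one_iff C, Th_simG_eq_one_iff C₁]
    exact isScal_lift g.1.1
  obtain ⟨E⟩ := range_iso_of_ker f₂ f₁ hker
  have e1 : f₁.range = H₁.map ((Th C₁.h C₁.nd).comp (simG Q₁)) := by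
    rw [MonoidHom.range_comp, Subgroup.range_subtype]
  have e2 : f₂.range = I.map ((Th C.h C.nd).comp (simG Q)) ⊓ Subgroup.centralizer {Th C.h C.nd (sigT σ hQσ)} := by
    rw [MonoidHom.range_comp, Subgroup.range_subtype]
    exact cen_range C₁ C hc hQσ hε H₁ I hscal hI
  rw [e1, e2] at E
  exact ⟨E⟩

end Desc

end Cfsg.Agent.Lead.LangOm
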