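import Cfsg.Agent.Lib.Lead.LangCen
/-! Centralizers of field automorphisms of orthogonal groups: reflections over the small field. -/
set_option autoImplicit false
set_option linter.style.haveILetI false
set_option linter.unusedSimpArgs false
set_option linter.unusedSectionVars false
set_option linter.unusedVariables false
namespace Cfsg.Agent.Lead.LangOm
open Matrix Module Cfsg.Agent.Lead.Ortho Cfsg.Agent.Lead.Omega Cfsg.Agent.H01.Om Cfsg.Agent.Lead.Lang
open Cfsg.Agent.H11 (IsMTS Rf Pb triangle)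

variable {F : Type*} [Field F] [Fintype F] {ι : Type} [Fintype ι] [DecidableEq ι]
variable {Q : (ι → F) → F} {B : (ι → F) → (ι → F) → F}
variable {F₀ : Type*} [Field F₀] [Fintype F₀] {ε : F₀ →+* F}
variable {Q₁ : (ι → F₀) → F₀} {B₁ : (ι → F₀) → (ι → F₀) → F₀}

/-- products of reflections -/
noncomputable def prodR (Q : (ι → F) → F) (L : List (ι → F)) : Matrix ι ι F :=
  (L.map (fun v => Cfsg.reflectionMatrix Q v)).prod

lemma prodR_nil : prodR Q [] = 1 := rfl

lemma prodR_cons (a : ι → F) (L : List (ι → F)) : prodR Q (a :: L) = Cfsg.reflectionMatrix Q a * prodR Q L := by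
  simp [prodR]

lemma prodR_append (L L' : List (ι → F)) : prodR Q (L ++ L') = prodR Q L * prodR Q L' := by
  simp [prodR]

/-- the reflection as a matrix -/
lemma R_val (Q₀ : QuadraticForm F (ι → F)) (hQ₀ : ⇑Q₀ = Q) (h : QF Q B) {a : ι → F} (ha : Q a ≠ 0) :
    ((R h a ha : OG F Q) : GL ι F).val = Cfsg.reflectionMatrix Q a := by
  subst hQ₀
  apply Matrix.mulVec_injective
  funext x
  have e1 : (((R h a ha : OG F ⇑Q₀) : GL ι F) : Matrix ι ι F) *ᵥ x = act (R h a ha) x := rfl
  have hB : ∀ x y, B x y = QuadraticMap.polar (⇑Q₀) x y := by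
    intro x y
    unfold QuadraticMap.polar
    rw [h.add]
    ring
  rw [e1, act_R, Cfsg.Agent.H03.reflection_mulVec, hB, QuadraticMap.polar_comm, div_eq_inv_mul]

/-- every isometry is a product of reflections -/
lemma exists_list_og (Q₀ : QuadraticForm F (ι → F)) (hQ₀ : ⇑Q₀ = Q) (h : QF Q B)
    (hRS : RS h (⊤ : Submodule F (ι → F)) = ⊤) (s : OG F Q) :
    ∃ L : List (ι → F), (∀ v ∈ L, Q v ≠ 0) ∧ ((s : GL ι F) : Matrix ι ι F) = prodR Q L := by
  subst hQ₀
  have hs : s ∈ RS h (⊤ : Submodule F (ι → F)) := by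
    rw [hRS]
    trivial
  induction hs using Subgroup.closure_induction with
  | mem s hs =>
    obtain ⟨a, ha, -, rfl⟩ := hs
    refine ⟨[a], ?_, ?_⟩
    · intro v hv
      rw [List.mem_singleton] at hv
      rwa [hv]
    · rw [prodR_cons, prodR_nil, mul_one]
      exact R_val Q₀ rfl h ha
  | one => exact ⟨[], by simp, rfl⟩
  | mul a b _ _ ha hb =>
    obtain ⟨L, hL, eL⟩ := ha
    obtain ⟨L', hL', eL'⟩ := hb
    refine ⟨L ++ L', ?_, ?_⟩
    · intro v hv
      rcases List.mem_append.1 hv with hv | hv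
      · exact hL v hv
      · exact hL' v hv
    · rw [prodR_append, ← eL, ← eL']
      rfl
  | inv a _ ha =>
    obtain ⟨L, hL, eL⟩ := ha
    refine ⟨L.reverse, by simpa using hL, ?_⟩
    have e1 : prodR (⇑Q₀) L * prodR (⇑Q₀) L.reverse = 1 := Cfsg.Agent.H11.prodM_inv Q₀ L hL
    rw [← eL] at e1
    have e2 : (((a⁻¹ : OG F ⇑Q₀) : GL ι F) : Matrix ι ι F) * ((a : GL ι F) : Matrix ι ι F) = 1 := by
      rw [← Units.val_mul]
      have : ((a⁻¹ : OG F ⇑Q₀) : GL ι F) * (a : GL ι F) = 1 := by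
        rw [← Subgroup.coe_mul, inv_mul_cancel]
        rfl
      rw [this, Units.val_one]
    calc (((a⁻¹ : OG F ⇑Q₀) : GL ι F) : Matrix ι ι F) = (((a⁻¹ : OG F ⇑Q₀) : GL ι F) : Matrix ι ι F) * (((a : GL ι F) : Matrix ι ι F) * prodR (⇑Q₀) L.reverse) := by
          rw [e1, mul_one]
      _ = _ := by
          rw [← mul_assoc, e2, one_mul]

lemma det_prodR (Q₀ : QuadraticForm F (ι → F)) (hQ₀ : ⇑Q₀ = Q) (L : List (ι → F)) (hL : ∀ v ∈ L, Q v ≠ 0) :
    (prodR Q L).det = (-1) ^ L.length := by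
  subst hQ₀
  exact Cfsg.Agent.H11.det_prodM Q₀ L hL

/-- the entries of a reflection under a field embedding -/
lemma map_refl (hc : ∀ x, Q (eV ε x) = ε (Q₁ x)) (v : ι → F₀) :
    (Cfsg.reflectionMatrix Q₁ v).map ε = Cfsg.reflectionMatrix Q (eV ε v) := by
  have hp : ∀ j, Cfsg.polarVec Q (eV ε v) j = ε (Cfsg.polarVec Q₁ v j) := by
    intro j
    unfold Cfsg.polarVec QuadraticMap.polar
    rw [← eV_single ε j, ← eV_add, hc, hc, hc, map_sub, map_sub]
  ext i j
  simp only [Cfsg.reflectionMatrix, Matrix.map_apply, Matrix.sub_apply, Matrix.smul_apply, Matrix.vecMulVec_apply, smul_eq_mul,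
    map_sub, map_mul, map_inv₀, hp, hc]
  congr 1
  · by_cases hij : i = j
    · subst hij
      simp
    · simp [Matrix.one_apply_ne hij]

lemma map_prodR (hc : ∀ x, Q (eV ε x) = ε (Q₁ x)) (L : List (ι → F₀)) :
    (prodR Q₁ L).map ε = prodR Q (L.map (eV ε)) := by
  induction L with
  | nil =>
    ext i j
    by_cases hij : i = j
    · subst hij
      simp [prodR]
    · simp [prodR, Matrix.one_apply_ne hij]
  | cons a L ih =>
    rw [List.map_cons, prodR_cons, prodR_cons, ← ih, ← map_refl hc]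
    exact Matrix.map_mul

end Cfsg.Agent.Lead.LangOm
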