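import Cfsg.Agent.Lib.Lead.LangCen2
/-! Spinor norm computations for the class counts of field automorphisms. -/
set_option autoImplicit false
set_option linter.style.haveILetI false
set_option linter.unusedSimpArgs false
set_option linter.unusedSectionVars false
set_option linter.unusedVariables false
namespace Cfsg.Agent.Lead.LangOm
open Matrix Module Cfsg.Agent.Lead.Ortho Cfsg.Agent.Lead.Omega Cfsg.Agent.H01.Om Cfsg.Agent.Lead.Lang
open Cfsg.Agent.H11 (IsMTS Rf Pb triangle)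

variable {F : Type*} [Field F] [Fintype F] {ι : Type} [Fintype ι] [DecidableEq ι]
variable {Q : (ι → F) → F} {B : (ι → F) → (ι → F) → F}
variable {F₀ : Type*} [Field F₀] [Fintype F₀] {ε : F₀ →+* F}
variable {Q₁ : (ι → F₀) → F₀} {B₁ : (ι → F₀) → (ι → F₀) → F₀}
variable {m : ℕ} {t₀ : Fin m → (ι → F) × (ι → F)}

/-- the data needed to use the spinor norm criterion -/
structure SD (C : Cx Q B t₀) : Prop where
  ex : ∃ Q₀ : QuadraticForm F (ι → F), ⇑Q₀ = Q ∧ (QuadraticMap.polarBilin Q₀).Nondegenerate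
  h2 : (2 : F) ≠ 0
  hn : 2 ≤ Fintype.card ι
  hRS : RS C.h (⊤ : Submodule F (ι → F)) = ⊤

lemma SD.list {C : Cx Q B t₀} (X : SD C) (s : OG F Q) :
    ∃ L : List (ι → F), (∀ v ∈ L, Q v ≠ 0) ∧ ((s : GL ι F) : Matrix ι ι F) = prodR Q L := by
  obtain ⟨Q₀, hQ₀, -⟩ := X.ex
  exact exists_list_og Q₀ hQ₀ C.h X.hRS s

lemma SD.mem_iff {C : Cx Q B t₀} (X : SD C) (s : OG F Q) (L : List (ι → F)) (hL : ∀ v ∈ L, Q v ≠ 0)
    (hs : ((s : GL ι F) : Matrix ι ι F) = prodR Q L) :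
    s ∈ SS C.h ↔ Even L.length ∧ IsSquare (L.map Q).prod := by
  classical
  obtain ⟨Q₀, rfl, hnd₀⟩ := X.ex
  rw [← C.hΩ]
  exact Cfsg.Agent.H11.spinor_criterion X.h2 X.hn Q₀ hnd₀ s L hL hs

lemma SD.det {C : Cx Q B t₀} (X : SD C) (s : OG F Q) (L : List (ι → F)) (hL : ∀ v ∈ L, Q v ≠ 0)
    (hs : ((s : GL ι F) : Matrix ι ι F) = prodR Q L) :
    ((s : GL ι F) : Matrix ι ι F).det = (-1) ^ L.length := by
  obtain ⟨Q₀, hQ₀, -⟩ := X.ex
  rw [hs]
  exact det_prodR Q₀ hQ₀ L hL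

lemma val_negO (h : QF Q B) : (((negO h : OG F Q) : GL ι F) : Matrix ι ι F) = -1 := by
  apply Matrix.mulVec_injective
  funext x
  have e : (((negO h : OG F Q) : GL ι F) : Matrix ι ι F) *ᵥ x = -x := act_negO h x
  rw [e, Matrix.neg_mulVec, Matrix.one_mulVec]

lemma val_negO_mul (h : QF Q B) (s : OG F Q) :
    (((negO h * s : OG F Q) : GL ι F) : Matrix ι ι F) = -((s : GL ι F) : Matrix ι ι F) := by
  have e : (((negO h * s : OG F Q) : GL ι F) : Matrix ι ι F) =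
      (((negO h : OG F Q) : GL ι F) : Matrix ι ι F) * ((s : GL ι F) : Matrix ι ι F) := rfl
  rw [e, val_negO, neg_one_mul]

/-- in odd dimension every isometry is, up to sign, an even product of reflections -/
lemma SD.even_list {C : Cx Q B t₀} (X : SD C) (hodd : Odd (Fintype.card ι)) (s : OG F Q) :
    ∃ (c : F) (L : List (ι → F)), c ≠ 0 ∧ (∀ v ∈ L, Q v ≠ 0) ∧ Even L.length ∧
      ((s : GL ι F) : Matrix ι ι F) = c • prodR Q L := by
  obtain ⟨L, hL, hs⟩ := X.list s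
  by_cases hev : Even L.length
  · exact ⟨1, L, one_ne_zero, hL, hev, by rw [hs, one_smul]⟩
  · obtain ⟨L', hL', hs'⟩ := X.list (negO C.h * s)
    refine ⟨-1, L', neg_ne_zero.2 one_ne_zero, hL', ?_, ?_⟩
    · have d' := X.det _ L' hL' hs'
      rw [val_negO_mul, Matrix.det_neg, X.det s L hL hs, hodd.neg_one_pow, (Nat.not_even_iff_odd.1 hev).neg_one_pow] at d'
      by_contra hne
      rw [(Nat.not_even_iff_odd.1 hne).neg_one_pow] at d'
      apply X.h2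
      linear_combination d'
    · rw [← hs', val_negO_mul, neg_smul, one_smul, neg_neg]

/-- the isometry with a given list of reflections -/
lemma exists_og_of_list (Q₀ : QuadraticForm F (ι → F)) (hQ₀ : ⇑Q₀ = Q) (h : QF Q B) (L : List (ι → F))
    (hL : ∀ v ∈ L, Q v ≠ 0) : ∃ s : OG F Q, ((s : GL ι F) : Matrix ι ι F) = prodR Q L := by
  induction L with
  | nil => exact ⟨1, rfl⟩
  | cons a L ih =>
    obtain ⟨s, hs⟩ := ih (fun v hv => hL v (List.mem_cons_of_mem _ hv))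
    have ha : Q a ≠ 0 := hL a (List.mem_cons_self)
    refine ⟨R h a ha * s, ?_⟩
    rw [prodR_cons, ← hs, ← R_val Q₀ hQ₀ h ha]
    rfl

lemma SD.og_of_list {C : Cx Q B t₀} (X : SD C) (L : List (ι → F)) (hL : ∀ v ∈ L, Q v ≠ 0) :
    ∃ s : OG F Q, ((s : GL ι F) : Matrix ι ι F) = prodR Q L := by
  obtain ⟨Q₀, hQ₀, -⟩ := X.ex
  exact exists_og_of_list Q₀ hQ₀ C.h L hL

omit [Fintype F] in
lemma act_of_val {s : OG F Q} {c : F} {M : Matrix ι ι F} (hs : ((s : GL ι F) : Matrix ι ι F) = c • M) (x : ι → F) :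
    act s x = c • (M *ᵥ x) := by
  change ((s : GL ι F) : Matrix ι ι F) *ᵥ x = _
  rw [hs, Matrix.smul_mulVec]

/-- squares in a finite field -/
lemma isSquare_mul_of_not (h2 : (2 : F) ≠ 0) {a b : F} (ha : ¬ IsSquare a) (hb : ¬ IsSquare b) : IsSquare (a * b) := by
  classical
  have ha0 : a ≠ 0 := by
    rintro rfl
    exact ha IsSquare.zero
  have hb0 : b ≠ 0 := by
    rintro rfl
    exact hb IsSquare.zero
  have hF : ringChar F ≠ 2 := by
    intro h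
    apply h2
    have := ringChar.Nat.cast_ringChar (R := F)
    rw [h] at this
    exact_mod_cast this
  rw [← quadraticChar_one_iff_isSquare (mul_ne_zero ha0 hb0), map_mul,
    (quadraticChar_neg_one_iff_not_isSquare).2 ha, (quadraticChar_neg_one_iff_not_isSquare).2 hb]
  norm_num

/-- a similarity with square multiplier is a multiple of an isometry -/
lemma exists_act_of_sq (C : Cx Q B t₀) {T : GS Q} {κ : F} (H : IsSemi Q (T : Equiv.Perm (ι → F)) 1 κ) (hκ : IsSquare κ) :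
    ∃ (μ : F) (s : OG F Q), μ ≠ 0 ∧ ∀ x, (T : Equiv.Perm (ι → F)) x = μ • act s x := by
  obtain ⟨c, hc⟩ := hκ
  have hc0 : c ≠ 0 := by
    rintro rfl
    exact H.hκ (by simpa using hc)
  have H1 := (isSemi_scalar C (Units.mk0 c hc0)⁻¹).mul H
  have H2 : IsSemi Q ((C.scalarG (Units.mk0 c hc0)⁻¹ * T : GS Q) : Equiv.Perm (ι → F)) 1 1 := by
    have e1 : (((Units.mk0 c hc0)⁻¹ : Fˣ) : F) ^ 2 * (1 : F ≃+* F) κ = 1 := by
      rw [hc]
      change (((Units.mk0 c hc0)⁻¹ : Fˣ) : F) ^ 2 * (c * c) = 1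
      simp
      field_simp
    have e2 : (1 : F ≃+* F) * 1 = 1 := one_mul 1
    rw [e1, e2] at H1
    exact H1
  obtain ⟨s, hs⟩ := C.ofO_of_semi_one H2
  refine ⟨c, s, hc0, fun x => ?_⟩
  have e := congrArg (fun W : GS Q => (W : Equiv.Perm (ι → F)) x) hs
  change (((Units.mk0 c hc0)⁻¹ : Fˣ) : F) • (T : Equiv.Perm (ι → F)) x = act s x at e
  rw [← e, smul_smul]
  simp [hc0]

/-- the inner automorphisms lie in the inner-diagonal group -/
lemma inn_le_map_GLS (C : Cx Q B t₀) : Cfsg.Inn (Cfsg.POmega F Q) ≤ (GLS Q).map (Th C.h C.nd) := by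
  rintro _ ⟨z, rfl⟩
  obtain ⟨t, rfl⟩ := QuotientGroup.mk_surjective z
  change MulAut.conj (QuotientGroup.mk t : Cfsg.POmega F Q) ∈ _
  rw [conj_mk_eq C]
  exact ⟨ofO (t : OG F Q), ⟨1, isSemi_permO _⟩, Th_ofO _ _ _⟩

/-- every inner-diagonal automorphism comes from an even word in the reflections -/
theorem SD.Th_even {C : Cx Q B t₀} (X : SD C) (hodd : Odd (Fintype.card ι)) {T : GS Q} (hT : T ∈ GLS Q) :
    ∃ (L : List (ι → F)) (s : OG F Q), (∀ v ∈ L, Q v ≠ 0) ∧ Even L.length ∧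
      ((s : GL ι F) : Matrix ι ι F) = prodR Q L ∧ Th C.h C.nd T = cc Q s := by
  obtain ⟨g, rfl⟩ := GLS_eq_simG C.h C.nd hT
  obtain ⟨κ, hκ⟩ := g.2
  have H : IsSemi Q (simPerm g.1) 1 (κ : F) := isSemi_simPerm κ.ne_zero hκ
  have hsq := isSquare_of_sim C.h C.nd hodd g.1 κ κ.ne_zero hκ
  obtain ⟨μ, s, hμ, hs⟩ := exists_act_of_sq C (T := simG Q g) H hsq
  obtain ⟨c, L, hc, hL, hev, hsL⟩ := X.even_list hodd s
  obtain ⟨s', hs'⟩ := X.og_of_list L hL
  refine ⟨L, s', hL, hev, hs', ?_⟩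
  refine C.Th_of_scalar (mul_ne_zero hμ hc) (fun x => ?_)
  rw [hs, act_of_val hsL x, smul_smul]
  change (μ * c) • (prodR Q L *ᵥ x) = (μ * c) • (((s' : GL ι F) : Matrix ι ι F) *ᵥ x)
  rw [hs']

/-- the dichotomy in odd dimension -/
theorem SD.dich {C : Cx Q B t₀} (X : SD C) (hodd : Odd (Fintype.card ι)) {a₁ a₂ : ι → F} (ha₁ : Q a₁ ≠ 0) (ha₂ : Q a₂ ≠ 0)
    (hns : ¬ IsSquare (Q a₁ * Q a₂)) (y : OG F Q) (hy : ((y : GL ι F) : Matrix ι ι F) = prodR Q [a₁, a₂]) {T : GS Q}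
    (hT : T ∈ GLS Q) :
    Th C.h C.nd T ∈ Cfsg.Inn (Cfsg.POmega F Q) ∨ Th C.h C.nd T * cc Q y ∈ Cfsg.Inn (Cfsg.POmega F Q) := by
  obtain ⟨L, s, hL, hev, hs, e⟩ := X.Th_even hodd hT
  rw [e]
  by_cases hq : IsSquare (L.map Q).prod
  · left
    rw [C.cc_inn_iff]
    exact Or.inl ((X.mem_iff s L hL hs).2 ⟨hev, hq⟩)
  · right
    rw [← map_mul, C.cc_inn_iff]
    left
    have hL' : ∀ v ∈ L ++ [a₁, a₂], Q v ≠ 0 := by
      intro v hv
      simp only [List.mem_append, List.mem_cons, List.not_mem_nil, or_false] at hv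
      rcases hv with hv | rfl | rfl
      · exact hL v hv
      · exact ha₁
      · exact ha₂
    refine (X.mem_iff (s * y) (L ++ [a₁, a₂]) hL' ?_).2 ⟨?_, ?_⟩
    · rw [prodR_append, ← hs, ← hy]
      rfl
    · rw [List.length_append]
      exact hev.add (by simp)
    · have e1 : ((L ++ [a₁, a₂]).map Q).prod = (L.map Q).prod * (Q a₁ * Q a₂) := by
        simp
      rw [e1]
      exact isSquare_mul_of_not X.h2 hq hns

/-- the product of two reflections with nonsquare product is not inner -/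
theorem SD.not_inn {C : Cx Q B t₀} (X : SD C) (hodd : Odd (Fintype.card ι)) {a₁ a₂ : ι → F} (ha₁ : Q a₁ ≠ 0) (ha₂ : Q a₂ ≠ 0)
    (hns : ¬ IsSquare (Q a₁ * Q a₂)) (y : OG F Q) (hy : ((y : GL ι F) : Matrix ι ι F) = prodR Q [a₁, a₂]) :
    cc Q y ∉ Cfsg.Inn (Cfsg.POmega F Q) := by
  intro h
  have hL : ∀ v ∈ [a₁, a₂], Q v ≠ 0 := by
    intro v hv
    simp only [List.mem_cons, List.not_mem_nil, or_false] at hv
    rcases hv with rfl | rfl
    · exact ha₁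
    · exact ha₂
  rw [C.cc_inn_iff] at h
  rcases h with h | h
  · have e := ((X.mem_iff y _ hL hy).1 h).2
    apply hns
    simpa using e
  · obtain ⟨L', hL', hs'⟩ := X.list (negO C.h * y)
    have e := ((X.mem_iff _ L' hL' hs').1 h).1
    have d' := X.det _ L' hL' hs'
    rw [val_negO_mul, Matrix.det_neg, X.det y _ hL hy, hodd.neg_one_pow, e.neg_one_pow] at d'
    apply X.h2
    simp at d'
    linear_combination -d'

section Lift
variable {t₁ : Fin m → (ι → F₀) × (ι → F₀)}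

lemma prod_map_eV (hc : ∀ x, Q (eV ε x) = ε (Q₁ x)) (L : List (ι → F₀)) :
    ((L.map (eV ε)).map Q).prod = ε (L.map Q₁).prod := by
  induction L with
  | nil => simp
  | cons a L ih =>
    simp only [List.map_cons, List.prod_cons, map_mul, hc]
    rw [ih]

/-- the lift of a multiple of a product of reflections -/
theorem Th_lift_list (C₁ : Cx Q₁ B₁ t₁) {C : Cx Q B t₀} (X : SD C) (hc : ∀ x, Q (eV ε x) = ε (Q₁ x))
    (g₁ : ↥(Cfsg.Geo.quadSimilarityGroup Q₁)) {c : F₀} {L : List (ι → F₀)} (hc0 : c ≠ 0) (hL : ∀ v ∈ L, Q₁ v ≠ 0)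
    (hg : ((g₁.1 : GL ι F₀) : Matrix ι ι F₀) = c • prodR Q₁ L) :
    ∃ s : OG F Q, ((s : GL ι F) : Matrix ι ι F) = prodR Q (L.map (eV ε)) ∧
      (∀ v ∈ L.map (eV ε), Q v ≠ 0) ∧ Th C.h C.nd (simG Q (liftS C₁.h C.h hc g₁)) = cc Q s := by
  have hL' : ∀ v ∈ L.map (eV ε), Q v ≠ 0 := by
    intro v hv
    obtain ⟨w, hw, rfl⟩ := List.mem_map.1 hv
    rw [hc]
    exact (map_ne_zero ε).2 (hL w hw)
  obtain ⟨s, hs⟩ := X.og_of_list _ hL'
  refine ⟨s, hs, hL', ?_⟩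
  refine C.Th_of_scalar ((map_ne_zero ε).2 hc0) (fun x => ?_)
  change ((liftM ε g₁.1 : GL ι F) : Matrix ι ι F) *ᵥ x = ε c • (((s : GL ι F) : Matrix ι ι F) *ᵥ x)
  rw [liftM_val, hg, hs, ← map_prodR hc, ← Matrix.smul_mulVec]
  congr 1
  ext i j
  simp

/-- when the small field consists of squares, the lifts are inner -/
theorem lift_inn {C₁ : Cx Q₁ B₁ t₁} {C : Cx Q B t₀} (X₁ : SD C₁) (X : SD C) (hodd : Odd (Fintype.card ι))
    (hc : ∀ x, Q (eV ε x) = ε (Q₁ x)) (hall : ∀ a : F₀, IsSquare (ε a)) (g₁ : ↥(Cfsg.Geo.quadSimilarityGroup Q₁)) :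
    Th C.h C.nd (simG Q (liftS C₁.h C.h hc g₁)) ∈ Cfsg.Inn (Cfsg.POmega F Q) := by
  obtain ⟨κ, hκ⟩ := g₁.2
  have H : IsSemi Q₁ (simPerm g₁.1) 1 (κ : F₀) := isSemi_simPerm κ.ne_zero hκ
  have hsq := isSquare_of_sim C₁.h C₁.nd hodd g₁.1 κ κ.ne_zero hκ
  obtain ⟨μ, s, hμ, hs⟩ := exists_act_of_sq C₁ (T := simG Q₁ g₁) H hsq
  obtain ⟨c, L, hc0, hL, hev, hsL⟩ := X₁.even_list hodd s
  have hg : ((g₁.1 : GL ι F₀) : Matrix ι ι F₀) = (μ * c) • prodR Q₁ L := by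
    apply Matrix.mulVec_injective
    funext x
    have e := hs x
    rw [act_of_val hsL x, smul_smul] at e
    rw [Matrix.smul_mulVec]
    exact e
  obtain ⟨s', hs', hL', e⟩ := Th_lift_list C₁ X hc g₁ (mul_ne_zero hμ hc0) hL hg
  rw [e, C.cc_inn_iff]
  left
  refine (X.mem_iff s' _ hL' hs').2 ⟨by simpa using hev, ?_⟩
  rw [prod_map_eV hc]
  exact hall _

end Lift

end Cfsg.Agent.Lead.LangOm
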