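import Cfsg.Agent.Lib.Lead.LangPSL
import Cfsg.Agent.Lib.Lead.LangCount
/-! Centralizers of field automorphisms of `PSL_n(F)` and the splitting of their classes. -/
set_option autoImplicit false
set_option linter.style.haveILetI false
set_option linter.unusedSimpArgs false
set_option linter.unusedSectionVars false
set_option linter.unusedVariables false
namespace Cfsg.Agent.Lead.Lang
open Matrix Matrix.SpecialLinearGroup
open Cfsg.Agent.Lead.AutPSL
open scoped MatrixGroups

variable {F : Type*} [Field F] [Fintype F] {n : ℕ}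

local notation "PS" => ProjectiveSpecialLinearGroup (Fin n) F

/-- the determinant of a scalar matrix -/
lemma det_sc (u : Fˣ) : Matrix.GeneralLinearGroup.det (sc u : GL (Fin n) F) = u ^ n := by
  apply Units.ext
  change ((sc u : GL (Fin n) F) : Matrix (Fin n) (Fin n) F).det = _
  rw [sc_coe, det_smul, det_one, mul_one]
  simp

/-- the count of classes as an index, for `PSL` -/
theorem split_PSL [Nontrivial (Fin n)] (x : MulAut PS) (D : Subgroup Fˣ)
    (hD : ∀ w, w ∈ D ↔ ∃ g : GL (Fin n) F, Matrix.GeneralLinearGroup.det g = w ∧ (cc g * x : MulAut PS) = x * cc g) :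
    Cfsg.splitClassCount (cc : GL (Fin n) F →* MulAut PS).range (Cfsg.Inn PS) x = D.index := by
  classical
  haveI : Nonempty (Fin n) := inferInstance
  let r₀ : Fin n := Classical.arbitrary _
  apply split_count (cc : GL (Fin n) F →* MulAut PS).range (Cfsg.Inn PS) x D (fun a => cc (dA r₀ a)) (fun a => ⟨_, rfl⟩)
  · rintro _ ⟨g, rfl⟩
    have h1 : Matrix.GeneralLinearGroup.det (g * (dA r₀ (Matrix.GeneralLinearGroup.det g))⁻¹) = 1 := by
      rw [map_mul, map_inv, det_dA, mul_inv_cancel]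
    obtain ⟨s, hs⟩ := exists_SL_of_det h1
    refine ⟨cc (toG s), ⟨pr (Fin n) F s, (cc_toG s).symm⟩, Matrix.GeneralLinearGroup.det g, ?_⟩
    rw [← map_mul, ← hs, inv_mul_cancel_right]
  · intro a b
    rw [hD]
    constructor
    · rintro ⟨k, ⟨y, rfl⟩, e⟩
      obtain ⟨s, hs⟩ := exists_toG y
      -- `hs : cc (toG s) = conj y`-like
      refine ⟨(dA r₀ a)⁻¹ * (toG s)⁻¹ * dA r₀ b, ?_, ?_⟩
      · have hd : Matrix.GeneralLinearGroup.det (toG s) = 1 := by
          apply Units.ext
          exact s.2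
        rw [map_mul, map_mul, map_inv, map_inv, det_dA, det_dA, hd, inv_one, mul_one]
      · have e1 : (cc (toG s) : MulAut PS) = MulAut.conj y := by
          rw [hs]
        rw [map_mul, map_mul, map_inv, map_inv, e1]
        have e2 : (cc (dA r₀ b) * x * (cc (dA r₀ b))⁻¹ : MulAut PS) =
            MulAut.conj y * (cc (dA r₀ a) * x * (cc (dA r₀ a))⁻¹) * (MulAut.conj y)⁻¹ := e
        have e3 : (cc (dA r₀ b) * x : MulAut PS) = (MulAut.conj y * (cc (dA r₀ a) * x * (cc (dA r₀ a))⁻¹) * (MulAut.conj y)⁻¹) * cc (dA r₀ b) := by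
          rw [← e2, inv_mul_cancel_right]
        calc ((cc (dA r₀ a))⁻¹ * (MulAut.conj y)⁻¹ * cc (dA r₀ b) * x : MulAut PS)
            = (cc (dA r₀ a))⁻¹ * (MulAut.conj y)⁻¹ * (cc (dA r₀ b) * x) := by group
          _ = _ := by
            rw [e3]
            group
    · rintro ⟨g, hg, hc⟩
      have h1 : Matrix.GeneralLinearGroup.det (dA r₀ b * g⁻¹ * (dA r₀ a)⁻¹) = 1 := by
        rw [map_mul, map_mul, map_inv, map_inv, det_dA, det_dA, hg, _root_.mul_inv_rev, inv_inv]
        rw [mul_inv_cancel_left, mul_inv_cancel]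
      obtain ⟨s, hs⟩ := exists_SL_of_det h1
      refine ⟨cc (toG s), ⟨pr (Fin n) F s, (cc_toG s).symm⟩, ?_⟩
      have e1 : dA r₀ b = toG s * dA r₀ a * g := by
        rw [← hs]
        group
      have e2 : (cc (dA r₀ b) : MulAut PS) = cc (toG s) * cc (dA r₀ a) * cc g := by
        rw [e1, map_mul, map_mul]
      rw [e2]
      have e3 : (cc g * x * (cc g)⁻¹ : MulAut PS) = x := by
        rw [hc, mul_inv_cancel_right]
      calc (cc (toG s) * cc (dA r₀ a) * cc g * x * (cc (toG s) * cc (dA r₀ a) * cc g)⁻¹ : MulAut PS)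
          = cc (toG s) * cc (dA r₀ a) * (cc g * x * (cc g)⁻¹) * (cc (dA r₀ a))⁻¹ * (cc (toG s))⁻¹ := by group
        _ = _ := by
          rw [e3]
          group

omit [Fintype F] in
lemma det_gm (σ : F ≃+* F) (g : GL (Fin n) F) :
    Matrix.GeneralLinearGroup.det (gm σ g) = Units.map (σ : F →* F) (Matrix.GeneralLinearGroup.det g) := by
  apply Units.ext
  change ((gm σ g : GL (Fin n) F) : Matrix (Fin n) (Fin n) F).det = σ ((g : Matrix (Fin n) (Fin n) F).det)
  rw [gm_coe]
  have := RingHom.map_det (σ : F →+* F) (g : Matrix (Fin n) (Fin n) F)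
  exact this.symm

/-- descent of a matrix fixed up to a scalar -/
lemma descend [Nontrivial (Fin n)] (σ : F ≃+* F) (g : GL (Fin n) F) (h : (cc (gm σ g) : MulAut PS) = cc g) :
    ∃ u : Fˣ, gm σ (sc u * g) = sc u * g := by
  classical
  haveI : Finite (F ≃+* F) := Finite.of_injective (fun σ : F ≃+* F => (σ : F → F)) DFunLike.coe_injective
  have h1 : (cc (gm σ g * g⁻¹) : MulAut PS) = 1 := by rw [map_mul, map_inv, h, mul_inv_cancel]
  rw [cc_eq_one_iff, Matrix.GeneralLinearGroup.center_eq_range_scalar] at h1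
  obtain ⟨c, hc⟩ := h1
  have hc' : gm σ g = sc c * g := by
    have hc2 : (sc c : GL (Fin n) F) = gm σ g * g⁻¹ := hc
    rw [hc2, inv_mul_cancel_right]
  have hit : ∀ k, gm (σ ^ k) g = sc (∏ i ∈ Finset.range k, Units.map (((σ ^ i : F ≃+* F) : F →* F)) c) * g := by
    intro k
    induction k with
    | zero =>
      simp [gm_one]
    | succ k ih =>
      have e1 : σ ^ (k + 1) = σ ^ k * σ := pow_succ σ k
      rw [e1, ← gm_gm, hc', map_mul, ih, gm_sc, Finset.prod_range_succ]
      have e9 : ∀ a b : Fˣ, (sc (a * b) : GL (Fin n) F) = sc a * sc b := fun a b => map_mul _ _ _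
      rw [e9, ← mul_assoc]
      congr 1
      exact sc_comm _ _
  have hN := hit (orderOf σ)
  rw [pow_orderOf_eq_one, gm_one] at hN
  have hN2 : (sc (∏ i ∈ Finset.range (orderOf σ), Units.map (((σ ^ i : F ≃+* F) : F →* F)) c) : GL (Fin n) F) = sc 1 := by
    have e2 : (sc 1 : GL (Fin n) F) = 1 := map_one _
    rw [e2]
    exact (mul_eq_right.mp hN.symm)
  have hN3 := sc_inj hN2
  obtain ⟨y, hy0, hy⟩ := h90_scalar σ (orderOf_pos σ) (c : F) (by
    have := congrArg Units.val hN3
    rw [Units.coe_prod] at this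
    exact this)
  refine ⟨Units.mk0 y hy0, ?_⟩
  rw [map_mul, gm_sc, hc', ← mul_assoc]
  congr 1
  have e9 : ∀ a b : Fˣ, (sc (a * b) : GL (Fin n) F) = sc a * sc b := fun a b => map_mul _ _ _
  rw [← e9]
  congr 1
  apply Units.ext
  rw [Units.val_mul]
  change σ y * (c : F) = y
  rw [mul_comm]
  exact hy

/-- the `σ`-fixed units -/
def fixS (σ : F ≃+* F) : Subgroup Fˣ where
  carrier := {u | σ (u : F) = u}
  mul_mem' := by
    intro a b ha hb
    simp only [Set.mem_ofPred_eq, Units.val_mul, map_mul] at *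
    rw [ha, hb]
  one_mem' := by simp
  inv_mem' := by
    intro a ha
    simp only [Set.mem_ofPred_eq, Units.val_inv_eq_inv_val, map_inv₀] at *
    rw [ha]

lemma mem_fixS {σ : F ≃+* F} {u : Fˣ} : u ∈ fixS σ ↔ σ (u : F) = u := Iff.rfl

/-- `diag(d,1,...,1)` is fixed when `d` is -/
lemma gm_dA (σ : F ≃+* F) (r₀ : Fin n) (d : Fˣ) (hd : σ (d : F) = d) : gm σ (dA r₀ d : GL (Fin n) F) = dA r₀ d := by
  apply Units.ext
  rw [gm_coe]
  change ((dg (Pi.mulSingle r₀ d) : GL (Fin n) F) : Matrix (Fin n) (Fin n) F).map σ = ((dg (Pi.mulSingle r₀ d) : GL (Fin n) F) : Matrix (Fin n) (Fin n) F)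
  rw [dg_coe]
  ext i j
  by_cases hij : i = j
  · subst hij
    by_cases hi : i = r₀
    · subst hi
      simp [hd]
    · simp [Pi.mulSingle_eq_of_ne hi]
  · simp [hij]

/-- the description of the determinants centralizing a field automorphism -/
lemma mem_fieldD_iff [Nontrivial (Fin n)] (σ : F ≃+* F) (w : Fˣ) :
    w ∈ (powMonoidHom n : Fˣ →* Fˣ).range ⊔ fixS σ ↔
      ∃ g : GL (Fin n) F, Matrix.GeneralLinearGroup.det g = w ∧ (cc g * fld σ : MulAut PS) = fld σ * cc g := by
  classical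
  constructor
  · intro hw
    obtain ⟨_, ⟨c, rfl⟩, d, hd, rfl⟩ := Subgroup.mem_sup.mp hw
    haveI : Nonempty (Fin n) := inferInstance
    let r₀ : Fin n := Classical.arbitrary _
    refine ⟨sc c * dA r₀ d, ?_, ?_⟩
    · rw [map_mul, det_sc, det_dA]
      rfl
    · rw [map_mul, cc_sc, one_mul, fld_cc, gm_dA σ r₀ d hd]
  · rintro ⟨g, rfl, hg⟩
    have h1 : (cc (gm σ g) : MulAut PS) = cc g := by
      have e := fld_cc (ι := Fin n) σ g
      rw [← hg] at e
      exact (mul_right_cancel e).symm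
    obtain ⟨u, hu⟩ := descend σ g h1
    have h2 : Matrix.GeneralLinearGroup.det (sc u * g) ∈ fixS σ := by
      rw [mem_fixS]
      have := det_gm σ (sc u * g)
      rw [hu] at this
      have e2 := congrArg Units.val this
      exact e2.symm
    have h3 : Matrix.GeneralLinearGroup.det g = (u⁻¹) ^ n * Matrix.GeneralLinearGroup.det (sc u * g) := by
      rw [map_mul, det_sc, inv_pow, inv_mul_cancel_left]
    rw [h3]
    exact Subgroup.mul_mem _ (Subgroup.mem_sup_left ⟨u⁻¹, rfl⟩) (Subgroup.mem_sup_right h2)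

/-- the fixed field and its size -/
lemma exists_fixed_field {p f r : ℕ} [Fact p.Prime] (hF : Fintype.card F = p ^ f) (σ : F ≃+* F)
    (hσ : orderOf σ = r) (hr0 : r ≠ 0) (hdvd : r ∣ f) :
    ∃ K : Subfield F, (∀ a, a ∈ K ↔ σ a = a) ∧ Nat.card K = p ^ (f / r) := by
  classical
  haveI : Finite (F ≃+* F) := Finite.of_injective (fun σ : F ≃+* F => (σ : F → F)) DFunLike.coe_injective
  let G : Subgroup (RingAut F) := Subgroup.zpowers (σ : RingAut F)
  haveI : Fintype G := Fintype.ofFinite _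
  let K : Subfield F := FixedPoints.subfield G F
  have hK : ∀ a, a ∈ K ↔ σ a = a := by
    intro a
    change a ∈ MulAction.fixedPoints G F ↔ _
    rw [MulAction.mem_fixedPoints]
    constructor
    · intro h
      exact h ⟨σ, Subgroup.mem_zpowers _⟩
    · intro h
      rintro ⟨g, hg⟩
      obtain ⟨k, rfl⟩ := Subgroup.mem_zpowers_iff.mp hg
      change ((σ : RingAut F) ^ k : RingAut F) a = a
      have hs : (σ : RingAut F) • a = a := h
      have hz : ∀ k : ℤ, (σ : RingAut F) ^ k • a = a := by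
        intro k
        exact (MulAction.mem_stabilizer_iff.mp (Subgroup.zpow_mem _ (MulAction.mem_stabilizer_iff.mpr hs) k))
      exact hz k
  refine ⟨K, hK, ?_⟩
  have h1 : Module.finrank K F = r := by
    have := FixedPoints.finrank_eq_card G F
    rw [this, ← Nat.card_eq_fintype_card, Nat.card_zpowers]
    exact hσ
  have h2 : Nat.card F = Nat.card K ^ Module.finrank K F := Module.natCard_eq_pow_finrank
  rw [h1, Nat.card_eq_fintype_card, hF] at h2
  obtain ⟨t, rfl⟩ := hdvd
  have h3 : r * t / r = t := Nat.mul_div_cancel_left t (Nat.pos_of_ne_zero hr0)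
  rw [h3]
  have h4 : (Nat.card K) ^ r = (p ^ t) ^ r := by
    rw [← h2, ← pow_mul, mul_comm]
  exact Nat.pow_left_injective (n := r) (by omega) h4

/-- the order of the group of fixed units -/
lemma card_fixS (σ : F ≃+* F) {K : Subfield F} (hK : ∀ a, a ∈ K ↔ σ a = a) :
    Nat.card (fixS σ) = Nat.card K - 1 := by
  classical
  let φ : Kˣ →* Fˣ := Units.map (K.subtype : K →* F)
  have hφ : Function.Injective φ := Units.map_injective K.subtype_injective
  have hr : φ.range = fixS σ := by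
    ext u
    constructor
    · rintro ⟨v, rfl⟩
      rw [mem_fixS]
      exact (hK _).mp (v : K).2
    · intro hu
      have h0 : ((⟨u, (hK _).mpr hu⟩ : K)) ≠ 0 := by
        intro h
        have := congrArg Subtype.val h
        exact u.ne_zero this
      exact ⟨Units.mk0 _ h0, Units.ext rfl⟩
  rw [← hr, Nat.card_congr (MonoidHom.ofInjective hφ).toEquiv.symm, Nat.card_units]

/-- the index of the group of determinants -/
lemma index_sup_fix {p f r : ℕ} [Fact p.Prime] (hF : Fintype.card F = p ^ f) (hf : 1 ≤ f) (σ : F ≃+* F)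
    (hσ : orderOf σ = r) (hr0 : r ≠ 0) (hdvd : r ∣ f) (n : ℕ) :
    ((powMonoidHom n : Fˣ →* Fˣ).range ⊔ fixS σ).index = Nat.gcd n ((p ^ f - 1) / (p ^ (f / r) - 1)) := by
  classical
  obtain ⟨K, hK, hcard⟩ := exists_fixed_field hF σ hσ hr0 hdvd
  have hp : 1 < p := (Fact.out : p.Prime).one_lt
  set q₀ := p ^ (f / r) with hq₀
  have hq₀1 : 1 < q₀ := by
    apply Nat.one_lt_pow _ hp
    have := Nat.pos_of_dvd_of_pos hdvd (by omega)
    exact Nat.ne_of_gt (Nat.div_pos (Nat.le_of_dvd (by omega) hdvd) this)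
  have hqq : p ^ f = q₀ ^ r := by
    rw [hq₀, ← pow_mul, Nat.div_mul_cancel hdvd]
  have hdv : q₀ - 1 ∣ p ^ f - 1 := by
    rw [hqq]
    have := Nat.sub_dvd_pow_sub_pow q₀ 1 r
    simpa using this
  set e := (p ^ f - 1) / (q₀ - 1) with he
  have hcardG : Nat.card Fˣ = p ^ f - 1 := by
    rw [Nat.card_units, Nat.card_eq_fintype_card, hF]
  have h1 : e * (q₀ - 1) = Nat.card Fˣ := by
    rw [hcardG, he, Nat.div_mul_cancel hdv]
  have h2 : fixS σ = (powMonoidHom e : Fˣ →* Fˣ).range :=
    eq_pow_range_of_card _ h1 (by rw [card_fixS σ hK, hcard])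
  rw [h2, pow_range_sup, index_pow_range, hcardG]
  apply Nat.gcd_eq_right
  have h3 : e ∣ p ^ f - 1 := by
    rw [he]
    exact Nat.div_dvd_of_dvd hdv
  exact (Nat.gcd_dvd_right n e).trans h3

/-- lifting a matrix with entries in the image of a field embedding -/
lemma exists_lift_matrix {F₀ : Type*} [Field F₀] (ε : F₀ →+* F) (M : Matrix (Fin n) (Fin n) F)
    (h : ∀ i j, M i j ∈ Set.range ε) : ∃ M₀ : Matrix (Fin n) (Fin n) F₀, M₀.map ε = M := by
  choose c hc using h
  exact ⟨Matrix.of c, by ext i j; exact hc i j⟩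

/-- the embedding of `PGL_n(F₀)` into the centralizer -/
theorem centralizer_field [Nontrivial (Fin n)] {F₀ : Type*} [Field F₀] [Fintype F₀] (σ : F ≃+* F) (ε : F₀ →+* F)
    (hε : ∀ a, σ a = a ↔ a ∈ Set.range ε) :
    Nonempty (↥((cc : GL (Fin n) F →* MulAut PS).range ⊓ Subgroup.centralizer {(fld σ : MulAut PS)}) ≃*
      Matrix.ProjGenLinGroup (Fin n) F₀) := by
  classical
  let gε : GL (Fin n) F₀ →* GL (Fin n) F := Matrix.GeneralLinearGroup.map ε
  have hgε : ∀ g₀ : GL (Fin n) F₀, gm σ (gε g₀) = gε g₀ := by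
    intro g₀
    apply Units.ext
    ext i j
    change σ (ε ((g₀ : Matrix (Fin n) (Fin n) F₀) i j)) = ε ((g₀ : Matrix (Fin n) (Fin n) F₀) i j)
    exact (hε _).mpr ⟨_, rfl⟩
  have hmem : ∀ g₀ : GL (Fin n) F₀, (cc (gε g₀) : MulAut PS) ∈
      (cc : GL (Fin n) F →* MulAut PS).range ⊓ Subgroup.centralizer {(fld σ : MulAut PS)} := by
    intro g₀
    refine Subgroup.mem_inf.mpr ⟨⟨_, rfl⟩, Subgroup.mem_centralizer_singleton_iff.mpr ?_⟩
    rw [fld_cc, hgε]
  let Φ : GL (Fin n) F₀ →* ↥((cc : GL (Fin n) F →* MulAut PS).range ⊓ Subgroup.centralizer {(fld σ : MulAut PS)}) :=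
    MonoidHom.codRestrict (cc.comp gε) _ hmem
  have hsurj : Function.Surjective Φ := by
    rintro ⟨_, ⟨g, rfl⟩, hz⟩
    have hz' : (cc g * fld σ : MulAut PS) = fld σ * cc g := Subgroup.mem_centralizer_singleton_iff.mp hz
    have h1 : (cc (gm σ g) : MulAut PS) = cc g := by
      have e := fld_cc (ι := Fin n) σ g
      rw [← hz'] at e
      exact (mul_right_cancel e).symm
    obtain ⟨u, hu⟩ := descend σ g h1
    set g' := sc u * g with hg'
    have hfix : ∀ i j, (g' : Matrix (Fin n) (Fin n) F) i j ∈ Set.range ε := by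
      intro i j
      rw [← hε]
      have h4 : ((gm σ g' : GL (Fin n) F) : Matrix (Fin n) (Fin n) F) i j = (g' : Matrix (Fin n) (Fin n) F) i j := by rw [hu]
      exact h4
    have hfix' : ∀ i j, ((g'⁻¹ : GL (Fin n) F) : Matrix (Fin n) (Fin n) F) i j ∈ Set.range ε := by
      intro i j
      rw [← hε]
      have h3 : gm σ g'⁻¹ = g'⁻¹ := by rw [map_inv, hu]
      have h4 : ((gm σ g'⁻¹ : GL (Fin n) F) : Matrix (Fin n) (Fin n) F) i j = ((g'⁻¹ : GL (Fin n) F) : Matrix (Fin n) (Fin n) F) i j := by rw [h3]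
      exact h4
    obtain ⟨M₀, hM₀⟩ := exists_lift_matrix ε _ hfix
    obtain ⟨N₀, hN₀⟩ := exists_lift_matrix ε _ hfix'
    have hinj : Function.Injective (fun A : Matrix (Fin n) (Fin n) F₀ => A.map ε) :=
      Matrix.map_injective ε.injective
    have h1' : M₀ * N₀ = 1 := by
      apply hinj
      change (M₀ * N₀).map ε = (1 : Matrix (Fin n) (Fin n) F₀).map ε
      rw [Matrix.map_mul, hM₀, hN₀, ← Units.val_mul, mul_inv_cancel, Units.val_one]
      ext i j
      by_cases hij : i = j
      · subst hij; simp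
      · simp [Matrix.one_apply, hij]
    have h2' : N₀ * M₀ = 1 := mul_eq_one_comm.mp h1'
    let g₀ : GL (Fin n) F₀ := ⟨M₀, N₀, h1', h2'⟩
    refine ⟨g₀, ?_⟩
    apply Subtype.ext
    change (cc (gε g₀) : MulAut PS) = cc g
    have e1 : gε g₀ = g' := by
      apply Units.ext
      exact hM₀
    rw [e1, hg', map_mul, cc_sc, one_mul]
  have hker : Φ.ker = Subgroup.center (GL (Fin n) F₀) := by
    ext g₀
    rw [MonoidHom.mem_ker]
    have e1 : Φ g₀ = 1 ↔ (cc (gε g₀) : MulAut PS) = 1 := by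
      constructor
      · intro h
        exact congrArg Subtype.val h
      · intro h
        exact Subtype.ext h
    rw [e1, cc_eq_one_iff, Matrix.GeneralLinearGroup.center_eq_range_scalar, Matrix.GeneralLinearGroup.center_eq_range_scalar]
    constructor
    · rintro ⟨c, hc⟩
      have hc2 : (sc c : GL (Fin n) F) = gε g₀ := hc
      obtain ⟨i₀⟩ : Nonempty (Fin n) := inferInstance
      have hm : ∀ i j, ε ((g₀ : Matrix (Fin n) (Fin n) F₀) i j) = ((sc c : GL (Fin n) F) : Matrix (Fin n) (Fin n) F) i j := by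
        intro i j
        rw [hc2]
        rfl
      simp only [sc_coe] at hm
      have hd : (g₀ : Matrix (Fin n) (Fin n) F₀) i₀ i₀ ≠ 0 := by
        intro h0
        have := hm i₀ i₀
        rw [h0, map_zero] at this
        simp at this
        exact c.ne_zero this.symm
      refine ⟨Units.mk0 _ hd, ?_⟩
      apply Units.ext
      change Matrix.scalar (Fin n) ((g₀ : Matrix (Fin n) (Fin n) F₀) i₀ i₀) = _
      ext i j
      apply ε.injective
      rw [hm i j]
      by_cases hij : i = j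
      · subst hij
        have := hm i₀ i₀
        simp only [Matrix.smul_apply, Matrix.one_apply_eq, smul_eq_mul, mul_one] at this
        simp [this]
      · simp [hij]
    · rintro ⟨c, hc⟩
      refine ⟨Units.map (ε : F₀ →* F) c, ?_⟩
      rw [← hc]
      apply Units.ext
      ext i j
      change (Matrix.scalar (Fin n) (ε c)) i j = ε ((Matrix.scalar (Fin n) (c : F₀)) i j)
      by_cases hij : i = j
      · subst hij; simp
      · simp [hij]
  exact ⟨(QuotientGroup.quotientKerEquivOfSurjective Φ hsurj).symm.trans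
    (QuotientGroup.quotientMulEquivOfEq hker)⟩

/-- S2698 -/
theorem field_aut_data {p f : ℕ} [Fact p.Prime] (hF : Fintype.card F = p ^ f) (hf : 1 ≤ f) (hn : 2 ≤ n)
    (x : MulAut PS) (hx : Cfsg.IsFieldAutClassPSL x) {r : ℕ} (hr : r.Prime) (hxr : orderOf x = r)
    (F₀ : Type*) [Field F₀] [Fintype F₀] (hF₀ : Fintype.card F₀ = p ^ (f / r)) :
    r ∣ f ∧ Nonempty (↥(Cfsg.inndiagPSL n F ⊓ Subgroup.centralizer {x}) ≃* Matrix.ProjGenLinGroup (Fin n) F₀) ∧
      Cfsg.splitClassCount (Cfsg.inndiagPSL n F) (Cfsg.Inn PS) x = Nat.gcd n ((p ^ f - 1) / (p ^ (f / r) - 1)) := by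
  classical
  haveI : Nontrivial (Fin n) := Fin.nontrivial_iff_two_le.mpr hn
  haveI : Finite (F ≃+* F) := Finite.of_injective (fun σ : F ≃+* F => (σ : F → F)) DFunLike.coe_injective
  have hI := inndiag_eq (F := F) (n := n)
  haveI hnorm : (cc : GL (Fin n) F →* MulAut PS).range.Normal := cc_range_normal hF hf hn
  obtain ⟨α, σ, hσ, hstd⟩ := hx
  have e := (std_iff σ _).mp hstd
  have hσr : orderOf σ = r := by
    rw [← orderOf_fld (n := n), ← e, orderOf_conj', hxr]
  have hdvd : r ∣ f := by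
    rw [← hσr, ← AutPSL.card_ringAut hF hf]
    exact orderOf_dvd_natCard σ
  refine ⟨hdvd, ?_, ?_⟩
  · rw [hI]
    obtain ⟨E1⟩ := centralizer_conj_equiv (cc : GL (Fin n) F →* MulAut PS).range α x
    rw [e] at E1
    obtain ⟨K, hK, hcard⟩ := exists_fixed_field hF σ hσr hr.ne_zero hdvd
    haveI : Fintype K := Fintype.ofFinite _
    have hc : Fintype.card F₀ = Fintype.card K := by
      rw [hF₀, ← Nat.card_eq_fintype_card (α := K), hcard]
    let e₀ : F₀ ≃+* K := FiniteField.ringEquivOfCardEq hc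
    let ε : F₀ →+* F := K.subtype.comp (e₀ : F₀ →+* K)
    have hε : ∀ a, σ a = a ↔ a ∈ Set.range ε := by
      intro a
      constructor
      · intro ha
        refine ⟨e₀.symm ⟨a, (hK a).mpr ha⟩, ?_⟩
        simp [ε]
      · rintro ⟨b, rfl⟩
        exact (hK _).mp (e₀ b).2
    obtain ⟨E2⟩ := centralizer_field (n := n) σ ε hε
    exact ⟨E1.trans E2⟩
  · rw [hI]
    haveI : (Cfsg.Inn PS).Normal := inferInstance
    rw [split_conj _ _ α x, e, split_PSL _ _ (mem_fieldD_iff σ)]
    exact index_sup_fix hF hf σ hσr hr.ne_zero hdvd n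

end Cfsg.Agent.Lead.Lang
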