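import Cfsg.Agent.Lib.Lead.LangCen3
import Cfsg.Agent.Lib.Lead.LangPSL2
/-! Class counts of field automorphisms of the odd-dimensional orthogonal groups. -/
set_option autoImplicit false
set_option linter.style.haveILetI false
set_option linter.unusedSimpArgs false
set_option linter.unusedSectionVars false
set_option linter.unusedVariables false
namespace Cfsg.Agent.Lead.LangOm
open Matrix Module Cfsg.Agent.Lead.Ortho Cfsg.Agent.Lead.Omega Cfsg.Agent.H01.Om Cfsg.Agent.Lead.Lang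
open Cfsg.Agent.H11 (IsMTS Rf Pb triangle)

variable {F : Type*} [Field F] [Fintype F]
variable {F₀ : Type*} [Field F₀] [Fintype F₀]

/-- the field-theoretic data of a field automorphism of prime order -/
lemma field_setup {p f r : ℕ} [Fact p.Prime] (hF : Fintype.card F = p ^ f) (hf : 1 ≤ f) (σ : F ≃+* F) (hσ : orderOf σ = r)
    (hr : r.Prime) (hF₀ : Fintype.card F₀ = p ^ (f / r)) :
    r ∣ f ∧ ∃ ε : F₀ →+* F, (∀ a, σ a = a ↔ a ∈ Set.range ε) ∧ Fintype.card F = (Fintype.card F₀) ^ r := by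
  classical
  haveI : Finite (F ≃+* F) := Finite.of_injective (fun σ : F ≃+* F => (σ : F → F)) DFunLike.coe_injective
  have hdvd : r ∣ f := by
    rw [← hσ, ← Cfsg.Agent.Lead.AutPSL.card_ringAut hF hf]
    exact orderOf_dvd_natCard σ
  refine ⟨hdvd, ?_⟩
  obtain ⟨K, hK, hcard⟩ := exists_fixed_field hF σ hσ hr.ne_zero hdvd
  haveI : Fintype K := Fintype.ofFinite _
  have hc : Fintype.card F₀ = Fintype.card K := by
    rw [hF₀, ← Nat.card_eq_fintype_card (α := K), hcard]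
  let e₀ : F₀ ≃+* K := FiniteField.ringEquivOfCardEq hc
  refine ⟨K.subtype.comp (e₀ : F₀ →+* K), ?_, ?_⟩
  · intro a
    constructor
    · intro ha
      refine ⟨e₀.symm ⟨a, (hK a).mpr ha⟩, ?_⟩
      simp
    · rintro ⟨b, rfl⟩
      exact (hK _).mp (e₀ b).2
  · rw [hF, hF₀, ← pow_mul, Nat.div_mul_cancel hdvd]

/-- in a quadratic extension all elements of the small field are squares -/
lemma ext_sq_two (ε : F₀ →+* F) (hodd : Odd (Fintype.card F₀)) (hcard : Fintype.card F = (Fintype.card F₀) ^ 2) (a : F₀) :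
    IsSquare (ε a) := by
  classical
  by_cases ha : a = 0
  · rw [ha, map_zero]
    exact IsSquare.zero
  obtain ⟨k, hk⟩ := hodd
  have hodd' : Fintype.card F % 2 = 1 := by
    rw [hcard, hk]
    have : (2 * k + 1) ^ 2 = 2 * (2 * k * (k + 1)) + 1 := by ring
    omega
  have hch : ringChar F ≠ 2 := by
    intro h
    have := FiniteField.even_card_of_char_two h
    omega
  rw [FiniteField.isSquare_iff hch ((map_ne_zero ε).2 ha)]
  have e : Fintype.card F / 2 = 2 * k * (k + 1) := by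
    rw [hcard, hk]
    have : (2 * k + 1) ^ 2 = 2 * (2 * k * (k + 1)) + 1 := by ring
    omega
  have e2 : a ^ (2 * k) = 1 := by
    have := FiniteField.pow_card_sub_one_eq_one a ha
    rwa [hk, Nat.add_sub_cancel] at this
  rw [e, pow_mul, ← map_pow, e2, map_one, one_pow]

/-- in an odd degree extension nonsquares stay nonsquares -/
lemma ext_nonsq_odd (ε : F₀ →+* F) {r : ℕ} (hr : Odd r) (hodd : Odd (Fintype.card F₀)) (hcard : Fintype.card F = (Fintype.card F₀) ^ r)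
    {ν : F₀} (hν : ¬ IsSquare ν) : ¬ IsSquare (ε ν) := by
  classical
  obtain ⟨k, hk⟩ := hodd
  have hν0 : ν ≠ 0 := by
    rintro rfl
    exact hν IsSquare.zero
  have hch₀ : ringChar F₀ ≠ 2 := by
    intro h
    have := FiniteField.even_card_of_char_two h
    omega
  have key : ∀ t : ℕ, ∃ N : ℕ, (2 * k + 1) ^ t = 1 + 2 * k * N ∧ N % 2 = t % 2 := by
    intro t
    induction t with
    | zero => exact ⟨0, by simp⟩
    | succ t ih =>
      obtain ⟨N, e1, e2⟩ := ih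
      refine ⟨1 + N * (2 * k + 1), by rw [pow_succ, e1]; ring, ?_⟩
      have : (1 + N * (2 * k + 1)) = 1 + N + 2 * (N * k) := by ring
      omega
  obtain ⟨N, e1, e2⟩ := key r
  have hN : Odd N := by
    rw [Nat.odd_iff] at hr ⊢
    omega
  have hodd' : Fintype.card F % 2 = 1 := by
    rw [hcard, hk, e1]
    have : 1 + 2 * k * N = 2 * (k * N) + 1 := by ring
    omega
  have hch : ringChar F ≠ 2 := by
    intro h
    have := FiniteField.even_card_of_char_two h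
    omega
  have e : Fintype.card F / 2 = k * N := by
    rw [hcard, hk, e1]
    have : 1 + 2 * k * N = 2 * (k * N) + 1 := by ring
    omega
  have e₀ : Fintype.card F₀ / 2 = k := by
    rw [hk]
    omega
  have hm1 : ν ^ k = -1 := by
    rcases FiniteField.pow_dichotomy hch₀ hν0 with h | h
    · exact absurd ((FiniteField.isSquare_iff hch₀ hν0).2 h) hν
    · rwa [e₀] at h
  rw [FiniteField.isSquare_iff hch ((map_ne_zero ε).2 hν0), e, pow_mul, ← map_pow, hm1, map_neg, map_one, hN.neg_one_pow]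
  intro h
  apply Ring.neg_one_ne_one_of_char_ne_two hch h

section Odd
variable {m : ℕ}

lemma exists_SD_odd (hodd : Odd (Fintype.card F)) (hm : 3 ≤ m) :
    ∃ (t₀ : Fin m → _) (C : Cx (Cfsg.quadFormOdd m F) (polarOdd m F) t₀), SD C := by
  have h2 : (2 : F) ≠ 0 := two_ne_zero_of_odd rfl hodd
  obtain ⟨m', rfl⟩ : ∃ m', m = m' + 1 + 1 := ⟨m - 2, by omega⟩
  refine ⟨_, mkCx (qfOdd (F := F) (m' + 1 + 1)) (ndOdd _ h2) (frameOdd_HF _) (by omega) (frameOdd_anis _), ?_⟩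
  exact ⟨⟨Cfsg.Agent.H11.oddForm _ F, Cfsg.Agent.H11.oddForm_coe _, Cfsg.Agent.H11.odd_nondeg h2 _⟩, h2,
    by simp only [Fintype.card_sum, Fintype.card_unit, Fintype.card_fin]; omega,
    RS_eq_top (qfOdd _) (ndOdd _ h2) (by simp only [Fintype.card_sum, Fintype.card_unit, Fintype.card_fin]; omega) (frameOdd_HF _) (frameOdd_anis _)⟩

/-- a vector of value one -/
noncomputable def vecA (m : ℕ) (F : Type*) [Field F] : Unit ⊕ (Fin m ⊕ Fin m) → F := Pi.single (Sum.inl ()) 1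

/-- a vector of a given value -/
noncomputable def vecB {F : Type*} [Field F] (i₀ : Fin m) (ν : F) : Unit ⊕ (Fin m ⊕ Fin m) → F :=
  Pi.single (Sum.inr (Sum.inl i₀)) 1 + ν • Pi.single (Sum.inr (Sum.inr i₀)) 1

lemma Q_vecA : Cfsg.quadFormOdd m F (vecA m F) = 1 := by
  classical
  simp [Cfsg.quadFormOdd, vecA, Pi.single_apply]

lemma Q_vecB (i₀ : Fin m) (ν : F) : Cfsg.quadFormOdd m F (vecB i₀ ν) = ν := by
  classical
  simp [Cfsg.quadFormOdd, vecB, Pi.single_apply]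

lemma eV_vecA (ε : F₀ →+* F) : eV ε (vecA m F₀) = vecA m F := eV_single ε _

lemma eV_vecB (ε : F₀ →+* F) (i₀ : Fin m) (ν : F₀) : eV ε (vecB i₀ ν) = vecB i₀ (ε ν) := by
  unfold vecB
  rw [eV_add, eV_smul, eV_single, eV_single]

lemma eV_Q_odd (ε : F₀ →+* F) (x : Unit ⊕ (Fin m ⊕ Fin m) → F₀) :
    Cfsg.quadFormOdd m F (eV ε x) = ε (Cfsg.quadFormOdd m F₀ x) := by
  simp [Cfsg.quadFormOdd, eV, map_add, map_pow, map_sum, map_mul]

/-- **Field automorphisms of odd dimensional orthogonal groups.** -/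
theorem field_aut_odd {p f : ℕ} [Fact p.Prime] (hF : Fintype.card F = p ^ f) (hf : 1 ≤ f) (hodd : Odd (Fintype.card F))
    (hm : 3 ≤ m) (x : MulAut (Cfsg.POmega F (Cfsg.quadFormOdd m F))) (hx : Cfsg.IsFieldAutClassPOmega (Cfsg.quadFormOdd m F) x)
    {r : ℕ} (hr : r.Prime) (hxr : orderOf x = r) (hF₀ : Fintype.card F₀ = p ^ (f / r)) :
    r ∣ f ∧ Nonempty (↥(Cfsg.inndiagPOmegaOdd m F ⊓ Subgroup.centralizer {x}) ≃* ↥(Cfsg.inndiagPOmegaOdd m F₀)) ∧
      (Odd r → Cfsg.splitClassCount (Cfsg.inndiagPOmegaOdd m F) (Cfsg.Inn (Cfsg.POmega F (Cfsg.quadFormOdd m F))) x = 1) ∧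
      (r = 2 → Cfsg.splitClassCount (Cfsg.inndiagPOmegaOdd m F) (Cfsg.Inn (Cfsg.POmega F (Cfsg.quadFormOdd m F))) x = 2) := by
  classical
  have h2 : (2 : F) ≠ 0 := two_ne_zero_of_odd rfl hodd
  obtain ⟨t₀, C, X⟩ := exists_SD_odd (F := F) hodd hm
  have hI : Cfsg.inndiagPOmegaOdd m F = (GLS (Cfsg.quadFormOdd m F)).map (Th C.h C.nd) := pgo_eq C.h C.nd
  have hΓ := gamma_top_odd hodd hm (F := F)
  haveI hnorm : ((GLS (Cfsg.quadFormOdd m F)).map (Th C.h C.nd)).Normal := range_GLS_normal C hΓ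
  obtain ⟨α, φ, σ, hσ, hstd, hφ⟩ := hx
  have hQσ := fun y => smap_odd (m := m) σ y
  have e : α * x * α⁻¹ = Th C.h C.nd (sigT σ hQσ) := by
    rw [hφ]
    exact fld_eq_Th C σ hQσ hstd
  have hσr : orderOf σ = r := by
    rw [← orderOf_sigT C σ hQσ, ← e, orderOf_conj', hxr]
  obtain ⟨hdvd, ε, hε, hcard⟩ := field_setup (F₀ := F₀) hF hf σ hσr hr hF₀
  have hp2 : Odd (Fintype.card F₀) := by
    rw [hF₀]
    rw [hF] at hodd
    have hp : Odd p := by
      by_contra hp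
      rw [Nat.not_odd_iff_even] at hp
      have : Even (p ^ f) := hp.pow_of_ne_zero (by omega)
      exact (Nat.not_even_iff_odd.2 hodd) this
    exact hp.pow
  have h2₀ : (2 : F₀) ≠ 0 := two_ne_zero_of_odd rfl hp2
  obtain ⟨t₁, C₁, X₁⟩ := exists_SD_odd (F := F₀) (m := m) hp2 hm
  have hI₁ : Cfsg.inndiagPOmegaOdd m F₀ = (GLS (Cfsg.quadFormOdd m F₀)).map (Th C₁.h C₁.nd) := pgo_eq C₁.h C₁.nd
  have hc : ∀ y, Cfsg.quadFormOdd m F (eV ε y) = ε (Cfsg.quadFormOdd m F₀ y) := eV_Q_odd ε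
  have hcardι : Odd (Fintype.card (Unit ⊕ (Fin m ⊕ Fin m))) := by
    simp only [Fintype.card_sum, Fintype.card_unit, Fintype.card_fin]
    exact ⟨m, by ring⟩
  have hrS := range_simG C.h C.nd
  have hrS₁ := range_simG C₁.h C₁.nd
  let i₀ : Fin m := ⟨0, by omega⟩
  -- the centralizer
  have hcen := cen_range C₁ C hc hQσ hε ⊤ ⊤ (fun _ _ => trivial) (fun _ => by simp)
  rw [hrS] at hcen
  have hcount : Cfsg.splitClassCount ((GLS (Cfsg.quadFormOdd m F)).map (Th C.h C.nd)) (Cfsg.Inn (Cfsg.POmega F (Cfsg.quadFormOdd m F))) x =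
      ((Cfsg.Inn (Cfsg.POmega F (Cfsg.quadFormOdd m F)) ⊔ ((GLS (Cfsg.quadFormOdd m F)).map (Th C.h C.nd) ⊓ Subgroup.centralizer {Th C.h C.nd (sigT σ hQσ)})).subgroupOf ((GLS (Cfsg.quadFormOdd m F)).map (Th C.h C.nd))).index := by
    rw [split_conj _ _ α x, e, split_eq_relIndex _ _ (inn_le_map_GLS C)]
  refine ⟨hdvd, ?_, ?_, ?_⟩
  · rw [hI]
    obtain ⟨E1⟩ := centralizer_conj_equiv ((GLS (Cfsg.quadFormOdd m F)).map (Th C.h C.nd)) α x
    rw [e] at E1
    obtain ⟨E2⟩ := cen_iso C₁ C hc hQσ hε ⊤ ⊤ (fun _ _ => trivial) (fun _ => by simp)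
    rw [hrS, hrS₁, ← hI₁] at E2
    exact ⟨E1.trans E2⟩
  · intro hro
    rw [hI, hcount]
    obtain ⟨ν₀, hν₀⟩ := Cfsg.Agent.H01.Om.exists_nonsq hp2
    have hν : ¬ IsSquare (ε ν₀) := ext_nonsq_odd ε hro hp2 hcard hν₀
    have hν0 : ν₀ ≠ 0 := by
      rintro rfl
      exact hν₀ IsSquare.zero
    have hL : ∀ v ∈ [vecA m F₀, vecB i₀ ν₀], Cfsg.quadFormOdd m F₀ v ≠ 0 := by
      intro v hv
      simp only [List.mem_cons, List.not_mem_nil, or_false] at hv
      rcases hv with rfl | rfl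
      · rw [Q_vecA]
        exact one_ne_zero
      · rw [Q_vecB]
        exact hν0
    obtain ⟨s₁, hs₁⟩ := X₁.og_of_list _ hL
    have hs₁G : s₁.1 ∈ Cfsg.Geo.quadSimilarityGroup (Cfsg.quadFormOdd m F₀) :=
      ⟨1, fun v => by
        rw [Units.val_one, one_mul]
        exact s₁.2 v v⟩
    obtain ⟨s, hs, hLs, eT⟩ := Th_lift_list C₁ X hc ⟨s₁.1, hs₁G⟩ one_ne_zero hL (by rw [one_smul]; exact hs₁)
    simp only [List.map_cons, List.map_nil, eV_vecA, eV_vecB] at hs hLs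
    have ha₁ : Cfsg.quadFormOdd m F (vecA m F) ≠ 0 := by
      rw [Q_vecA]
      exact one_ne_zero
    have ha₂ : Cfsg.quadFormOdd m F (vecB i₀ (ε ν₀)) ≠ 0 := by
      rw [Q_vecB]
      exact (map_ne_zero ε).2 hν0
    have hns : ¬ IsSquare (Cfsg.quadFormOdd m F (vecA m F) * Cfsg.quadFormOdd m F (vecB i₀ (ε ν₀))) := by
      rw [Q_vecA, Q_vecB, one_mul]
      exact hν
    have hymem : cc (Cfsg.quadFormOdd m F) s ∈ (GLS (Cfsg.quadFormOdd m F)).map (Th C.h C.nd) ⊓ Subgroup.centralizer {Th C.h C.nd (sigT σ hQσ)} := by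
      rw [← hcen, ← eT]
      exact ⟨_, trivial, rfl⟩
    have htop : (Cfsg.Inn (Cfsg.POmega F (Cfsg.quadFormOdd m F)) ⊔ ((GLS (Cfsg.quadFormOdd m F)).map (Th C.h C.nd) ⊓ Subgroup.centralizer {Th C.h C.nd (sigT σ hQσ)})).subgroupOf ((GLS (Cfsg.quadFormOdd m F)).map (Th C.h C.nd)) = ⊤ := by
      rw [Subgroup.subgroupOf_eq_top]
      rintro _ ⟨T, hT, rfl⟩
      rcases X.dich hcardι ha₁ ha₂ hns s hs hT with h | h
      · exact Subgroup.mem_sup_left h
      · have e3 : Th C.h C.nd T = (Th C.h C.nd T * cc (Cfsg.quadFormOdd m F) s) * (cc (Cfsg.quadFormOdd m F) s)⁻¹ := by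
          group
        rw [e3]
        exact Subgroup.mul_mem _ (Subgroup.mem_sup_left h) (Subgroup.inv_mem _ (Subgroup.mem_sup_right hymem))
    rw [htop, Subgroup.index_top]
  · intro hr2
    rw [hI, hcount]
    subst hr2
    have hall : ∀ a : F₀, IsSquare (ε a) := ext_sq_two ε hp2 hcard
    have hle : (GLS (Cfsg.quadFormOdd m F)).map (Th C.h C.nd) ⊓ Subgroup.centralizer {Th C.h C.nd (sigT σ hQσ)} ≤ Cfsg.Inn (Cfsg.POmega F (Cfsg.quadFormOdd m F)) := by
      rw [← hcen]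
      rintro _ ⟨g₁, -, rfl⟩
      exact lift_inn X₁ X hcardι hc hall g₁
    rw [sup_eq_left.2 hle]
    obtain ⟨ν, hν⟩ := Cfsg.Agent.H01.Om.exists_nonsq hodd
    have hν0 : ν ≠ 0 := by
      rintro rfl
      exact hν IsSquare.zero
    have ha₁ : Cfsg.quadFormOdd m F (vecA m F) ≠ 0 := by
      rw [Q_vecA]
      exact one_ne_zero
    have ha₂ : Cfsg.quadFormOdd m F (vecB i₀ ν) ≠ 0 := by
      rw [Q_vecB]
      exact hν0
    have hns : ¬ IsSquare (Cfsg.quadFormOdd m F (vecA m F) * Cfsg.quadFormOdd m F (vecB i₀ ν)) := by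
      rw [Q_vecA, Q_vecB, one_mul]
      exact hν
    have hL : ∀ v ∈ [vecA m F, vecB i₀ ν], Cfsg.quadFormOdd m F v ≠ 0 := by
      intro v hv
      simp only [List.mem_cons, List.not_mem_nil, or_false] at hv
      rcases hv with rfl | rfl
      · exact ha₁
      · exact ha₂
    obtain ⟨s, hs⟩ := X.og_of_list _ hL
    have hsI : cc (Cfsg.quadFormOdd m F) s ∈ (GLS (Cfsg.quadFormOdd m F)).map (Th C.h C.nd) :=
      ⟨ofO s, ⟨1, isSemi_permO _⟩, Th_ofO _ _ _⟩
    have hsn := X.not_inn hcardι ha₁ ha₂ hns s hs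
    rw [Subgroup.index_eq_two_iff]
    refine ⟨⟨_, hsI⟩, ?_⟩
    rintro ⟨β, hβ⟩
    obtain ⟨T, hT, rfl⟩ := hβ
    simp only [Subgroup.mem_subgroupOf, Subgroup.coe_mul]
    rcases X.dich hcardι ha₁ ha₂ hns s hs hT with h | h
    · right
      refine ⟨h, fun h' => hsn ?_⟩
      have := Subgroup.mul_mem _ (Subgroup.inv_mem _ h) h'
      simpa using this
    · left
      refine ⟨h, fun h' => hsn ?_⟩
      have := Subgroup.mul_mem _ (Subgroup.inv_mem _ h') h
      simpa using this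

end Odd

end Cfsg.Agent.Lead.LangOm
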