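import Cfsg.Agent.Lib.Lead.Lang
/-! Orthonormal frames for nondegenerate Hermitian forms over finite fields. -/
set_option autoImplicit false
set_option linter.style.haveILetI false
set_option linter.unusedSimpArgs false
set_option linter.unusedSectionVars false
set_option linter.unusedVariables false
namespace Cfsg.Agent.Lead.Lang
open Matrix
open scoped MatrixGroups

universe u v
variable {F : Type u} [Field F]

/-- a Hermitian form -/
structure IsHerm (σ : F ≃+* F) {V : Type v} [AddCommGroup V] [Module F V] (B : V → V → F) : Prop where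
  add_left : ∀ x y z, B (x + y) z = B x z + B y z
  smul_left : ∀ (c : F) x z, B (c • x) z = c * B x z
  conj : ∀ x y, B y x = σ (B x y)
  nondeg : ∀ x, (∀ y, B x y = 0) → x = 0

section
variable {σ : F ≃+* F} {V : Type v} [AddCommGroup V] [Module F V] {B : V → V → F} (H : IsHerm σ B)
include H

lemma IsHerm.add_right (x y z : V) : B x (y + z) = B x y + B x z := by
  rw [H.conj (y + z) x, H.add_left, map_add, ← H.conj, ← H.conj]

lemma IsHerm.smul_right (c : F) (x z : V) : B x (c • z) = σ c * B x z := by
  rw [H.conj (c • z) x, H.smul_left, map_mul, ← H.conj]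

lemma IsHerm.self_fixed (x : V) : σ (B x x) = B x x := (H.conj x x).symm

lemma IsHerm.zero_left (z : V) : B 0 z = 0 := by
  have := H.smul_left 0 0 z
  simpa using this

lemma IsHerm.sub_left (x y z : V) : B (x - y) z = B x z - B y z := by
  have h1 := H.add_left (x - y) y z
  rw [sub_add_cancel] at h1
  rw [h1]; ring

/-- there is a non-isotropic vector -/
lemma IsHerm.exists_aniso (hσ : σ ≠ 1) {u v : V} (huv : B u v ≠ 0) : ∃ w, B w w ≠ 0 := by
  by_contra hall
  push Not at hall
  -- the trace form
  have h1 : ∀ c : F, c * B u v + σ (c * B u v) = 0 := by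
    intro c
    have h2 := hall (c • u + v)
    rw [H.add_left, H.add_right, H.add_right, hall (c • u), hall v, H.smul_left] at h2
    have h3 : B v (c • u) = σ (c * B u v) := by
      rw [H.conj (c • u) v, H.smul_left]
    rw [h3] at h2
    linear_combination h2
  apply hσ
  have h2 : ∀ c : F, σ c = - c * (B u v / σ (B u v)) := by
    intro c
    have h3 := h1 c
    have hne : σ (B u v) ≠ 0 := (map_ne_zero σ).mpr huv
    rw [map_mul] at h3
    field_simp
    linear_combination h3
  have h3 := h2 1
  rw [map_one] at h3
  have h4 : ∀ c : F, σ c = c := by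
    intro c
    rw [h2 c]
    have : (B u v / σ (B u v)) = -1 := by linear_combination h3
    rw [this]
    ring
  ext c
  exact h4 c

end

/-- orthonormal families -/
theorem exists_orthonormal [Finite F] {σ : F ≃+* F} (hσ : σ ≠ 1) (hσ2 : orderOf σ = 2) (d : ℕ) :
    ∀ (V : Type v) [AddCommGroup V] [Module F V] [FiniteDimensional F V] (B : V → V → F), IsHerm σ B →
      Module.finrank F V = d → ∃ b : Fin d → V, ∀ i j, B (b i) (b j) = if i = j then 1 else 0 := by
  induction d with
  | zero =>
    intro V _ _ _ B H hd
    exact ⟨Fin.elim0, fun i => i.elim0⟩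
  | succ d ih =>
    intro V _ _ _ B H hd
    haveI : Nontrivial V := Module.nontrivial_of_finrank_pos (R := F) (by omega)
    obtain ⟨u, hu⟩ := exists_ne (0 : V)
    obtain ⟨v, hv⟩ : ∃ v, B u v ≠ 0 := by
      by_contra hall
      push Not at hall
      exact hu (H.nondeg u hall)
    obtain ⟨w, hw⟩ := H.exists_aniso hσ hv
    obtain ⟨μ, hμ0, hμ⟩ := norm_surj σ hw (H.self_fixed w)
    rw [hσ2] at hμ
    simp only [Finset.prod_range_succ, Finset.prod_range_zero, one_mul, pow_zero, pow_one] at hμ
    have hμ' : μ * σ μ = B w w := hμ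
    let w' : V := μ⁻¹ • w
    have hw' : B w' w' = 1 := by
      simp only [w']
      rw [H.smul_left, H.smul_right, ← hμ', map_inv₀]
      have : σ μ ≠ 0 := (map_ne_zero σ).mpr hμ0
      field_simp
    let φ : V →ₗ[F] F :=
      { toFun := fun x => B x w'
        map_add' := fun x y => H.add_left x y w'
        map_smul' := fun c x => by simp [H.smul_left] }
    have hφ : Function.Surjective φ := by
      intro c
      refine ⟨c • w', ?_⟩
      change B (c • w') w' = c
      rw [H.smul_left, hw', mul_one]
    have hker : Module.finrank F (LinearMap.ker φ) = d := by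
      have h1 := LinearMap.finrank_range_add_finrank_ker φ
      rw [LinearMap.range_eq_top.mpr hφ, finrank_top, Module.finrank_self] at h1
      omega
    let B' : LinearMap.ker φ → LinearMap.ker φ → F := fun x y => B x y
    have H' : IsHerm σ B' :=
      { add_left := fun x y z => H.add_left x y z
        smul_left := fun c x z => H.smul_left c x z
        conj := fun x y => H.conj x y
        nondeg := by
          intro x hx
          apply Subtype.ext
          apply H.nondeg x.1
          intro y
          have hy : y - B y w' • w' ∈ LinearMap.ker φ := by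
            rw [LinearMap.mem_ker]
            change B (y - B y w' • w') w' = 0
            rw [H.sub_left, H.smul_left, hw', mul_one, sub_self]
          have h1 := hx ⟨_, hy⟩
          change B x.1 (y - B y w' • w') = 0 at h1
          have hx' : B x.1 w' = 0 := LinearMap.mem_ker.mp x.2
          have h2 : B x.1 y = B x.1 (y - B y w' • w') + B x.1 (B y w' • w') := by
            rw [← H.add_right, sub_add_cancel]
          rw [h2, h1, zero_add, H.smul_right (B y w') x.1 w', hx', mul_zero] }
    obtain ⟨b', hb'⟩ := ih (LinearMap.ker φ) B' H' hker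
    refine ⟨Fin.cons w' (fun i => (b' i).1), ?_⟩
    have hperp : ∀ i, B (b' i).1 w' = 0 := fun i => LinearMap.mem_ker.mp (b' i).2
    intro i j
    refine Fin.cases ?_ (fun i' => ?_) i <;> refine Fin.cases ?_ (fun j' => ?_) j
    · simpa using hw'
    · simp only [Fin.cons_zero, Fin.cons_succ]
      rw [H.conj (b' j').1 w', hperp j', map_zero]
      simp [Fin.succ_ne_zero, (Fin.succ_ne_zero j').symm]
    · simp only [Fin.cons_zero, Fin.cons_succ]
      rw [hperp i']
      simp [Fin.succ_ne_zero]
    · simp only [Fin.cons_succ]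
      have := hb' i' j'
      change B (b' i').1 (b' j').1 = _ at this
      rw [this]
      simp [Fin.succ_inj]

section Mat
variable {ι : Type*} [Fintype ι] [DecidableEq ι]

/-- every invertible Hermitian matrix is `h σ(h)ᵀ` -/
theorem herm_eq_mul [Finite F] {σ : F ≃+* F} (hσ : σ ≠ 1) (hσ2 : orderOf σ = 2) (g : GL ι F)
    (hg : ((g : Matrix ι ι F).map σ)ᵀ = (g : Matrix ι ι F)) :
    ∃ h : GL ι F, (g : Matrix ι ι F) = (h : Matrix ι ι F) * ((h : Matrix ι ι F).map σ)ᵀ := by
  classical
  let M : Matrix ι ι F := g
  let V := ι → F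
  let B : V → V → F := fun u v => u ⬝ᵥ (M *ᵥ fun i => σ (v i))
  have hsig2 : σ * σ = 1 := by
    have := pow_orderOf_eq_one σ
    rwa [hσ2, pow_two] at this
  have hss : ∀ a : F, σ (σ a) = a := fun a => DFunLike.congr_fun hsig2 a
  have hconj : ∀ x y : V, B y x = σ (B x y) := by
    intro x y
    simp only [B, dotProduct, Matrix.mulVec, map_sum, map_mul, hss]
    simp only [Finset.mul_sum]
    rw [Finset.sum_comm]
    apply Finset.sum_congr rfl
    intro i _
    apply Finset.sum_congr rfl
    intro j _
    have h1 : M j i = σ (M i j) := by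
      have := congrFun (congrFun hg j) i
      simp only [Matrix.transpose_apply, Matrix.map_apply] at this
      exact this.symm
    rw [h1]
    ring
  have H : IsHerm σ B :=
    { add_left := fun x y z => add_dotProduct x y _
      smul_left := fun c x z => smul_dotProduct c x _
      conj := hconj
      nondeg := by
        intro x hx
        by_contra hne
        -- `B x y = xᵀ M σ(y)`; since `M` is invertible, this is nondegenerate
        have h1 : ∀ z : V, x ⬝ᵥ (M *ᵥ z) = 0 := by
          intro z
          have := hx (fun i => σ.symm (z i))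
          simpa [B] using this
        have h2 : ∀ z : V, x ⬝ᵥ z = 0 := by
          intro z
          have := h1 (((g⁻¹ : GL ι F) : Matrix ι ι F) *ᵥ z)
          have e : M * ((g⁻¹ : GL ι F) : Matrix ι ι F) = 1 := by
            simp only [M]
            rw [← Units.val_mul, mul_inv_cancel, Units.val_one]
          rwa [Matrix.mulVec_mulVec, e, Matrix.one_mulVec] at this
        apply hne
        funext i
        have := h2 (Pi.single i 1)
        change x i = 0
        simpa using this }
  obtain ⟨b, hb⟩ := exists_orthonormal hσ hσ2 (Fintype.card ι) V B H (by simp [V])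
  let e : ι ≃ Fin (Fintype.card ι) := Fintype.equivFin ι
  let P : Matrix ι ι F := Matrix.of fun i j => b (e j) i
  -- Gram matrix
  have hgram : Pᵀ * (M * P.map σ) = 1 := by
    ext i j
    have h1 := hb (e i) (e j)
    simp only [B, EmbeddingLike.apply_eq_iff_eq] at h1
    rw [Matrix.one_apply]
    rw [← h1]
    simp only [Matrix.mul_apply, dotProduct, Matrix.mulVec, Matrix.transpose_apply, Matrix.map_apply, P, Matrix.of_apply]
  let Q : Matrix ι ι F := M * P.map σ
  have hQ2 : Q * Pᵀ = 1 := mul_eq_one_comm.mp hgram
  let h : GL ι F := ⟨Q, Pᵀ, hQ2, hgram⟩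
  refine ⟨h, ?_⟩
  change M = Q * (Q.map σ)ᵀ
  -- `σ(Q)ᵀ σ(P) = 1`
  have h3 : (Q.map σ)ᵀ * P.map σ = 1 := by
    have h4 : ((Pᵀ * (M * P.map σ)).map σ)ᵀ = ((1 : Matrix ι ι F).map σ)ᵀ := by rw [hgram]
    rw [Matrix.map_mul, Matrix.transpose_mul] at h4
    have e1 : (Pᵀ.map σ)ᵀ = P.map σ := by
      ext i j; simp
    rw [e1] at h4
    rw [h4]
    ext i j
    by_cases hij : i = j
    · subst hij
      simp
    · simp [Matrix.one_apply, hij, Ne.symm hij]
  have h5 : P.map σ * (Q.map σ)ᵀ = 1 := mul_eq_one_comm.mp h3
  change M = (M * P.map σ) * (Q.map σ)ᵀ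
  rw [Matrix.mul_assoc, h5, Matrix.mul_one]

end Mat

end Cfsg.Agent.Lead.Lang
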