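import Cfsg.Agent.Lib.Lead.AutPSLOut
import Cfsg.Agent.Lib.Lead.LangHerm
/-! Lang-Steinberg for field and graph-field automorphisms of `PSL_n(F)`. -/
set_option autoImplicit false
set_option linter.style.haveILetI false
set_option linter.unusedSimpArgs false
set_option linter.unusedSectionVars false
set_option linter.unusedVariables false
namespace Cfsg.Agent.Lead.Lang
open Matrix Matrix.SpecialLinearGroup
open Cfsg.Agent.Lead.AutPSL
open scoped MatrixGroups

variable {F : Type*} [Field F] {ι : Type*} [Fintype ι] [DecidableEq ι]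

local notation "T" => ProjectiveSpecialLinearGroup ι F

/-- scalar matrices -/
noncomputable abbrev sc (u : Fˣ) : GL ι F := Matrix.GeneralLinearGroup.scalar ι u

lemma sc_coe (u : Fˣ) : ((sc u : GL ι F) : Matrix ι ι F) = (u : F) • (1 : Matrix ι ι F) := by
  ext i j
  by_cases h : i = j
  · subst h
    simp [Matrix.GeneralLinearGroup.scalar]
  · simp [Matrix.GeneralLinearGroup.scalar, h]

lemma cc_sc [Nontrivial ι] (u : Fˣ) : (cc (sc u : GL ι F) : MulAut T) = 1 := by
  rw [cc_eq_one_iff, Matrix.GeneralLinearGroup.center_eq_range_scalar]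
  exact ⟨u, rfl⟩

lemma gm_sc (σ : F ≃+* F) (u : Fˣ) : gm σ (sc u : GL ι F) = sc (Units.map (σ : F →* F) u) := by
  apply Units.ext
  rw [gm_coe, sc_coe, sc_coe]
  ext i j
  by_cases h : i = j
  · subst h
    simp
  · simp [h]

lemma sc_comm (u : Fˣ) (g : GL ι F) : (sc u : GL ι F) * g = g * sc u := by
  apply Units.ext
  rw [Units.val_mul, Units.val_mul, sc_coe]
  simp

lemma sc_inj [Nonempty ι] {u v : Fˣ} (h : (sc u : GL ι F) = sc v) : u = v := by
  have h1 := congrArg Units.val h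
  rw [sc_coe, sc_coe] at h1
  obtain ⟨i⟩ := ‹Nonempty ι›
  have h2 := congrFun (congrFun h1 i) i
  simp at h2
  exact Units.ext h2

lemma cc_fld_pow (σ : F ≃+* F) (g : GL ι F) (k : ℕ) :
    (cc g * fld σ : MulAut T) ^ k = cc (nrm σ g k) * fld (σ ^ k) := by
  induction k with
  | zero => simp
  | succ k ih =>
    rw [pow_succ', ih, nrm_succ, map_mul, pow_succ', map_mul]
    calc (cc g * fld σ * (cc (nrm σ g k) * fld (σ ^ k)) : MulAut T)
        = cc g * (fld σ * cc (nrm σ g k)) * fld (σ ^ k) := by group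
      _ = cc g * (cc (gm σ (nrm σ g k)) * fld σ) * fld (σ ^ k) := by rw [fld_cc]
      _ = _ := by group

lemma nrm_sc_mul (σ : F ≃+* F) (μ : Fˣ) (g : GL ι F) (k : ℕ) :
    nrm σ (sc μ * g) k = sc (∏ i ∈ Finset.range k, Units.map (((σ ^ i : F ≃+* F) : F →* F)) μ) * nrm σ g k := by
  induction k with
  | zero => simp
  | succ k ih =>
    rw [nrm_succ, nrm_succ, ih, map_mul, gm_sc, Finset.prod_range_succ']
    have e : (Units.map (σ : F →* F)) (∏ i ∈ Finset.range k, Units.map (((σ ^ i : F ≃+* F) : F →* F)) μ) =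
        ∏ i ∈ Finset.range k, Units.map (((σ ^ (i + 1) : F ≃+* F) : F →* F)) μ := by
      rw [map_prod]
      apply Finset.prod_congr rfl
      intro i _
      apply Units.ext
      rw [pow_succ']
      rfl
    rw [e]
    have e0 : Units.map (((σ ^ 0 : F ≃+* F) : F →* F)) μ = μ := by
      apply Units.ext
      rfl
    rw [e0, mul_comm (∏ i ∈ Finset.range k, Units.map (((σ ^ (i + 1) : F ≃+* F) : F →* F)) μ) μ]
    set P := ∏ i ∈ Finset.range k, Units.map (((σ ^ (i + 1) : F ≃+* F) : F →* F)) μ with hP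
    have e9 : (sc (μ * P) : GL ι F) = sc μ * sc P := map_mul _ _ _
    rw [e9]
    calc sc μ * g * (sc P * gm σ (nrm σ g k)) = sc μ * (g * sc P) * gm σ (nrm σ g k) := by group
      _ = sc μ * (sc P * g) * gm σ (nrm σ g k) := by rw [sc_comm P g]
      _ = _ := by group

/-- the field coset -/
theorem field_coset [Finite F] [Nontrivial ι] (σ : F ≃+* F) (g : GL ι F)
    (h : (cc g * fld σ : MulAut T) ^ (orderOf σ) = 1) :
    ∃ k : GL ι F, (cc g * fld σ : MulAut T) = cc k * fld σ * (cc k)⁻¹ := by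
  classical
  haveI : Finite (F ≃+* F) := Finite.of_injective (fun σ : F ≃+* F => (σ : F → F)) DFunLike.coe_injective
  have hr : 0 < orderOf σ := orderOf_pos σ
  rw [cc_fld_pow, pow_orderOf_eq_one, map_one, mul_one, cc_eq_one_iff, Matrix.GeneralLinearGroup.center_eq_range_scalar] at h
  obtain ⟨l, hl⟩ := h
  have hl' : (sc l : GL ι F) = nrm σ g (orderOf σ) := hl
  have hsl : σ (l : F) = l := by
    have e1 := nrm_succ σ g (orderOf σ)
    rw [nrm_succ', pow_orderOf_eq_one, gm_one, ← hl', gm_sc, sc_comm] at e1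
    have e2 := sc_inj (mul_left_cancel e1)
    have e3 := congrArg Units.val e2
    exact e3.symm
  obtain ⟨μ, hμ0, hμ⟩ := norm_surj σ (inv_ne_zero l.ne_zero) (by rw [map_inv₀, hsl])
  let u : Fˣ := Units.mk0 μ hμ0
  let g' : GL ι F := sc u * g
  have hN : nrm σ g' (orderOf σ) = 1 := by
    rw [nrm_sc_mul, ← hl', ← map_mul]
    have : (∏ i ∈ Finset.range (orderOf σ), Units.map (((σ ^ i : F ≃+* F) : F →* F)) u) * l = 1 := by
      apply Units.ext
      rw [Units.val_mul, Units.coe_prod]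
      change (∏ i ∈ Finset.range (orderOf σ), (σ ^ i) μ) * (l : F) = 1
      rw [hμ]
      exact inv_mul_cancel₀ l.ne_zero
    rw [this, map_one]
  obtain ⟨k, hk⟩ := h90GL σ hr g' hN
  refine ⟨k, ?_⟩
  have e4 : (cc g' : MulAut T) = cc g := by
    simp only [g']
    rw [map_mul, cc_sc, one_mul]
  have e5 : (cc g * cc (gm σ k) : MulAut T) = cc k := by
    rw [← e4, ← map_mul, hk]
  have e6 : (fld σ * cc k : MulAut T) = cc (gm σ k) * fld σ := fld_cc σ k
  have e7 : ((cc (gm σ k) : MulAut T))⁻¹ * fld σ = fld σ * (cc k)⁻¹ := by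
    rw [inv_mul_eq_iff_eq_mul, ← mul_assoc, ← e6, mul_inv_cancel_right]
  calc (cc g * fld σ : MulAut T) = cc k * ((cc (gm σ k))⁻¹ * fld σ) := by
        rw [← e5]; group
    _ = _ := by rw [e7]; group

/-- the matrix of `σ((h⁻¹)ᵀ)` is inverse to `σ(h)ᵀ` -/
lemma star_mul (σ : F ≃+* F) (h : GL ι F) :
    ((h : Matrix ι ι F).map σ)ᵀ * ((gm σ (invT h) : GL ι F) : Matrix ι ι F) = 1 := by
  rw [gm_coe]
  have e : ((invT h : GL ι F) : Matrix ι ι F) = ((h⁻¹ : GL ι F) : Matrix ι ι F)ᵀ := rfl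
  rw [e]
  have e2 : (((h⁻¹ : GL ι F) : Matrix ι ι F)ᵀ).map σ = (((h⁻¹ : GL ι F) : Matrix ι ι F).map σ)ᵀ := by
    ext i j; simp
  rw [e2, ← Matrix.transpose_mul, ← Matrix.map_mul]
  rw [← Units.val_mul, inv_mul_cancel, Units.val_one]
  ext i j
  by_cases hij : i = j
  · subst hij; simp
  · simp [Matrix.one_apply, hij, Ne.symm hij]

lemma theta_cc (σ : F ≃+* F) (h : GL ι F) :
    ((fld σ * gam) * cc h : MulAut T) = cc (gm σ (invT h)) * (fld σ * gam) := by
  rw [mul_assoc, gam_cc, ← mul_assoc, fld_cc, mul_assoc]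

lemma theta_sq {σ : F ≃+* F} (hσ2 : σ * σ = 1) : ((fld σ * gam) * (fld σ * gam) : MulAut T) = 1 := by
  calc ((fld σ * gam) * (fld σ * gam) : MulAut T) = fld σ * (gam * fld σ) * gam := by group
    _ = fld σ * (fld σ * gam) * gam := by rw [fld_gam]
    _ = (fld σ * fld σ) * (gam * gam) := by group
    _ = 1 := by rw [← map_mul, hσ2, map_one, gam_sq, one_mul]

/-- the graph-field coset -/
theorem graph_coset [Finite F] [Nontrivial ι] {σ : F ≃+* F} (hσ : σ ≠ 1) (hσ2 : orderOf σ = 2) (g : GL ι F)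
    (h : (cc g * (fld σ * gam) : MulAut T) ^ 2 = 1) :
    ∃ k : GL ι F, (cc g * (fld σ * gam) : MulAut T) = cc k * (fld σ * gam) * (cc k)⁻¹ := by
  classical
  have hss : σ * σ = 1 := by
    have := pow_orderOf_eq_one σ
    rwa [hσ2, pow_two] at this
  have hssa : ∀ a : F, σ (σ a) = a := fun a => DFunLike.congr_fun hss a
  have h1 : (cc (g * gm σ (invT g)) : MulAut T) = 1 := by
    rw [map_mul]
    rw [pow_two] at h
    calc (cc g * cc (gm σ (invT g)) : MulAut T)
        = cc g * (cc (gm σ (invT g)) * (fld σ * gam)) * (fld σ * gam) := by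
          rw [mul_assoc (cc g), mul_assoc (cc (gm σ (invT g))), theta_sq hss, mul_one]
      _ = cc g * ((fld σ * gam) * cc g) * (fld σ * gam) := by rw [theta_cc]
      _ = (cc g * (fld σ * gam)) * (cc g * (fld σ * gam)) := by group
      _ = 1 := h
  rw [cc_eq_one_iff, Matrix.GeneralLinearGroup.center_eq_range_scalar] at h1
  obtain ⟨l, hl⟩ := h1
  have hl' : (sc l : GL ι F) = g * gm σ (invT g) := hl
  -- `M = l • M*`
  have hM : (g : Matrix ι ι F) = (l : F) • ((g : Matrix ι ι F).map σ)ᵀ := by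
    have e1 := star_mul σ g
    have e2 := congrArg Units.val hl'
    rw [Units.val_mul, sc_coe] at e2
    have e3 : ((gm σ (invT g) : GL ι F) : Matrix ι ι F) * ((g : Matrix ι ι F).map σ)ᵀ = 1 := mul_eq_one_comm.mp e1
    calc (g : Matrix ι ι F) = (g : Matrix ι ι F) * (((gm σ (invT g) : GL ι F) : Matrix ι ι F) * ((g : Matrix ι ι F).map σ)ᵀ) := by
          rw [e3, Matrix.mul_one]
      _ = ((l : F) • (1 : Matrix ι ι F)) * ((g : Matrix ι ι F).map σ)ᵀ := by
          rw [e2, Matrix.mul_assoc]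
      _ = _ := by simp
  -- `l σ(l) = 1`
  have hN : (l : F) * σ l = 1 := by
    have e1 : ((g : Matrix ι ι F).map σ)ᵀ = σ l • (g : Matrix ι ι F) := by
      conv_lhs => rw [hM]
      ext i j
      simp [hssa]
    have e2 : (g : Matrix ι ι F) = ((l : F) * σ l) • (g : Matrix ι ι F) := by
      conv_lhs => rw [hM, e1]
      rw [smul_smul]
    by_contra hne
    have e3 : (((l : F) * σ l) - 1) • (g : Matrix ι ι F) = 0 := by
      rw [sub_smul, ← e2, one_smul, sub_self]
    have e4 : (g : Matrix ι ι F) = 0 := by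
      have h5 : (l : F) * σ l - 1 ≠ 0 := sub_ne_zero.mpr hne
      exact (smul_eq_zero.mp e3).resolve_left h5
    have h6 : (g : Matrix ι ι F) * ((g⁻¹ : GL ι F) : Matrix ι ι F) = 1 := by
      rw [← Units.val_mul, mul_inv_cancel, Units.val_one]
    rw [e4, Matrix.zero_mul] at h6
    exact zero_ne_one h6
  obtain ⟨x, hx0, hx⟩ := h90_scalar σ (by rw [hσ2]; norm_num) (l : F) (by
    rw [hσ2]
    simp only [Finset.prod_range_succ, Finset.prod_range_zero, one_mul, pow_zero, pow_one]
    exact hN)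
  let u : Fˣ := Units.mk0 x⁻¹ (inv_ne_zero hx0)
  let g' : GL ι F := sc u * g
  have hg'm : (g' : Matrix ι ι F) = x⁻¹ • (g : Matrix ι ι F) := by
    simp only [g']
    rw [Units.val_mul, sc_coe]
    simp [u]
  have hsx : σ x ≠ 0 := (map_ne_zero σ).mpr hx0
  have hherm : ((g' : Matrix ι ι F).map σ)ᵀ = (g' : Matrix ι ι F) := by
    rw [hg'm]
    have e1 : ((x⁻¹ • (g : Matrix ι ι F)).map σ)ᵀ = (σ x)⁻¹ • ((g : Matrix ι ι F).map σ)ᵀ := by
      ext i j
      simp
    rw [e1]
    conv_rhs => rw [hM]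
    rw [smul_smul]
    congr 1
    field_simp
    linear_combination -hx
  obtain ⟨k, hk⟩ := herm_eq_mul hσ hσ2 g' hherm
  refine ⟨k, ?_⟩
  have e4 : (cc g' : MulAut T) = cc g := by
    simp only [g']
    rw [map_mul, cc_sc, one_mul]
  have e8 : g' * gm σ (invT k) = k := by
    apply Units.ext
    rw [Units.val_mul, hk, Matrix.mul_assoc, star_mul, Matrix.mul_one]
  have e5 : (cc g * cc (gm σ (invT k)) : MulAut T) = cc k := by
    rw [← e4, ← map_mul, e8]
  have e6 := theta_cc (ι := ι) σ k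
  have e7 : ((cc (gm σ (invT k)) : MulAut T))⁻¹ * (fld σ * gam) = (fld σ * gam) * (cc k)⁻¹ := by
    rw [inv_mul_eq_iff_eq_mul, ← mul_assoc, ← e6, mul_inv_cancel_right]
  calc (cc g * (fld σ * gam) : MulAut T) = cc k * ((cc (gm σ (invT k)))⁻¹ * (fld σ * gam)) := by
        rw [← e5]; group
    _ = _ := by rw [e7]; group

section Main
variable {n : ℕ}

local notation "PS" => ProjectiveSpecialLinearGroup (Fin n) F

lemma isInner_iff (β : MulAut PS) : Cfsg.IsInnerDiagonalAutPSL β ↔ ∃ g : GL (Fin n) F, β = cc g := by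
  constructor
  · rintro ⟨g, hg⟩
    refine ⟨g, ?_⟩
    ext x
    induction x using QuotientGroup.induction_on with
    | H s => exact hg s (cSL g s) rfl
  · rintro ⟨g, rfl⟩
    refine ⟨g, ?_⟩
    intro s s' hs'
    change pr (Fin n) F (cSL g s) = pr (Fin n) F s'
    congr 1
    apply Subtype.ext
    rw [hs']
    rfl

lemma std_iff (σ : F ≃+* F) (β : MulAut PS) : Cfsg.IsStdFieldAutPSL σ β ↔ β = fld σ := by
  constructor
  · intro hg
    ext x
    induction x using QuotientGroup.induction_on with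
    | H s => exact hg s (fldSL σ s) rfl
  · rintro rfl
    intro s s' hs'
    change pr (Fin n) F (fldSL σ s) = pr (Fin n) F s'
    congr 1
    apply Subtype.ext
    rw [hs']
    rfl

lemma invT_iff (β : MulAut PS) : Cfsg.IsInverseTransposeAutPSL β ↔ β = gam := by
  constructor
  · intro hg
    ext x
    induction x using QuotientGroup.induction_on with
    | H s => exact hg s (gamSL s) rfl
  · rintro rfl
    intro s s' hs'
    change pr (Fin n) F (gamSL s) = pr (Fin n) F s'
    congr 1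
    apply Subtype.ext
    rw [hs']
    rfl

lemma inndiag_eq : Cfsg.inndiagPSL n F = (cc : GL (Fin n) F →* MulAut PS).range := by
  apply le_antisymm
  · rw [Cfsg.inndiagPSL, Cfsg.autSubgroupOf, Subgroup.closure_le]
    intro β hβ
    obtain ⟨g, rfl⟩ := (isInner_iff β).mp hβ
    exact ⟨g, rfl⟩
  · rintro _ ⟨g, rfl⟩
    exact Subgroup.subset_closure ((isInner_iff _).mpr ⟨g, rfl⟩)

lemma cc_range_normal [Fintype F] {p f : ℕ} [Fact p.Prime] (hF : Fintype.card F = p ^ f) (hf : 1 ≤ f) (hn : 2 ≤ n) :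
    (cc : GL (Fin n) F →* MulAut PS).range.Normal := by
  by_cases h2 : n = 2
  · subst h2
    obtain ⟨χ, hχ, -⟩ := chi_two hF hf
    rw [← hχ]
    infer_instance
  · obtain ⟨χ, hχ, -⟩ := chi_three (n := n) (by omega) hF hf
    rw [← hχ]
    infer_instance

lemma fld_inj [Nontrivial (Fin n)] : Function.Injective (fld : (F ≃+* F) →* MulAut PS) := by
  rw [injective_iff_map_eq_one]
  intro σ h
  apply cc_fld_eq_one (1 : GL (Fin n) F) σ
  rw [map_one, one_mul, h]

lemma orderOf_fld [Nontrivial (Fin n)] (σ : F ≃+* F) : orderOf (fld σ : MulAut PS) = orderOf σ :=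
  orderOf_injective _ fld_inj σ

/-- abstract transport of the coset statement -/
lemma conj_transport {A : Type*} [Group A] (I : Subgroup A) [I.Normal] (α x δ : A)
    (H : Cfsg.IsConjUnder I (α * x * α⁻¹) ((α * δ * α⁻¹) * (α * x * α⁻¹))) : Cfsg.IsConjUnder I x (δ * x) := by
  obtain ⟨h, hh, e⟩ := H
  refine ⟨α⁻¹ * h * α, ?_, ?_⟩
  · have := Subgroup.Normal.conj_mem ‹I.Normal› h hh α⁻¹
    simpa using this
  · have e2 : α * (δ * x) * α⁻¹ = α * ((α⁻¹ * h * α) * x * (α⁻¹ * h * α)⁻¹) * α⁻¹ := by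
      calc α * (δ * x) * α⁻¹ = (α * δ * α⁻¹) * (α * x * α⁻¹) := by group
        _ = h * (α * x * α⁻¹) * h⁻¹ := e
        _ = _ := by group
    have e3 := mul_right_cancel e2
    exact mul_left_cancel e3

lemma orderOf_conj' {A : Type*} [Group A] (h x : A) : orderOf (h * x * h⁻¹) = orderOf x :=
  (SemiconjBy.orderOf_eq h (x := x) (y := h * x * h⁻¹) (by
    unfold SemiconjBy
    group)).symm

/-- the graph-field automorphism has order two only -/
lemma graph_field_order [Nontrivial (Fin n)] (hn : 3 ≤ n) {σ : F ≃+* F} (hσ : σ ≠ 1) {r : ℕ} (hr : r.Prime)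
    (h : orderOf (fld σ * gam : MulAut PS) = r) : r = 2 ∧ orderOf σ = 2 := by
  have hc : Commute (fld σ : MulAut PS) gam := fld_gam σ
  have h1 : (fld σ * gam : MulAut PS) ^ r = 1 := by rw [← h]; exact pow_orderOf_eq_one _
  rw [hc.mul_pow] at h1
  have hr2 : r = 2 := by
    by_contra hne
    have hodd : Odd r := hr.odd_of_ne_two hne
    obtain ⟨j, hj⟩ := hodd
    have hg : (gam : MulAut PS) ^ r = gam := by
      rw [hj, pow_succ, pow_mul, pow_two, gam_sq, one_pow, one_mul]
    rw [hg, ← map_pow] at h1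
    apply gam_not hn (1 : GL (Fin n) F) (σ ^ r)⁻¹
    rw [map_one, one_mul, map_inv]
    exact eq_inv_of_mul_eq_one_right h1
  subst hr2
  refine ⟨rfl, ?_⟩
  rw [pow_two gam, gam_sq, mul_one, ← map_pow] at h1
  have h2 : σ ^ 2 = 1 := fld_inj (by rw [h1, map_one])
  exact orderOf_eq_prime h2 hσ

/-- S2697 -/
theorem coset_conj [Fintype F] {p f : ℕ} [Fact p.Prime] (hF : Fintype.card F = p ^ f) (hf : 1 ≤ f) (hn : 2 ≤ n)
    (x δ : MulAut PS) (hx : Cfsg.IsFieldAutClassPSL x ∨ Cfsg.IsGraphFieldAutClassPSL x) {r : ℕ} (hr : r.Prime)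
    (hxr : orderOf x = r) (hδ : δ ∈ Cfsg.inndiagPSL n F) :
    orderOf (δ * x) = r ↔ Cfsg.IsConjUnder (Cfsg.inndiagPSL n F) x (δ * x) := by
  haveI : Nontrivial (Fin n) := Fin.nontrivial_iff_two_le.mpr hn
  have hI := inndiag_eq (F := F) (n := n)
  haveI hnorm : (Cfsg.inndiagPSL n F).Normal := by
    rw [hI]
    exact cc_range_normal hF hf hn
  constructor
  · intro hord
    have hcommon : ∀ α : MulAut PS, orderOf ((α * δ * α⁻¹) * (α * x * α⁻¹)) = r := by
      intro α
      rw [← orderOf_conj' α (δ * x)] at hord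
      rw [← hord]
      congr 1
      group
    have hδ' : ∀ α : MulAut PS, ∃ g : GL (Fin n) F, α * δ * α⁻¹ = cc g := by
      intro α
      have := hnorm.conj_mem δ hδ α
      rw [hI] at this
      obtain ⟨g, hg⟩ := this
      exact ⟨g, hg.symm⟩
    rcases hx with ⟨α, σ, hσ, hstd⟩ | ⟨hn3, α, φ, γ, σ, hσ, hφ, hγ, hgf⟩
    · have e := (std_iff σ _).mp hstd
      apply conj_transport _ α
      obtain ⟨g, hg⟩ := hδ' α
      rw [hg, e]
      have h1 := hcommon α
      rw [hg, e] at h1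
      have hσr : orderOf σ = r := by
        rw [← orderOf_fld (n := n), ← e, orderOf_conj', hxr]
      have h2 : (cc g * fld σ : MulAut PS) ^ (orderOf σ) = 1 := by
        rw [hσr, ← h1]
        exact pow_orderOf_eq_one _
      obtain ⟨k, hk⟩ := field_coset σ g h2
      rw [hk]
      refine ⟨cc k, ?_, rfl⟩
      rw [hI]
      exact ⟨k, rfl⟩
    · rw [(std_iff σ _).mp hφ, (invT_iff _).mp hγ] at hgf
      apply conj_transport _ α
      obtain ⟨g, hg⟩ := hδ' α
      rw [hg, hgf]
      have h1 := hcommon α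
      rw [hg, hgf] at h1
      have h3 : orderOf (fld σ * gam : MulAut PS) = r := by
        rw [← hgf, orderOf_conj', hxr]
      obtain ⟨hr2, hσ2⟩ := graph_field_order hn3 hσ hr h3
      subst hr2
      have h2 : (cc g * (fld σ * gam) : MulAut PS) ^ 2 = 1 := by
        rw [← h1]
        exact pow_orderOf_eq_one _
      obtain ⟨k, hk⟩ := graph_coset hσ hσ2 g h2
      rw [hk]
      refine ⟨cc k, ?_, rfl⟩
      rw [hI]
      exact ⟨k, rfl⟩
  · rintro ⟨h, -, e⟩
    rw [e, orderOf_conj', hxr]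

end Main

end Cfsg.Agent.Lead.Lang
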