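import Cfsg.Agent.Lib.Lead.AutPSpOut
import Cfsg.Agent.Lib.Lead.LangPSL
import Cfsg.Agent.Lib.Lead.LangCount
import Cfsg.Agent.S0752
/-! Lang-Steinberg for field automorphisms of `PSp_{2m}(F)`. -/
set_option autoImplicit false
set_option linter.style.haveILetI false
set_option linter.unusedSimpArgs false
set_option linter.unusedSectionVars false
set_option linter.unusedVariables false
namespace Cfsg.Agent.Lead.Lang
open Matrix
open Cfsg.Agent.Lead.AutPSp
open scoped MatrixGroups

variable {F : Type*} [Field F] [Fintype F] {m : ℕ}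

local notation "PG" => (symplecticGroup (Fin m) F ⧸ Subgroup.center (symplecticGroup (Fin m) F))
local notation "II" => (Fin m ⊕ Fin m)

omit [Fintype F] in
lemma smap_eq (σ : F ≃+* F) (x : II → F) : smap σ x = fun i => σ (x i) := rfl

omit [Fintype F] in
lemma form_gm (σ : F ≃+* F) (M : Matrix II II F) (x y : II → F) :
    sympForm (M.map σ *ᵥ x) (M.map σ *ᵥ y) = σ (sympForm (M *ᵥ smap σ.symm x) (M *ᵥ smap σ.symm y)) := by
  rw [← form_smap, ← map_mulVec_smap, ← map_mulVec_smap, smap_symm, smap_symm]

omit [Fintype F] in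
lemma form_symm (σ : F ≃+* F) (x y : II → F) : σ (sympForm (smap σ.symm x) (smap σ.symm y)) = sympForm x y := by
  rw [← form_smap, smap_symm, smap_symm]

/-- the entrywise map on `GSp` -/
noncomputable def gmS (σ : F ≃+* F) : Cfsg.GSp m F →* Cfsg.GSp m F where
  toFun g := ⟨gm σ g.1, Units.map (σ : F →* F) (mulC g), fun u v => by
    change sympForm ((g.1 : Matrix II II F).map σ *ᵥ u) ((g.1 : Matrix II II F).map σ *ᵥ v) = σ (mulC g : F) * sympForm u v
    rw [form_gm, mulC_spec, map_mul, form_symm]⟩
  map_one' := Subtype.ext (map_one _)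
  map_mul' g g' := Subtype.ext (map_mul _ _ _)

lemma gmS_coe (σ : F ≃+* F) (g : Cfsg.GSp m F) : (gmS σ g).1 = gm σ g.1 := rfl

lemma fldS_kk (σ : F ≃+* F) (g : Cfsg.GSp m F) :
    (fldS σ * kk g : MulAut PG) = kk (gmS σ g) * fldS σ := by
  ext x
  induction x using QuotientGroup.induction_on with
  | H s =>
    change pr (Fin m) F (cHom (ss_one σ) (cHom (ssOf g) s)) = pr (Fin m) F (cHom (ssOf (gmS σ g)) (cHom (ss_one σ) s))
    congr 1
    apply Subtype.ext
    simp only [cHom_coe, map_refl', Units.val_one, one_mul, inv_one, mul_one]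
    rw [Matrix.map_mul, Matrix.map_mul, gmS_coe, gm_coe]
    congr 1

/-- the twisted norm in `GSp` -/
noncomputable def nrmS (σ : F ≃+* F) (g : Cfsg.GSp m F) : ℕ → Cfsg.GSp m F
  | 0 => 1
  | k + 1 => g * gmS σ (nrmS σ g k)

lemma nrmS_coe (σ : F ≃+* F) (g : Cfsg.GSp m F) (k : ℕ) : (nrmS σ g k).1 = nrm σ g.1 k := by
  induction k with
  | zero => rfl
  | succ k ih =>
    change g.1 * gm σ (nrmS σ g k).1 = _
    rw [ih]
    rfl

lemma kk_fld_pow (σ : F ≃+* F) (g : Cfsg.GSp m F) (k : ℕ) :
    (kk g * fldS σ : MulAut PG) ^ k = kk (nrmS σ g k) * fldS (σ ^ k) := by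
  induction k with
  | zero =>
    change (1 : MulAut PG) = kk (1 : Cfsg.GSp m F) * fldS (σ ^ 0)
    simp
  | succ k ih =>
    rw [pow_succ', ih]
    have e : nrmS σ g (k + 1) = g * gmS σ (nrmS σ g k) := rfl
    rw [e, map_mul, pow_succ', map_mul]
    calc (kk g * fldS σ * (kk (nrmS σ g k) * fldS (σ ^ k)) : MulAut PG)
        = kk g * (fldS σ * kk (nrmS σ g k)) * fldS (σ ^ k) := by group
      _ = kk g * (kk (gmS σ (nrmS σ g k)) * fldS σ) * fldS (σ ^ k) := by rw [fldS_kk]
      _ = _ := by group

/-- the fixed subfield -/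
def fixF (σ : F ≃+* F) : Subfield F where
  carrier := {a | σ a = a}
  mul_mem' := by
    intro a b ha hb
    simp only [Set.mem_ofPred_eq, map_mul] at *
    rw [ha, hb]
  one_mem' := by simp
  add_mem' := by
    intro a b ha hb
    simp only [Set.mem_ofPred_eq, map_add] at *
    rw [ha, hb]
  zero_mem' := by simp
  neg_mem' := by
    intro a ha
    simp only [Set.mem_ofPred_eq, map_neg] at *
    rw [ha]
  inv_mem' := by
    intro a ha
    simp only [Set.mem_ofPred_eq, map_inv₀] at *
    rw [ha]

omit [Fintype F] in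
lemma mem_fixF {σ : F ≃+* F} {a : F} : a ∈ fixF σ ↔ σ a = a := Iff.rfl

omit [Fintype F] in
lemma sOp_add' (σ : F ≃+* F) (g : GL II F) (x y : II → F) : sOp σ g (x + y) = sOp σ g x + sOp σ g y := by
  simp only [sOp]
  rw [← Matrix.mulVec_add]
  congr 1
  funext i
  simp

omit [Fintype F] in
lemma sOp_smul' (σ : F ≃+* F) (g : GL II F) (c : F) (x : II → F) : sOp σ g (c • x) = σ c • sOp σ g x := by
  simp only [sOp]
  have : (fun i => σ ((c • x) i)) = σ c • (fun i => σ (x i)) := by
    funext i
    simp
  rw [this, Matrix.mulVec_smul]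

omit [Fintype F] in
/-- a form vanishing on a spanning set -/
lemma eq_zero_of_span {S : Set (II → F)} (hS : Submodule.span F S = ⊤) {u : II → F} (h : ∀ v ∈ S, sympForm u v = 0) : u = 0 := by
  have key : ∀ z ∈ Submodule.span F S, sympForm u z = 0 := by
    intro z hz'
    induction hz' using Submodule.span_induction with
    | mem x hx => exact h x hx
    | zero => simp [sympForm]
    | add x y _ _ hx hy => rw [sympForm_add_right, hx, hy, add_zero]
    | smul a x _ hx => rw [sympForm_smul_right, hx, mul_zero]
  by_contra hne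
  obtain ⟨z, hz⟩ := sympForm_nondeg hne
  exact hz (key z (by rw [hS]; trivial))

omit [Fintype F] in
lemma form_sum_right {κ : Type*} (s : Finset κ) (g : κ → (II → F)) (u : II → F) :
    sympForm u (∑ i ∈ s, g i) = ∑ i ∈ s, sympForm u (g i) := by
  classical
  induction s using Finset.induction_on with
  | empty => simp [sympForm]
  | insert a s ha ih => rw [Finset.sum_insert ha, Finset.sum_insert ha, sympForm_add_right, ih]

/-- the expansion of the form in coordinates -/
lemma form_expand (P : Matrix II II F) (x y : II → F) :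
    sympForm (P *ᵥ x) (P *ᵥ y) = ∑ a, ∑ b, x a * y b * sympForm (fun i => P i a) (fun i => P i b) := by
  classical
  have e1 : ∀ z : II → F, P *ᵥ z = ∑ a, z a • (fun i => P i a) := by
    intro z
    funext i
    simp [Matrix.mulVec, dotProduct, Finset.sum_apply, mul_comm]
  rw [e1 x, e1 y, sympForm_sum_left]
  apply Finset.sum_congr rfl
  intro a _
  rw [sympForm_smul_left, form_sum_right, Finset.mul_sum]
  apply Finset.sum_congr rfl
  intro b _
  rw [sympForm_smul_right]
  ring

omit [Fintype F] in
/-- the expansion of the form on families -/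
lemma form_expand' {l κ : Type*} [Fintype l] [DecidableEq l] [Fintype κ] (u v : κ → (l ⊕ l → F)) (x y : κ → F) :
    sympForm (∑ a, x a • u a) (∑ b, y b • v b) = ∑ a, ∑ b, x a * y b * sympForm (u a) (v b) := by
  classical
  have e0 : ∀ (t : Finset κ) (w : κ → (l ⊕ l → F)) (z : l ⊕ l → F), sympForm z (∑ i ∈ t, w i) = ∑ i ∈ t, sympForm z (w i) := by
    intro t w z
    induction t using Finset.induction_on with
    | empty => simp [sympForm]
    | insert a s ha ih => rw [Finset.sum_insert ha, Finset.sum_insert ha, sympForm_add_right, ih]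
  rw [sympForm_sum_left]
  apply Finset.sum_congr rfl
  intro a _
  rw [sympForm_smul_left, e0, Finset.mul_sum]
  apply Finset.sum_congr rfl
  intro b _
  rw [sympForm_smul_right]
  ring

/-- the product formula for the multiplier -/
lemma form_nrm (σ : F ≃+* F) (g : Cfsg.GSp m F) (k : ℕ) (x y : II → F) :
    sympForm (((nrm σ g.1 k : GL II F) : Matrix II II F) *ᵥ x) (((nrm σ g.1 k : GL II F) : Matrix II II F) *ᵥ y) =
      (∏ i ∈ Finset.range k, (σ ^ i) (mulC g : F)) * sympForm x y := by
  induction k generalizing x y with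
  | zero =>
    simp
  | succ k ih =>
    rw [nrm_succ, Units.val_mul, ← Matrix.mulVec_mulVec, ← Matrix.mulVec_mulVec, mulC_spec, gm_coe, form_gm, ih, map_mul,
      form_symm, Finset.prod_range_succ', map_prod]
    have e1 : ∏ i ∈ Finset.range k, (σ ^ (i + 1)) (mulC g : F) = ∏ i ∈ Finset.range k, σ ((σ ^ i) (mulC g : F)) :=
      Finset.prod_congr rfl (fun i _ => by rw [pow_succ']; rfl)
    have e3 : (σ ^ 0) (mulC g : F) = mulC g := rfl
    rw [e1, e3]
    ring

set_option maxHeartbeats 2000000 in
/-- Hilbert 90 for `GSp` -/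
theorem h90GSp [Nonempty (Fin m)] (σ : F ≃+* F) (g : Cfsg.GSp m F) (hN : nrm σ g.1 (orderOf σ) = 1) :
    ∃ h : Cfsg.GSp m F, g * gmS σ h = h := by
  classical
  haveI : Finite (F ≃+* F) := Finite.of_injective (fun σ : F ≃+* F => (σ : F → F)) DFunLike.coe_injective
  have hr : 0 < orderOf σ := orderOf_pos σ
  set c : F := (mulC g : F) with hc
  have hc0 : c ≠ 0 := (mulC g).ne_zero
  -- the norm of the multiplier is one
  have hNc : ∏ i ∈ Finset.range (orderOf σ), (σ ^ i) c = 1 := by
    obtain ⟨x, y, hxy⟩ := exists_form_one (m := m) (F := F)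
    have h1 := form_nrm σ g (orderOf σ) x y
    rw [hN, Units.val_one, Matrix.one_mulVec, Matrix.one_mulVec, hxy, mul_one] at h1
    exact h1.symm
  obtain ⟨x₀, hx₀, hcx⟩ := h90_scalar σ hr c hNc
  set d : F := x₀⁻¹ with hd
  have hd0 : d ≠ 0 := inv_ne_zero hx₀
  have hdc : d * c = σ d := by
    have hsx : σ x₀ ≠ 0 := (map_ne_zero σ).mpr hx₀
    rw [hd, map_inv₀]
    field_simp
    exact hcx
  -- the operator
  let T : (II → F) → (II → F) := sOp σ g.1
  have hT : ∀ u v, sympForm (T u) (T v) = c * σ (sympForm u v) := by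
    intro u v
    change sympForm ((g.1 : Matrix II II F) *ᵥ smap σ u) ((g.1 : Matrix II II F) *ᵥ smap σ v) = _
    rw [mulC_spec, form_smap]
  have hspan : Submodule.span F {v | T v = v} = ⊤ := by
    apply span_fix σ hr T (sOp_add' σ g.1) (sOp_smul' σ g.1)
    intro x
    rw [sOp_iter, hN, pow_orderOf_eq_one]
    simp
  -- the fixed space as a module over the fixed field
  let K : Subfield F := fixF σ
  let W : Submodule K (II → F) :=
    { carrier := {v | T v = v}
      add_mem' := by
        intro a b ha hb
        change T (a + b) = a + b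
        change T a = a at ha
        change T b = b at hb
        change sOp σ g.1 (a + b) = _
        rw [sOp_add']
        change T a + T b = _
        rw [ha, hb]
      zero_mem' := by
        change sOp σ g.1 0 = 0
        simp only [sOp, Pi.zero_apply, map_zero]
        exact Matrix.mulVec_zero _
      smul_mem' := by
        intro a b hb
        change T b = b at hb
        change sOp σ g.1 ((a : F) • b) = (a : F) • b
        rw [sOp_smul']
        have ha : σ (a : F) = a := a.2
        rw [ha]
        change (a : F) • T b = _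
        rw [hb] }
  have hW : ∀ u v : W, σ (d * sympForm (u : II → F) v) = d * sympForm (u : II → F) v := by
    intro u v
    have h1 : sympForm (u : II → F) v = c * σ (sympForm (u : II → F) v) := by
      have := hT u v
      rw [show T u = u from u.2, show T v = v from v.2] at this
      exact this
    rw [map_mul]
    conv_rhs => rw [h1]
    rw [← mul_assoc, hdc]
  let B : LinearMap.BilinForm K W := LinearMap.mk₂ K (fun u v : W => (⟨d * sympForm (u : II → F) v, hW u v⟩ : K))
    (by
      intro a b e
      apply Subtype.ext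
      change d * sympForm ((a : II → F) + (b : II → F)) (e : II → F) = d * sympForm (a : II → F) (e : II → F) + d * sympForm (b : II → F) (e : II → F)
      rw [sympForm_add_left, mul_add])
    (by
      intro k a e
      apply Subtype.ext
      change d * sympForm ((k : F) • (a : II → F)) (e : II → F) = (k : F) * (d * sympForm (a : II → F) (e : II → F))
      rw [sympForm_smul_left]
      ring)
    (by
      intro a b e
      apply Subtype.ext
      change d * sympForm (a : II → F) ((b : II → F) + (e : II → F)) = d * sympForm (a : II → F) (b : II → F) + d * sympForm (a : II → F) (e : II → F)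
      rw [sympForm_add_right, mul_add])
    (by
      intro k a e
      apply Subtype.ext
      change d * sympForm (a : II → F) ((k : F) • (e : II → F)) = (k : F) * (d * sympForm (a : II → F) (e : II → F))
      rw [sympForm_smul_right]
      ring)
  have hB : ∀ u v : W, ((B u v : K) : F) = d * sympForm (u : II → F) v := fun u v => rfl
  have hA : B.IsAlt := by
    intro u
    apply Subtype.ext
    rw [hB, sympForm_self, mul_zero]
    rfl
  haveI : Module.Finite K W := Module.Finite.of_finite
  obtain ⟨m', k', b, h1, h2, h3, h4⟩ := Cfsg.Agent.S0752.result B hA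
  -- no radical
  have hk : k' = 0 := by
    by_contra hk0
    let j : Fin k' := ⟨0, Nat.pos_of_ne_zero hk0⟩
    have h5 : ((b (Sum.inr j) : W) : II → F) = 0 := by
      apply eq_zero_of_span hspan
      intro v hv
      have h6 := h4 j ⟨v, hv⟩
      have h7 : ((B (b (Sum.inr j)) ⟨v, hv⟩ : K) : F) = 0 := by rw [h6]; rfl
      rw [hB] at h7
      exact (mul_eq_zero.mp h7).resolve_left hd0
    exact b.ne_zero _ (Subtype.ext h5)
  subst hk
  -- the columns
  let col₀ : Fin m' ⊕ Fin m' → (II → F) := Sum.elim (fun j => ((b (Sum.inl (Sum.inr j)) : W) : II → F))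
    (fun i => ((b (Sum.inl (Sum.inl i)) : W) : II → F))
  have hfix : ∀ a, T (col₀ a) = col₀ a := by
    rintro (j | i)
    · exact (b (Sum.inl (Sum.inr j))).2
    · exact (b (Sum.inl (Sum.inl i))).2
  have hgram : ∀ a a', d * sympForm (col₀ a) (col₀ a') = sympForm (Pi.single a 1 : Fin m' ⊕ Fin m' → F) (Pi.single a' 1) := by
    have h1' : ∀ i j, d * sympForm ((b (Sum.inl (Sum.inl i)) : W) : II → F) ((b (Sum.inl (Sum.inr j)) : W) : II → F) = if i = j then 1 else 0 := by
      intro i j
      rw [← hB, h1 i j]
      split_ifs <;> rfl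
    have h2' : ∀ i j, d * sympForm ((b (Sum.inl (Sum.inl i)) : W) : II → F) ((b (Sum.inl (Sum.inl j)) : W) : II → F) = 0 := by
      intro i j
      rw [← hB, h2 i j]
      rfl
    have h3' : ∀ i j, d * sympForm ((b (Sum.inl (Sum.inr i)) : W) : II → F) ((b (Sum.inl (Sum.inr j)) : W) : II → F) = 0 := by
      intro i j
      rw [← hB, h3 i j]
      rfl
    rintro (j | i) (j' | i')
    · change d * sympForm ((b (Sum.inl (Sum.inr j)) : W) : II → F) ((b (Sum.inl (Sum.inr j')) : W) : II → F) = _
      rw [h3', sympForm_apply]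
      simp
    · change d * sympForm ((b (Sum.inl (Sum.inr j)) : W) : II → F) ((b (Sum.inl (Sum.inl i')) : W) : II → F) = _
      rw [sympForm_swap, mul_neg, h1', sympForm_apply]
      by_cases hij : i' = j
      · subst hij
        simp [Pi.single_apply, Finset.sum_ite_eq]
      · simp [Pi.single_apply, Finset.sum_ite_eq, hij, Ne.symm hij]
    · change d * sympForm ((b (Sum.inl (Sum.inl i)) : W) : II → F) ((b (Sum.inl (Sum.inr j')) : W) : II → F) = _
      rw [h1', sympForm_apply]
      by_cases hij : i = j'
      · subst hij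
        simp [Pi.single_apply, Finset.sum_ite_eq]
      · simp [Pi.single_apply, Finset.sum_ite_eq, hij, Ne.symm hij]
    · change d * sympForm ((b (Sum.inl (Sum.inl i)) : W) : II → F) ((b (Sum.inl (Sum.inl i')) : W) : II → F) = _
      rw [h2', sympForm_apply]
      simp
  -- the key identity
  have hL : ∀ x y : Fin m' ⊕ Fin m' → F, d * sympForm (∑ a, x a • col₀ a) (∑ a, y a • col₀ a) = sympForm x y := by
    intro x y
    have ex : ∀ z : Fin m' ⊕ Fin m' → F, z = ∑ a, z a • (Pi.single a 1 : Fin m' ⊕ Fin m' → F) := by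
      intro z
      funext i
      simp [Finset.sum_apply, Pi.single_apply]
    conv_rhs => rw [ex x, ex y]
    rw [form_expand', form_expand', Finset.mul_sum]
    apply Finset.sum_congr rfl
    intro a _
    rw [Finset.mul_sum]
    apply Finset.sum_congr rfl
    intro a' _
    rw [← hgram a a']
    ring
  have hli : LinearIndependent F col₀ := by
    rw [Fintype.linearIndependent_iff]
    intro t ht i
    have h5 : t = 0 := by
      by_contra hne
      obtain ⟨z, hz⟩ := sympForm_nondeg hne
      apply hz
      rw [← hL, ht]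
      simp [sympForm]
    rw [h5]
    rfl
  have hspan2 : ⊤ ≤ Submodule.span F (Set.range col₀) := by
    rw [← hspan, Submodule.span_le]
    intro v hv
    have h5 := b.sum_repr ⟨v, hv⟩
    have h6 := congrArg (fun w : W => (w : II → F)) h5
    simp only at h6
    rw [Submodule.coe_sum] at h6
    change _ = v at h6
    rw [← h6]
    apply Submodule.sum_mem
    rintro ((j | j) | i) _
    · have : ((b.repr ⟨v, hv⟩ (Sum.inl (Sum.inl j)) • b (Sum.inl (Sum.inl j)) : W) : II → F) =
          ((b.repr ⟨v, hv⟩ (Sum.inl (Sum.inl j)) : K) : F) • col₀ (Sum.inr j) := rfl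
      rw [this]
      exact Submodule.smul_mem _ _ (Submodule.subset_span ⟨_, rfl⟩)
    · have : ((b.repr ⟨v, hv⟩ (Sum.inl (Sum.inr j)) • b (Sum.inl (Sum.inr j)) : W) : II → F) =
          ((b.repr ⟨v, hv⟩ (Sum.inl (Sum.inr j)) : K) : F) • col₀ (Sum.inl j) := rfl
      rw [this]
      exact Submodule.smul_mem _ _ (Submodule.subset_span ⟨_, rfl⟩)
    · exact i.elim0
  have hcard : m = m' := by
    let Bs : Module.Basis (Fin m' ⊕ Fin m') F (II → F) := Module.Basis.mk hli hspan2
    have h5 := Module.finrank_eq_card_basis Bs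
    rw [Module.finrank_fintype_fun_eq_card] at h5
    simp only [Fintype.card_sum, Fintype.card_fin] at h5
    omega
  subst hcard
  let P : Matrix II II F := Matrix.of fun a a' => col₀ a' a
  have hP : ∀ z : II → F, P *ᵥ z = ∑ a, z a • col₀ a := by
    intro z
    funext i
    rw [Finset.sum_apply]
    change ∑ j, P i j * z j = _
    apply Finset.sum_congr rfl
    intro j _
    change col₀ j i * z j = z j * col₀ j i
    exact mul_comm _ _
  have hPform : ∀ x y, sympForm (P *ᵥ x) (P *ᵥ y) = d⁻¹ * sympForm x y := by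
    intro x y
    rw [hP, hP, ← hL x y, inv_mul_cancel_left₀ hd0]
  have hinj : Function.Injective P.mulVec := by
    intro x y hxy
    rw [← sub_eq_zero]
    by_contra hne
    obtain ⟨z, hz⟩ := sympForm_nondeg hne
    apply hz
    have h5 : P *ᵥ (x - y) = 0 := by
      rw [Matrix.mulVec_sub, sub_eq_zero]
      exact hxy
    have h6 := hPform (x - y) z
    rw [h5] at h6
    have h7 : sympForm (0 : II → F) (P *ᵥ z) = 0 := by simp [sympForm]
    rw [h7] at h6
    have h8 := mul_eq_zero.mp h6.symm
    exact h8.resolve_left (inv_ne_zero hd0)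
  have hunit : IsUnit P := Matrix.mulVec_injective_iff_isUnit.mp hinj
  let h : GL II F := hunit.unit
  have hh : (h : Matrix II II F) = P := rfl
  have hmem : h ∈ Cfsg.GSp m F := ⟨Units.mk0 d⁻¹ (inv_ne_zero hd0), fun u v => by
    change sympForm _ _ = _
    rw [hh]
    exact hPform u v⟩
  refine ⟨⟨h, hmem⟩, ?_⟩
  apply Subtype.ext
  apply Units.ext
  ext i j
  change ((g.1 : Matrix II II F) * (P.map σ)) i j = P i j
  have h5 := congrFun (hfix j) i
  have h6 : P i j = col₀ j i := rfl
  rw [h6, ← h5]
  change _ = ((g.1 : Matrix II II F) *ᵥ (fun i => σ (col₀ j i))) i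
  simp only [Matrix.mul_apply, Matrix.mulVec, dotProduct, Matrix.map_apply]
  rfl

end Cfsg.Agent.Lead.Lang
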