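import Cfsg.Agent.Lib.H01.OmApply
import Cfsg.Agent.Lib.H01.OmPGO2
import Cfsg.Agent.Lib.Lead.LangPSp
/-! Lang-Steinberg for semilinear similarities of orthogonal spaces: descent to the fixed field. -/
set_option autoImplicit false
set_option linter.style.haveILetI false
set_option linter.unusedSimpArgs false
set_option linter.unusedSectionVars false
set_option linter.unusedVariables false
namespace Cfsg.Agent.Lead.LangOm
open Matrix Cfsg.Agent.Lead.Ortho Cfsg.Agent.Lead.Omega Cfsg.Agent.H01.Om Cfsg.Agent.Lead.Lang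

variable {F : Type*} [Field F] [Fintype F] {ι : Type} [Fintype ι] [DecidableEq ι]
variable {Q : (ι → F) → F} {B : (ι → F) → (ι → F) → F}

lemma semi_congr {T : Equiv.Perm (ι → F)} {σ σ' : F ≃+* F} {κ κ' : F} (H : IsSemi Q T σ κ) (h1 : σ = σ') (h2 : κ = κ') :
    IsSemi Q T σ' κ' := by
  subst h1 h2
  exact H

lemma semi_pow {T : Equiv.Perm (ι → F)} {σ : F ≃+* F} {κ : F} (H : IsSemi Q T σ κ) (k : ℕ) :
    IsSemi Q (T ^ k) (σ ^ k) (∏ i ∈ Finset.range k, (σ ^ i) κ) := by
  induction k with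
  | zero =>
    simpa using (IsSemi.one (Q := Q))
  | succ k ih =>
    rw [pow_succ', pow_succ']
    refine semi_congr (H.mul ih) rfl ?_
    rw [Finset.prod_range_succ', map_prod]
    have e1 : ∏ i ∈ Finset.range k, (σ ^ (i + 1)) κ = ∏ i ∈ Finset.range k, σ ((σ ^ i) κ) :=
      Finset.prod_congr rfl (fun i _ => by rw [pow_succ']; rfl)
    have e3 : (σ ^ 0) κ = κ := rfl
    rw [e1, e3, mul_comm]

lemma semi_zero {T : Equiv.Perm (ι → F)} {σ : F ≃+* F} {κ : F} (H : IsSemi Q T σ κ) : T 0 = 0 := by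
  have h1 := H.hsmul 0 0
  simpa using h1

lemma semi_sum {T : Equiv.Perm (ι → F)} {σ : F ≃+* F} {κ : F} (H : IsSemi Q T σ κ) {J : Type*} (s : Finset J)
    (c : J → F) (b : J → ι → F) : T (∑ j ∈ s, c j • b j) = ∑ j ∈ s, σ (c j) • T (b j) := by
  classical
  induction s using Finset.induction_on with
  | empty => simpa using semi_zero H
  | insert a s ha ih =>
    rw [Finset.sum_insert ha, Finset.sum_insert ha, H.hadd, H.hsmul, ih]

lemma semi_B (h : QF Q B) {T : Equiv.Perm (ι → F)} {σ : F ≃+* F} {κ : F} (H : IsSemi Q T σ κ) (x y : ι → F) :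
    B (T x) (T y) = κ * σ (B x y) := by
  have e1 := H.hQ (x + y)
  rw [H.hadd, h.add, h.add, H.hQ, H.hQ, map_add, map_add] at e1
  linear_combination e1

section Cxx
variable {m : ℕ} {t₀ : Fin m → (ι → F) × (ι → F)} (C : Cx Q B t₀)
include C

/-- a vector of norm one -/
lemma exists_Q_ne : ∃ x : ι → F, Q x ≠ 0 := by
  obtain ⟨e, f, e1, f1, e2, f2, T3⟩ := C.exists_T3
  refine ⟨e + f, ?_⟩
  have h1 := T3.e0f0
  rw [C.h.add]
  simp only [T3.Qe0, T3.Qf0, zero_add, h1]
  exact one_ne_zero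

lemma exists_ne_zero' : ∃ x : ι → F, x ≠ 0 := by
  obtain ⟨x, hx⟩ := exists_Q_ne C
  refine ⟨x, ?_⟩
  rintro rfl
  apply hx
  have := C.h.smul 0 0
  simpa using this

/-- **Normalization.** -/
theorem exists_normalized {T : GS Q} {σ : F ≃+* F} {κ : F} (H : IsSemi Q (T : Equiv.Perm (ι → F)) σ κ)
    (h1 : Th C.h C.nd T ^ orderOf σ = 1) :
    ∃ (T₀ : GS Q) (κ₀ : F), IsSemi Q (T₀ : Equiv.Perm (ι → F)) σ κ₀ ∧ Th C.h C.nd T₀ = Th C.h C.nd T ∧
      ∀ x, (T₀ : Equiv.Perm (ι → F))^[orderOf σ] x = x := by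
  classical
  haveI : Finite (F ≃+* F) := Finite.of_injective (fun σ : F ≃+* F => (σ : F → F)) DFunLike.coe_injective
  set r := orderOf σ with hr
  rw [← map_pow] at h1
  obtain ⟨α, hα, hT⟩ := C.scalar_of_Th (T ^ r) h1
  have hT' : ∀ x, ((T : Equiv.Perm (ι → F)) ^ r) x = α • x := hT
  obtain ⟨x₀, hx₀⟩ := exists_ne_zero' C
  have hsα : σ α = α := by
    have e1 : (T : Equiv.Perm (ι → F)) (((T : Equiv.Perm (ι → F)) ^ r) x₀) = ((T : Equiv.Perm (ι → F)) ^ r) ((T : Equiv.Perm (ι → F)) x₀) := by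
      rw [← Equiv.Perm.mul_apply, ← Equiv.Perm.mul_apply, ← pow_succ, ← pow_succ']
    rw [hT', hT', H.hsmul] at e1
    have hne : (T : Equiv.Perm (ι → F)) x₀ ≠ 0 := by
      intro e0
      apply hx₀
      apply (T : Equiv.Perm (ι → F)).injective
      rw [e0, semi_zero H]
    exact smul_left_injective F hne e1
  obtain ⟨μ, hμ0, hμ⟩ := norm_surj σ (inv_ne_zero hα) (by rw [map_inv₀, hsα])
  let u : Fˣ := Units.mk0 μ hμ0
  have Hμ := isSemi_scalar C u
  have hsc : ∀ x : ι → F, scalarT u x = μ • x := fun x => rfl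
  refine ⟨C.scalarG u * T, _, semi_congr (Hμ.mul H) (one_mul σ) rfl, ?_, ?_⟩
  · rw [map_mul, C.Th_scalar, one_mul]
  · have hpow : ∀ (k : ℕ) (x : ι → F), ((C.scalarG u * T : GS Q) : Equiv.Perm (ι → F))^[k] x =
        (∏ i ∈ Finset.range k, (σ ^ i) μ) • ((T : Equiv.Perm (ι → F)) ^ k) x := by
      intro k x
      induction k with
      | zero => simp
      | succ k ih =>
        rw [Function.iterate_succ_apply', ih]
        change scalarT u ((T : Equiv.Perm (ι → F)) _) = _
        rw [hsc, H.hsmul, smul_smul, Finset.prod_range_succ', map_prod, pow_succ' (T : Equiv.Perm (ι → F)) k]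
        have e1 : ∏ i ∈ Finset.range k, (σ ^ (i + 1)) μ = ∏ i ∈ Finset.range k, σ ((σ ^ i) μ) :=
          Finset.prod_congr rfl (fun i _ => by rw [pow_succ']; rfl)
        have e3 : (σ ^ 0) μ = μ := rfl
        rw [e1, e3, mul_comm]
        rfl
    intro x
    rw [hpow, hμ, hT', smul_smul, inv_mul_cancel₀ hα, one_smul]

/-- the multiplier is trivialized by a scalar -/
lemma exists_d {T : Equiv.Perm (ι → F)} {σ : F ≃+* F} {κ : F} (H : IsSemi Q T σ κ)
    (hit : ∀ x, T^[orderOf σ] x = x) : ∃ d : F, d ≠ 0 ∧ d * κ = σ d := by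
  classical
  haveI : Finite (F ≃+* F) := Finite.of_injective (fun σ : F ≃+* F => (σ : F → F)) DFunLike.coe_injective
  have hr := orderOf_pos σ
  obtain ⟨x, hx⟩ := exists_Q_ne C
  have hN : ∏ i ∈ Finset.range (orderOf σ), (σ ^ i) κ = 1 := by
    have h1 := (semi_pow H (orderOf σ)).hQ x
    rw [pow_orderOf_eq_one] at h1
    have e1 : (T ^ orderOf σ) x = x := by
      rw [← Equiv.Perm.iterate_eq_pow]
      exact hit x
    rw [e1] at h1
    have e2 : (1 : F ≃+* F) (Q x) = Q x := rfl
    rw [e2] at h1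
    apply mul_right_cancel₀ hx
    rw [← h1, one_mul]
  obtain ⟨x₀, hx₀, hcx⟩ := h90_scalar σ hr κ hN
  refine ⟨x₀⁻¹, inv_ne_zero hx₀, ?_⟩
  have hsx : σ x₀ ≠ 0 := (map_ne_zero σ).mpr hx₀
  rw [map_inv₀]
  field_simp
  exact hcx

end Cxx

section Fix
variable {T : Equiv.Perm (ι → F)} {σ : F ≃+* F} {κ : F}

/-- the fixed space of a semilinear similarity, as a space over the fixed field -/
def fixSp (H : IsSemi Q T σ κ) : Submodule (fixF σ) (ι → F) where
  carrier := {v | T v = v}
  add_mem' := by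
    intro a b ha hb
    change T (a + b) = a + b
    change T a = a at ha
    change T b = b at hb
    rw [H.hadd, ha, hb]
  zero_mem' := semi_zero H
  smul_mem' := by
    intro a b hb
    change T b = b at hb
    change T ((a : F) • b) = (a : F) • b
    rw [H.hsmul, hb]
    have ha : σ (a : F) = a := a.2
    rw [ha]

lemma mem_fixSp (H : IsSemi Q T σ κ) {v : ι → F} : v ∈ fixSp H ↔ T v = v := Iff.rfl

lemma span_fixSp (H : IsSemi Q T σ κ) (hit : ∀ x, T^[orderOf σ] x = x) :
    Submodule.span F {v | T v = v} = ⊤ := by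
  classical
  haveI : Finite (F ≃+* F) := Finite.of_injective (fun σ : F ≃+* F => (σ : F → F)) DFunLike.coe_injective
  exact span_fix σ (orderOf_pos σ) T H.hadd H.hsmul hit

/-- the dimension of the fixed space -/
lemma finrank_fixSp (H : IsSemi Q T σ κ) (hit : ∀ x, T^[orderOf σ] x = x) :
    Module.finrank (fixF σ) (fixSp H) = Fintype.card ι := by
  classical
  have hspan := span_fixSp H hit
  obtain ⟨b, hb, hbs, hli⟩ := exists_linearIndependent F {v : ι → F | T v = v}
  let Bs : Module.Basis b F (ι → F) := Module.Basis.mk hli (by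
    rw [Subtype.range_coe, hbs, hspan])
  have hBs : ∀ j, Bs j = (j : ι → F) := fun j => by simp [Bs, Module.Basis.mk_apply]
  have hfix : ∀ j : b, T (Bs j) = Bs j := fun j => by
    rw [hBs]
    exact hb j.2
  haveI : Finite b := Module.Finite.finite_basis Bs
  haveI : Fintype b := Fintype.ofFinite _
  let bK : b → fixSp H := fun j => ⟨Bs j, hfix j⟩
  have hliK : LinearIndependent (fixF σ) bK := by
    rw [Fintype.linearIndependent_iff]
    intro t ht j
    apply Subtype.ext
    have h1 := congrArg (fun w : fixSp H => (w : ι → F)) ht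
    simp only [Submodule.coe_sum] at h1
    have h2 : ∑ i, (t i : F) • Bs i = 0 := h1
    have h3 := Fintype.linearIndependent_iff.mp Bs.linearIndependent _ h2 j
    exact h3
  have hspanK : ⊤ ≤ Submodule.span (fixF σ) (Set.range bK) := by
    rintro ⟨v, hv⟩ -
    have e1 := Bs.sum_repr v
    have e2 : T v = v := hv
    have e3 : v = ∑ i, σ (Bs.repr v i) • Bs i := by
      conv_lhs => rw [← e2, ← e1]
      rw [semi_sum H]
      exact Finset.sum_congr rfl fun i _ => by rw [hfix]
    have e4 : ∀ i, σ (Bs.repr v i) = Bs.repr v i := by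
      intro i
      have h4 := congrArg (fun w => Bs.repr w i) e3
      simp only [map_sum, map_smul, Finsupp.coe_finsetSum, Finset.sum_apply, Module.Basis.repr_self, Finsupp.smul_apply,
        Finsupp.single_apply, smul_eq_mul, mul_ite, mul_one, mul_zero, Finset.sum_ite_eq', Finset.mem_univ, if_true] at h4
      exact h4.symm
    have e5 : (⟨v, hv⟩ : fixSp H) = ∑ i, (⟨Bs.repr v i, e4 i⟩ : fixF σ) • bK i := by
      apply Subtype.ext
      rw [Submodule.coe_sum]
      change v = ∑ i, (Bs.repr v i) • Bs i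
      exact e1.symm
    rw [e5]
    apply Submodule.sum_mem
    intro i _
    exact Submodule.smul_mem _ _ (Submodule.subset_span ⟨i, rfl⟩)
  let BK := Module.Basis.mk hliK hspanK
  rw [Module.finrank_eq_card_basis BK]
  have h1 := Module.finrank_eq_card_basis Bs
  rw [Module.finrank_fintype_fun_eq_card] at h1
  exact h1.symm

/-- a basis of the fixed space spans the whole space -/
lemma span_of_basis (H : IsSemi Q T σ κ) (hit : ∀ x, T^[orderOf σ] x = x) {J : Type*} (b : Module.Basis J (fixF σ) (fixSp H)) :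
    ⊤ ≤ Submodule.span F (Set.range (fun j => (b j : ι → F))) := by
  classical
  haveI : Module.Finite (fixF σ) (fixSp H) := Module.Finite.of_finite
  haveI : Finite J := Module.Finite.finite_basis b
  haveI : Fintype J := Fintype.ofFinite _
  rw [← span_fixSp H hit, Submodule.span_le]
  intro v hv
  have h5 := b.sum_repr ⟨v, hv⟩
  have h6 := congrArg (fun w : fixSp H => (w : ι → F)) h5
  simp only at h6
  rw [Submodule.coe_sum] at h6
  change _ = v at h6
  rw [SetLike.mem_coe, ← h6]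
  apply Submodule.sum_mem
  rintro j _
  have : ((b.repr ⟨v, hv⟩ j • b j : fixSp H) : ι → F) = ((b.repr ⟨v, hv⟩ j : fixF σ) : F) • (b j : ι → F) := rfl
  rw [this]
  exact Submodule.smul_mem _ _ (Submodule.subset_span ⟨j, rfl⟩)

variable (h : QF Q B)
include h

lemma desc_mem (H : IsSemi Q T σ κ) {d : F} (hd : d * κ = σ d) (u : fixSp H) : d * Q (u : ι → F) ∈ fixF σ := by
  rw [mem_fixF, map_mul, ← hd]
  have h1 := H.hQ (u : ι → F)
  rw [show T (u : ι → F) = u from u.2] at h1
  conv_rhs => rw [h1]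
  ring

lemma desc_mem_B (H : IsSemi Q T σ κ) {d : F} (hd : d * κ = σ d) (u v : fixSp H) :
    d * B (u : ι → F) (v : ι → F) ∈ fixF σ := by
  rw [mem_fixF, map_mul, ← hd]
  have h1 := semi_B h H (u : ι → F) (v : ι → F)
  rw [show T (u : ι → F) = u from u.2, show T (v : ι → F) = v from v.2] at h1
  conv_rhs => rw [h1]
  ring

/-- the descended quadratic form -/
noncomputable def descQ (H : IsSemi Q T σ κ) {d : F} (hd : d * κ = σ d) : QuadraticForm (fixF σ) (fixSp H) where
  toFun u := ⟨d * Q (u : ι → F), desc_mem h H hd u⟩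
  toFun_smul a u := by
    apply Subtype.ext
    change d * Q ((a : F) • (u : ι → F)) = ((a : F) * (a : F)) * (d * Q (u : ι → F))
    rw [h.smul]
    ring
  exists_companion' := by
    refine ⟨LinearMap.mk₂ (fixF σ) (fun u v : fixSp H => (⟨d * B (u : ι → F) (v : ι → F), desc_mem_B h H hd u v⟩ : fixF σ))
      ?_ ?_ ?_ ?_, ?_⟩
    · intro a b e
      apply Subtype.ext
      change d * B ((a : ι → F) + (b : ι → F)) (e : ι → F) = d * B (a : ι → F) (e : ι → F) + d * B (b : ι → F) (e : ι → F)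
      rw [h.add_left, mul_add]
    · intro k a e
      apply Subtype.ext
      change d * B ((k : F) • (a : ι → F)) (e : ι → F) = (k : F) * (d * B (a : ι → F) (e : ι → F))
      rw [h.smul_left]
      ring
    · intro a b e
      apply Subtype.ext
      change d * B (a : ι → F) ((b : ι → F) + (e : ι → F)) = d * B (a : ι → F) (b : ι → F) + d * B (a : ι → F) (e : ι → F)
      rw [h.add_right, mul_add]
    · intro k a e
      apply Subtype.ext
      change d * B (a : ι → F) ((k : F) • (e : ι → F)) = (k : F) * (d * B (a : ι → F) (e : ι → F))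
      rw [h.smul_right]
      ring
    · intro x y
      apply Subtype.ext
      change d * Q ((x : ι → F) + (y : ι → F)) = d * Q (x : ι → F) + d * Q (y : ι → F) + d * B (x : ι → F) (y : ι → F)
      rw [h.add]
      ring

lemma descQ_coe (H : IsSemi Q T σ κ) {d : F} (hd : d * κ = σ d) (u : fixSp H) :
    ((descQ h H hd u : fixF σ) : F) = d * Q (u : ι → F) := rfl

lemma descQ_polar (H : IsSemi Q T σ κ) {d : F} (hd : d * κ = σ d) (u v : fixSp H) :
    ((QuadraticMap.polar (descQ h H hd) u v : fixF σ) : F) = d * B (u : ι → F) (v : ι → F) := by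
  change ((descQ h H hd (u + v) : fixF σ) : F) - ((descQ h H hd u : fixF σ) : F) - ((descQ h H hd v : fixF σ) : F) = _
  rw [descQ_coe, descQ_coe, descQ_coe]
  change d * Q ((u : ι → F) + (v : ι → F)) - _ - _ = _
  rw [h.add]
  ring

lemma descQ_nondeg (hnd : ND B (⊤ : Submodule F (ι → F))) (H : IsSemi Q T σ κ) (hit : ∀ x, T^[orderOf σ] x = x)
    {d : F} (hd0 : d ≠ 0) (hd : d * κ = σ d) : (QuadraticMap.polarBilin (descQ h H hd)).Nondegenerate := by
  have key : ∀ x : fixSp H, (∀ y : fixSp H, QuadraticMap.polar (descQ h H hd) x y = 0) → x = 0 := by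
    intro x hx
    apply Subtype.ext
    by_contra hne
    obtain ⟨z, -, hz⟩ := hnd (x : ι → F) trivial hne
    apply hz
    have hmem : z ∈ Submodule.span F {v | T v = v} := by
      rw [span_fixSp H hit]
      trivial
    induction hmem using Submodule.span_induction with
    | mem y hy =>
      have h1 := congrArg Subtype.val (hx ⟨y, hy⟩)
      rw [descQ_polar] at h1
      exact (mul_eq_zero.mp h1).resolve_left hd0
    | zero => exact h.zero_right _
    | add a b _ _ ha hb =>
      rw [h.add_right]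
      by_cases hz1 : B (x : ι → F) a = 0
      · by_cases hz2 : B (x : ι → F) b = 0
        · rw [hz1, hz2, add_zero]
        · exact absurd (hb hz2) hz2
      · exact absurd (ha hz1) hz1
    | smul a b _ hb =>
      rw [h.smul_right]
      by_cases hz1 : B (x : ι → F) b = 0
      · rw [hz1, mul_zero]
      · exact absurd (hb hz1) hz1
  refine ⟨fun x hx => key x (fun y => hx y), fun y hy => key y (fun x => ?_)⟩
  have h1 := hy x
  rw [QuadraticMap.polarBilin_apply_apply] at h1
  rw [QuadraticMap.polar_comm]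
  exact h1

omit h in
/-- the intertwining similarity -/
theorem exists_P (h : QF Q B) (H : IsSemi Q T σ κ) (b : ι → ι → F) (hfix : ∀ j, T (b j) = b j)
    (hspan : ⊤ ≤ Submodule.span F (Set.range b)) {c : F} (hc : c ≠ 0)
    (hform : ∀ x : ι → F, Q (∑ j, x j • b j) = c * Q x) :
    ∃ P : GS Q, P ∈ GLS Q ∧ ∀ x, (P : Equiv.Perm (ι → F)) x = ∑ j, x j • b j := by
  classical
  let Bs : Module.Basis ι F (ι → F) := basisOfTopLeSpanOfCardEqFinrank b hspan (by
    rw [Module.finrank_fintype_fun_eq_card])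
  have hBs : ∀ j, Bs j = b j := fun j => by simp [Bs]
  let E : (ι → F) ≃ₗ[F] (ι → F) := Bs.equivFun.symm
  have hE : ∀ x, E x = ∑ j, x j • b j := by
    intro x
    simp only [E, Module.Basis.equivFun_symm_apply, hBs]
  have HP : IsSemi Q E.toEquiv (1 : F ≃+* F) c :=
    { hκ := hc
      hadd := fun x y => map_add E x y
      hsmul := fun a x => map_smul E a x
      hQ := fun x => by
        change Q (E x) = c * Q x
        rw [hE, hform] }
  exact ⟨⟨E.toEquiv, _, _, HP⟩, ⟨c, HP⟩, hE⟩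

end Fix

/-- expansion of a quadratic form in a family -/
lemma form_of_family {V : Type*} [AddCommGroup V] [Module F V] {Q₁ : V → F} {B₁ : V → V → F} (h₁ : QF Q₁ B₁)
    {Q₂ : (ι → F) → F} {B₂ : (ι → F) → (ι → F) → F} (h₂ : QF Q₂ B₂) (b : ι → V) (c : F)
    (hQ : ∀ j, Q₁ (b j) = c * Q₂ (Pi.single j 1)) (hB : ∀ i j, B₁ (b i) (b j) = c * B₂ (Pi.single i 1) (Pi.single j 1)) (x : ι → F) :
    Q₁ (∑ j, x j • b j) = c * Q₂ x := by
  classical
  have e : x = ∑ j, x j • (Pi.single j 1 : ι → F) := by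
    funext i
    simp [Finset.sum_apply, Pi.single_apply]
  have hkey : ∀ s : Finset ι, Q₁ (∑ j ∈ s, x j • b j) = c * Q₂ (∑ j ∈ s, x j • (Pi.single j 1 : ι → F)) ∧
      ∀ i, B₁ (∑ j ∈ s, x j • b j) (b i) = c * B₂ (∑ j ∈ s, x j • (Pi.single j 1 : ι → F)) (Pi.single i 1) := by
    intro s
    induction s using Finset.induction_on with
    | empty =>
      simp only [Finset.sum_empty]
      have e1 : Q₁ 0 = 0 := by simpa using h₁.smul 0 0
      have e2 : Q₂ 0 = 0 := by simpa using h₂.smul 0 0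
      refine ⟨by rw [e1, e2, mul_zero], fun i => ?_⟩
      rw [h₁.zero_left, h₂.zero_left, mul_zero]
    | insert a s ha ih =>
      rw [Finset.sum_insert ha, Finset.sum_insert ha]
      obtain ⟨ih1, ih2⟩ := ih
      constructor
      · rw [h₁.add, h₂.add, h₁.smul, h₂.smul, hQ, ih1, h₁.smul_left, h₂.smul_left, h₁.symm, ih2, h₂.symm]
        ring
      · intro i
        rw [h₁.add_left, h₂.add_left, h₁.smul_left, h₂.smul_left, hB, ih2 i]
        ring
  have h1 := (hkey Finset.univ).1
  rw [← e] at h1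
  exact h1

section Core
variable {m : ℕ} {t₀ : Fin m → (ι → F) × (ι → F)} (C : Cx Q B t₀)
include C

/-- the coordinate action of a field automorphism -/
noncomputable def sigT (σ : F ≃+* F) (hQσ : ∀ x, Q (smap σ x) = σ (Q x)) : GS Q :=
  ⟨{ toFun := smap σ
     invFun := smap σ.symm
     left_inv := smap_symm' σ
     right_inv := smap_symm σ }, σ, 1,
    { hκ := one_ne_zero
      hadd := fun x y => by funext i; simp [smap]
      hsmul := fun c x => by funext i; simp [smap]
      hQ := fun x => by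
        change Q (smap σ x) = 1 * σ (Q x)
        rw [hQσ, one_mul] }⟩

omit C in
lemma sigT_apply (σ : F ≃+* F) (hQσ : ∀ x, Q (smap σ x) = σ (Q x)) (x : ι → F) :
    (sigT (Q := Q) σ hQσ : Equiv.Perm (ι → F)) x = smap σ x := rfl

omit C in
lemma sigT_semi (σ : F ≃+* F) (hQσ : ∀ x, Q (smap σ x) = σ (Q x)) :
    IsSemi Q (sigT (Q := Q) σ hQσ : Equiv.Perm (ι → F)) σ 1 :=
  { hκ := one_ne_zero
    hadd := fun x y => by funext i; simp [sigT, smap]
    hsmul := fun c x => by funext i; simp [sigT, smap]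
    hQ := fun x => by
      change Q (smap σ x) = 1 * σ (Q x)
      rw [hQσ, one_mul] }

/-- the standard field automorphism is the action of the coordinate map -/
lemma fld_eq_Th (σ : F ≃+* F) (hQσ : ∀ x, Q (smap σ x) = σ (Q x)) {φ : MulAut (Cfsg.POmega F Q)}
    (hφ : Cfsg.IsFieldAutPOmegaOf Q σ φ) : φ = Th C.h C.nd (sigT σ hQσ) := by
  have H : SemiM Q (1 : GL ι F) σ 1 := ⟨one_ne_zero, fun v => by
    rw [Units.val_one, Matrix.one_mulVec, hQσ, one_mul]⟩
  apply Th_eq_of_induced C.h C.nd H (T := sigT σ hQσ) _ (fun x => by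
    rw [Units.val_one, Matrix.one_mulVec]
    rfl)
  intro s s' hs
  apply hφ
  rw [hs]
  simp

/-- an automorphism inducing the trivial action has trivial semilinear part -/
lemma sigma_of_Th_eq_one {T : GS Q} {σ : F ≃+* F} {κ : F} (H : IsSemi Q (T : Equiv.Perm (ι → F)) σ κ)
    (h1 : Th C.h C.nd T = 1) : σ = 1 := by
  obtain ⟨α, hα, hT⟩ := C.scalar_of_Th T h1
  let u : Fˣ := Units.mk0 α hα
  have e : (T : Equiv.Perm (ι → F)) = scalarT u := Equiv.ext fun x => hT x
  rw [e] at H
  exact (C.semi_unique H (isSemi_scalar C u)).1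

/-- the order of a standard field automorphism -/
lemma orderOf_sigT (σ : F ≃+* F) (hQσ : ∀ x, Q (smap σ x) = σ (Q x)) :
    orderOf (Th C.h C.nd (sigT σ hQσ)) = orderOf σ := by
  classical
  apply Nat.dvd_antisymm
  · apply orderOf_dvd_of_pow_eq_one
    rw [← map_pow]
    have e : (sigT (Q := Q) σ hQσ) ^ orderOf σ = 1 := by
      apply Subtype.ext
      apply Equiv.ext
      intro x
      change ((sigT (Q := Q) σ hQσ : Equiv.Perm (ι → F)) ^ orderOf σ) x = x
      have hk : ∀ k (x : ι → F), ((sigT (Q := Q) σ hQσ : Equiv.Perm (ι → F)) ^ k) x = smap (σ ^ k) x := by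
        intro k x
        induction k with
        | zero => rfl
        | succ k ih =>
          rw [pow_succ', Equiv.Perm.mul_apply, ih, pow_succ']
          rfl
      rw [hk, pow_orderOf_eq_one]
      rfl
    rw [e, map_one]
  · apply orderOf_dvd_of_pow_eq_one
    have h1 := pow_orderOf_eq_one (Th C.h C.nd (sigT σ hQσ))
    rw [← map_pow] at h1
    exact sigma_of_Th_eq_one C (semi_pow (sigT_semi σ hQσ) _) h1

/-- **The coset statement, given the classification of the descended forms.** -/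
theorem coset_core (σ : F ≃+* F) (hQσ : ∀ x, Q (smap σ x) = σ (Q x)) {I : Subgroup (GS Q)}
    (hclass : ∀ (T : Equiv.Perm (ι → F)) (κ : F) (H : IsSemi Q T σ κ), (∀ x, T^[orderOf σ] x = x) →
      (∃ D : GS Q, D ∈ I ∧ ∀ x, T x = (D : Equiv.Perm (ι → F)) (smap σ x)) →
      ∃ P : GS Q, P ∈ I ∧ ∀ x, (P : Equiv.Perm (ι → F)) (smap σ x) = T ((P : Equiv.Perm (ι → F)) x))
    {D : GS Q} (hDI : D ∈ I) (hD : D ∈ GLS Q)
    (hscal : ∀ c : Fˣ, C.scalarG c ∈ I)
    (h1 : (Th C.h C.nd D * Th C.h C.nd (sigT σ hQσ)) ^ orderOf σ = 1) :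
    ∃ P : GS Q, P ∈ I ∧ Th C.h C.nd D * Th C.h C.nd (sigT σ hQσ) =
      Th C.h C.nd P * Th C.h C.nd (sigT σ hQσ) * (Th C.h C.nd P)⁻¹ := by
  classical
  obtain ⟨κ, hκ⟩ := hD
  have HT : IsSemi Q ((D * sigT σ hQσ : GS Q) : Equiv.Perm (ι → F)) σ _ :=
    semi_congr (hκ.mul (sigT_semi σ hQσ)) (one_mul σ) rfl
  rw [← map_mul] at h1
  obtain ⟨T₀, κ₀, H₀, hTh, hit⟩ := exists_normalized C HT h1
  -- `T₀` is a scalar times `D σ`
  have hT₀ : Th C.h C.nd (T₀ * (D * sigT σ hQσ)⁻¹) = 1 := by
    rw [map_mul, map_inv, hTh, mul_inv_cancel]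
  obtain ⟨α, hα, hsc⟩ := C.scalar_of_Th _ hT₀
  let u : Fˣ := Units.mk0 α hα
  have e1 : T₀ = C.scalarG u * (D * sigT σ hQσ) := by
    have e2 : T₀ * (D * sigT σ hQσ)⁻¹ = C.scalarG u := by
      apply Subtype.ext
      apply Equiv.ext
      intro x
      exact hsc x
    rw [← e2, inv_mul_cancel_right]
  obtain ⟨P, hPI, hP⟩ := hclass _ _ H₀ hit ⟨C.scalarG u * D, I.mul_mem (hscal u) hDI, fun x => by
    rw [e1]
    rfl⟩
  refine ⟨P, hPI, ?_⟩
  have e3 : P * sigT σ hQσ = T₀ * P := by
    apply Subtype.ext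
    apply Equiv.ext
    intro x
    exact hP x
  have e4 : T₀ = P * sigT σ hQσ * P⁻¹ := by
    rw [e3, mul_inv_cancel_right]
  rw [← map_mul, ← hTh, e4, map_mul, map_mul, map_inv]

end Core

end Cfsg.Agent.Lead.LangOm
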