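import Cfsg.Agent.Lib.Lead.LangOm
import Cfsg.Agent.Lib.H01.OmOddFinal
import Cfsg.Agent.S2618
/-! Lang-Steinberg for field automorphisms of `Ω_{2m+1}`: the coset statement. -/
set_option autoImplicit false
set_option linter.style.haveILetI false
set_option linter.unusedSimpArgs false
set_option linter.unusedSectionVars false
set_option linter.unusedVariables false
namespace Cfsg.Agent.Lead.LangOm
open Matrix Cfsg.Agent.Lead.Ortho Cfsg.Agent.Lead.Omega Cfsg.Agent.H01.Om Cfsg.Agent.Lead.Lang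

variable {F : Type*} [Field F] [Fintype F] {ι : Type} [Fintype ι] [DecidableEq ι]
variable {Q : (ι → F) → F} {B : (ι → F) → (ι → F) → F}

/-- the intertwiner from a fixed family -/
theorem intertwine (h : QF Q B) {T : Equiv.Perm (ι → F)} {σ : F ≃+* F} {κ : F} (H : IsSemi Q T σ κ) (b : ι → ι → F)
    (hfix : ∀ j, T (b j) = b j) (hspan : ⊤ ≤ Submodule.span F (Set.range b)) {c : F} (hc : c ≠ 0)
    (hform : ∀ x : ι → F, Q (∑ j, x j • b j) = c * Q x) :
    ∃ P : GS Q, P ∈ GLS Q ∧ ∀ x, (P : Equiv.Perm (ι → F)) (smap σ x) = T ((P : Equiv.Perm (ι → F)) x) := by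
  obtain ⟨P, hP, hPx⟩ := exists_P h H b hfix hspan hc hform
  refine ⟨P, hP, fun x => ?_⟩
  rw [hPx, hPx, semi_sum H]
  apply Finset.sum_congr rfl
  intro j _
  rw [hfix]
  rfl

/-- scalars rescale spanning families -/
lemma span_rescale {J : Type*} (b : J → ι → F) (c : J → F) (hc : ∀ j, c j ≠ 0)
    (hspan : ⊤ ≤ Submodule.span F (Set.range b)) : ⊤ ≤ Submodule.span F (Set.range (fun j => c j • b j)) := by
  refine hspan.trans ?_
  rw [Submodule.span_le]
  rintro _ ⟨j, rfl⟩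
  have e : b j = (c j)⁻¹ • (c j • b j) := by
    rw [smul_smul, inv_mul_cancel₀ (hc j), one_smul]
  rw [e]
  exact Submodule.smul_mem _ _ (Submodule.subset_span ⟨j, rfl⟩)

section Normal
variable {m : ℕ} {t₀ : Fin m → (ι → F) × (ι → F)} (C : Cx Q B t₀)
include C

/-- the image of the linear similarities is normal -/
theorem range_GLS_normal (hΓ : Cfsg.gammaPOmega F Q = ⊤) : ((GLS Q).map (Th C.h C.nd)).Normal := by
  refine ⟨?_⟩
  rintro _ ⟨D, ⟨κ, hD⟩, rfl⟩ α
  have hα : α ∈ Cfsg.gammaPOmega F Q := by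
    rw [hΓ]
    trivial
  obtain ⟨A, rfl⟩ := gamma_le_range C.h C.nd hα
  refine ⟨A * D * A⁻¹, ?_, ?_⟩
  · obtain ⟨A', σ, κ', HA⟩ := A
    refine ⟨_, semi_congr ((HA.mul hD).mul HA.inv) ?_ rfl⟩
    simp
  · simp only [map_mul, map_inv]

/-- **The coset statement for the whole group of linear similarities.** -/
theorem coset_GLS (hΓ : Cfsg.gammaPOmega F Q = ⊤) (hQσ : ∀ (σ : F ≃+* F) x, Q (smap σ x) = σ (Q x))
    (hclass : ∀ (σ : F ≃+* F) (T : Equiv.Perm (ι → F)) (κ : F) (H : IsSemi Q T σ κ), (∀ x, T^[orderOf σ] x = x) →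
      ∃ P : GS Q, P ∈ GLS Q ∧ ∀ x, (P : Equiv.Perm (ι → F)) (smap σ x) = T ((P : Equiv.Perm (ι → F)) x))
    (x δ : MulAut (Cfsg.POmega F Q)) (hx : Cfsg.IsFieldAutClassPOmega Q x) {r : ℕ} (hxr : orderOf x = r)
    (hδ : δ ∈ (GLS Q).map (Th C.h C.nd)) :
    orderOf (δ * x) = r ↔ Cfsg.IsConjUnder ((GLS Q).map (Th C.h C.nd)) x (δ * x) := by
  haveI hnorm : ((GLS Q).map (Th C.h C.nd)).Normal := range_GLS_normal C hΓ
  constructor
  · intro hord
    obtain ⟨α, φ, σ, hσ, hstd, hφ⟩ := hx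
    have e : α * x * α⁻¹ = Th C.h C.nd (sigT σ (hQσ σ)) := by
      rw [hφ]
      exact fld_eq_Th C σ (hQσ σ) hstd
    apply conj_transport _ α
    have h0 := hnorm.conj_mem δ hδ α
    obtain ⟨D, hD, hg⟩ := h0
    rw [← hg, e]
    have h1 : orderOf (Th C.h C.nd D * Th C.h C.nd (sigT σ (hQσ σ))) = r := by
      rw [hg, ← e, ← hord, ← orderOf_conj' α (δ * x)]
      congr 1
      group
    have hσr : orderOf σ = r := by
      rw [← orderOf_sigT C σ (hQσ σ), ← e, orderOf_conj', hxr]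
    have h2 : (Th C.h C.nd D * Th C.h C.nd (sigT σ (hQσ σ))) ^ (orderOf σ) = 1 := by
      rw [hσr, ← h1]
      exact pow_orderOf_eq_one _
    obtain ⟨P, hP, hk⟩ := coset_core C σ (hQσ σ) (I := GLS Q)
      (fun T κ H hit _ => hclass σ T κ H hit) hD hD (fun c => ⟨_, isSemi_scalar C c⟩) h2
    rw [hk]
    exact ⟨_, ⟨P, hP, rfl⟩, rfl⟩
  · rintro ⟨h, -, e⟩
    rw [e, orderOf_conj', hxr]

end Normal

section Odd
variable {m : ℕ}

lemma smap_odd (σ : F ≃+* F) (x : Unit ⊕ (Fin m ⊕ Fin m) → F) :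
    Cfsg.quadFormOdd m F (smap σ x) = σ (Cfsg.quadFormOdd m F x) := std_odd m σ x

/-- values of the form on the standard basis -/
lemma QO0 : Cfsg.quadFormOdd m F (Pi.single (Sum.inl ()) 1) = 1 := by
  classical
  simp [Cfsg.quadFormOdd, Pi.single_apply]

lemma QOL (j : Fin m) : Cfsg.quadFormOdd m F (Pi.single (Sum.inr (Sum.inl j)) 1) = 0 := by
  classical
  simp [Cfsg.quadFormOdd, Pi.single_apply]

lemma QOR (j : Fin m) : Cfsg.quadFormOdd m F (Pi.single (Sum.inr (Sum.inr j)) 1) = 0 := by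
  classical
  simp [Cfsg.quadFormOdd, Pi.single_apply]

lemma PO00 : polarOdd m F (Pi.single (Sum.inl ()) 1) (Pi.single (Sum.inl ()) 1) = 2 := by
  classical
  simp [polarOdd, Pi.single_apply]

lemma PO0L (j : Fin m) : polarOdd m F (Pi.single (Sum.inl ()) 1) (Pi.single (Sum.inr (Sum.inl j)) 1) = 0 := by
  classical
  simp [polarOdd, Pi.single_apply]

lemma PO0R (j : Fin m) : polarOdd m F (Pi.single (Sum.inl ()) 1) (Pi.single (Sum.inr (Sum.inr j)) 1) = 0 := by
  classical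
  simp [polarOdd, Pi.single_apply]

lemma POLL (j k : Fin m) : polarOdd m F (Pi.single (Sum.inr (Sum.inl j)) 1) (Pi.single (Sum.inr (Sum.inl k)) 1) = 0 := by
  classical
  simp [polarOdd, Pi.single_apply]

lemma PORR (j k : Fin m) : polarOdd m F (Pi.single (Sum.inr (Sum.inr j)) 1) (Pi.single (Sum.inr (Sum.inr k)) 1) = 0 := by
  classical
  simp [polarOdd, Pi.single_apply]

lemma POLR (j k : Fin m) : polarOdd m F (Pi.single (Sum.inr (Sum.inl j)) 1) (Pi.single (Sum.inr (Sum.inr k)) 1) = if j = k then 1 else 0 := by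
  classical
  simp [polarOdd, Pi.single_apply, Finset.sum_ite_eq, eq_comm]

/-- the classification for odd dimension -/
theorem class_odd (h2 : (2 : F) ≠ 0) {t₀ : Fin m → _} (C : Cx (Cfsg.quadFormOdd m F) (polarOdd m F) t₀) (σ : F ≃+* F)
    (T : Equiv.Perm (Unit ⊕ (Fin m ⊕ Fin m) → F)) (κ : F) (H : IsSemi (Cfsg.quadFormOdd m F) T σ κ)
    (hit : ∀ x, T^[orderOf σ] x = x) :
    ∃ P : GS (Cfsg.quadFormOdd m F), P ∈ GLS (Cfsg.quadFormOdd m F) ∧
      ∀ x, (P : Equiv.Perm (Unit ⊕ (Fin m ⊕ Fin m) → F)) (smap σ x) = T ((P : Equiv.Perm (Unit ⊕ (Fin m ⊕ Fin m) → F)) x) := by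
  classical
  obtain ⟨d, hd0, hd⟩ := exists_d C H hit
  have h := C.h
  have hV : Module.finrank (fixF σ) (fixSp H) = 2 * m + 1 := by
    rw [finrank_fixSp H hit]
    simp only [Fintype.card_sum, Fintype.card_unit, Fintype.card_fin]
    omega
  haveI : Module.Finite (fixF σ) (fixSp H) := Module.Finite.of_finite
  obtain ⟨b, hb1, hb2, hb3, hb4, hb5⟩ := Cfsg.Agent.S2618.result (F := fixF σ) (V := fixSp H) hV (descQ h H hd)
    (descQ_nondeg h C.nd H hit hd0 hd)
  set a : fixF σ := descQ h H hd (b (Sum.inl ())) with ha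
  have ha0 : (a : F) ≠ 0 := fun e => hb1 (Subtype.ext e)
  -- translating the polar data
  have hP : ∀ u v : fixSp H, polarOdd m F (u : Unit ⊕ (Fin m ⊕ Fin m) → F) (v : Unit ⊕ (Fin m ⊕ Fin m) → F) =
      d⁻¹ * ((QuadraticMap.polar (descQ h H hd) u v : fixF σ) : F) := by
    intro u v
    rw [descQ_polar, inv_mul_cancel_left₀ hd0]
  have hZ : ∀ u : fixSp H, Cfsg.quadFormOdd m F (u : Unit ⊕ (Fin m ⊕ Fin m) → F) = d⁻¹ * ((descQ h H hd u : fixF σ) : F) := by
    intro u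
    rw [descQ_coe, inv_mul_cancel_left₀ hd0]
  let c : Unit ⊕ (Fin m ⊕ Fin m) → F := Sum.elim (fun _ => 1) (Sum.elim (fun _ => 1) (fun _ => (a : F)))
  have hc0 : ∀ j, c j ≠ 0 := by
    rintro (⟨⟩ | j | j)
    · exact one_ne_zero
    · exact one_ne_zero
    · exact ha0
  have hcK : ∀ j, σ (c j) = c j := by
    rintro (⟨⟩ | j | j)
    · exact map_one σ
    · exact map_one σ
    · exact a.2
  let b' : (Unit ⊕ (Fin m ⊕ Fin m)) → (Unit ⊕ (Fin m ⊕ Fin m) → F) := fun j => c j • (b j : Unit ⊕ (Fin m ⊕ Fin m) → F)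
  have hfix : ∀ j, T (b' j) = b' j := by
    intro j
    simp only [b']
    rw [H.hsmul, hcK, show T (b j : Unit ⊕ (Fin m ⊕ Fin m) → F) = (b j : Unit ⊕ (Fin m ⊕ Fin m) → F) from (b j).2]
  have hspan : ⊤ ≤ Submodule.span F (Set.range b') := span_rescale _ c hc0 (span_of_basis H hit b)
  have hform : ∀ x : Unit ⊕ (Fin m ⊕ Fin m) → F, Cfsg.quadFormOdd m F (∑ j, x j • b' j) = (d⁻¹ * a) * Cfsg.quadFormOdd m F x := by
    apply form_of_family h h
    · rintro (⟨⟨⟩⟩ | j | j)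
      · simp only [b', c, Sum.elim_inl]
        rw [h.smul, hZ, QO0, ← ha]
        ring
      · simp only [b', c, Sum.elim_inr, Sum.elim_inl]
        rw [h.smul, hZ, (hb3 j).1, QOL]
        simp
      · simp only [b', c, Sum.elim_inr]
        rw [h.smul, hZ, (hb3 j).2, QOR]
        simp
    · have hs : ∀ (u v : Unit ⊕ (Fin m ⊕ Fin m)), polarOdd m F (b' u) (b' v) = c u * c v * polarOdd m F (b u : Unit ⊕ (Fin m ⊕ Fin m) → F) (b v : Unit ⊕ (Fin m ⊕ Fin m) → F) := by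
        intro u v
        simp only [b']
        rw [h.smul_left, h.smul_right]
        ring
      have hsym : ∀ (u v : Unit ⊕ (Fin m ⊕ Fin m)), polarOdd m F (Pi.single u 1) (Pi.single v 1) = polarOdd m F (Pi.single v 1) (Pi.single u 1) := fun u v => h.symm _ _
      rintro (⟨⟨⟩⟩ | j | j) (⟨⟨⟩⟩ | k | k) <;> rw [hs]
      · simp only [c, Sum.elim_inl]
        rw [PO00]
        have e1 : polarOdd m F (b (Sum.inl ()) : Unit ⊕ (Fin m ⊕ Fin m) → F) (b (Sum.inl ()) : Unit ⊕ (Fin m ⊕ Fin m) → F) =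
            2 * Cfsg.quadFormOdd m F (b (Sum.inl ()) : Unit ⊕ (Fin m ⊕ Fin m) → F) := by
          have e2 := h.add (b (Sum.inl ()) : Unit ⊕ (Fin m ⊕ Fin m) → F) (b (Sum.inl ()) : Unit ⊕ (Fin m ⊕ Fin m) → F)
          have e3 := h.smul 2 (b (Sum.inl ()) : Unit ⊕ (Fin m ⊕ Fin m) → F)
          rw [two_smul] at e3
          rw [e3] at e2
          linear_combination -e2
        rw [e1, hZ, ← ha]
        ring
      · simp only [c, Sum.elim_inl, Sum.elim_inr]
        rw [PO0L, hP, (hb2 k).1]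
        simp
      · simp only [c, Sum.elim_inl, Sum.elim_inr]
        rw [PO0R, hP, (hb2 k).2]
        simp
      · simp only [c, Sum.elim_inl, Sum.elim_inr]
        rw [hsym, PO0L, h.symm, hP, (hb2 j).1]
        simp
      · simp only [c, Sum.elim_inl, Sum.elim_inr]
        rw [POLL, hP, (hb5 j k).1]
        simp
      · simp only [c, Sum.elim_inl, Sum.elim_inr]
        rw [POLR, hP, hb4 j k]
        by_cases hjk : j = k
        · simp only [hjk, if_true]
          simp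
          ring
        · simp [hjk]
      · simp only [c, Sum.elim_inl, Sum.elim_inr]
        rw [hsym, PO0R, h.symm, hP, (hb2 j).2]
        simp
      · simp only [c, Sum.elim_inl, Sum.elim_inr]
        rw [hsym, POLR, h.symm, hP, hb4 k j]
        by_cases hjk : k = j
        · simp only [hjk, if_true]
          simp
          ring
        · simp [hjk]
      · simp only [c, Sum.elim_inl, Sum.elim_inr]
        rw [PORR, hP, (hb5 j k).2]
        simp
  exact intertwine h H b' hfix hspan (mul_ne_zero (inv_ne_zero hd0) ha0) hform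

/-- the context in odd dimension -/
lemma exists_cxOdd (hodd : Odd (Fintype.card F)) (hm : 3 ≤ m) :
    ∃ t₀ : Fin m → _, Cx (Cfsg.quadFormOdd m F) (polarOdd m F) t₀ := by
  have h2 : (2 : F) ≠ 0 := two_ne_zero_of_odd rfl hodd
  obtain ⟨m', rfl⟩ : ∃ m', m = m' + 1 + 1 := ⟨m - 2, by omega⟩
  exact ⟨_, mkCx (qfOdd (F := F) (m' + 1 + 1)) (ndOdd _ h2) (frameOdd_HF _) (by omega) (frameOdd_anis _)⟩

/-- S2735 -/
theorem coset_conj_odd (hodd : Odd (Fintype.card F)) (hm : 3 ≤ m) (x δ : MulAut (Cfsg.POmega F (Cfsg.quadFormOdd m F)))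
    (hx : Cfsg.IsFieldAutClassPOmega (Cfsg.quadFormOdd m F) x) {r : ℕ} (hxr : orderOf x = r)
    (hδ : δ ∈ Cfsg.inndiagPOmegaOdd m F) :
    orderOf (δ * x) = r ↔ Cfsg.IsConjUnder (Cfsg.inndiagPOmegaOdd m F) x (δ * x) := by
  have h2 : (2 : F) ≠ 0 := two_ne_zero_of_odd rfl hodd
  obtain ⟨t₀, C⟩ := exists_cxOdd (F := F) hodd hm
  have hI : Cfsg.inndiagPOmegaOdd m F = (GLS (Cfsg.quadFormOdd m F)).map (Th C.h C.nd) := pgo_eq C.h C.nd
  rw [hI] at hδ ⊢
  exact coset_GLS C (gamma_top_odd hodd hm) smap_odd (fun σ T κ H hit => class_odd h2 C σ T κ H hit) x δ hx hxr hδ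

end Odd

end Cfsg.Agent.Lead.LangOm
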