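import Cfsg.Agent.Lib.Lead.LangPSp
import Cfsg.Agent.Lib.Lead.LangPSL2
import Cfsg.Agent.Lib.Lead.AutPSpFinal
/-! Lang-Steinberg for field automorphisms of `PSp_{2m}(F)`: the coset statement. -/
set_option autoImplicit false
set_option linter.style.haveILetI false
set_option linter.unusedSimpArgs false
set_option linter.unusedSectionVars false
set_option linter.unusedVariables false
namespace Cfsg.Agent.Lead.Lang
open Matrix
open Cfsg.Agent.Lead.AutPSp
open scoped MatrixGroups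

variable {F : Type*} [Field F] [Fintype F] {m : ℕ}

local notation "PG" => (symplecticGroup (Fin m) F ⧸ Subgroup.center (symplecticGroup (Fin m) F))
local notation "II" => (Fin m ⊕ Fin m)

/-- the scalar element of `GSp` -/
noncomputable def scS (z : Fˣ) : Cfsg.GSp m F :=
  ⟨sc z, z * z, fun u v => by
    change sympForm _ _ = _
    simp only [sc_coe, Matrix.smul_mulVec, Matrix.one_mulVec, sympForm_smul_left, sympForm_smul_right, Units.val_mul, mul_assoc]
    rfl⟩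

lemma scS_coe (z : Fˣ) : (scS z : Cfsg.GSp m F).1 = sc z := rfl

lemma kk_scS [Nonempty (Fin m)] (z : Fˣ) : (kk (scS z : Cfsg.GSp m F) : MulAut PG) = 1 := by
  rw [kk_eq_one_iff]
  exact ⟨z, sc_coe z⟩

/-- the field coset in `PSp` -/
theorem field_coset_Sp [Nonempty (Fin m)] (σ : F ≃+* F) (g : Cfsg.GSp m F)
    (h : (kk g * fldS σ : MulAut PG) ^ (orderOf σ) = 1) :
    ∃ k : Cfsg.GSp m F, (kk g * fldS σ : MulAut PG) = kk k * fldS σ * (kk k)⁻¹ := by
  classical
  haveI : Finite (F ≃+* F) := Finite.of_injective (fun σ : F ≃+* F => (σ : F → F)) DFunLike.coe_injective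
  have hr : 0 < orderOf σ := orderOf_pos σ
  rw [kk_fld_pow, pow_orderOf_eq_one, map_one, mul_one, kk_eq_one_iff, nrmS_coe] at h
  obtain ⟨z, hz⟩ := h
  have hz0 : z ≠ 0 := by
    rintro rfl
    rw [zero_smul] at hz
    have h1 := (nrm σ g.1 (orderOf σ)).isUnit
    rw [hz] at h1
    exact not_isUnit_zero h1
  let l : Fˣ := Units.mk0 z hz0
  have hl' : (sc l : GL II F) = nrm σ g.1 (orderOf σ) := by
    apply Units.ext
    rw [sc_coe, hz]
    rfl
  have hsl : σ (l : F) = l := by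
    have e1 := nrm_succ σ g.1 (orderOf σ)
    rw [nrm_succ', pow_orderOf_eq_one, gm_one, ← hl', gm_sc, sc_comm] at e1
    have e2 := sc_inj (mul_left_cancel e1)
    have e3 := congrArg Units.val e2
    exact e3.symm
  obtain ⟨μ, hμ0, hμ⟩ := norm_surj σ (inv_ne_zero l.ne_zero) (by rw [map_inv₀, hsl])
  let u : Fˣ := Units.mk0 μ hμ0
  let g' : Cfsg.GSp m F := scS u * g
  have hN : nrm σ g'.1 (orderOf σ) = 1 := by
    change nrm σ (sc u * g.1) (orderOf σ) = 1
    rw [nrm_sc_mul, ← hl', ← map_mul]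
    have : (∏ i ∈ Finset.range (orderOf σ), Units.map (((σ ^ i : F ≃+* F) : F →* F)) u) * l = 1 := by
      apply Units.ext
      rw [Units.val_mul, Units.coe_prod]
      change (∏ i ∈ Finset.range (orderOf σ), (σ ^ i) μ) * (l : F) = 1
      rw [hμ]
      exact inv_mul_cancel₀ l.ne_zero
    rw [this, map_one]
  obtain ⟨k, hk⟩ := h90GSp σ g' hN
  refine ⟨k, ?_⟩
  have e4 : (kk g' : MulAut PG) = kk g := by
    simp only [g']
    rw [map_mul, kk_scS, one_mul]
  have e5 : (kk g * kk (gmS σ k) : MulAut PG) = kk k := by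
    rw [← e4, ← map_mul, hk]
  have e6 : (fldS σ * kk k : MulAut PG) = kk (gmS σ k) * fldS σ := fldS_kk σ k
  have e7 : ((kk (gmS σ k) : MulAut PG))⁻¹ * fldS σ = fldS σ * (kk k)⁻¹ := by
    rw [inv_mul_eq_iff_eq_mul, ← mul_assoc, ← e6, mul_inv_cancel_right]
  calc (kk g * fldS σ : MulAut PG) = kk k * ((kk (gmS σ k))⁻¹ * fldS σ) := by
        rw [← e5]; group
    _ = _ := by rw [e7]; group

/-- inner-diagonal automorphisms are the `kk g` -/
lemma isInnerS_iff (β : MulAut PG) : Cfsg.IsInnerDiagonalAutPSp β ↔ ∃ g : Cfsg.GSp m F, β = kk g := by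
  constructor
  · rintro ⟨g, hg, hind⟩
    refine ⟨⟨g, hg⟩, ?_⟩
    ext x
    induction x using QuotientGroup.induction_on with
    | H s =>
      have h1 := hind s (cHom (ssOf (⟨g, hg⟩ : Cfsg.GSp m F)) s) (by
        rw [cHom_coe])
      exact h1
  · rintro ⟨g, rfl⟩
    refine ⟨g.1, g.2, ?_⟩
    exact cP_induced (ssOf g)

lemma stdS_iff (σ : F ≃+* F) (β : MulAut PG) : Cfsg.IsStdFieldAutPSp σ β ↔ β = fldS σ := by
  constructor
  · intro h
    ext x
    induction x using QuotientGroup.induction_on with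
    | H s =>
      have h1 := h s (cHom (ss_one σ) s) (by
        rw [cHom_coe]
        simp)
      exact h1
  · rintro rfl s s' hs
    have h1 : cHom (ss_one σ) s = s' := by
      apply Subtype.ext
      rw [cHom_coe, hs]
      simp
    rw [← h1]
    rfl

lemma inndiagS_eq : Cfsg.inndiagPSp m F = (kk : Cfsg.GSp m F →* MulAut PG).range := by
  apply le_antisymm
  · rw [Cfsg.inndiagPSp, Cfsg.autSubgroupOf, Subgroup.closure_le]
    intro β hβ
    obtain ⟨g, rfl⟩ := (isInnerS_iff β).mp hβ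
    exact ⟨g, rfl⟩
  · rintro _ ⟨g, rfl⟩
    exact Subgroup.subset_closure ((isInnerS_iff _).mpr ⟨g, rfl⟩)

lemma fldS_inj [Nonempty (Fin m)] : Function.Injective (fldS : (F ≃+* F) →* MulAut PG) := by
  rw [injective_iff_map_eq_one]
  intro σ h
  apply fldS_eq_kk (g := (1 : Cfsg.GSp m F))
  rw [map_one, h]

lemma orderOf_fldS [Nonempty (Fin m)] (σ : F ≃+* F) : orderOf (fldS σ : MulAut PG) = orderOf σ :=
  orderOf_injective _ fldS_inj σ

/-- the characteristic of `F` -/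
lemma exists_char : ∃ (p f : ℕ), Fact p.Prime ∧ CharP F p ∧ Fintype.card F = p ^ f ∧ 1 ≤ f := by
  obtain ⟨p, hp⟩ := CharP.exists F
  obtain ⟨f, hpr, hf⟩ := FiniteField.card F p
  exact ⟨p, f, ⟨hpr⟩, hp, hf, f.2⟩

lemma range_kk_normal [Nonempty (Fin m)] (hm : 2 ≤ m) : (kk : Cfsg.GSp m F →* MulAut PG).range.Normal := by
  obtain ⟨p, f, hp, hc, hF, hf⟩ := exists_char (F := F)
  by_cases h2 : (2 : F) = 0
  · rw [range_kk_eq_inn h2]
    infer_instance
  · have h4 : m = 2 → p ≠ 2 := by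
      rintro - rfl
      exact h2 (by exact_mod_cast CharP.cast_eq_zero F 2)
    refine ⟨?_⟩
    rintro _ ⟨h, rfl⟩ α
    obtain ⟨g, σ, c, H, rfl⟩ := aut_semilinear (p := p) hm h4 α
    rw [cP_eq]
    refine ⟨⟨g, semiSim_mem_GSp H⟩ * gmS σ h * (⟨g, semiSim_mem_GSp H⟩ : Cfsg.GSp m F)⁻¹, ?_⟩
    rw [map_mul, map_mul, map_inv]
    have e := fldS_kk σ h
    calc (kk (⟨g, semiSim_mem_GSp H⟩ : Cfsg.GSp m F) * kk (gmS σ h) * (kk (⟨g, semiSim_mem_GSp H⟩ : Cfsg.GSp m F))⁻¹ : MulAut PG)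
        = kk (⟨g, semiSim_mem_GSp H⟩ : Cfsg.GSp m F) * (kk (gmS σ h) * fldS σ * (fldS σ)⁻¹) * (kk (⟨g, semiSim_mem_GSp H⟩ : Cfsg.GSp m F))⁻¹ := by group
      _ = kk (⟨g, semiSim_mem_GSp H⟩ : Cfsg.GSp m F) * (fldS σ * kk h * (fldS σ)⁻¹) * (kk (⟨g, semiSim_mem_GSp H⟩ : Cfsg.GSp m F))⁻¹ := by rw [e]
      _ = _ := by group

/-- S2713 -/
theorem coset_conj_Sp (hm : 2 ≤ m) (x δ : MulAut PG) (hx : Cfsg.IsFieldAutClassPSp x) {r : ℕ} (hr : r.Prime)
    (hxr : orderOf x = r) (hδ : δ ∈ Cfsg.inndiagPSp m F) :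
    orderOf (δ * x) = r ↔ Cfsg.IsConjUnder (Cfsg.inndiagPSp m F) x (δ * x) := by
  haveI : Nonempty (Fin m) := ⟨⟨0, by omega⟩⟩
  have hI := inndiagS_eq (F := F) (m := m)
  haveI hnorm : (Cfsg.inndiagPSp m F).Normal := by
    rw [hI]
    exact range_kk_normal hm
  constructor
  · intro hord
    have hcommon : ∀ α : MulAut PG, orderOf ((α * δ * α⁻¹) * (α * x * α⁻¹)) = r := by
      intro α
      rw [← orderOf_conj' α (δ * x)] at hord
      rw [← hord]
      congr 1
      group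
    have hδ' : ∀ α : MulAut PG, ∃ g : Cfsg.GSp m F, α * δ * α⁻¹ = kk g := by
      intro α
      have := hnorm.conj_mem δ hδ α
      rw [hI] at this
      obtain ⟨g, hg⟩ := this
      exact ⟨g, hg.symm⟩
    obtain ⟨α, σ, hσ, hstd⟩ := hx
    have e := (stdS_iff σ _).mp hstd
    apply conj_transport _ α
    obtain ⟨g, hg⟩ := hδ' α
    rw [hg, e]
    have h1 := hcommon α
    rw [hg, e] at h1
    have hσr : orderOf σ = r := by
      rw [← orderOf_fldS (m := m), ← e, orderOf_conj', hxr]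
    have h2 : (kk g * fldS σ : MulAut PG) ^ (orderOf σ) = 1 := by
      rw [hσr, ← h1]
      exact pow_orderOf_eq_one _
    obtain ⟨k, hk⟩ := field_coset_Sp σ g h2
    rw [hk]
    refine ⟨kk k, ?_, rfl⟩
    rw [hI]
    exact ⟨k, rfl⟩
  · rintro ⟨h, -, e⟩
    rw [e, orderOf_conj', hxr]

end Cfsg.Agent.Lead.Lang
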