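import Cfsg.Agent.Lib.Lead.LangOm2
import Cfsg.Agent.Lib.H01.OmDiagC
import Cfsg.Agent.Lib.H01.OmDiagP
/-! Parity of maximal totally singular subspaces under semilinear similarities. -/
set_option autoImplicit false
set_option linter.style.haveILetI false
set_option linter.unusedSimpArgs false
set_option linter.unusedSectionVars false
set_option linter.unusedVariables false
namespace Cfsg.Agent.Lead.LangOm
open Matrix Module Cfsg.Agent.Lead.Ortho Cfsg.Agent.Lead.Omega Cfsg.Agent.H01.Om Cfsg.Agent.Lead.Lang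
open Cfsg.Agent.H11 (IsMTS Rf Pb triangle)

variable {F : Type*} [Field F] [Fintype F] {ι : Type} [Fintype ι] [DecidableEq ι]
variable {Q₀ : QuadraticForm F (ι → F)} {n : ℕ}

/-- the image of a subspace under a semilinear similarity -/
def imS (T : GS (⇑Q₀)) (U : Submodule F (ι → F)) : Submodule F (ι → F) where
  carrier := (T : Equiv.Perm (ι → F)) '' U
  add_mem' := by
    rintro _ _ ⟨a, ha, rfl⟩ ⟨b, hb, rfl⟩
    obtain ⟨σ, κ, H⟩ := T.2
    exact ⟨a + b, U.add_mem ha hb, H.hadd a b⟩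
  zero_mem' := by
    obtain ⟨σ, κ, H⟩ := T.2
    exact ⟨0, U.zero_mem, semi_zero H⟩
  smul_mem' := by
    rintro c _ ⟨a, ha, rfl⟩
    obtain ⟨σ, κ, H⟩ := T.2
    refine ⟨σ.symm c • a, U.smul_mem _ ha, ?_⟩
    rw [H.hsmul, σ.apply_symm_apply]

lemma mem_imS (T : GS (⇑Q₀)) (U : Submodule F (ι → F)) (x : ι → F) :
    x ∈ imS T U ↔ ∃ u ∈ U, (T : Equiv.Perm (ι → F)) u = x := Iff.rfl

lemma imS_mul (T S : GS (⇑Q₀)) (U : Submodule F (ι → F)) : imS (T * S) U = imS T (imS S U) := by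
  ext x
  simp only [mem_imS]
  constructor
  · rintro ⟨u, hu, rfl⟩
    exact ⟨_, ⟨u, hu, rfl⟩, rfl⟩
  · rintro ⟨_, ⟨u, hu, rfl⟩, rfl⟩
    exact ⟨u, hu, rfl⟩

lemma imS_one (U : Submodule F (ι → F)) : imS (1 : GS (⇑Q₀)) U = U := by
  ext x
  simp only [mem_imS]
  constructor
  · rintro ⟨u, hu, rfl⟩
    exact hu
  · intro hx
    exact ⟨x, hx, rfl⟩

lemma imS_inf (T : GS (⇑Q₀)) (U V : Submodule F (ι → F)) : imS T (U ⊓ V) = imS T U ⊓ imS T V := by
  ext x
  simp only [Submodule.mem_inf, mem_imS]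
  constructor
  · rintro ⟨u, ⟨h1, h2⟩, rfl⟩
    exact ⟨⟨u, h1, rfl⟩, ⟨u, h2, rfl⟩⟩
  · rintro ⟨⟨u, h1, rfl⟩, ⟨v, h2, e⟩⟩
    have e' := (T : Equiv.Perm (ι → F)).injective e
    subst e'
    exact ⟨v, ⟨h1, h2⟩, rfl⟩

lemma imS_mono (T : GS (⇑Q₀)) {U V : Submodule F (ι → F)} (h : U ≤ V) : imS T U ≤ imS T V := by
  rintro _ ⟨u, hu, rfl⟩
  exact ⟨u, h hu, rfl⟩

lemma finrank_of_card {U V : Submodule F (ι → F)} (h : Nat.card U = Nat.card V) :
    finrank F U = finrank F V := by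
  rw [Module.natCard_eq_pow_finrank (K := F) (V := U), Module.natCard_eq_pow_finrank (K := F) (V := V)] at h
  have h2 : 2 ≤ Nat.card F := by
    rw [Nat.card_eq_fintype_card]
    exact Fintype.one_lt_card
  exact Nat.pow_right_injective h2 h

lemma finrank_imS (T : GS (⇑Q₀)) (U : Submodule F (ι → F)) : finrank F (imS T U) = finrank F U := by
  apply finrank_of_card
  exact Nat.card_congr (Equiv.Set.image (T : Equiv.Perm (ι → F)) (U : Set (ι → F)) (Equiv.injective _)).symm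

lemma finrank_imS_inf (T : GS (⇑Q₀)) (U V : Submodule F (ι → F)) :
    finrank F ↥(imS T U ⊓ imS T V : Submodule F (ι → F)) = finrank F ↥(U ⊓ V : Submodule F (ι → F)) := by
  rw [← imS_inf, finrank_imS]

lemma isMTS_imS (T : GS (⇑Q₀)) {U : Submodule F (ι → F)} (hU : IsMTS Q₀ n U) : IsMTS Q₀ n (imS T U) := by
  refine ⟨by rw [finrank_imS]; exact hU.card, ?_⟩
  rintro _ ⟨u, hu, rfl⟩
  obtain ⟨σ, κ, H⟩ := T.2
  have e := H.hQ u
  rw [hU.sing u hu, map_zero, mul_zero] at e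
  exact e

/-- the parity of a semilinear similarity at a subspace -/
noncomputable def parS (n : ℕ) (T : GS (⇑Q₀)) (U : Submodule F (ι → F)) : ℕ :=
  (n + finrank F ↥(U ⊓ imS T U : Submodule F (ι → F))) % 2

section dim
variable (hdim : Fintype.card ι = 2 * n) (hQ : (QuadraticMap.polarBilin Q₀).Nondegenerate)
include hdim hQ

lemma parS_lt (T : GS (⇑Q₀)) (U : Submodule F (ι → F)) : parS n T U < 2 := Nat.mod_lt _ (by norm_num)

lemma parS_indep (T : GS (⇑Q₀)) {U V : Submodule F (ι → F)} (hU : IsMTS Q₀ n U) (hV : IsMTS Q₀ n V) :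
    parS n T U = parS n T V := by
  have h1 := triangle hdim hQ hU (isMTS_imS T hU) (isMTS_imS T hV)
  have h2 := triangle hdim hQ hU hV (isMTS_imS T hV)
  rw [finrank_imS_inf] at h1
  unfold parS
  omega

lemma parS_mul (T S : GS (⇑Q₀)) {U : Submodule F (ι → F)} (hU : IsMTS Q₀ n U) :
    (parS n (T * S) U + parS n T U + parS n S U) % 2 = 0 := by
  have h1 := triangle hdim hQ hU (isMTS_imS T hU) (isMTS_imS T (isMTS_imS S hU))
  rw [finrank_imS_inf, ← imS_mul] at h1
  unfold parS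
  omega

lemma parS_one {U : Submodule F (ι → F)} (hU : IsMTS Q₀ n U) : parS n (1 : GS (⇑Q₀)) U = 0 := by
  unfold parS
  rw [imS_one, inf_idem, hU.card]
  omega

lemma parS_inv (T : GS (⇑Q₀)) {U : Submodule F (ι → F)} (hU : IsMTS Q₀ n U) :
    parS n T⁻¹ U = parS n T U := by
  have h1 := parS_mul hdim hQ T T⁻¹ hU
  rw [mul_inv_cancel, parS_one hdim hQ hU] at h1
  have h2 := parS_lt hdim hQ T U
  have h3 := parS_lt hdim hQ T⁻¹ U
  omega

/-- the subgroup of class-preserving semisimilarities -/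
def GPS {U₀ : Submodule F (ι → F)} (hU : IsMTS Q₀ n U₀) : Subgroup (GS (⇑Q₀)) where
  carrier := {T | parS n T U₀ = 0}
  mul_mem' := by
    intro T S hT hS
    have h1 := parS_mul hdim hQ T S hU
    change parS n T U₀ = 0 at hT
    change parS n S U₀ = 0 at hS
    change parS n (T * S) U₀ = 0
    rw [hT, hS] at h1
    have h2 := parS_lt hdim hQ (T * S) U₀
    omega
  one_mem' := parS_one hdim hQ hU
  inv_mem' := by
    intro T hT
    change parS n T U₀ = 0 at hT
    change parS n T⁻¹ U₀ = 0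
    rw [parS_inv hdim hQ T hU, hT]

end dim

end Cfsg.Agent.Lead.LangOm
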