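import Cfsg.Agent.Lib.Lead.LangPar
import Cfsg.Agent.Lib.H11.TS
import Cfsg.Agent.Lib.H11.Std
/-! Normal forms of the descended quadratic forms, and the conjugacy they imply. -/
set_option autoImplicit false
set_option linter.style.haveILetI false
set_option linter.unusedSimpArgs false
set_option linter.unusedSectionVars false
set_option linter.unusedVariables false
namespace Cfsg.Agent.Lead.LangOm
open Matrix Module Cfsg.Agent.Lead.Ortho Cfsg.Agent.Lead.Omega Cfsg.Agent.H01.Om Cfsg.Agent.Lead.Lang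
open Cfsg.Agent.H11 (IsMTS Rf Pb triangle)

variable {F : Type*} [Field F] [Fintype F] {ι : Type} [Fintype ι] [DecidableEq ι]
variable {Q : (ι → F) → F} {B : (ι → F) → (ι → F) → F}

/-- pulling a form back along a linear map -/
lemma qf_comp {V : Type*} [AddCommGroup V] [Module F V] (h : QF Q B) (E : V →ₗ[F] (ι → F)) :
    QF (fun x => Q (E x)) (fun x y => B (E x) (E y)) where
  add x y := by
    simp only [map_add]
    exact h.add _ _
  smul a x := by
    simp only [map_smul]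
    exact h.smul _ _
  add_left x y z := by
    simp only [map_add]
    exact h.add_left _ _ _
  smul_left a x z := by
    simp only [map_smul]
    exact h.smul_left _ _ _
  symm x y := h.symm _ _

section Two
variable {T₁ T₂ : Equiv.Perm (ι → F)} {σ : F ≃+* F} {κ₁ κ₂ : F}

/-- an isometry of the fixed spaces extends to an intertwining similarity -/
theorem intertwine2 (h : QF Q B) (H₁ : IsSemi Q T₁ σ κ₁) (H₂ : IsSemi Q T₂ σ κ₂)
    (hit₁ : ∀ x, T₁^[orderOf σ] x = x) (hit₂ : ∀ x, T₂^[orderOf σ] x = x)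
    (f : fixSp H₁ ≃ₗ[fixF σ] fixSp H₂) {c : F} (hc : c ≠ 0)
    (hf : ∀ v : fixSp H₁, Q (f v : ι → F) = c * Q (v : ι → F)) :
    ∃ P : GS Q, P ∈ GLS Q ∧ ∀ x, (P : Equiv.Perm (ι → F)) (T₁ x) = T₂ ((P : Equiv.Perm (ι → F)) x) := by
  classical
  haveI : Module.Finite (fixF σ) (fixSp H₁) := Module.Finite.of_finite
  have hr : finrank (fixF σ) (fixSp H₁) = Fintype.card ι := finrank_fixSp H₁ hit₁
  let e : Module.Basis ι (fixF σ) (fixSp H₁) :=
    (Module.finBasisOfFinrankEq (fixF σ) (fixSp H₁) hr).reindex (Fintype.equivFin ι).symm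
  let b₁ : ι → ι → F := fun j => (e j : ι → F)
  let b₂ : ι → ι → F := fun j => (f (e j) : ι → F)
  have hs₁ : ⊤ ≤ Submodule.span F (Set.range b₁) := span_of_basis H₁ hit₁ e
  have hs₂ : ⊤ ≤ Submodule.span F (Set.range b₂) := by
    have := span_of_basis H₂ hit₂ (e.map f)
    simpa only [Module.Basis.map_apply] using this
  let Bs₁ : Module.Basis ι F (ι → F) := basisOfTopLeSpanOfCardEqFinrank b₁ hs₁ (by
    rw [Module.finrank_fintype_fun_eq_card])
  let Bs₂ : Module.Basis ι F (ι → F) := basisOfTopLeSpanOfCardEqFinrank b₂ hs₂ (by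
    rw [Module.finrank_fintype_fun_eq_card])
  have hBs₁ : ∀ j, Bs₁ j = b₁ j := fun j => by simp [Bs₁]
  have hBs₂ : ∀ j, Bs₂ j = b₂ j := fun j => by simp [Bs₂]
  let E₁ : (ι → F) ≃ₗ[F] (ι → F) := Bs₁.equivFun.symm
  let E₂ : (ι → F) ≃ₗ[F] (ι → F) := Bs₂.equivFun.symm
  have hE₁ : ∀ x, E₁ x = ∑ j, x j • b₁ j := by
    intro x
    simp only [E₁, Module.Basis.equivFun_symm_apply, hBs₁]
  have hE₂ : ∀ x, E₂ x = ∑ j, x j • b₂ j := by
    intro x
    simp only [E₂, Module.Basis.equivFun_symm_apply, hBs₂]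
  have hQb : ∀ j, Q (b₂ j) = c * Q (b₁ j) := fun j => hf (e j)
  have hBb : ∀ i j, B (b₂ i) (b₂ j) = c * B (b₁ i) (b₁ j) := by
    intro i j
    have h1 := hf (e i + e j)
    rw [map_add] at h1
    have e1 : ((f (e i) + f (e j) : fixSp H₂) : ι → F) = b₂ i + b₂ j := rfl
    have e2 : ((e i + e j : fixSp H₁) : ι → F) = b₁ i + b₁ j := rfl
    rw [e1, e2, h.add, h.add, hQb, hQb] at h1
    linear_combination h1
  have hE1 : ∀ j, E₁ (Pi.single j 1) = b₁ j := by
    intro j
    rw [hE₁]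
    simp [Pi.single_apply, ite_smul]
  have hform : ∀ y : ι → F, Q (E₂ y) = c * Q (E₁ y) := by
    intro y
    rw [hE₂]
    exact form_of_family h (qf_comp h E₁.toLinearMap) b₂ c
      (fun j => by
        change Q (b₂ j) = c * Q (E₁ (Pi.single j 1))
        rw [hE1, hQb])
      (fun i j => by
        change B (b₂ i) (b₂ j) = c * B (E₁ (Pi.single i 1)) (E₁ (Pi.single j 1))
        rw [hE1, hE1, hBb]) y
  let P : (ι → F) ≃ₗ[F] (ι → F) := E₁.symm.trans E₂
  have HP : IsSemi Q P.toEquiv (1 : F ≃+* F) c :=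
    { hκ := hc
      hadd := fun x y => map_add P x y
      hsmul := fun a x => map_smul P a x
      hQ := fun x => by
        change Q (E₂ (E₁.symm x)) = c * Q x
        rw [hform, LinearEquiv.apply_symm_apply] }
  refine ⟨⟨P.toEquiv, _, _, HP⟩, ⟨c, HP⟩, fun x => ?_⟩
  change E₂ (E₁.symm (T₁ x)) = T₂ (E₂ (E₁.symm x))
  obtain ⟨y, rfl⟩ := E₁.surjective x
  rw [LinearEquiv.symm_apply_apply]
  have e1 : T₁ (E₁ y) = E₁ (fun j => σ (y j)) := by
    rw [hE₁, hE₁, semi_sum H₁]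
    apply Finset.sum_congr rfl
    intro j _
    congr 1
    exact (e j).2
  have e2 : T₂ (E₂ y) = E₂ (fun j => σ (y j)) := by
    rw [hE₂, hE₂, semi_sum H₂]
    apply Finset.sum_congr rfl
    intro j _
    congr 1
    exact (f (e j)).2
  rw [e1, e2, LinearEquiv.symm_apply_apply]

end Two

section Frame
variable {T : Equiv.Perm (ι → F)} {σ : F ≃+* F} {κ : F}

/-- hyperbolic fixed form -/
def FrameHyp (H : IsSemi Q T σ κ) (n : ℕ) : Prop :=
  ∃ (d : F) (g : fixSp H ≃ₗ[fixF σ] (Fin n ⊕ Fin n → fixF σ)), d ≠ 0 ∧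
    ∀ v : fixSp H, ((Cfsg.quadFormPlus n (fixF σ) (g v) : fixF σ) : F) = d * Q (v : ι → F)

/-- elliptic fixed form -/
def FrameEll (H : IsSemi Q T σ κ) (n : ℕ) : Prop :=
  ∃ (d : F) (ζ : fixF σ) (g : fixSp H ≃ₗ[fixF σ] ((Fin (n - 1) ⊕ Fin (n - 1)) ⊕ Fin 2 → fixF σ)), d ≠ 0 ∧
    (∀ t : fixF σ, t ^ 2 + t + ζ ≠ 0) ∧
    ∀ v : fixSp H, ((Cfsg.quadFormMinus (n - 1) (fixF σ) 1 ζ (g v) : fixF σ) : F) = d * Q (v : ι → F)

/-- the dichotomy -/
theorem frame_dich {m : ℕ} {t₀ : Fin m → (ι → F) × (ι → F)} (C : Cx Q B t₀) (H : IsSemi Q T σ κ)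
    (hit : ∀ x, T^[orderOf σ] x = x) {n : ℕ} (hn : 1 ≤ n) (hdim : Fintype.card ι = 2 * n) :
    FrameHyp H n ∨ FrameEll H n := by
  classical
  obtain ⟨d, hd0, hd⟩ := exists_d C H hit
  have hV : finrank (fixF σ) (fixSp H) = 2 * n := by
    rw [finrank_fixSp H hit, hdim]
  haveI : Module.Finite (fixF σ) (fixSp H) := Module.Finite.of_finite
  rcases Cfsg.Agent.H11.exists_isometry_standard hn hV (descQ C.h H hd) (descQ_nondeg C.h C.nd H hit hd0 hd) with
    ⟨g, hg⟩ | ⟨g, ζ, hζ, hg⟩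
  · left
    refine ⟨d, g, hd0, fun v => ?_⟩
    rw [← hg, descQ_coe]
  · right
    refine ⟨d, ζ, g, hd0, hζ, fun v => ?_⟩
    rw [← hg, descQ_coe]

/-- two hyperbolic forms -/
theorem conj_hyp {T₂ : Equiv.Perm (ι → F)} {κ₂ : F} (h : QF Q B) (H₁ : IsSemi Q T σ κ) (H₂ : IsSemi Q T₂ σ κ₂)
    (hit₁ : ∀ x, T^[orderOf σ] x = x) (hit₂ : ∀ x, T₂^[orderOf σ] x = x) {n : ℕ}
    (h₁ : FrameHyp H₁ n) (h₂ : FrameHyp H₂ n) :
    ∃ P : GS Q, P ∈ GLS Q ∧ ∀ x, (P : Equiv.Perm (ι → F)) (T x) = T₂ ((P : Equiv.Perm (ι → F)) x) := by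
  obtain ⟨d₁, g₁, hd₁, hg₁⟩ := h₁
  obtain ⟨d₂, g₂, hd₂, hg₂⟩ := h₂
  refine intertwine2 h H₁ H₂ hit₁ hit₂ (g₁.trans g₂.symm) (c := d₂⁻¹ * d₁) (mul_ne_zero (inv_ne_zero hd₂) hd₁) (fun v => ?_)
  have e1 := hg₂ ((g₁.trans g₂.symm) v)
  have e2 := hg₁ v
  rw [LinearEquiv.trans_apply, LinearEquiv.apply_symm_apply] at e1
  rw [e2] at e1
  rw [mul_assoc, e1, inv_mul_cancel_left₀ hd₂]
  rfl

end Frame

section Binary
variable {K : Type*} [Field K] [Fintype K]

/-- Artin--Schreier classes in characteristic two -/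
lemma as_sum (h2 : (2 : K) = 0) {ζ ζ' : K} (hζ : ∀ t : K, t ^ 2 + t + ζ ≠ 0) (hζ' : ∀ t : K, t ^ 2 + t + ζ' ≠ 0) :
    ∃ u : K, u ^ 2 + u = ζ + ζ' := by
  classical
  let f : K →+ K := AddMonoidHom.mk' (fun t => t ^ 2 + t) (fun a b => by
    linear_combination (a * b) * h2)
  have hk : Nat.card f.ker = 2 := by
    rw [Nat.card_eq_two_iff]
    refine ⟨⟨0, by simp [f, AddMonoidHom.mem_ker]⟩, ⟨1, by
      rw [AddMonoidHom.mem_ker]
      change (1 : K) ^ 2 + 1 = 0
      linear_combination h2⟩, ?_, ?_⟩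
    · intro e
      exact zero_ne_one (congrArg Subtype.val e)
    · ext ⟨t, ht⟩
      simp only [Set.mem_insert_iff, Set.mem_singleton_iff, Set.mem_univ, iff_true, Subtype.mk.injEq]
      rw [AddMonoidHom.mem_ker] at ht
      have e : t * (t + 1) = 0 := by
        have : t ^ 2 + t = 0 := ht
        linear_combination this
      rcases mul_eq_zero.1 e with e | e
      · exact Or.inl e
      · right
        linear_combination e - h2
  have h1 := AddSubgroup.card_mul_index f.ker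
  have h3 := AddSubgroup.card_mul_index f.range
  rw [AddSubgroup.index_ker] at h1
  have hpos : 0 < Nat.card f.range := Nat.card_pos
  have hi : f.range.index = 2 := by
    rw [hk] at h1
    apply Nat.eq_of_mul_eq_mul_left hpos
    rw [h3, ← h1]
    ring
  have hn : ∀ c : K, (∀ t : K, t ^ 2 + t + c ≠ 0) → c ∉ f.range := by
    rintro c hc ⟨t, rfl⟩
    apply hc t
    change t ^ 2 + t + (t ^ 2 + t) = 0
    linear_combination (t ^ 2 + t) * h2
  have hm := (AddSubgroup.add_mem_iff_of_index_two hi (a := ζ) (b := ζ')).2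
    (iff_of_false (hn ζ hζ) (hn ζ' hζ'))
  obtain ⟨u, hu⟩ := hm
  exact ⟨u, hu⟩

/-- uniqueness of the anisotropic binary form -/
lemma binary_unique {ζ ζ' : K} (hζ : ∀ t : K, t ^ 2 + t + ζ ≠ 0) (hζ' : ∀ t : K, t ^ 2 + t + ζ' ≠ 0) :
    ∃ u v : K, v ≠ 0 ∧ v - 2 * u = 1 ∧ u ^ 2 - u * v + ζ * v ^ 2 = ζ' := by
  classical
  by_cases h2 : (2 : K) = 0
  · obtain ⟨u, hu⟩ := as_sum h2 hζ hζ'
    refine ⟨u, 1, one_ne_zero, ?_, ?_⟩
    · linear_combination (-u) * h2
    · linear_combination hu + (ζ - u) * h2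
  · have hns : ∀ c : K, (∀ t : K, t ^ 2 + t + c ≠ 0) → ¬ IsSquare (1 - 4 * c) := by
      rintro c hc ⟨s, hs⟩
      apply hc ((s - 1) / 2)
      field_simp
      linear_combination -hs
    have hring : ringChar K ≠ 2 := by
      intro e
      apply h2
      have := (ringChar.spec K 2).2 (by rw [e])
      exact_mod_cast this
    have h4 : (1 - 4 * ζ) * (1 - 4 * ζ') ≠ 0 := by
      apply mul_ne_zero
      · intro e
        exact hns ζ hζ (by rw [e]; exact IsSquare.zero)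
      · intro e
        exact hns ζ' hζ' (by rw [e]; exact IsSquare.zero)
    have hc1 := (quadraticChar_neg_one_iff_not_isSquare (F := K)).2 (hns ζ hζ)
    have hc2 := (quadraticChar_neg_one_iff_not_isSquare (F := K)).2 (hns ζ' hζ')
    have hc3 : quadraticChar K ((1 - 4 * ζ) * (1 - 4 * ζ')) = 1 := by
      rw [map_mul, hc1, hc2]
      norm_num
    obtain ⟨w, hw⟩ := (quadraticChar_one_iff_isSquare h4).1 hc3
    have hD : 1 - 4 * ζ ≠ 0 := left_ne_zero_of_mul h4
    have hw0 : w ≠ 0 := by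
      rintro rfl
      apply h4
      rw [hw]
      ring
    let s := w / (1 - 4 * ζ)
    have hs0 : s ≠ 0 := div_ne_zero hw0 hD
    have hs2 : s ^ 2 * (1 - 4 * ζ) = 1 - 4 * ζ' := by
      have e : s * (1 - 4 * ζ) = w := div_mul_cancel₀ _ hD
      have e3 : s ^ 2 * (1 - 4 * ζ) * (1 - 4 * ζ) = (1 - 4 * ζ') * (1 - 4 * ζ) := by
        calc s ^ 2 * (1 - 4 * ζ) * (1 - 4 * ζ) = (s * (1 - 4 * ζ)) * (s * (1 - 4 * ζ)) := by ring
          _ = w * w := by rw [e]
          _ = _ := by rw [← hw]; ring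
      exact mul_right_cancel₀ hD e3
    refine ⟨(s - 1) / 2, s, hs0, ?_, ?_⟩
    · field_simp
      ring
    · have h4' : (4 : K) ≠ 0 := by
        have : (4 : K) = 2 * 2 := by norm_num
        rw [this]
        exact mul_ne_zero h2 h2
      apply mul_left_cancel₀ h4'
      field_simp
      linear_combination -hs2

/-- the change of coordinates between two minus forms -/
noncomputable def psiE (k : ℕ) (u : K) {v : K} (hv : v ≠ 0) :
    ((Fin k ⊕ Fin k) ⊕ Fin 2 → K) ≃ₗ[K] ((Fin k ⊕ Fin k) ⊕ Fin 2 → K) where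
  toFun z := Sum.elim (fun a => z (Sum.inl a)) ![z (Sum.inr 0) - u * z (Sum.inr 1), v * z (Sum.inr 1)]
  invFun z := Sum.elim (fun a => z (Sum.inl a)) ![z (Sum.inr 0) + u * v⁻¹ * z (Sum.inr 1), v⁻¹ * z (Sum.inr 1)]
  map_add' x y := by
    funext j
    rcases j with a | i
    · simp
    · fin_cases i
      · simp
        ring
      · simp
        ring
  map_smul' c x := by
    funext j
    rcases j with a | i
    · simp
    · fin_cases i
      · simp
        ring
      · simp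
        ring
  left_inv z := by
    funext j
    rcases j with a | i
    · simp
    · fin_cases i
      · simp
        field_simp
        ring
      · simp
        field_simp
  right_inv z := by
    funext j
    rcases j with a | i
    · simp
    · fin_cases i
      · simp
        field_simp
        ring
      · simp
        field_simp

lemma psiE_form (k : ℕ) {u v ζ ζ' : K} (hv : v ≠ 0) (h1 : v - 2 * u = 1) (h2 : u ^ 2 - u * v + ζ * v ^ 2 = ζ')
    (z : (Fin k ⊕ Fin k) ⊕ Fin 2 → K) :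
    Cfsg.quadFormMinus k K 1 ζ (psiE k u hv z) = Cfsg.quadFormMinus k K 1 ζ' z := by
  simp only [Cfsg.quadFormMinus, psiE, LinearEquiv.coe_mk, LinearMap.coe_mk, AddHom.coe_mk]
  simp only [Sum.elim_inl, Sum.elim_inr, Matrix.cons_val_zero, Matrix.cons_val_one]
  have e : ∀ x y : K, (x - u * y) ^ 2 + 1 * (x - u * y) * (v * y) + ζ * (v * y) ^ 2 = x ^ 2 + 1 * x * y + ζ' * y ^ 2 := by
    intro x y
    linear_combination (x * y) * h1 + y ^ 2 * h2
  rw [e]

end Binary

section FrameE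
variable {T : Equiv.Perm (ι → F)} {σ : F ≃+* F} {κ : F}

/-- two elliptic forms -/
theorem conj_ell {T₂ : Equiv.Perm (ι → F)} {κ₂ : F} (h : QF Q B) (H₁ : IsSemi Q T σ κ) (H₂ : IsSemi Q T₂ σ κ₂)
    (hit₁ : ∀ x, T^[orderOf σ] x = x) (hit₂ : ∀ x, T₂^[orderOf σ] x = x) {n : ℕ}
    (h₁ : FrameEll H₁ n) (h₂ : FrameEll H₂ n) :
    ∃ P : GS Q, P ∈ GLS Q ∧ ∀ x, (P : Equiv.Perm (ι → F)) (T x) = T₂ ((P : Equiv.Perm (ι → F)) x) := by
  obtain ⟨d₁, ζ₁, g₁, hd₁, hζ₁, hg₁⟩ := h₁
  obtain ⟨d₂, ζ₂, g₂, hd₂, hζ₂, hg₂⟩ := h₂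
  haveI : Fintype (fixF σ) := Fintype.ofFinite _
  obtain ⟨u, v, hv, e1, e2⟩ := binary_unique hζ₂ hζ₁
  refine intertwine2 h H₁ H₂ hit₁ hit₂ ((g₁.trans (psiE _ u hv)).trans g₂.symm) (c := d₂⁻¹ * d₁)
    (mul_ne_zero (inv_ne_zero hd₂) hd₁) (fun w => ?_)
  have e3 := hg₂ (((g₁.trans (psiE _ u hv)).trans g₂.symm) w)
  have e4 := hg₁ w
  rw [LinearEquiv.trans_apply, LinearEquiv.apply_symm_apply, LinearEquiv.trans_apply, psiE_form _ hv e1 e2, e4] at e3
  rw [mul_assoc, e3, inv_mul_cancel_left₀ hd₂]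
  rfl

variable {J : Type} [Fintype J] [DecidableEq J]

/-- the form in the coordinates of a frame -/
lemma fam_form (h : QF Q B) (H : IsSemi Q T σ κ) {Qs : (J → F) → F} {Bs : (J → F) → (J → F) → F} (hs : QF Qs Bs)
    {Qs₀ : (J → fixF σ) → fixF σ} (hhom : ∀ x₀, ((Qs₀ x₀ : fixF σ) : F) = Qs (fun j => (x₀ j : F)))
    (g : fixSp H ≃ₗ[fixF σ] (J → fixF σ)) {d : F} (hd0 : d ≠ 0)
    (hg : ∀ v : fixSp H, ((Qs₀ (g v) : fixF σ) : F) = d * Q (v : ι → F)) (x : J → F) :
    Q (∑ j, x j • (g.symm (Pi.single j 1) : ι → F)) = d⁻¹ * Qs x := by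
  have hsing : ∀ j, (fun i => ((Pi.single j (1 : fixF σ) : J → fixF σ) i : F)) = (Pi.single j 1 : J → F) := by
    intro j
    funext i
    by_cases e : i = j
    · subst e
      simp
    · simp [e]
  have hsing2 : ∀ i j, (fun k => (((Pi.single i (1 : fixF σ) : J → fixF σ) + (Pi.single j (1 : fixF σ) : J → fixF σ)) k : F)) =
      (Pi.single i 1 : J → F) + (Pi.single j 1 : J → F) := by
    intro i j
    funext k
    have h1 : ((Pi.single i (1 : fixF σ) : J → fixF σ) k : F) = (Pi.single i 1 : J → F) k := congrFun (hsing i) k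
    have h2 : ((Pi.single j (1 : fixF σ) : J → fixF σ) k : F) = (Pi.single j 1 : J → F) k := congrFun (hsing j) k
    simp only [Pi.add_apply]
    rw [← h1, ← h2]
    rfl
  have hQb : ∀ j, Q (g.symm (Pi.single j 1) : ι → F) = d⁻¹ * Qs (Pi.single j 1) := by
    intro j
    have e := hg (g.symm (Pi.single j 1))
    rw [LinearEquiv.apply_symm_apply, hhom, hsing] at e
    rw [e, inv_mul_cancel_left₀ hd0]
  apply form_of_family h hs
  · exact hQb
  · intro i j
    have e := hg (g.symm ((Pi.single i 1 : J → fixF σ) + (Pi.single j 1 : J → fixF σ)))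
    rw [LinearEquiv.apply_symm_apply, hhom, hsing2, hs.add, map_add] at e
    have e2 : ((g.symm (Pi.single i 1) + g.symm (Pi.single j 1) : fixSp H) : ι → F) =
        (g.symm (Pi.single i 1) : ι → F) + (g.symm (Pi.single j 1) : ι → F) := rfl
    rw [e2, h.add, hQb, hQb] at e
    field_simp at e ⊢
    linear_combination (-1 : F) * e

/-- the frame vectors are independent -/
lemma fam_li (H : IsSemi Q T σ κ) (hit : ∀ x, T^[orderOf σ] x = x) (g : fixSp H ≃ₗ[fixF σ] (J → fixF σ)) :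
    LinearIndependent F (fun j => (g.symm (Pi.single j 1) : ι → F)) := by
  classical
  have e := span_of_basis H hit ((Pi.basisFun (fixF σ) J).map g.symm)
  simp only [Module.Basis.map_apply, Pi.basisFun_apply] at e
  apply linearIndependent_of_top_le_span_of_card_eq_finrank e
  have hc : Fintype.card J = Fintype.card ι := by
    rw [← finrank_fixSp H hit, g.finrank_eq, Module.finrank_fintype_fun_eq_card]
  rw [hc, Module.finrank_fintype_fun_eq_card]

/-- stable totally singular spaces from a part of a frame -/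
lemma fam_stable (H : IsSemi Q T σ κ) (g : fixSp H ≃ₗ[fixF σ] (J → fixF σ)) {I : Type} (s : I → J) (u : ι → F)
    (hu : u ∈ Submodule.span F (Set.range (fun i => (g.symm (Pi.single (s i) 1) : ι → F)))) :
    T u ∈ Submodule.span F (Set.range (fun i => (g.symm (Pi.single (s i) 1) : ι → F))) := by
  induction hu using Submodule.span_induction with
  | mem x hx =>
    obtain ⟨i, rfl⟩ := hx
    have : T (g.symm (Pi.single (s i) 1) : ι → F) = (g.symm (Pi.single (s i) 1) : ι → F) := (g.symm (Pi.single (s i) 1)).2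
    rw [this]
    exact Submodule.subset_span ⟨i, rfl⟩
  | zero =>
    rw [semi_zero H]
    exact Submodule.zero_mem _
  | add x y _ _ hx hy =>
    rw [H.hadd]
    exact Submodule.add_mem _ hx hy
  | smul c x _ hx =>
    rw [H.hsmul]
    exact Submodule.smul_mem _ _ hx

end FrameE

end Cfsg.Agent.Lead.LangOm
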