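import Cfsg.Agent.Lib.Lead.LangPar2
/-! Stable totally singular subspaces for the frames of a semilinear similarity, and parity. -/
set_option autoImplicit false
set_option linter.style.haveILetI false
set_option linter.unusedSimpArgs false
set_option linter.unusedSectionVars false
set_option linter.unusedVariables false
namespace Cfsg.Agent.Lead.LangOm
open Matrix Module Cfsg.Agent.Lead.Ortho Cfsg.Agent.Lead.Omega Cfsg.Agent.H01.Om Cfsg.Agent.Lead.Lang
open Cfsg.Agent.H11 (IsMTS Rf Pb triangle)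

variable {F : Type*} [Field F] [Fintype F] {ι : Type} [Fintype ι] [DecidableEq ι]
variable {Q : (ι → F) → F} {B : (ι → F) → (ι → F) → F}
variable {T : Equiv.Perm (ι → F)} {σ : F ≃+* F} {κ : F}

/-- elliptic fixed forms have no large stable totally singular subspace -/
theorem ell_no_stable (H : IsSemi Q T σ κ) (hit : ∀ x, T^[orderOf σ] x = x) {n : ℕ} (hf : FrameEll H n)
    (U : Submodule F (ι → F)) (hs : ∀ u ∈ U, Q u = 0) (ht : ∀ u ∈ U, T u ∈ U) : finrank F U ≤ n - 1 := by
  classical
  obtain ⟨d, ζ, g, hd0, hζ, hg⟩ := hf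
  -- the fixed vectors of `U`, in coordinates
  let A : Submodule (fixF σ) ((Fin (n - 1) ⊕ Fin (n - 1)) ⊕ Fin 2 → fixF σ) :=
    { carrier := {z | ((g.symm z : fixSp H) : ι → F) ∈ U}
      add_mem' := fun {a b} ha hb => by
        change ((g.symm (a + b) : fixSp H) : ι → F) ∈ U
        rw [map_add]
        exact U.add_mem ha hb
      zero_mem' := by
        change ((g.symm 0 : fixSp H) : ι → F) ∈ U
        rw [map_zero]
        exact U.zero_mem
      smul_mem' := fun c {z} hz => by
        change ((g.symm (c • z) : fixSp H) : ι → F) ∈ U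
        rw [map_smul]
        exact U.smul_mem (c : F) hz }
  have hac : ∀ z₁ z₂ : fixF σ, z₁ ^ 2 + 1 * z₁ * z₂ + ζ * z₂ ^ 2 = 0 → z₁ = 0 ∧ z₂ = 0 := by
    intro z₁ z₂ h
    by_cases hz : z₂ = 0
    · subst hz
      simpa using h
    · exfalso
      apply hζ (z₁ / z₂)
      field_simp
      linear_combination h
  have h1 : finrank (fixF σ) A ≤ n - 1 := by
    apply Cfsg.Agent.H11.finrank_ts_le_minus 1 ζ hac
    intro z hz
    have e := hg (g.symm z)
    rw [hs _ hz, mul_zero, LinearEquiv.apply_symm_apply] at e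
    exact Subtype.ext e
  let a := Module.finBasis (fixF σ) A
  let vv : Fin (finrank (fixF σ) A) → ι → F := fun i => ((g.symm (a i : _) : fixSp H) : ι → F)
  have hspan : U ≤ Submodule.span F (Set.range vv) := by
    -- restrict `T` to `U`
    let Tu : U → U := fun u => ⟨T u, ht u u.2⟩
    have hiter : ∀ (k : ℕ) (u : U), ((Tu^[k] u : U) : ι → F) = T^[k] (u : ι → F) := by
      intro k u
      induction k with
      | zero => rfl
      | succ k ih =>
        rw [Function.iterate_succ_apply', Function.iterate_succ_apply', ← ih]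
    haveI : Finite (F ≃+* F) := Finite.of_injective (fun σ : F ≃+* F => (σ : F → F)) DFunLike.coe_injective
    have hsp := span_fix σ (orderOf_pos σ) Tu
      (fun x y => Subtype.ext (H.hadd _ _)) (fun c x => Subtype.ext (H.hsmul _ _))
      (fun x => Subtype.ext (by rw [hiter, hit]))
    intro u hu
    have hmem : (⟨u, hu⟩ : U) ∈ Submodule.span F {v | Tu v = v} := by
      rw [hsp]
      trivial
    have key : ∀ w : U, w ∈ Submodule.span F {v | Tu v = v} →
        (w : ι → F) ∈ Submodule.span F (Set.range vv) := by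
      intro w hw
      induction hw using Submodule.span_induction with
      | mem y hy =>
        have hy' : T (y : ι → F) = y := congrArg Subtype.val hy
        let y₁ : fixSp H := ⟨y, hy'⟩
        let y₀ : A := ⟨g y₁, by
          change ((g.symm (g y₁) : fixSp H) : ι → F) ∈ U
          rw [LinearEquiv.symm_apply_apply]
          exact y.2⟩
        have h5 := a.sum_repr y₀
        have h6 : g y₁ = ∑ j, a.repr y₀ j • ((a j : A) : (Fin (n - 1) ⊕ Fin (n - 1)) ⊕ Fin 2 → fixF σ) := by
          have := congrArg (Subtype.val) h5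
          rw [Submodule.coe_sum] at this
          exact this.symm
        have h8 : (y : ι → F) = ((g.symm (g y₁) : fixSp H) : ι → F) := by
          rw [LinearEquiv.symm_apply_apply]
        rw [h8, h6, map_sum, Submodule.coe_sum]
        apply Submodule.sum_mem
        rintro j _
        rw [map_smul]
        change ((a.repr y₀ j : fixF σ) : F) • vv j ∈ _
        exact Submodule.smul_mem _ _ (Submodule.subset_span ⟨j, rfl⟩)
      | zero => exact Submodule.zero_mem _
      | add x y _ _ hx hy => exact Submodule.add_mem _ hx hy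
      | smul c x _ hx => exact Submodule.smul_mem _ _ hx
    exact key _ hmem
  have h2 := Submodule.finrank_mono hspan
  have h3 := finrank_range_le_card (R := F) vv
  change finrank F (Submodule.span F (Set.range vv)) ≤ _ at h3
  simp only [Fintype.card_fin] at h3
  omega

section Plus
variable {m : ℕ}

/-- a hyperbolic frame gives a large stable totally singular subspace -/
theorem hyp_stable (H : IsSemi Q T σ κ) (h : QF Q B) (hit : ∀ x, T^[orderOf σ] x = x) {n : ℕ} (hf : FrameHyp H n) :
    ∃ E : Submodule F (ι → F), finrank F E = n ∧ (∀ u ∈ E, Q u = 0) ∧ ∀ u ∈ E, T u ∈ E := by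
  classical
  obtain ⟨d, g, hd0, hg⟩ := hf
  let s : Fin n → (Fin n ⊕ Fin n) := Sum.inl
  refine ⟨Submodule.span F (Set.range (fun i => (g.symm (Pi.single (s i) 1) : ι → F))), ?_, ?_, ?_⟩
  · have e := finrank_span_eq_card ((fam_li H hit g).comp s Sum.inl_injective)
    rw [Fintype.card_fin] at e
    exact e
  · intro u hu
    obtain ⟨c, rfl⟩ := (Submodule.mem_span_range_iff_exists_fun F).1 hu
    have e := fam_form h H (Qs := Cfsg.quadFormPlus n F) (Bs := polarPlus n F) (qfPlus n)
      (Qs₀ := Cfsg.quadFormPlus n (fixF σ)) (fun x₀ => by simp [Cfsg.quadFormPlus]) g hd0 hg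
      (Sum.elim c 0)
    rw [Fintype.sum_sum_type] at e
    simp only [Sum.elim_inl, Sum.elim_inr, Pi.zero_apply, zero_smul, Finset.sum_const_zero, add_zero] at e
    rw [e]
    simp [Cfsg.quadFormPlus]
  · exact fun u hu => fam_stable H g s u hu

/-- an elliptic frame gives a stable totally singular subspace of codimension one in a maximal one -/
theorem ell_stable (H : IsSemi Q T σ κ) (h : QF Q B) (hit : ∀ x, T^[orderOf σ] x = x) {n : ℕ} (hf : FrameEll H n) :
    ∃ E : Submodule F (ι → F), finrank F E = n - 1 ∧ (∀ u ∈ E, Q u = 0) ∧ ∀ u ∈ E, T u ∈ E := by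
  classical
  obtain ⟨d, ζ, g, hd0, hζ, hg⟩ := hf
  let s : Fin (n - 1) → ((Fin (n - 1) ⊕ Fin (n - 1)) ⊕ Fin 2) := fun i => Sum.inl (Sum.inl i)
  have hs : Function.Injective s := fun i j e => by
    simpa [s] using e
  refine ⟨Submodule.span F (Set.range (fun i => (g.symm (Pi.single (s i) 1) : ι → F))), ?_, ?_, ?_⟩
  · have e := finrank_span_eq_card ((fam_li H hit g).comp s hs)
    rw [Fintype.card_fin] at e
    exact e
  · intro u hu
    obtain ⟨c, rfl⟩ := (Submodule.mem_span_range_iff_exists_fun F).1 hu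
    have e := fam_form h H (Qs := Cfsg.quadFormMinus (n - 1) F 1 (ζ : F)) (Bs := polarMinus (n - 1) F 1 (ζ : F)) (qfMinus (n - 1) 1 (ζ : F))
      (Qs₀ := Cfsg.quadFormMinus (n - 1) (fixF σ) 1 ζ) (fun x₀ => by simp [Cfsg.quadFormMinus]) g hd0 hg
      (Sum.elim (Sum.elim c 0) 0)
    rw [Fintype.sum_sum_type, Fintype.sum_sum_type] at e
    simp only [Sum.elim_inl, Sum.elim_inr, Pi.zero_apply, zero_smul, Finset.sum_const_zero, add_zero] at e
    rw [e]
    simp [Cfsg.quadFormMinus]
  · exact fun u hu => fam_stable H g s u hu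

end Plus

section ParT
variable {Q₀ : QuadraticForm F (ι → F)} {n : ℕ} {W₀ : Submodule F (ι → F)}
variable (hdim : Fintype.card ι = 2 * n) (hQ : (QuadraticMap.polarBilin Q₀).Nondegenerate)

lemma imS_eq_of_stable (T : GS (⇑Q₀)) {E : Submodule F (ι → F)} (ht : ∀ u ∈ E, (T : Equiv.Perm (ι → F)) u ∈ E) :
    imS T E = E := by
  apply Submodule.eq_of_le_of_finrank_eq
  · rintro _ ⟨u, hu, rfl⟩
    exact ht u hu
  · exact finrank_imS T E

include hdim hQ

/-- the parity of a hyperbolic semilinear similarity -/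
theorem par_hyp (hW₀ : IsMTS Q₀ n W₀) (h : QF (⇑Q₀) B) (T : GS (⇑Q₀)) {σ : F ≃+* F} {κ : F}
    (H : IsSemi (⇑Q₀) (T : Equiv.Perm (ι → F)) σ κ) (hit : ∀ x, (T : Equiv.Perm (ι → F))^[orderOf σ] x = x)
    (hf : FrameHyp H n) : parS n T W₀ = 0 := by
  obtain ⟨E, h1, h2, h3⟩ := hyp_stable H h hit hf
  have hE : IsMTS Q₀ n E := ⟨h1, h2⟩
  rw [parS_indep hdim hQ T hW₀ hE]
  unfold parS
  rw [imS_eq_of_stable T h3, inf_idem, h1]
  omega

/-- the parity of an elliptic semilinear similarity -/
theorem par_ell (hn : 1 ≤ n) (hW₀ : IsMTS Q₀ n W₀) (h : QF (⇑Q₀) B) (T : GS (⇑Q₀)) {σ : F ≃+* F} {κ : F}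
    (H : IsSemi (⇑Q₀) (T : Equiv.Perm (ι → F)) σ κ) (hit : ∀ x, (T : Equiv.Perm (ι → F))^[orderOf σ] x = x)
    (hf : FrameEll H n) : parS n T W₀ = 1 := by
  classical
  obtain ⟨E, h1, h2, h3⟩ := ell_stable H h hit hf
  -- extend to a maximal totally singular subspace
  haveI : Finite (Submodule F (ι → F)) := Finite.of_injective (fun s : Submodule F (ι → F) => (s : Set (ι → F))) SetLike.coe_injective
  obtain ⟨U, hEU, hU⟩ := Set.Finite.exists_le_maximal (s := {W : Submodule F (ι → F) | Cfsg.Geo.IsTotallySingularQuad (⇑Q₀) W})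
    (Set.toFinite _) (a := E) h2
  have hmax : Cfsg.IsMaxTotallySingular (⇑Q₀) U := ⟨hU.1, fun W hW hle => le_antisymm (hU.2 hW hle) hle⟩
  have hUm : IsMTS Q₀ n U := Cfsg.Agent.H01.Om.mts_of_max hdim hQ hW₀ hmax
  rw [parS_indep hdim hQ T hW₀ hUm]
  unfold parS
  have h4 : E ≤ U ⊓ imS T U := by
    refine le_inf hEU ?_
    rw [← imS_eq_of_stable T h3]
    exact imS_mono T hEU
  have h5 := Submodule.finrank_mono h4
  have h6 := Submodule.finrank_mono (inf_le_left : (U ⊓ imS T U : Submodule F (ι → F)) ≤ U)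
  rw [hUm.card] at h6
  rw [h1] at h5
  have h7 : finrank F ↥(U ⊓ imS T U : Submodule F (ι → F)) ≠ n := by
    intro e
    have e1 : U ⊓ imS T U = U := by
      apply Submodule.eq_of_le_of_finrank_eq inf_le_left
      rw [e, hUm.card]
    have e2 : U ≤ imS T U := by
      have := (inf_le_right : U ⊓ imS T U ≤ imS T U)
      rwa [e1] at this
    have e3 : U = imS T U := by
      apply Submodule.eq_of_le_of_finrank_eq e2
      rw [finrank_imS]
    have h8 := ell_no_stable H hit hf U hU.1 (fun u hu => by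
      rw [e3]
      exact ⟨u, hu, rfl⟩)
    rw [hUm.card] at h8
    omega
  have h9 : finrank F ↥(U ⊓ imS T U : Submodule F (ι → F)) = n - 1 := by omega
  rw [h9]
  omega

end ParT

section Refl
variable {Q₀ : QuadraticForm F (ι → F)} {n : ℕ}

/-- a fixed vector that is not singular -/
lemma exists_fixed_ne (h : QF Q B) (hnd : ND B (⊤ : Submodule F (ι → F))) (H : IsSemi Q T σ κ)
    (hit : ∀ x, T^[orderOf σ] x = x) (hne : Nonempty ι) : ∃ w, T w = w ∧ Q w ≠ 0 := by
  classical
  have hsp := span_fixSp H hit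
  obtain ⟨i⟩ := hne
  have hv : ∃ v, T v = v ∧ v ≠ 0 := by
    by_contra hall
    push Not at hall
    have : (⊤ : Submodule F (ι → F)) ≤ ⊥ := by
      rw [← hsp, Submodule.span_le]
      intro v hv
      simpa using hall v hv
    have h1 := this (Submodule.mem_top (x := (Pi.single i 1 : ι → F)))
    rw [Submodule.mem_bot] at h1
    have h2 := congrFun h1 i
    simp at h2
  obtain ⟨v, hv1, hv0⟩ := hv
  obtain ⟨z, -, hz⟩ := hnd v trivial hv0
  have hz' : ∃ y, T y = y ∧ B v y ≠ 0 := by
    by_contra hall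
    push Not at hall
    apply hz
    have hmem : z ∈ Submodule.span F {v | T v = v} := by
      rw [hsp]
      trivial
    induction hmem using Submodule.span_induction with
    | mem y hy => exact hall y hy
    | zero => exact h.zero_right _
    | add a b _ _ ha hb =>
      rw [h.add_right]
      by_cases hz1 : B v a = 0
      · by_cases hz2 : B v b = 0
        · rw [hz1, hz2, add_zero]
        · exact absurd (hb hz2) hz2
      · exact absurd (ha hz1) hz1
    | smul a b _ hb =>
      rw [h.smul_right]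
      by_cases hz1 : B v b = 0
      · rw [hz1, mul_zero]
      · exact absurd (hb hz1) hz1
  obtain ⟨y, hy1, hy0⟩ := hz'
  by_cases h1 : Q v = 0
  · by_cases h2 : Q y = 0
    · refine ⟨v + y, by rw [H.hadd, hv1, hy1], ?_⟩
      rw [h.add, h1, h2]
      simpa using hy0
    · exact ⟨y, hy1, h2⟩
  · exact ⟨v, hv1, h1⟩

/-- the reflection in a fixed vector commutes with the semilinear map -/
lemma R_comm (h : QF Q B) (H : IsSemi Q T σ κ) {w : ι → F} (hw : T w = w) (hQw : Q w ≠ 0) (x : ι → F) :
    act (R h w hQw) (T x) = T (act (R h w hQw) x) := by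
  rw [act_R, act_R]
  have e0 : ∀ y : ι → F, y - ((B x w / Q w) • w) = y + (-(B x w / Q w)) • w := by
    intro y
    rw [neg_smul, sub_eq_add_neg]
  rw [e0, H.hadd, H.hsmul, hw, sub_eq_add_neg, ← neg_smul]
  congr 2
  have e1 := H.hQ w
  rw [hw] at e1
  have e2 := semi_B h H x w
  rw [hw] at e2
  have hκ := H.hκ
  have e3 : σ (Q w) ≠ 0 := (map_ne_zero σ).2 hQw
  rw [map_neg, map_div₀, e2]
  conv_lhs => rw [e1]
  field_simp

/-- the parity of a reflection -/
lemma par_refl (hdim : Fintype.card ι = 2 * n) (hQ : (QuadraticMap.polarBilin Q₀).Nondegenerate)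
    (h : QF (⇑Q₀) B) {w : ι → F} (hw : Q₀ w ≠ 0) {U : Submodule F (ι → F)} (hU : IsMTS Q₀ n U) :
    parS n (ofO (R h w hw) : GS (⇑Q₀)) U = 1 := by
  have hB : ∀ x y, B x y = QuadraticMap.polar (⇑Q₀) x y := by
    intro x y
    unfold QuadraticMap.polar
    rw [h.add]
    ring
  have e : imS (ofO (R h w hw) : GS (⇑Q₀)) U = U.map (Rf Q₀ w) := by
    ext x
    simp only [mem_imS, Submodule.mem_map]
    constructor
    · rintro ⟨u, hu, rfl⟩
      refine ⟨u, hu, ?_⟩
      rw [ofO_apply, act_R, Cfsg.Agent.H11.Rf_apply, hB, QuadraticMap.polar_comm, div_eq_inv_mul]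
    · rintro ⟨u, hu, rfl⟩
      refine ⟨u, hu, ?_⟩
      rw [ofO_apply, act_R, Cfsg.Agent.H11.Rf_apply, hB, QuadraticMap.polar_comm, div_eq_inv_mul]
  have h1 := Cfsg.Agent.H11.finrank_inf_refl hdim hQ hw hU hU
  rw [inf_idem, hU.card] at h1
  have h4 := Submodule.finrank_mono (inf_le_left : (U ⊓ U.map (Rf Q₀ w) : Submodule F (ι → F)) ≤ U)
  rw [hU.card] at h4
  unfold parS
  rw [e]
  omega

end Refl

end Cfsg.Agent.Lead.LangOm
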