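import Cfsg.Agent.Lib.Lead.LangPar3
/-! The coset statement in even dimension, with parity. -/
set_option autoImplicit false
set_option linter.style.haveILetI false
set_option linter.unusedSimpArgs false
set_option linter.unusedSectionVars false
set_option linter.unusedVariables false
namespace Cfsg.Agent.Lead.LangOm
open Matrix Module Cfsg.Agent.Lead.Ortho Cfsg.Agent.Lead.Omega Cfsg.Agent.H01.Om Cfsg.Agent.Lead.Lang
open Cfsg.Agent.H11 (IsMTS Rf Pb triangle)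

variable {F : Type*} [Field F] [Fintype F] {ι : Type} [Fintype ι] [DecidableEq ι]
variable {Q₀ : QuadraticForm F (ι → F)} {B : (ι → F) → (ι → F) → F} {n : ℕ} {W₀ : Submodule F (ι → F)}
variable {m : ℕ} {t₀ : Fin m → (ι → F) × (ι → F)}

/-- the parity only depends on the automorphism -/
lemma par_of_Th_one (C : Cx (⇑Q₀) B t₀) (hdim : Fintype.card ι = 2 * n)
    (hQ : (QuadraticMap.polarBilin Q₀).Nondegenerate) (hW₀ : IsMTS Q₀ n W₀) {T : GS (⇑Q₀)}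
    (h1 : Th C.h C.nd T = 1) : parS n T W₀ = 0 := by
  obtain ⟨α, hα, hT⟩ := C.scalar_of_Th T h1
  have e : imS T W₀ = W₀ := by
    apply imS_eq_of_stable
    intro u hu
    rw [hT]
    exact W₀.smul_mem _ hu
  unfold parS
  rw [e, inf_idem, hW₀.card]
  omega

lemma par_congr (C : Cx (⇑Q₀) B t₀) (hdim : Fintype.card ι = 2 * n)
    (hQ : (QuadraticMap.polarBilin Q₀).Nondegenerate) (hW₀ : IsMTS Q₀ n W₀) {T T' : GS (⇑Q₀)}
    (h1 : Th C.h C.nd T = Th C.h C.nd T') : parS n T W₀ = parS n T' W₀ := by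
  have e1 : Th C.h C.nd (T * T'⁻¹) = 1 := by
    rw [map_mul, map_inv, h1, mul_inv_cancel]
  have e2 := par_of_Th_one C hdim hQ hW₀ e1
  have e3 := parS_mul hdim hQ (T * T'⁻¹) T' hW₀
  rw [inv_mul_cancel_right, e2] at e3
  have h2 := parS_lt hdim hQ T W₀
  have h3 := parS_lt hdim hQ T' W₀
  omega

/-- **The coset statement in even dimension.** -/
theorem coset_par (C : Cx (⇑Q₀) B t₀) (hdim : Fintype.card ι = 2 * n)
    (hQ : (QuadraticMap.polarBilin Q₀).Nondegenerate) (hW₀ : IsMTS Q₀ n W₀) (hn : 1 ≤ n)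
    {T₁ : GS (⇑Q₀)} {σ : F ≃+* F} {κ : F} (H₁ : IsSemi (⇑Q₀) (T₁ : Equiv.Perm (ι → F)) σ κ) (hσ : σ ≠ 1)
    {r : ℕ} (hr : r.Prime) (hxr : orderOf (Th C.h C.nd T₁) = r) {D : GS (⇑Q₀)} (hD : D ∈ GLS (⇑Q₀))
    (hDp : parS n D W₀ = 0) (hord : orderOf (Th C.h C.nd D * Th C.h C.nd T₁) = r) :
    ∃ P : GS (⇑Q₀), P ∈ GLS (⇑Q₀) ∧ parS n P W₀ = 0 ∧
      Th C.h C.nd D * Th C.h C.nd T₁ = Th C.h C.nd P * Th C.h C.nd T₁ * (Th C.h C.nd P)⁻¹ := by
  classical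
  haveI : Fact r.Prime := ⟨hr⟩
  have h1r : Th C.h C.nd T₁ ^ r = 1 := by
    rw [← hxr]
    exact pow_orderOf_eq_one _
  have hσr : orderOf σ = r := by
    apply orderOf_eq_prime _ hσ
    rw [← map_pow] at h1r
    exact sigma_of_Th_eq_one C (semi_pow H₁ r) h1r
  obtain ⟨κD, HD⟩ := hD
  have H₂ : IsSemi (⇑Q₀) ((D * T₁ : GS (⇑Q₀)) : Equiv.Perm (ι → F)) σ _ :=
    semi_congr (HD.mul H₁) (one_mul σ) rfl
  have h2r : Th C.h C.nd (D * T₁) ^ orderOf σ = 1 := by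
    rw [hσr, map_mul, ← hord]
    exact pow_orderOf_eq_one _
  obtain ⟨T₁', κ₁', H₁', hTh₁, hit₁⟩ := exists_normalized C H₁ (by rw [hσr]; exact h1r)
  obtain ⟨T₂', κ₂', H₂', hTh₂, hit₂⟩ := exists_normalized C H₂ h2r
  have hp1 : parS n T₁' W₀ = parS n T₁ W₀ := par_congr C hdim hQ hW₀ hTh₁
  have hp2 : parS n T₂' W₀ = parS n T₁ W₀ := by
    rw [par_congr C hdim hQ hW₀ hTh₂]
    have e3 := parS_mul hdim hQ D T₁ hW₀
    rw [hDp] at e3
    have h2 := parS_lt hdim hQ (D * T₁) W₀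
    have h3 := parS_lt hdim hQ T₁ W₀
    omega
  -- the intertwiner
  have hconj : ∃ P : GS (⇑Q₀), P ∈ GLS (⇑Q₀) ∧ ∀ x, (P : Equiv.Perm (ι → F)) ((T₁' : Equiv.Perm (ι → F)) x) =
      (T₂' : Equiv.Perm (ι → F)) ((P : Equiv.Perm (ι → F)) x) := by
    rcases frame_dich C H₁' hit₁ hn hdim with f1 | f1 <;> rcases frame_dich C H₂' hit₂ hn hdim with f2 | f2
    · exact conj_hyp C.h H₁' H₂' hit₁ hit₂ f1 f2
    · exfalso
      have e1 := par_hyp hdim hQ hW₀ C.h _ H₁' hit₁ f1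
      have e2 := par_ell hdim hQ hn hW₀ C.h _ H₂' hit₂ f2
      omega
    · exfalso
      have e1 := par_ell hdim hQ hn hW₀ C.h _ H₁' hit₁ f1
      have e2 := par_hyp hdim hQ hW₀ C.h _ H₂' hit₂ f2
      omega
    · exact conj_ell C.h H₁' H₂' hit₁ hit₂ f1 f2
  obtain ⟨P, hP, hPi⟩ := hconj
  have hne : Nonempty ι := by
    rw [← Fintype.card_pos_iff, hdim]
    omega
  obtain ⟨w, hw, hQw⟩ := exists_fixed_ne C.h C.nd H₁' hit₁ hne
  -- adjust the parity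
  have hadj : ∃ P' : GS (⇑Q₀), P' ∈ GLS (⇑Q₀) ∧ parS n P' W₀ = 0 ∧ ∀ x, (P' : Equiv.Perm (ι → F)) ((T₁' : Equiv.Perm (ι → F)) x) =
      (T₂' : Equiv.Perm (ι → F)) ((P' : Equiv.Perm (ι → F)) x) := by
    by_cases hp : parS n P W₀ = 0
    · exact ⟨P, hP, hp, hPi⟩
    · refine ⟨P * ofO (R C.h w hQw), ?_, ?_, ?_⟩
      · exact Subgroup.mul_mem _ hP ⟨1, isSemi_permO (R C.h w hQw)⟩
      · have e1 := parS_mul hdim hQ P (ofO (R C.h w hQw)) hW₀
        rw [par_refl hdim hQ C.h hQw hW₀] at e1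
        have e2 := parS_lt hdim hQ P W₀
        have e3 := parS_lt hdim hQ (P * ofO (R C.h w hQw)) W₀
        omega
      · intro x
        change (P : Equiv.Perm (ι → F)) (act (R C.h w hQw) ((T₁' : Equiv.Perm (ι → F)) x)) =
          (T₂' : Equiv.Perm (ι → F)) ((P : Equiv.Perm (ι → F)) (act (R C.h w hQw) x))
        rw [R_comm C.h H₁' hw hQw, hPi]
  obtain ⟨P', hP', hPp, hPi'⟩ := hadj
  refine ⟨P', hP', hPp, ?_⟩
  have e3 : P' * T₁' = T₂' * P' := by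
    apply Subtype.ext
    apply Equiv.ext
    intro x
    exact hPi' x
  have e4 : T₂' = P' * T₁' * P'⁻¹ := by
    rw [e3, mul_inv_cancel_right]
  rw [← map_mul, ← hTh₂, e4, map_mul, map_mul, map_inv, hTh₁]

section PlusForm
variable {m : ℕ}

open Cfsg.Agent.H11 (plusForm U0 U0_mts plus_nondeg' card_sum)

lemma plus_ctx (hm : 3 ≤ m) : ∃ t₀ : Fin m → _, Cx (Cfsg.quadFormPlus m F) (polarPlus m F) t₀ := by
  obtain ⟨m', rfl⟩ : ∃ m', m = m' + 1 + 1 := ⟨m - 2, by omega⟩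
  exact ⟨_, mkCx (qfPlus (F := F) (m' + 1 + 1)) (ndPlus _) (framePlus_HF _) (by omega) (framePlus_anis _)⟩

/-- the image of the class-preserving similarities -/
theorem inndiag_plus_eq {t₀ : Fin m → _} (C : Cx (Cfsg.quadFormPlus m F) (polarPlus m F) t₀) :
    Cfsg.inndiagPOmegaPlus m F = (GLS (Cfsg.quadFormPlus m F) ⊓
      GPS (Q₀ := plusForm m F) (card_sum m) (plus_nondeg' m) (U0_mts m)).map (Th C.h C.nd) := by
  have hdim := card_sum m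
  have hQ := plus_nondeg' (F := F) m
  have hW := U0_mts (F := F) m
  have key : ∀ (g : GL (Fin m ⊕ Fin m) F) (T : GS (Cfsg.quadFormPlus m F)), (∀ x, (T : Equiv.Perm (Fin m ⊕ Fin m → F)) x = (g : Matrix _ _ F) *ᵥ x) →
      imS (Q₀ := plusForm m F) T (U0 m F) = imL g (U0 m F) := by
    intro g T hg
    ext x
    simp only [mem_imS, Submodule.mem_map, Matrix.mulVecLin_apply]
    constructor
    · rintro ⟨u, hu, rfl⟩
      exact ⟨u, hu, (hg u).symm⟩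
    · rintro ⟨u, hu, rfl⟩
      exact ⟨u, hu, hg u⟩
  apply le_antisymm
  · unfold Cfsg.inndiagPOmegaPlus Cfsg.autSubgroupOf
    rw [Subgroup.closure_le]
    rintro β ⟨g, ⟨c, hc⟩, hpres, hi⟩
    have H : SemiM (Cfsg.quadFormPlus m F) g (RingEquiv.refl F) c := ⟨c.ne_zero, fun v => hc v⟩
    have hg1 : g ∈ SGL (plusForm m F) := ⟨c, fun v => hc v⟩
    have h0 := (preserves_iff hdim hQ hW hg1).1 hpres
    refine ⟨⟨permOfM H, _, _, isSemi_of_M H⟩, ⟨⟨(c : F), isSemi_of_M H⟩, ?_⟩, ?_⟩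
    · change parS m _ (U0 m F) = 0
      unfold parS
      rw [key g _ (fun x => rfl)]
      exact h0
    · exact (Th_eq_of_induced C.h C.nd H hi (fun x => rfl)).symm
  · rintro _ ⟨T, ⟨⟨κ, HT⟩, hp⟩, rfl⟩
    obtain ⟨g, H, hg⟩ := HT.matrix C.h C.nd
    have hg' : ∀ x, (T : Equiv.Perm (Fin m ⊕ Fin m → F)) x = (g : Matrix _ _ F) *ᵥ x := by
      intro x
      rw [hg]
      rfl
    rw [Th_of_matrix C.h C.nd H hg]
    apply Subgroup.subset_closure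
    have hg1 : g ∈ SGL (plusForm m F) := ⟨Units.mk0 κ H.hκ, fun v => H.hQ v⟩
    refine ⟨g, ⟨Units.mk0 κ H.hκ, fun v => H.hQ v⟩, ?_, cP_induced H⟩
    refine (preserves_iff hdim hQ hW hg1).2 ?_
    change parS m _ (U0 m F) = 0 at hp
    unfold parS at hp
    rw [key g T hg'] at hp
    exact hp

/-- automorphisms with nontrivial field part -/
lemma semi_of_conj {Q : (ι → F) → F} {B : (ι → F) → (ι → F) → F} {t₀ : Fin m → (ι → F) × (ι → F)} (C : Cx Q B t₀)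
    {x α : MulAut (Cfsg.POmega F Q)} (A : GS Q) (hA : α = Th C.h C.nd A) (T : GS Q) {σ : F ≃+* F} {κ : F}
    (HT : IsSemi Q (T : Equiv.Perm (ι → F)) σ κ) (hσ : σ ≠ 1) (hc : α * x * α⁻¹ = Th C.h C.nd T) :
    ∃ (T₁ : GS Q) (σ₁ : F ≃+* F) (κ₁ : F), IsSemi Q (T₁ : Equiv.Perm (ι → F)) σ₁ κ₁ ∧ σ₁ ≠ 1 ∧ x = Th C.h C.nd T₁ := by
  obtain ⟨A', τ, κ', HA⟩ := A
  refine ⟨(⟨A', τ, κ', HA⟩ : GS Q)⁻¹ * T * ⟨A', τ, κ', HA⟩, _, _, (HA.inv.mul HT).mul HA, ?_, ?_⟩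
  · intro e
    apply hσ
    have e1 : τ⁻¹ * σ * τ = 1 := e
    have e2 : σ = τ * (τ⁻¹ * σ * τ) * τ⁻¹ := by group
    rw [e2, e1]
    group
  · rw [map_mul, map_mul, map_inv, ← hc, ← hA]
    group

/-- **S2736** -/
theorem coset_plus (hm : 5 ≤ m) (x δ : MulAut (Cfsg.POmega F (Cfsg.quadFormPlus m F)))
    (hx : Cfsg.IsFieldAutClassPOmega (Cfsg.quadFormPlus m F) x ∨ Cfsg.IsGraphFieldAutClassPOmegaPlus m x) {r : ℕ}
    (hr : r.Prime) (hxr : orderOf x = r) (hδ : δ ∈ Cfsg.inndiagPOmegaPlus m F) :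
    orderOf (δ * x) = r ↔ Cfsg.IsConjUnder (Cfsg.inndiagPOmegaPlus m F) x (δ * x) := by
  classical
  constructor
  · intro hord
    obtain ⟨t₀, C⟩ := plus_ctx (F := F) (m := m) (by omega)
    have hΓ : ∀ α : MulAut (Cfsg.POmega F (Cfsg.quadFormPlus m F)), ∃ A : GS (Cfsg.quadFormPlus m F), α = Th C.h C.nd A := by
      intro α
      have hα : α ∈ Cfsg.gammaPOmega F (Cfsg.quadFormPlus m F) := by
        rw [gamma_top_plus hm]
        trivial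
      obtain ⟨A, rfl⟩ := gamma_le_range C.h C.nd hα
      exact ⟨A, rfl⟩
    have hQσ : ∀ (σ : F ≃+* F) x, Cfsg.quadFormPlus m F (smap σ x) = σ (Cfsg.quadFormPlus m F x) := by
      intro σ x
      simp [Cfsg.quadFormPlus, smap, map_sum, map_mul]
    have hT₁ : ∃ (T₁ : GS (Cfsg.quadFormPlus m F)) (σ₁ : F ≃+* F) (κ₁ : F),
        IsSemi (Cfsg.quadFormPlus m F) (T₁ : Equiv.Perm (Fin m ⊕ Fin m → F)) σ₁ κ₁ ∧ σ₁ ≠ 1 ∧ x = Th C.h C.nd T₁ := by
      rcases hx with ⟨α, φ, σ, hσ, hstd, hφ⟩ | ⟨α, γ, φ, σ, v, g, hσ, hQv, hv, hg, hγ, hφ, hc⟩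
      · obtain ⟨A, hA⟩ := hΓ α
        refine semi_of_conj C A hA (sigT σ (hQσ σ)) (sigT_semi σ (hQσ σ)) hσ ?_
        rw [hφ]
        exact fld_eq_Th C σ (hQσ σ) hstd
      · obtain ⟨A, hA⟩ := hΓ α
        have H : SemiM (Cfsg.quadFormPlus m F) g (RingEquiv.refl F) 1 := ⟨one_ne_zero, fun w => by
          rw [hg, one_mul]
          exact Cfsg.Agent.H03.reflection_isometry (plusForm m F) v hQv w⟩
        let Tg : GS (Cfsg.quadFormPlus m F) := ⟨permOfM H, _, _, isSemi_of_M H⟩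
        have e1 : γ = Th C.h C.nd Tg := Th_eq_of_induced C.h C.nd H hγ (fun x => rfl)
        have e2 := fld_eq_Th C σ (hQσ σ) hφ
        refine semi_of_conj C A hA (Tg * sigT σ (hQσ σ)) ((isSemi_of_M H).mul (sigT_semi σ (hQσ σ))) ?_ ?_
        · intro e
          apply hσ
          have e3 : (1 : F ≃+* F) * σ = 1 := e
          rw [one_mul] at e3
          exact e3
        · rw [hc, e1, e2, map_mul]
    obtain ⟨T₁, σ₁, κ₁, H₁, hσ₁, rfl⟩ := hT₁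
    have hI := inndiag_plus_eq C
    rw [hI] at hδ ⊢
    obtain ⟨D, ⟨hD, hDp⟩, rfl⟩ := hδ
    obtain ⟨P, hP, hPp, hk⟩ := coset_par (Q₀ := plusForm m F) C (card_sum m) (plus_nondeg' m) (U0_mts m) (by omega) H₁ hσ₁ hr hxr hD hDp hord
    exact ⟨_, ⟨P, ⟨hP, hPp⟩, rfl⟩, hk⟩
  · rintro ⟨h, -, e⟩
    rw [e, orderOf_conj', hxr]

end PlusForm

end Cfsg.Agent.Lead.LangOm
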