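import Cfsg.Agent.Lib.Lead.LangPar4
import Cfsg.Agent.Lib.H01.OmDiagM2
/-! The coset statement for the minus type. -/
set_option autoImplicit false
set_option linter.style.haveILetI false
set_option linter.unusedSimpArgs false
set_option linter.unusedSectionVars false
set_option linter.unusedVariables false
namespace Cfsg.Agent.Lead.LangOm
open Matrix Module Cfsg.Agent.Lead.Ortho Cfsg.Agent.Lead.Omega Cfsg.Agent.H01.Om Cfsg.Agent.Lead.Lang
open Cfsg.Agent.H11 (IsMTS Rf Pb triangle minusForm minusForm_coe polar_minus' minus_pairs nondeg_of_left)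

section L
variable {L : Type*} [Field L]

/-- nondegeneracy of the minus form in all characteristics -/
lemma minus_nondeg3 (k : ℕ) (a b : L) (hΔ : 4 * b - a ^ 2 ≠ 0) :
    (QuadraticMap.polarBilin (minusForm k L a b)).Nondegenerate := by
  apply nondeg_of_left
  intro x h
  have H := minus_pairs (F := L) k a b
  have h0 : 2 * x (Sum.inr 0) + a * x (Sum.inr 1) = 0 := by
    have := h (Pi.single (Sum.inr 0) 1)
    rw [minusForm_coe, polar_minus'] at this
    simpa [Pi.single_apply] using this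
  have h1 : a * x (Sum.inr 0) + 2 * b * x (Sum.inr 1) = 0 := by
    have := h (Pi.single (Sum.inr 1) 1)
    rw [minusForm_coe, polar_minus'] at this
    simpa [Pi.single_apply] using this
  have hz1 : x (Sum.inr 1) = 0 := by
    apply (mul_eq_zero.1 (show (4 * b - a ^ 2) * x (Sum.inr 1) = 0 by linear_combination 2 * h1 - a * h0)).resolve_left hΔ
  have hz0 : x (Sum.inr 0) = 0 := by
    apply (mul_eq_zero.1 (show (4 * b - a ^ 2) * x (Sum.inr 0) = 0 by linear_combination 2 * b * h0 - a * h1)).resolve_left hΔ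
  funext i
  rcases i with (i | i) | i
  · have := h (Pi.single (Sum.inl (Sum.inr i)) 1)
    rw [QuadraticMap.polar_comm, H.pol_q] at this
    exact this
  · have := h (Pi.single (Sum.inl (Sum.inl i)) 1)
    rw [QuadraticMap.polar_comm, H.pol_p] at this
    exact this
  · fin_cases i
    · exact hz0
    · exact hz1

end L

variable {F : Type*} [Field F] [Fintype F] {ι : Type} [Fintype ι] [DecidableEq ι]
variable {Q : (ι → F) → F} {B : (ι → F) → (ι → F) → F}

section Ext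
variable {K : Type*} [Field K] [Algebra F K] {Q₀ : QuadraticForm K (ι → K)} {n : ℕ} {W₀ : Submodule K (ι → K)}
variable {h : QF Q B}

/-- similarities extend to the quadratic extension -/
lemma emb_sim [Fintype K] (Y : LD h Q₀ n W₀) {g : GL ι F} (hg : g ∈ Cfsg.Geo.quadSimilarityGroup Q) :
    embG K g ∈ SGL Q₀ := by
  classical
  obtain ⟨c, hc⟩ := hg
  have hQg : ∀ v : ι → F, Q ((g : Matrix ι ι F) *ᵥ v) = c * Q v := fun v => hc v
  have hBg : ∀ u v : ι → F, B ((g : Matrix ι ι F) *ᵥ u) ((g : Matrix ι ι F) *ᵥ v) = c * B u v := by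
    intro u v
    have e := hQg (u + v)
    rw [Matrix.mulVec_add, h.add, h.add, hQg, hQg] at e
    linear_combination e
  have hK : QF (⇑Q₀) (QuadraticMap.polar (⇑Q₀)) :=
    { add := fun x y => by
        unfold QuadraticMap.polar
        ring
      smul := fun a x => by
        rw [QuadraticMap.map_smul]
        simp [sq]
      add_left := fun x y z => QuadraticMap.polar_add_left _ _ _ _
      smul_left := fun a x z => QuadraticMap.polar_smul_left _ _ _ _
      symm := fun x y => QuadraticMap.polar_comm _ _ _ }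
  have hc0 : algebraMap F K c ≠ 0 := (map_ne_zero _).2 c.ne_zero
  refine ⟨Units.mk0 _ hc0, fun x => ?_⟩
  have e1 : x = ∑ j, x j • (Pi.single j 1 : ι → K) := by
    funext i
    simp [Finset.sum_apply, Pi.single_apply]
  have e2 : (embG K g).val *ᵥ x = ∑ j, x j • embV K ((g : Matrix ι ι F) *ᵥ Pi.single j 1) := by
    conv_lhs => rw [e1]
    rw [Matrix.mulVec_sum]
    apply Finset.sum_congr rfl
    intro j _
    rw [Matrix.mulVec_smul, ← embG_mulVec, embV_single]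
  change Q₀ ((embG K g).val *ᵥ x) = algebraMap F K c * Q₀ x
  rw [e2]
  apply form_of_family hK hK
  · intro j
    rw [Y.hQL, hQg, map_mul, ← Y.hQL, embV_single]
  · intro i j
    rw [Y.polar, hBg, map_mul, ← Y.polar, embV_single, embV_single]

/-- one of `P` and `P` times a reflection preserves the classes over the extension -/
lemma pres_or [Fintype K] {m' : ℕ} {t₀ : Fin m' → (ι → F) × (ι → F)} (C : Cx Q B t₀)
    (Y : LD C.h Q₀ n W₀) {P : GS Q} (hP : P ∈ GLS Q) {w : ι → F} (hw : Q w ≠ 0) :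
    ∃ P' : GS Q, (P' = P ∨ P' = P * ofO (R C.h w hw)) ∧ ∃ (g : GL ι F) (κ : F) (H : SemiM Q g 1 κ),
      Cfsg.PreservesSingularClasses (⇑Q₀) (embG K g).val ∧ (∀ x, (P' : Equiv.Perm (ι → F)) x = (g : Matrix ι ι F) *ᵥ smap 1 x) := by
  classical
  obtain ⟨κ, HP⟩ := hP
  obtain ⟨g, H, hg⟩ := HP.matrix C.h C.nd
  have hsim : g ∈ Cfsg.Geo.quadSimilarityGroup Q := ⟨Units.mk0 κ H.hκ, fun v => H.hQ v⟩
  have hL := emb_sim Y hsim
  by_cases hp : (n + MgL (embG K g) W₀) % 2 = 0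
  · exact ⟨P, Or.inl rfl, g, κ, H, (preserves_iff Y.hdim Y.hQ Y.hW₀ hL).2 hp, hg⟩
  · let s : OG F Q := R C.h w hw
    have hsG : ((s : OG F Q) : GL ι F) ∈ Cfsg.Geo.quadSimilarityGroup Q := by
      refine ⟨1, fun v => ?_⟩
      have e1 := Q_act (Q := Q) s v
      rw [Units.val_one, one_mul]
      exact e1
    have hkL := emb_sim Y hsG
    have hm1 := Mg_refl Y.hdim Y.hQ (Y.Q_ne hw) (g := embG K ((s : OG F Q) : GL ι F)) (fun x => Y.embG_R hw x) Y.hW₀
    have hm2 := Cfsg.Agent.H01.Om.parity_mul Y.hdim Y.hQ hL hkL Y.hW₀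
    have H₂ : SemiM Q (g * ((s : OG F Q) : GL ι F)) 1 κ := ⟨H.hκ, fun v => by
      have e1 : Q (((((s : OG F Q) : GL ι F) : Matrix ι ι F)) *ᵥ v) = Q v := Q_act (Q := Q) s v
      have e2 : Q ((g : Matrix ι ι F) *ᵥ (((((s : OG F Q) : GL ι F) : Matrix ι ι F)) *ᵥ v)) = κ * Q (((((s : OG F Q) : GL ι F) : Matrix ι ι F) *ᵥ v)) :=
        H.hQ (((((s : OG F Q) : GL ι F) : Matrix ι ι F)) *ᵥ v)
      change Q (((g * ((s : OG F Q) : GL ι F) : GL ι F) : Matrix ι ι F) *ᵥ v) = κ * Q v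
      rw [Units.val_mul, ← Matrix.mulVec_mulVec, e2, e1]⟩
    refine ⟨P * ofO s, Or.inr rfl, g * ((s : OG F Q) : GL ι F), κ, H₂, ?_, fun x => ?_⟩
    · have hL₂ : embG K (g * ((s : OG F Q) : GL ι F)) ∈ SGL Q₀ := by
        rw [map_mul]
        exact Subgroup.mul_mem _ hL hkL
      refine (preserves_iff Y.hdim Y.hQ Y.hW₀ hL₂).2 ?_
      rw [map_mul]
      omega
    · change (P : Equiv.Perm (ι → F)) (act s x) = _
      rw [hg]
      change ((g : Matrix ι ι F)) *ᵥ (((s : OG F Q) : GL ι F) : Matrix ι ι F) *ᵥ x = _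
      rw [Matrix.mulVec_mulVec]
      rfl

end Ext

section Iso
variable {Q' : (ι → F) → F} {B' : (ι → F) → (ι → F) → F}

/-- the linear map of an isometry -/
noncomputable abbrev actL (s : OG F Q) : (ι → F) →ₗ[F] (ι → F) := Matrix.mulVecLin (((s : OG F Q) : GL ι F) : Matrix ι ι F)

lemma actL_apply (s : OG F Q) (x : ι → F) : actL s x = act s x := rfl

/-- transport of isometries along an isometry of forms -/
noncomputable def ogF (L : (ι → F) ≃ₗ[F] (ι → F)) (hL : ∀ v, Q (L v) = Q' v) (s : OG F Q') : OG F Q :=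
  mkO (L.toLinearMap ∘ₗ actL s ∘ₗ L.symm.toLinearMap) (L.toLinearMap ∘ₗ actL s⁻¹ ∘ₗ L.symm.toLinearMap)
    (fun x => by
      simp only [LinearMap.comp_apply, LinearEquiv.coe_coe, LinearEquiv.symm_apply_apply, actL_apply, act_act_inv, LinearEquiv.apply_symm_apply])
    (fun x => by
      simp only [LinearMap.comp_apply, LinearEquiv.coe_coe, LinearEquiv.symm_apply_apply, actL_apply, act_inv_act, LinearEquiv.apply_symm_apply])
    (fun x => by
      simp only [LinearMap.comp_apply, LinearEquiv.coe_coe, actL_apply]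
      rw [hL, Q_act (Q := Q')]
      rw [← hL, LinearEquiv.apply_symm_apply])

noncomputable def ogB (L : (ι → F) ≃ₗ[F] (ι → F)) (hL : ∀ v, Q (L v) = Q' v) (s : OG F Q) : OG F Q' :=
  mkO (L.symm.toLinearMap ∘ₗ actL s ∘ₗ L.toLinearMap) (L.symm.toLinearMap ∘ₗ actL s⁻¹ ∘ₗ L.toLinearMap)
    (fun x => by
      simp only [LinearMap.comp_apply, LinearEquiv.coe_coe, LinearEquiv.symm_apply_apply, actL_apply, act_act_inv, LinearEquiv.apply_symm_apply])
    (fun x => by
      simp only [LinearMap.comp_apply, LinearEquiv.coe_coe, LinearEquiv.symm_apply_apply, actL_apply, act_inv_act, LinearEquiv.apply_symm_apply])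
    (fun x => by
      simp only [LinearMap.comp_apply, LinearEquiv.coe_coe, actL_apply]
      rw [← hL, LinearEquiv.apply_symm_apply, Q_act (Q := Q), hL])

lemma act_ogF (L : (ι → F) ≃ₗ[F] (ι → F)) (hL : ∀ v, Q (L v) = Q' v) (s : OG F Q') (x : ι → F) :
    act (ogF L hL s) x = L (act s (L.symm x)) := by
  unfold ogF
  rw [act_mkO]
  rfl

lemma act_ogB (L : (ι → F) ≃ₗ[F] (ι → F)) (hL : ∀ v, Q (L v) = Q' v) (s : OG F Q) (x : ι → F) :
    act (ogB L hL s) x = L.symm (act s (L x)) := by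
  unfold ogB
  rw [act_mkO]
  rfl

/-- transport of isometries along an isometry of forms -/
noncomputable def ogIso (L : (ι → F) ≃ₗ[F] (ι → F)) (hL : ∀ v, Q (L v) = Q' v) : OG F Q' ≃* OG F Q where
  toFun := ogF L hL
  invFun := ogB L hL
  left_inv s := by
    apply og_ext
    intro x
    rw [act_ogB, act_ogF, LinearEquiv.symm_apply_apply, LinearEquiv.symm_apply_apply]
  right_inv s := by
    apply og_ext
    intro x
    rw [act_ogF, act_ogB, LinearEquiv.apply_symm_apply, LinearEquiv.apply_symm_apply]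
  map_mul' s t := by
    apply og_ext
    intro x
    rw [act_mul, act_ogF, act_ogF, act_ogF, act_mul, LinearEquiv.symm_apply_apply]

lemma act_ogIso (L : (ι → F) ≃ₗ[F] (ι → F)) (hL : ∀ v, Q (L v) = Q' v) (s : OG F Q') (x : ι → F) :
    act (ogIso L hL s) x = L (act s (L.symm x)) := act_ogF L hL s x

lemma act_ogIso_symm (L : (ι → F) ≃ₗ[F] (ι → F)) (hL : ∀ v, Q (L v) = Q' v) (s : OG F Q) (x : ι → F) :
    act ((ogIso L hL).symm s) x = L.symm (act s (L x)) := act_ogB L hL s x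

/-- the restriction to the commutator subgroups -/
lemma map_Omega (L : (ι → F) ≃ₗ[F] (ι → F)) (hL : ∀ v, Q (L v) = Q' v) :
    (Cfsg.Omega F Q').map (ogIso L hL).toMonoidHom = Cfsg.Omega F Q := by
  change (commutator _).map _ = commutator _
  rw [commutator_def, commutator_def, Subgroup.map_commutator,
    Subgroup.map_top_of_surjective _ (ogIso L hL).surjective]

/-- the isomorphism of the commutator subgroups -/
noncomputable def omIso (L : (ι → F) ≃ₗ[F] (ι → F)) (hL : ∀ v, Q (L v) = Q' v) : ↥(Cfsg.Omega F Q') ≃* ↥(Cfsg.Omega F Q) :=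
  ((ogIso L hL).subgroupMap (Cfsg.Omega F Q')).trans (MulEquiv.subgroupCongr (map_Omega L hL))

lemma omIso_val (L : (ι → F) ≃ₗ[F] (ι → F)) (hL : ∀ v, Q (L v) = Q' v) (s : ↥(Cfsg.Omega F Q')) :
    ((omIso L hL s : ↥(Cfsg.Omega F Q)) : OG F Q) = ogIso L hL (s : OG F Q') := rfl

lemma omIso_symm_val (L : (ι → F) ≃ₗ[F] (ι → F)) (hL : ∀ v, Q (L v) = Q' v) (s : ↥(Cfsg.Omega F Q)) :
    (((omIso L hL).symm s : ↥(Cfsg.Omega F Q')) : OG F Q') = (ogIso L hL).symm (s : OG F Q) := by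
  apply (ogIso L hL).injective
  rw [← omIso_val, MulEquiv.apply_symm_apply, MulEquiv.apply_symm_apply]

/-- the isomorphism of the projective groups -/
noncomputable def poIso (L : (ι → F) ≃ₗ[F] (ι → F)) (hL : ∀ v, Q (L v) = Q' v) : Cfsg.POmega F Q' ≃* Cfsg.POmega F Q :=
  QuotientGroup.congr _ _ (omIso L hL) (by
    ext x
    constructor
    · rintro ⟨y, hy, rfl⟩
      have hy' : y ∈ Subgroup.center _ := hy
      rw [Subgroup.mem_center_iff] at hy' ⊢
      intro z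
      obtain ⟨z, rfl⟩ := (omIso L hL).surjective z
      change omIso L hL z * omIso L hL y = omIso L hL y * omIso L hL z
      rw [← map_mul, ← map_mul, hy']
    · intro hx
      refine ⟨(omIso L hL).symm x, ?_, by simp⟩
      change (omIso L hL).symm x ∈ Subgroup.center _
      rw [Subgroup.mem_center_iff] at hx ⊢
      intro z
      apply (omIso L hL).injective
      rw [map_mul, map_mul, MulEquiv.apply_symm_apply, hx])

lemma poIso_mk (L : (ι → F) ≃ₗ[F] (ι → F)) (hL : ∀ v, Q (L v) = Q' v) (s : ↥(Cfsg.Omega F Q')) :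
    poIso L hL (QuotientGroup.mk s) = QuotientGroup.mk (omIso L hL s) := rfl

lemma poIso_symm_mk (L : (ι → F) ≃ₗ[F] (ι → F)) (hL : ∀ v, Q (L v) = Q' v) (s : ↥(Cfsg.Omega F Q)) :
    (poIso L hL).symm (QuotientGroup.mk s) = QuotientGroup.mk ((omIso L hL).symm s) := by
  rw [MulEquiv.symm_apply_eq, poIso_mk, MulEquiv.apply_symm_apply]

/-- the transported semilinear map -/
noncomputable def transS (L : (ι → F) ≃ₗ[F] (ι → F)) (hL : ∀ v, Q (L v) = Q' v) (T' : GS Q') : GS Q :=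
  ⟨(L.toEquiv.symm.trans (T' : Equiv.Perm (ι → F))).trans L.toEquiv, by
    obtain ⟨T', σ, κ, H⟩ := T'
    refine ⟨σ, κ, ?_⟩
    exact
      { hκ := H.hκ
        hadd := fun x y => by
          change L (T' (L.symm (x + y))) = L (T' (L.symm x)) + L (T' (L.symm y))
          rw [map_add, H.hadd, map_add]
        hsmul := fun c x => by
          change L (T' (L.symm (c • x))) = σ c • L (T' (L.symm x))
          rw [map_smul, H.hsmul, map_smul]
        hQ := fun x => by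
          change Q (L (T' (L.symm x))) = κ * σ (Q x)
          rw [hL, H.hQ, ← hL (L.symm x), LinearEquiv.apply_symm_apply] }⟩

lemma transS_apply (L : (ι → F) ≃ₗ[F] (ι → F)) (hL : ∀ v, Q (L v) = Q' v) (T' : GS Q') (x : ι → F) :
    (transS L hL T' : Equiv.Perm (ι → F)) x = L ((T' : Equiv.Perm (ι → F)) (L.symm x)) := rfl

lemma transS_inv_apply (L : (ι → F) ≃ₗ[F] (ι → F)) (hL : ∀ v, Q (L v) = Q' v) (T' : GS Q') (x : ι → F) :
    (transS L hL T' : Equiv.Perm (ι → F))⁻¹ x = L ((T' : Equiv.Perm (ι → F))⁻¹ (L.symm x)) := rfl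

/-- transport of the action on the projective group -/
theorem poIso_Th (h : QF Q B) (hnd : ND B (⊤ : Submodule F (ι → F))) (h' : QF Q' B') (hnd' : ND B' (⊤ : Submodule F (ι → F)))
    (L : (ι → F) ≃ₗ[F] (ι → F)) (hL : ∀ v, Q (L v) = Q' v) (T' : GS Q') (z : Cfsg.POmega F Q) :
    poIso L hL (Th h' hnd' T' ((poIso L hL).symm z)) = Th h hnd (transS L hL T') z := by
  obtain ⟨s, rfl⟩ := QuotientGroup.mk_surjective z
  rw [poIso_symm_mk]
  change QuotientGroup.mk (omIso L hL (resΩ Q' (conjA h' hnd' T') ((omIso L hL).symm s))) =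
    QuotientGroup.mk (resΩ Q (conjA h hnd (transS L hL T')) s)
  congr 1
  apply Subtype.ext
  apply og_ext
  intro x
  rw [omIso_val, act_ogIso, resΩ_val, resΩ_val, act_conjA, act_conjA, omIso_symm_val, act_ogIso_symm,
    transS_apply, transS_inv_apply]

lemma transS_semi (L : (ι → F) ≃ₗ[F] (ι → F)) (hL : ∀ v, Q (L v) = Q' v) {T' : GS Q'} {σ : F ≃+* F} {κ : F}
    (H : IsSemi Q' (T' : Equiv.Perm (ι → F)) σ κ) : IsSemi Q (transS L hL T' : Equiv.Perm (ι → F)) σ κ where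
  hκ := H.hκ
  hadd := fun x y => by
    change L ((T' : Equiv.Perm (ι → F)) (L.symm (x + y))) = L ((T' : Equiv.Perm (ι → F)) (L.symm x)) + L ((T' : Equiv.Perm (ι → F)) (L.symm y))
    rw [map_add, H.hadd, map_add]
  hsmul := fun c x => by
    change L ((T' : Equiv.Perm (ι → F)) (L.symm (c • x))) = σ c • L ((T' : Equiv.Perm (ι → F)) (L.symm x))
    rw [map_smul, H.hsmul, map_smul]
  hQ := fun x => by
    change Q (L ((T' : Equiv.Perm (ι → F)) (L.symm x))) = κ * σ (Q x)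
    rw [hL, H.hQ, ← hL (L.symm x), LinearEquiv.apply_symm_apply]

end Iso

section MinusMain
variable {m : ℕ}

open Cfsg.Agent.H11 (U0 U0_mts finrank_ts_le_minus)

/-- the standard elliptic coordinates of a minus form -/
lemma exists_ell {a b : F} (hab : ∀ z₁ z₂ : F, z₁ ^ 2 + a * z₁ * z₂ + b * z₂ ^ 2 = 0 → z₁ = 0 ∧ z₂ = 0) (m : ℕ) :
    ∃ (g : ((Fin m ⊕ Fin m) ⊕ Fin 2 → F) ≃ₗ[F] ((Fin m ⊕ Fin m) ⊕ Fin 2 → F)) (ζ : F), (∀ t : F, t ^ 2 + t + ζ ≠ 0) ∧
      ∀ v, Cfsg.quadFormMinus m F a b v = Cfsg.quadFormMinus m F 1 ζ (g v) := by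
  classical
  have hV : finrank F ((Fin m ⊕ Fin m) ⊕ Fin 2 → F) = 2 * (m + 1) := by
    rw [Module.finrank_fintype_fun_eq_card]
    simp only [Fintype.card_sum, Fintype.card_fin]
    ring
  rcases Cfsg.Agent.H11.exists_isometry_standard (by omega : 1 ≤ m + 1) hV (minusForm m F a b)
    (minus_nondeg3 m a b (disc_ne hab)) with ⟨g, hg⟩ | ⟨g, ζ, hζ, hg⟩
  · exfalso
    have h1 := finrank_ts_le_minus a b hab ((U0 (m + 1) F).map g.symm.toLinearMap) (by
      rintro _ ⟨z, hz, rfl⟩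
      rw [← minusForm_coe]
      have e := hg (g.symm z)
      rw [LinearEquiv.apply_symm_apply] at e
      exact e.trans ((U0_mts (F := F) (m + 1)).sing z hz))
    rw [LinearEquiv.finrank_map_eq, (U0_mts (F := F) (m + 1)).card] at h1
    omega
  · refine ⟨g, ζ, hζ, fun v => ?_⟩
    rw [← minusForm_coe]
    exact hg v

/-- minus forms are isometric -/
lemma exists_minus_iso {a b a' b' : F} (hab : ∀ z₁ z₂ : F, z₁ ^ 2 + a * z₁ * z₂ + b * z₂ ^ 2 = 0 → z₁ = 0 ∧ z₂ = 0)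
    (hab' : ∀ z₁ z₂ : F, z₁ ^ 2 + a' * z₁ * z₂ + b' * z₂ ^ 2 = 0 → z₁ = 0 ∧ z₂ = 0) (m : ℕ) :
    ∃ L : ((Fin m ⊕ Fin m) ⊕ Fin 2 → F) ≃ₗ[F] ((Fin m ⊕ Fin m) ⊕ Fin 2 → F),
      ∀ v, Cfsg.quadFormMinus m F a b (L v) = Cfsg.quadFormMinus m F a' b' v := by
  obtain ⟨g₁, ζ₁, hζ₁, e₁⟩ := exists_ell hab m
  obtain ⟨g₂, ζ₂, hζ₂, e₂⟩ := exists_ell hab' m
  obtain ⟨u, v, hv, h1, h2⟩ := binary_unique hζ₁ hζ₂
  refine ⟨(g₂.trans (psiE m u hv)).trans g₁.symm, fun w => ?_⟩
  rw [e₁, e₂, LinearEquiv.trans_apply, LinearEquiv.apply_symm_apply, LinearEquiv.trans_apply, psiE_form m hv h1 h2]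

/-- field automorphisms of the minus type have nontrivial field part -/
lemma minus_field_semi (hm : 3 ≤ m) {a b : F} (hab : ∀ z₁ z₂ : F, z₁ ^ 2 + a * z₁ * z₂ + b * z₂ ^ 2 = 0 → z₁ = 0 ∧ z₂ = 0)
    {t₀ : Fin m → _} (C : Cx (Cfsg.quadFormMinus m F a b) (polarMinus m F a b) t₀)
    {x : MulAut (Cfsg.POmega F (Cfsg.quadFormMinus m F a b))} (hx : Cfsg.IsFieldAutClassPOmegaMinus m x) :
    ∃ (T₁ : GS (Cfsg.quadFormMinus m F a b)) (σ₁ : F ≃+* F) (κ₁ : F),
      IsSemi (Cfsg.quadFormMinus m F a b) (T₁ : Equiv.Perm ((Fin m ⊕ Fin m) ⊕ Fin 2 → F)) σ₁ κ₁ ∧ σ₁ ≠ 1 ∧ x = Th C.h C.nd T₁ := by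
  classical
  obtain ⟨a', b', ψ, σ, hab', hσ, ha', hb', hφ⟩ := hx
  obtain ⟨m', rfl⟩ : ∃ m', m = m' + 1 + 1 := ⟨m - 2, by omega⟩
  have C' := mkCx (qfMinus (F := F) (m' + 1 + 1) a' b') (ndMinus _ a' b' hab') (frameMinus_HF a' b' _) (by omega) (frameMinus_anis a' b' hab' _)
  have hQσ : ∀ x, Cfsg.quadFormMinus (m' + 1 + 1) F a' b' (smap σ x) = σ (Cfsg.quadFormMinus (m' + 1 + 1) F a' b' x) := by
    intro x
    simp [Cfsg.quadFormMinus, smap, map_sum, map_mul, map_add, map_pow, ha', hb']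
  have e1 := fld_eq_Th C' σ hQσ hφ
  obtain ⟨L, hL⟩ := exists_minus_iso hab hab' (m' + 1 + 1)
  let α : MulAut (Cfsg.POmega F (Cfsg.quadFormMinus (m' + 1 + 1) F a b)) := ψ.trans (poIso L hL)
  have hα : α ∈ Cfsg.gammaPOmega F (Cfsg.quadFormMinus (m' + 1 + 1) F a b) := by
    rw [gamma_top_minus hm a b hab]
    trivial
  obtain ⟨A, hA⟩ := gamma_le_range C.h C.nd hα
  refine semi_of_conj C A hA.symm (transS L hL (sigT σ hQσ)) (transS_semi L hL (sigT_semi σ hQσ)) hσ ?_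
  ext1 z
  have e2 : (α * x * α⁻¹) z = poIso L hL (((ψ.symm.trans x).trans ψ) ((poIso L hL).symm z)) := rfl
  rw [e2, e1]
  exact poIso_Th C.h C.nd C'.h C'.nd L hL _ z

/-- hyperbolic fixed forms do not occur for the minus type -/
lemma not_hyp_minus {a b : F} (hab : ∀ z₁ z₂ : F, z₁ ^ 2 + a * z₁ * z₂ + b * z₂ ^ 2 = 0 → z₁ = 0 ∧ z₂ = 0)
    {T : Equiv.Perm ((Fin m ⊕ Fin m) ⊕ Fin 2 → F)} {σ : F ≃+* F} {κ : F}
    (H : IsSemi (Cfsg.quadFormMinus m F a b) T σ κ) (hit : ∀ x, T^[orderOf σ] x = x) : ¬ FrameHyp H (m + 1) := by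
  intro hf
  obtain ⟨E, h1, h2, -⟩ := hyp_stable H (qfMinus m a b) hit hf
  have := finrank_ts_le_minus a b hab E h2
  omega

/-- the frame of the minus type is elliptic -/
lemma frame_minus {a b : F} (hab : ∀ z₁ z₂ : F, z₁ ^ 2 + a * z₁ * z₂ + b * z₂ ^ 2 = 0 → z₁ = 0 ∧ z₂ = 0)
    {t₀ : Fin m → _} (C : Cx (Cfsg.quadFormMinus m F a b) (polarMinus m F a b) t₀)
    {T : Equiv.Perm ((Fin m ⊕ Fin m) ⊕ Fin 2 → F)} {σ : F ≃+* F} {κ : F}
    (H : IsSemi (Cfsg.quadFormMinus m F a b) T σ κ) (hit : ∀ x, T^[orderOf σ] x = x) : FrameEll H (m + 1) := by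
  rcases frame_dich C H hit (by omega : 1 ≤ m + 1) (by
    simp only [Fintype.card_sum, Fintype.card_fin]
    ring) with f | f
  · exact absurd f (not_hyp_minus hab H hit)
  · exact f

/-- the form over the quadratic extension -/
lemma ld_minus {a b : F} (hab : ∀ z₁ z₂ : F, z₁ ^ 2 + a * z₁ * z₂ + b * z₂ ^ 2 = 0 → z₁ = 0 ∧ z₂ = 0)
    [Fact (Irreducible (fP a b))] (n : ℕ) :
    ∃ r : KK a b, LD (qfMinus (F := F) n a b) (minusForm n (KK a b) (algebraMap F (KK a b) a) (algebraMap F (KK a b) b)) (n + 1) (WW n r) := by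
  let r : KK a b := - thK a b
  have hr : r ^ 2 + algebraMap F (KK a b) a * r + algebraMap F (KK a b) b = 0 := by
    have e := th_rel a b
    have e1 : algebraMap F (KK a b) a = ofK a b a := rfl
    have e2 : algebraMap F (KK a b) b = ofK a b b := rfl
    rw [e1, e2]
    simp only [r]
    linear_combination e
  have hΔ : 4 * algebraMap F (KK a b) b - algebraMap F (KK a b) a ^ 2 ≠ 0 := by
    have := (map_ne_zero (algebraMap F (KK a b))).2 (disc_ne hab)
    rwa [map_sub, map_pow, map_mul, map_ofNat] at this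
  refine ⟨r, ?_, minus_nondeg3 n _ _ hΔ, mts_WW _ _ _ hr, ?_⟩
  · simp only [Fintype.card_sum, Fintype.card_fin]
    ring
  · intro x
    rw [minusForm_coe]
    simp [Cfsg.quadFormMinus, embV, map_add, map_sum, map_mul, map_pow]

set_option maxHeartbeats 4000000 in
/-- **S2737** -/
theorem coset_minus (hm : 3 ≤ m) (a b : F) (hab : ∀ z₁ z₂ : F, z₁ ^ 2 + a * z₁ * z₂ + b * z₂ ^ 2 = 0 → z₁ = 0 ∧ z₂ = 0)
    (x δ : MulAut (Cfsg.POmega F (Cfsg.quadFormMinus m F a b))) (hx : Cfsg.IsFieldAutClassPOmegaMinus m x) {r : ℕ}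
    (hr : r.Prime) (hxr : orderOf x = r) (hδ : δ ∈ Cfsg.inndiagPOmegaMinus m F a b) :
    orderOf (δ * x) = r ↔ Cfsg.IsConjUnder (Cfsg.inndiagPOmegaMinus m F a b) x (δ * x) := by
  classical
  constructor
  · intro hord
    haveI : Fact r.Prime := ⟨hr⟩
    obtain ⟨m', rfl⟩ : ∃ m', m = m' + 1 + 1 := ⟨m - 2, by omega⟩
    have C := mkCx (qfMinus (F := F) (m' + 1 + 1) a b) (ndMinus _ a b hab) (frameMinus_HF a b _) (by omega) (frameMinus_anis a b hab _)
    obtain ⟨T₁, σ, κ, H₁, hσ, rfl⟩ := minus_field_semi hm hab C hx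
    -- `δ` is a similarity
    have hI : Cfsg.inndiagPOmegaMinus (m' + 1 + 1) F a b ≤ (GLS (Cfsg.quadFormMinus (m' + 1 + 1) F a b)).map (Th C.h C.nd) := by
      unfold Cfsg.inndiagPOmegaMinus Cfsg.autSubgroupOf
      rw [Subgroup.closure_le]
      rintro β ⟨g, ⟨c, hc⟩, -, hi⟩
      have H : SemiM (Cfsg.quadFormMinus (m' + 1 + 1) F a b) g (RingEquiv.refl F) c := ⟨c.ne_zero, fun v => hc v⟩
      refine ⟨⟨permOfM H, _, _, isSemi_of_M H⟩, ⟨(c : F), isSemi_of_M H⟩, ?_⟩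
      exact (Th_eq_of_induced C.h C.nd H hi (fun x => rfl)).symm
    obtain ⟨D, ⟨κD, HD⟩, rfl⟩ := hI hδ
    have h1r : Th C.h C.nd T₁ ^ r = 1 := by
      rw [← hxr]
      exact pow_orderOf_eq_one _
    have hσr : orderOf σ = r := by
      apply orderOf_eq_prime _ hσ
      rw [← map_pow] at h1r
      exact sigma_of_Th_eq_one C (semi_pow H₁ r) h1r
    have H₂ : IsSemi (Cfsg.quadFormMinus (m' + 1 + 1) F a b) ((D * T₁ : GS _) : Equiv.Perm _) σ _ :=
      semi_congr (HD.mul H₁) (one_mul σ) rfl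
    have h2r : Th C.h C.nd (D * T₁) ^ orderOf σ = 1 := by
      rw [hσr, map_mul, ← hord]
      exact pow_orderOf_eq_one _
    obtain ⟨T₁', κ₁', H₁', hTh₁, hit₁⟩ := exists_normalized C H₁ (by rw [hσr]; exact h1r)
    obtain ⟨T₂', κ₂', H₂', hTh₂, hit₂⟩ := exists_normalized C H₂ h2r
    obtain ⟨P, hP, hPi⟩ := conj_ell C.h H₁' H₂' hit₁ hit₂ (frame_minus hab C H₁' hit₁) (frame_minus hab C H₂' hit₂)
    obtain ⟨w, hw, hQw⟩ := exists_fixed_ne C.h C.nd H₁' hit₁ ⟨Sum.inr 0⟩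
    haveI : Fact (Irreducible (fP a b)) := ⟨fP_irr hab⟩
    obtain ⟨r₀, Y⟩ := ld_minus (F := F) hab (m' + 1 + 1)
    have hfin : finrank F (KK a b) = 2 := finrank_KK
    haveI : Module.Finite F (KK a b) := Module.finite_of_finrank_pos (by rw [hfin]; norm_num)
    haveI : Finite (KK a b) := Module.finite_of_finite F
    haveI : Fintype (KK a b) := Fintype.ofFinite _
    obtain ⟨P', hP', g, κ', H, hpres, hg⟩ := pres_or C Y hP hQw
    have hPi' : ∀ x : (Fin (m' + 1 + 1) ⊕ Fin (m' + 1 + 1)) ⊕ Fin 2 → F, P'.1 (T₁'.1 x) = T₂'.1 (P'.1 x) := by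
      rcases hP' with rfl | rfl
      · exact hPi
      · intro x
        change P.1 (act (R C.h w hQw) (T₁'.1 x)) = T₂'.1 (P.1 (act (R C.h w hQw) x))
        rw [R_comm C.h H₁' hw hQw]
        exact hPi _
    rw [minusForm_coe] at hpres
    have hmem : Th C.h C.nd P' ∈ Cfsg.inndiagPOmegaMinus (m' + 1 + 1) F a b := by
      apply Subgroup.subset_closure
      rw [Th_of_matrix C.h C.nd H hg]
      exact ⟨g, ⟨Units.mk0 κ' H.hκ, fun v => H.hQ v⟩, ⟨KK a b, inferInstance, inferInstance, hfin, hpres⟩, cP_induced H⟩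
    refine ⟨_, hmem, ?_⟩
    have e3 : P' * T₁' = T₂' * P' := by
      apply Subtype.ext
      apply Equiv.ext
      intro x
      exact hPi' x
    have e4 : T₂' = P' * T₁' * P'⁻¹ := by
      rw [e3, mul_inv_cancel_right]
    rw [← map_mul, ← hTh₂, e4, map_mul, map_mul, map_inv, hTh₁]
  · rintro ⟨h, -, e⟩
    rw [e, orderOf_conj', hxr]

end MinusMain

end Cfsg.Agent.Lead.LangOm
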