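import Cfsg.Agent.Lib.Lead.SLn
import Mathlib
/-! `SL_n(F)` is generated by three conjugate regular unipotent elements. -/
set_option autoImplicit false
set_option linter.style.haveILetI false
set_option linter.unusedSimpArgs false
set_option linter.unusedSectionVars false
set_option linter.unusedVariables false
set_option linter.deprecated false
set_option linter.unusedTactic false
set_option linter.unreachableTactic false
namespace Cfsg.Agent.Lead.RegGen
open Matrix Matrix.SpecialLinearGroup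

variable {F : Type*} [Field F] {n : ℕ}

local notation "SLn" => Matrix.SpecialLinearGroup (Fin n) F
local notation "Mat" => Matrix (Fin n) (Fin n) F

lemma det_M (a b : Fin n → F) : ((1 : Mat) + vecMulVec a b).det = 1 + b ⬝ᵥ a := by
  have e1 : vecMulVec a b = replicateCol Unit a * replicateRow Unit b := by
    ext i j
    simp [vecMulVec_apply, Matrix.mul_apply]
  rw [e1, det_one_add_replicateCol_mul_replicateRow]

/-- the transvection `x ↦ x + b(x) a` lies in the subgroup `H` -/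
def TT (H : Subgroup SLn) (a b : Fin n → F) : Prop :=
  ∃ g ∈ H, (g : Mat) = 1 + vecMulVec a b

variable {H : Subgroup (Matrix.SpecialLinearGroup (Fin n) F)}

lemma TT.orth {a b : Fin n → F} (h : TT H a b) : b ⬝ᵥ a = 0 := by
  obtain ⟨g, -, hg⟩ := h
  have e := g.2
  rw [hg, det_M] at e
  exact add_eq_left.1 e

lemma M_mul (a b c d : Fin n → F) :
    ((1 : Mat) + vecMulVec a b) * (1 + vecMulVec c d) = 1 + vecMulVec a b + vecMulVec c d + (b ⬝ᵥ c) • vecMulVec a d := by
  rw [mul_add, add_mul, add_mul, one_mul, one_mul, mul_one, vecMulVec_mul_vecMulVec]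
  have : vecMulVec a ((b ⬝ᵥ c) • d) = (b ⬝ᵥ c) • vecMulVec a d := by
    ext i j
    simp [vecMulVec_apply]
    ring
  rw [this]
  abel

lemma vmv_add_right (a b c : Fin n → F) : vecMulVec a (b + c) = vecMulVec a b + vecMulVec a c := by
  ext i j
  simp [vecMulVec_apply, mul_add]

lemma vmv_add_left (a b c : Fin n → F) : vecMulVec (a + b) c = vecMulVec a c + vecMulVec b c := by
  ext i j
  simp [vecMulVec_apply, add_mul]

lemma vmv_smul_swap (k : F) (a b : Fin n → F) : vecMulVec (k • a) b = vecMulVec a (k • b) := by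
  ext i j
  simp [vecMulVec_apply]
  ring

lemma cmul (x y : SLn) : ((x * y : SLn) : Mat) = (x : Mat) * (y : Mat) := rfl

lemma TT.add_right {a b b' : Fin n → F} (h : TT H a b) (h' : TT H a b') : TT H a (b + b') := by
  obtain ⟨g, hg, eg⟩ := h
  obtain ⟨g', hg', eg'⟩ := h'
  have ho : b ⬝ᵥ a = 0 := TT.orth ⟨g, hg, eg⟩
  refine ⟨g * g', H.mul_mem hg hg', ?_⟩
  rw [cmul, eg, eg', M_mul, ho, zero_smul, add_zero, vmv_add_right, add_assoc]

lemma TT.add_left {a a' b : Fin n → F} (h : TT H a b) (h' : TT H a' b) : TT H (a + a') b := by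
  obtain ⟨g, hg, eg⟩ := h
  obtain ⟨g', hg', eg'⟩ := h'
  have ho : b ⬝ᵥ a' = 0 := TT.orth ⟨g', hg', eg'⟩
  refine ⟨g * g', H.mul_mem hg hg', ?_⟩
  rw [cmul, eg, eg', M_mul, ho, zero_smul, add_zero, vmv_add_left, add_assoc]

lemma TT.zero_right (a : Fin n → F) : TT H a 0 := by
  refine ⟨1, H.one_mem, ?_⟩
  ext i j
  simp [vecMulVec_apply]

lemma TT.zero_left (b : Fin n → F) : TT H 0 b := by
  refine ⟨1, H.one_mem, ?_⟩
  ext i j
  simp [vecMulVec_apply]

lemma sl_mul_inv (x : SLn) : (x : Mat) * ((x⁻¹ : SLn) : Mat) = 1 := by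
  exact congrArg (fun y : SLn => (y : Mat)) (mul_inv_cancel x)

lemma sl_inv_mul (x : SLn) : ((x⁻¹ : SLn) : Mat) * (x : Mat) = 1 := by
  exact congrArg (fun y : SLn => (y : Mat)) (inv_mul_cancel x)

lemma TT.inv {a b : Fin n → F} {g : SLn} (hb : b ⬝ᵥ a = 0) (eg : (g : Mat) = 1 + vecMulVec a b) : ((g⁻¹ : SLn) : Mat) = 1 + vecMulVec a (-b) := by
  have e1 : ((1 : Mat) + vecMulVec a (-b)) * (g : Mat) = 1 := by
    rw [eg, M_mul, dotProduct_comm]
    have : (-b) ⬝ᵥ a = 0 := by rw [neg_dotProduct, hb, neg_zero]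
    have e2 : a ⬝ᵥ (-b) = 0 := by rw [dotProduct_comm, this]
    rw [e2, zero_smul, add_zero]
    have e3 : vecMulVec a (-b) = - vecMulVec a b := by
      ext i j
      simp [vecMulVec_apply]
    rw [e3]
    abel
  calc ((g⁻¹ : SLn) : Mat) = ((1 + vecMulVec a (-b)) * (g : Mat)) * ((g⁻¹ : SLn) : Mat) := by rw [e1, one_mul]
    _ = _ := by rw [Matrix.mul_assoc, sl_mul_inv, Matrix.mul_one]

lemma TT.neg_right {a b : Fin n → F} (h : TT H a b) : TT H a (-b) := by
  have ho := h.orth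
  obtain ⟨g, hg, eg⟩ := h
  exact ⟨g⁻¹, H.inv_mem hg, TT.inv ho eg⟩

lemma TT.smul_left_iff {k : F} {a b : Fin n → F} : TT H (k • a) b ↔ TT H a (k • b) := by
  unfold TT
  rw [vmv_smul_swap]

lemma TT.conj {a b : Fin n → F} {x : SLn} (hx : x ∈ H) (h : TT H a b) : TT H ((x : Mat) *ᵥ a) (b ᵥ* ((x⁻¹ : SLn) : Mat)) := by
  obtain ⟨g, hg, eg⟩ := h
  refine ⟨x * g * x⁻¹, H.mul_mem (H.mul_mem hx hg) (H.inv_mem hx), ?_⟩
  rw [cmul, cmul, eg, Matrix.mul_add, Matrix.mul_one, Matrix.add_mul, sl_mul_inv, mul_vecMulVec, vecMulVec_mul]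

/-- the commutator rule -/
lemma TT.comm {a b a' b' : Fin n → F} (h : TT H a b) (h' : TT H a' b') (hz : b' ⬝ᵥ a = 0) : TT H ((b ⬝ᵥ a') • a) b' := by
  have ho := h.orth
  obtain ⟨g, hg, eg⟩ := id h
  have e1 := TT.conj hg h'
  have e2 : (a' : Fin n → F) + (b ⬝ᵥ a') • a = (g : Mat) *ᵥ a' := by
    rw [eg, Matrix.add_mulVec, Matrix.one_mulVec, vecMulVec_mulVec]
    funext k
    simp [mul_comm]
  have e3 : b' ᵥ* ((g⁻¹ : SLn) : Mat) = b' := by
    rw [TT.inv ho eg, Matrix.vecMul_add, Matrix.vecMul_one, vecMul_vecMulVec, hz, zero_smul, add_zero]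
  rw [← e2, e3] at e1
  have e4 := TT.add_left e1 (show TT H (-a') b' from ?_)
  · have e5 : a' + (b ⬝ᵥ a') • a + -a' = (b ⬝ᵥ a') • a := by abel
    rwa [e5] at e4
  · have : TT H ((-1 : F) • a') b' := TT.smul_left_iff.2 (by
      rw [neg_one_smul]
      exact h'.neg_right)
    rwa [neg_one_smul] at this


/-- the span argument: the centers of full transvection groups form an invariant subspace -/
def WW (H : Subgroup SLn) (a : Fin n → F) : Prop := ∀ b, b ⬝ᵥ a = 0 → TT H a b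

lemma WW.smul {a : Fin n → F} (h : WW H a) (k : F) : WW H (k • a) := by
  intro b hb
  by_cases hk : k = 0
  · subst hk
    rw [zero_smul]
    exact TT.zero_left b
  · rw [TT.smul_left_iff]
    apply h
    rw [dotProduct_smul, smul_eq_mul] at hb
    rw [smul_dotProduct, smul_eq_mul]
    exact hb

lemma WW.conj {a : Fin n → F} {x : SLn} (hx : x ∈ H) (h : WW H a) : WW H ((x : Mat) *ᵥ a) := by
  intro b hb
  have e0 : (b ᵥ* (x : Mat)) ⬝ᵥ a = 0 := by
    rw [← Matrix.dotProduct_mulVec]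
    exact hb
  have e1 := TT.conj hx (h _ e0)
  rwa [Matrix.vecMul_vecMul, sl_mul_inv, Matrix.vecMul_one] at e1

lemma exists_dual {a a' : Fin n → F} (h : a ∉ Submodule.span F {a'}) : ∃ d : Fin n → F, d ⬝ᵥ a' = 0 ∧ d ⬝ᵥ a = 1 := by
  classical
  obtain ⟨f, hf, hf'⟩ := Submodule.exists_dual_map_eq_bot_of_notMem h inferInstance
  have hd : ∀ x : Fin n → F, f x = (fun i => f (Pi.single i 1)) ⬝ᵥ x := by
    intro x
    simp only [dotProduct]
    conv_lhs => rw [pi_eq_sum_univ' x]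
    rw [map_sum]
    refine Finset.sum_congr rfl fun i _ => ?_
    rw [map_smul, smul_eq_mul, mul_comm]
  have e1 : f a' = 0 := by
    have : f a' ∈ (Submodule.span F {a'}).map f := ⟨a', Submodule.mem_span_singleton_self a', rfl⟩
    rw [hf'] at this
    exact (Submodule.mem_bot F).1 this
  refine ⟨(f a)⁻¹ • (fun i => f (Pi.single i 1)), ?_, ?_⟩
  · rw [smul_dotProduct, ← hd, e1, smul_zero]
  · rw [smul_dotProduct, ← hd, smul_eq_mul, inv_mul_cancel₀ hf]

lemma WW.add {a a' : Fin n → F} (h : WW H a) (h' : WW H a') : WW H (a + a') := by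
  by_cases hmem : a ∈ Submodule.span F {a'}
  · obtain ⟨t, rfl⟩ := Submodule.mem_span_singleton.1 hmem
    have e : t • a' + a' = (t + 1) • a' := by rw [add_smul, one_smul]
    rw [e]
    exact h'.smul _
  · obtain ⟨d, hd1, hd2⟩ := exists_dual hmem
    have hx := h' d hd1
    obtain ⟨x, hxH, ex⟩ := id hx
    have e1 : (x : Mat) *ᵥ a = a + a' := by
      rw [ex, Matrix.add_mulVec, Matrix.one_mulVec, vecMulVec_mulVec, hd2]
      simp
    rw [← e1]
    exact h.conj hxH

lemma WW.sub_of_conj {a : Fin n → F} {x : SLn} (hx : x ∈ H) (h : WW H a) : WW H (((x : Mat) - 1) *ᵥ a) := by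
  have e := (h.conj hx).add (h.smul (-1))
  have e1 : ((x : Mat) - 1) *ᵥ a = (x : Mat) *ᵥ a + (-1 : F) • a := by
    rw [Matrix.sub_mulVec, Matrix.one_mulVec, neg_one_smul, sub_eq_add_neg]
  rwa [e1]

/-- once all basis vectors are centers the subgroup is everything -/
lemma top_of_WW [Nontrivial (Fin n)] (h : ∀ i, WW H (Pi.single i (1 : F))) : H = ⊤ := by
  classical
  rw [eq_top_iff]
  intro A _
  refine Cfsg.Agent.Lead.transvection_induction' (fun A => A ∈ H) ?_ (fun A B hA hB => H.mul_mem hA hB) A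
  intro i j hij c
  have e0 : (c • (Pi.single j 1 : Fin n → F)) ⬝ᵥ (Pi.single i 1 : Fin n → F) = 0 := by
    rw [smul_dotProduct, dotProduct_single]
    simp [Pi.single_apply, hij]
  obtain ⟨g, hg, eg⟩ := h i _ e0
  have e1 : g = SpecialLinearGroup.transvection hij c := by
    apply Subtype.ext
    rw [eg]
    change _ = 1 + Matrix.single i j c
    congr 1
    ext k l
    rw [vecMulVec_apply, Matrix.single_apply, Pi.smul_apply, smul_eq_mul, Pi.single_apply, Pi.single_apply]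
    by_cases h1 : i = k <;> by_cases h2 : j = l <;> simp [h1, h2, eq_comm]
  rwa [← e1]


section Concrete

lemma sum_single (K : ℕ) (hK : K < n) (f : Fin n → F) : ∑ k : Fin n, (if (k : ℕ) = K then f k else 0) = f ⟨K, hK⟩ := by
  rw [Finset.sum_eq_single ⟨K, hK⟩]
  · simp
  · intro b _ hb
    rw [if_neg]
    intro e
    exact hb (Fin.ext e)
  · simp

/-- the superdiagonal -/
def N0 (n : ℕ) (F : Type*) [Field F] : Matrix (Fin n) (Fin n) F := Matrix.of fun i j => if (i : ℕ) + 1 = j then 1 else 0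

/-- the twisted subdiagonal -/
def L0 (δ : F) : Mat := Matrix.of fun i j => if (j : ℕ) + 1 = i then (if (j : ℕ) = 0 then δ else 1) else 0

/-- the reversal -/
def P0 (n : ℕ) (F : Type*) [Field F] : Matrix (Fin n) (Fin n) F := Matrix.of fun i j => if (i : ℕ) + j + 1 = n then 1 else 0

/-- the twisted reversal -/
def G0 (δ : F) : Mat := Matrix.of fun i j => if (i : ℕ) + j + 1 = n then (if (i : ℕ) = 0 then δ else 1) else 0

lemma N0_pow (k : ℕ) (i j : Fin n) : ((N0 n F) ^ k) i j = if (i : ℕ) + k = j then 1 else 0 := by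
  induction k generalizing j with
  | zero =>
    simp only [pow_zero, Matrix.one_apply, add_zero]
    by_cases h : i = j
    · simp [h]
    · rw [if_neg h, if_neg (fun e => h (Fin.ext e))]
  | succ k ih =>
    rw [pow_succ, Matrix.mul_apply]
    by_cases h : (i : ℕ) + k + 1 = j
    · have hK : (i : ℕ) + k < n := by omega
      have e : ∀ l : Fin n, ((N0 n F) ^ k) i l * (N0 n F) l j = if (l : ℕ) = (i : ℕ) + k then (1 : F) else 0 := by
        intro l
        rw [ih]
        simp only [N0, Matrix.of_apply]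
        split_ifs <;> first | omega | simp
      simp only [e]
      rw [sum_single _ hK, if_pos (by omega)]
    · rw [if_neg (by omega)]
      apply Finset.sum_eq_zero
      intro l _
      rw [ih]
      simp only [N0, Matrix.of_apply]
      split_ifs <;> first | omega | simp

lemma P0_sq : (P0 n F) * (P0 n F) = 1 := by
  ext i j
  rw [Matrix.mul_apply, Matrix.one_apply]
  have hi := i.2
  have e : ∀ l : Fin n, (P0 n F) i l * (P0 n F) l j = if (l : ℕ) = n - 1 - i then (if i = j then (1 : F) else 0) else 0 := by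
    intro l
    have hl := l.2
    have hj := j.2
    simp only [P0, Matrix.of_apply]
    by_cases h : i = j
    · subst h
      rw [if_pos rfl]
      split_ifs <;> first | omega | simp
    · rw [if_neg h]
      have h' : (i : ℕ) ≠ j := fun e => h (Fin.ext e)
      split_ifs <;> first | omega | simp
  simp only [e]
  rw [sum_single _ (by omega)]

lemma G0_eq (δ : F) : G0 δ = Matrix.diagonal (fun i : Fin n => if (i : ℕ) = 0 then δ else 1) * P0 n F := by
  ext i j
  rw [Matrix.diagonal_mul]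
  simp only [G0, P0, Matrix.of_apply]
  split_ifs <;> simp

lemma prod_if (hn : 0 < n) (δ : F) : ∏ i : Fin n, (if (i : ℕ) = 0 then δ else 1) = δ := by
  rw [Finset.prod_eq_single (⟨0, hn⟩ : Fin n)]
  · simp
  · intro b _ hb
    rw [if_neg]
    intro e
    exact hb (Fin.ext e)
  · simp

lemma det_P0_sq : (P0 n F).det * (P0 n F).det = 1 := by
  rw [← Matrix.det_mul, P0_sq, Matrix.det_one]

lemma det_G0 (hn : 0 < n) : (G0 ((P0 n F).det) : Mat).det = 1 := by
  rw [G0_eq, Matrix.det_mul, Matrix.det_diagonal, prod_if hn, det_P0_sq]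

lemma G0_N0 {δ : F} (hδ : δ * δ = 1) : G0 δ * (1 + N0 n F) = (1 + L0 δ) * G0 δ := by
  rw [Matrix.mul_add, Matrix.add_mul, Matrix.mul_one, Matrix.one_mul]
  congr 1
  ext i j
  rw [Matrix.mul_apply, Matrix.mul_apply]
  have hi := i.2
  have hj := j.2
  by_cases h : (i : ℕ) + j = n
  · have h0 : (i : ℕ) ≠ 0 := by omega
    have e1 : ∀ l : Fin n, G0 δ i l * N0 n F l j = if (l : ℕ) = (j : ℕ) - 1 then (1 : F) else 0 := by
      intro l
      have hl := l.2
      simp only [G0, N0, Matrix.of_apply]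
      rw [if_neg h0]
      split_ifs <;> first | omega | simp
    have e2 : ∀ l : Fin n, L0 δ i l * G0 δ l j = if (l : ℕ) = (i : ℕ) - 1 then (1 : F) else 0 := by
      intro l
      have hl := l.2
      simp only [L0, G0, Matrix.of_apply]
      by_cases hl0 : (l : ℕ) = 0
      · rw [if_pos hl0]
        split_ifs <;> first | omega | simp [hδ]
      · rw [if_neg hl0]
        split_ifs <;> first | omega | simp
    simp only [e1, e2]
    rw [sum_single _ (by omega), sum_single _ (by omega)]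
  · rw [Finset.sum_eq_zero, Finset.sum_eq_zero]
    · intro l _
      have hl := l.2
      simp only [L0, G0, Matrix.of_apply]
      split_ifs <;> first | omega | simp
    · intro l _
      have hl := l.2
      simp only [G0, N0, Matrix.of_apply]
      split_ifs <;> first | omega | simp

lemma det_A : ((1 : Mat) + N0 n F).det = 1 := by
  rw [Matrix.det_of_upperTriangular]
  · apply Finset.prod_eq_one
    intro i _
    simp [N0]
  · intro i j hij
    have hij' : (j : ℕ) < i := hij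
    simp only [Matrix.add_apply, Matrix.one_apply, N0, Matrix.of_apply]
    have h1 : i ≠ j := fun e => by
      rw [e] at hij'
      omega
    rw [if_neg h1, if_neg (by omega), add_zero]

lemma det_B (δ : F) : ((1 : Mat) + L0 δ).det = 1 := by
  rw [Matrix.det_of_lowerTriangular]
  · apply Finset.prod_eq_one
    intro i _
    simp [L0]
  · intro i j hij
    have hij' : (i : ℕ) < j := hij
    simp only [Matrix.add_apply, Matrix.one_apply, L0, Matrix.of_apply]
    have h1 : i ≠ j := fun e => by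
      rw [e] at hij'
      omega
    rw [if_neg h1, if_neg (by omega), add_zero]

/-- the rows of `A` -/
lemma row_A (i : ℕ) (h : i + 1 < n) : (Pi.single ⟨i, by omega⟩ (1 : F) : Fin n → F) ᵥ* ((1 : Mat) + N0 n F) = Pi.single ⟨i, by omega⟩ 1 + Pi.single ⟨i + 1, h⟩ 1 := by
  rw [single_one_vecMul]
  funext j
  change ((1 : Mat) + N0 n F) ⟨i, by omega⟩ j = _
  simp only [Matrix.add_apply, Matrix.one_apply, N0, Matrix.of_apply, Pi.add_apply, Pi.single_apply, Fin.ext_iff]
  split_ifs <;> first | omega | simp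

lemma row_A_last (i : ℕ) (hi : i < n) (h : i + 1 = n) : (Pi.single ⟨i, hi⟩ (1 : F) : Fin n → F) ᵥ* ((1 : Mat) + N0 n F) = Pi.single ⟨i, hi⟩ 1 := by
  rw [single_one_vecMul]
  funext j
  have hj := j.2
  change ((1 : Mat) + N0 n F) ⟨i, hi⟩ j = _
  simp only [Matrix.add_apply, Matrix.one_apply, N0, Matrix.of_apply, Pi.single_apply, Fin.ext_iff]
  split_ifs <;> first | omega | simp

lemma col_A (hn : 0 < n) : ((1 : Mat) + N0 n F) *ᵥ Pi.single ⟨0, hn⟩ 1 = Pi.single ⟨0, hn⟩ 1 := by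
  rw [mulVec_single_one]
  funext j
  change ((1 : Mat) + N0 n F) j ⟨0, hn⟩ = _
  simp only [Matrix.add_apply, Matrix.one_apply, N0, Matrix.of_apply, Pi.single_apply, Fin.ext_iff]
  split_ifs <;> first | omega | contradiction | simp

/-- the rows of `B` -/
lemma row_B (δ : F) (j : ℕ) (h : j + 1 < n) (hj : j ≠ 0) : (Pi.single ⟨j + 1, h⟩ (1 : F) : Fin n → F) ᵥ* ((1 : Mat) + L0 δ) = Pi.single ⟨j + 1, h⟩ 1 + Pi.single ⟨j, by omega⟩ 1 := by
  rw [single_one_vecMul]
  funext l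
  change ((1 : Mat) + (L0 δ : Mat)) ⟨j + 1, h⟩ l = _
  simp only [Matrix.add_apply, Matrix.one_apply, L0, Matrix.of_apply, Pi.add_apply, Pi.single_apply, Fin.ext_iff]
  split_ifs <;> first | omega | simp

/-- the columns of `B` -/
lemma col_B (δ : F) (j : ℕ) (h : j + 1 < n) : (L0 δ : Mat) *ᵥ Pi.single ⟨j, by omega⟩ 1 = (if j = 0 then δ else 1) • (Pi.single ⟨j + 1, h⟩ (1 : F) : Fin n → F) := by
  rw [mulVec_single_one]
  funext i
  change (L0 δ : Mat) i ⟨j, by omega⟩ = _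
  simp only [L0, Matrix.of_apply, Pi.smul_apply, Pi.single_apply, Fin.ext_iff, smul_eq_mul]
  split_ifs <;> first | omega | simp

/-- the solution of `B a = e₀` -/
noncomputable def aV (δ : F) (n : ℕ) : Fin n → F := fun i => if (i : ℕ) = 0 then 1 else (-1) ^ (i : ℕ) * δ

lemma B_aV (hn : 0 < n) (δ : F) : ((1 : Mat) + L0 δ) *ᵥ aV δ n = Pi.single ⟨0, hn⟩ 1 := by
  funext i
  rw [Matrix.add_mulVec, Matrix.one_mulVec, Pi.add_apply]
  by_cases hi : (i : ℕ) = 0
  · have e0 : ((L0 δ : Mat) *ᵥ aV δ n) i = 0 := by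
      change ∑ l, (L0 δ : Mat) i l * aV δ n l = 0
      apply Finset.sum_eq_zero
      intro l _
      simp only [L0, Matrix.of_apply]
      rw [if_neg (by omega), zero_mul]
    rw [e0, add_zero, Pi.single_apply, if_pos (Fin.ext hi)]
    simp [aV, hi]
  · obtain ⟨k, hk⟩ : ∃ k, (i : ℕ) = k + 1 := ⟨(i : ℕ) - 1, by omega⟩
    have hk' : k < n := by
      have := i.2
      omega
    have e0 : ((L0 δ : Mat) *ᵥ aV δ n) i = (if k = 0 then δ else 1) * aV δ n ⟨k, hk'⟩ := by
      have e1 : ∀ l : Fin n, (L0 δ : Mat) i l * aV δ n l = if (l : ℕ) = k then (if (l : ℕ) = 0 then δ else 1) * aV δ n l else 0 := by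
        intro l
        simp only [L0, Matrix.of_apply, hk]
        by_cases h : (l : ℕ) = k
        · rw [if_pos (by omega), if_pos h]
        · rw [if_neg (by omega), if_neg h, zero_mul]
      change ∑ l, (L0 δ : Mat) i l * aV δ n l = _
      simp only [e1]
      rw [sum_single _ hk']
    have hne : i ≠ ⟨0, hn⟩ := fun e => hi (by rw [e])
    rw [e0, Pi.single_apply, if_neg hne]
    simp only [aV, hi, hk]
    by_cases hk0 : k = 0
    · subst hk0
      simp
    · simp only [hk0, if_false, Nat.add_eq_zero_iff, one_ne_zero, and_false, pow_succ]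
      ring


/-- regularity -/
lemma reg_of_inv (hn : 0 < n) (U : Mat) (h1 : ((1 : Mat) + N0 n F) * U = 1) (h2 : U * ((1 : Mat) + N0 n F) = 1) :
    IsNilpotent (U - 1) ∧ (U - 1) ^ (n - 1) ≠ 0 := by
  have e1 : U - 1 = (-(N0 n F)) * U := by
    rw [Matrix.add_mul, Matrix.one_mul] at h1
    rw [Matrix.neg_mul, ← h1]
    abel
  have hc : Commute (-(N0 n F)) U := by
    have e2 : (N0 n F) * U = U * (N0 n F) := by
      have e3 : ((1 : Mat) + N0 n F) * U = U * ((1 : Mat) + N0 n F) := by rw [h1, h2]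
      rw [Matrix.add_mul, Matrix.mul_add, Matrix.one_mul, Matrix.mul_one] at e3
      exact add_left_cancel e3
    change (-(N0 n F)) * U = U * (-(N0 n F))
    rw [Matrix.neg_mul, Matrix.mul_neg, e2]
  have hpow : ∀ k, (U - 1) ^ k = (-(N0 n F)) ^ k * U ^ k := by
    intro k
    rw [e1, hc.mul_pow]
  constructor
  · refine ⟨n, ?_⟩
    rw [hpow, neg_pow]
    have : (N0 n F) ^ n = 0 := by
      ext i j
      rw [N0_pow, Matrix.zero_apply, if_neg]
      have := j.2
      omega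
    rw [this, mul_zero, zero_mul]
  · intro e0
    rw [hpow] at e0
    have e3 : (-(N0 n F)) ^ (n - 1) = 0 := by
      have e4 : U ^ (n - 1) * ((1 : Mat) + N0 n F) ^ (n - 1) = 1 := by
        have hc2 : Commute U ((1 : Mat) + N0 n F) := by
          change U * _ = _ * U
          rw [h1, h2]
        rw [← hc2.mul_pow, h2, one_pow]
      calc (-(N0 n F)) ^ (n - 1) = (-(N0 n F)) ^ (n - 1) * (U ^ (n - 1) * ((1 : Mat) + N0 n F) ^ (n - 1)) := by rw [e4, Matrix.mul_one]
        _ = 0 := by rw [← Matrix.mul_assoc, e0, Matrix.zero_mul]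
    rw [neg_pow] at e3
    have e5 := congrFun (congrFun e3 ⟨0, hn⟩) ⟨n - 1, by omega⟩
    rw [Matrix.mul_apply] at e5
    have hu : IsUnit ((-1 : F) ^ (n - 1)) := IsUnit.pow _ (isUnit_one.neg)
    have e6 : (((-1 : Mat) ^ (n - 1)) * (N0 n F) ^ (n - 1)) = ((-1 : F) ^ (n - 1)) • (N0 n F) ^ (n - 1) := by
      have : ((-1 : Mat) ^ (n - 1)) = ((-1 : F) ^ (n - 1)) • (1 : Mat) := by
        rcases Nat.even_or_odd (n - 1) with h | h
        · rw [h.neg_one_pow, h.neg_one_pow, one_smul]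
        · rw [h.neg_one_pow, h.neg_one_pow, neg_smul, one_smul]
      rw [this, Matrix.smul_mul, Matrix.one_mul]
    have e7 := congrFun (congrFun (e6.symm.trans e3) ⟨0, hn⟩) ⟨n - 1, by omega⟩
    rw [Matrix.smul_apply, N0_pow, if_pos (by simp), smul_eq_mul, mul_one] at e7
    exact hu.ne_zero e7

section Main
variable {m : ℕ}
local notation "S2" => Matrix.SpecialLinearGroup (Fin (m + 2)) F
local notation "M2" => Matrix (Fin (m + 2)) (Fin (m + 2)) F

/-- the basis vectors -/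
noncomputable def ee (m : ℕ) (F : Type*) [Field F] (i : ℕ) (h : i < m + 2) : Fin (m + 2) → F := Pi.single ⟨i, h⟩ 1

theorem main_closure [Fintype F] (hm : 1 ≤ m) {H : Subgroup S2} (A B : S2) {δ : F} (hδ0 : δ ≠ 0) (hA : (A : M2) = 1 + N0 (m + 2) F) (hB : (B : M2) = 1 + L0 δ)
    (hAH : A ∈ H) (hBH : B ∈ H) {κ : F} (hκ : κ = aV δ (m + 2) ⟨m + 1, by omega⟩) (hκ0 : κ ≠ 0) (s₀ : Fˣ) (hs₀ : ∀ x : Fˣ, x ∈ Subgroup.zpowers s₀)
    (hτ : TT H (ee m F 0 (by omega)) ((κ⁻¹ * s₀) • ee m F (m + 1) (by omega))) : H = ⊤ := by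
  classical
  obtain ⟨e₀, he₀⟩ : ∃ e₀ : Fin (m + 2) → F, e₀ = ee m F 0 (by omega) := ⟨_, rfl⟩
  obtain ⟨eℓ, heℓ⟩ : ∃ eℓ : Fin (m + 2) → F, eℓ = ee m F (m + 1) (by omega) := ⟨_, rfl⟩
  rw [← he₀, ← heℓ] at hτ
  have hAe : (A : M2) *ᵥ e₀ = e₀ := by
    rw [hA, he₀]
    exact col_A (by omega)
  have hAie : ((A⁻¹ : S2) : M2) *ᵥ e₀ = e₀ := by
    conv_lhs => rw [← hAe]
    rw [Matrix.mulVec_mulVec, sl_inv_mul, Matrix.one_mulVec]
  have hBa : ((B⁻¹ : S2) : M2) *ᵥ e₀ = aV δ (m + 2) := by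
    have e1 : (B : M2) *ᵥ aV δ (m + 2) = e₀ := by
      rw [hB, he₀]
      exact B_aV (by omega) δ
    rw [← e1, Matrix.mulVec_mulVec, sl_inv_mul, Matrix.one_mulVec]
  -- the shift
  have hshift : ∀ c, TT H e₀ c → TT H e₀ (c ᵥ* ((1 : M2) + N0 (m + 2) F)) := by
    intro c hc
    have e1 := TT.conj (H.inv_mem hAH) hc
    rwa [hAie, inv_inv, hA] at e1
  -- the key commutator
  have hκa : ∀ l₁ : F, (l₁ • eℓ) ⬝ᵥ aV δ (m + 2) = l₁ * κ := by
    intro l₁
    rw [smul_dotProduct, heℓ, ee, single_one_dotProduct, ← hκ, smul_eq_mul]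
  have key : ∀ (j : ℕ) (hj : j ≠ 0) (h : j + 1 < m + 2) (l₁ l₂ : F), TT H e₀ (l₁ • eℓ) → TT H e₀ (l₂ • ee m F (j + 1) h) →
      TT H e₀ ((l₁ * κ * l₂) • (ee m F (j + 1) h + ee m F j (by omega))) := by
    intro j hj h l₁ l₂ h₁ h₂
    have e1 := TT.conj (H.inv_mem hBH) h₂
    rw [hBa, inv_inv, hB, Matrix.smul_vecMul, ee, row_B δ j h hj] at e1
    have hz : (l₂ • ((Pi.single ⟨j + 1, h⟩ 1 : Fin (m + 2) → F) + Pi.single ⟨j, by omega⟩ 1)) ⬝ᵥ e₀ = 0 := by
      rw [he₀, ee, smul_dotProduct, add_dotProduct, single_one_dotProduct, single_one_dotProduct]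
      simp [Pi.single_apply, hj, Fin.ext_iff]
    have e2 := TT.comm h₁ e1 hz
    rw [hκa, TT.smul_left_iff, smul_smul] at e2
    exact e2
  -- closure of the coefficients of `eℓ`
  have hstep : ∀ l₁ l₂ : F, TT H e₀ (l₁ • eℓ) → TT H e₀ (l₂ • eℓ) → TT H e₀ ((l₁ * κ * l₂) • eℓ) := by
    intro l₁ l₂ h₁ h₂
    have e1 := key m (by omega) (by omega) l₁ l₂ h₁ (by rw [← heℓ]; exact h₂)
    have e2 := hshift _ e1
    have e3 := TT.add_right e2 e1.neg_right
    have e4 : ((l₁ * κ * l₂) • (ee m F (m + 1) (by omega) + ee m F m (by omega))) ᵥ* ((1 : M2) + N0 (m + 2) F) +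
        -((l₁ * κ * l₂) • (ee m F (m + 1) (by omega) + ee m F m (by omega))) = (l₁ * κ * l₂) • eℓ := by
      rw [Matrix.smul_vecMul, Matrix.add_vecMul, ee, ee, row_A m (by omega), row_A_last (m + 1) (by omega) (by omega), heℓ, ee]
      funext k
      simp only [Pi.add_apply, Pi.neg_apply, Pi.smul_apply, smul_eq_mul]
      ring
    rwa [e4] at e3
  have hpow : ∀ k : ℕ, TT H e₀ ((κ⁻¹ * ((s₀ : F) ^ (k + 1))) • eℓ) := by
    intro k
    induction k with
    | zero =>
      rw [zero_add, pow_one]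
      exact hτ
    | succ k ih =>
      have e1 := hstep _ _ ih hτ
      have e2 : κ⁻¹ * (s₀ : F) ^ (k + 1) * κ * (κ⁻¹ * s₀) = κ⁻¹ * (s₀ : F) ^ (k + 1 + 1) := by
        rw [pow_succ (s₀ : F) (k + 1)]
        field_simp
      rwa [e2] at e1
  have hall : ∀ t : F, TT H e₀ (t • eℓ) := by
    intro t
    by_cases ht : t = 0
    · subst ht
      rw [zero_smul]
      exact TT.zero_right _
    · obtain ⟨x, hx⟩ : ∃ x : Fˣ, (x : F) = κ * t := ⟨Units.mk0 (κ * t) (mul_ne_zero hκ0 ht), rfl⟩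
      obtain ⟨k, hk⟩ : ∃ k : ℕ, s₀ ^ (k + 1) = x := by
        obtain ⟨k, hk⟩ := (mem_powers_iff_mem_zpowers).2 (hs₀ x)
        refine ⟨k + orderOf s₀ - 1, ?_⟩
        have h0 : 0 < orderOf s₀ := orderOf_pos s₀
        rw [show k + orderOf s₀ - 1 + 1 = k + orderOf s₀ by omega, pow_add, pow_orderOf_eq_one, mul_one]
        exact hk
      have e1 := hpow k
      have e2 : κ⁻¹ * (s₀ : F) ^ (k + 1) = t := by
        have e3 : (s₀ : F) ^ (k + 1) = κ * t := by
          rw [← hx, ← hk]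
          simp
        rw [e3]
        field_simp
      rwa [e2] at e1
  -- descending
  have hdesc : ∀ (d j : ℕ) (h : j < m + 2), j + d = m + 1 → j ≠ 0 → ∀ t : F, TT H e₀ (t • ee m F j h) := by
    intro d
    induction d with
    | zero =>
      intro j h hj _ t
      obtain rfl : j = m + 1 := by omega
      rw [← heℓ]
      exact hall t
    | succ d ih =>
      intro j h hj hj0 t
      have h1 := ih (j + 1) (by omega) (by omega) (by omega) t
      have h2 := key j hj0 (by omega) κ⁻¹ t (hall _) h1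
      have e1 : κ⁻¹ * κ * t = t := by
        field_simp
      rw [e1] at h2
      have h3 := TT.add_right h2 h1.neg_right
      have e2 : t • (ee m F (j + 1) (by omega) + ee m F j h) + -(t • ee m F (j + 1) (by omega)) = t • ee m F j h := by
        rw [smul_add]
        abel
      rwa [e2] at h3
  -- the first center
  have hW0 : WW H e₀ := by
    intro b hb
    have hb0 : b ⟨0, by omega⟩ = 0 := by
      rw [he₀, ee, dotProduct_single, mul_one] at hb
      exact hb
    have hS : ∀ S : Finset (Fin (m + 2)), (⟨0, by omega⟩ : Fin (m + 2)) ∉ S → TT H e₀ (∑ i ∈ S, b i • (Pi.single i 1 : Fin (m + 2) → F)) := by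
      intro S
      induction S using Finset.induction_on with
      | empty =>
        intro _
        rw [Finset.sum_empty]
        exact TT.zero_right _
      | insert i S hi ih =>
        intro h0
        rw [Finset.sum_insert hi]
        have hi0 : (i : ℕ) ≠ 0 := by
          intro e
          apply h0
          rw [Finset.mem_insert]
          exact Or.inl (Fin.ext e).symm
        refine TT.add_right ?_ (ih (fun e => h0 (Finset.mem_insert_of_mem e)))
        exact hdesc (m + 1 - i) i i.2 (by have := i.2; omega) hi0 (b i)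
    have e1 : b = ∑ i ∈ Finset.univ.erase (⟨0, by omega⟩ : Fin (m + 2)), b i • (Pi.single i 1 : Fin (m + 2) → F) := by
      conv_lhs => rw [pi_eq_sum_univ' b]
      rw [← Finset.add_sum_erase _ _ (Finset.mem_univ (⟨0, by omega⟩ : Fin (m + 2))), hb0, zero_smul, zero_add]
    rw [e1]
    exact hS _ (Finset.notMem_erase _ _)
  -- all centers
  have hW : ∀ (j : ℕ) (h : j < m + 2), WW H (Pi.single ⟨j, h⟩ (1 : F)) := by
    intro j
    induction j with
    | zero =>
      intro h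
      have : e₀ = Pi.single ⟨0, h⟩ (1 : F) := he₀
      rw [← this]
      exact hW0
    | succ j ih =>
      intro h
      have e1 := WW.sub_of_conj hBH (ih (by omega))
      have e2 : ((B : M2) - 1) = L0 δ := by
        rw [hB, add_sub_cancel_left]
      rw [e2, col_B δ j h] at e1
      have hc : (if j = 0 then δ else 1) ≠ 0 := by
        split_ifs
        · exact hδ0
        · exact one_ne_zero
      have e3 := e1.smul (if j = 0 then δ else 1)⁻¹
      rwa [smul_smul, inv_mul_cancel₀ hc, one_smul] at e3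
  haveI : Nontrivial (Fin (m + 2)) := Fin.nontrivial_iff_two_le.2 (by omega)
  apply top_of_WW
  intro i
  exact hW i.1 i.2

theorem final_m [Fintype F] (hm : 1 ≤ m) :
    ∃ u g h : S2, (IsNilpotent ((u : M2) - 1) ∧ ((u : M2) - 1) ^ (m + 2 - 1) ≠ 0) ∧
      Subgroup.closure ({u, g * u * g⁻¹, h * u * h⁻¹} : Set S2) = ⊤ := by
  classical
  obtain ⟨δ, hδdef⟩ : ∃ δ : F, δ = (P0 (m + 2) F).det := ⟨_, rfl⟩
  have hδ : δ * δ = 1 := by
    rw [hδdef]
    exact det_P0_sq
  have hδ0 : δ ≠ 0 := by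
    intro h0
    rw [h0, zero_mul] at hδ
    exact zero_ne_one hδ
  let A : S2 := ⟨1 + N0 (m + 2) F, det_A⟩
  let B : S2 := ⟨1 + L0 δ, det_B δ⟩
  let g : S2 := ⟨G0 δ, by rw [hδdef]; exact det_G0 (by omega)⟩
  have hgA : g * A = B * g := Subtype.ext (G0_N0 hδ)
  obtain ⟨κ, hκ⟩ : ∃ κ : F, κ = aV δ (m + 2) ⟨m + 1, by omega⟩ := ⟨_, rfl⟩
  have hκ0 : κ ≠ 0 := by
    rw [hκ]
    simp only [aV]
    rw [if_neg (by simp)]
    exact mul_ne_zero (pow_ne_zero _ (neg_ne_zero.2 one_ne_zero)) hδ0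
  obtain ⟨s₀, hs₀⟩ := IsCyclic.exists_generator (α := Fˣ)
  obtain ⟨s, hs⟩ : ∃ s : F, s = κ⁻¹ * s₀ := ⟨_, rfl⟩
  obtain ⟨e₀, he₀⟩ : ∃ e₀ : Fin (m + 2) → F, e₀ = ee m F 0 (by omega) := ⟨_, rfl⟩
  obtain ⟨eₘ, heₘ⟩ : ∃ e : Fin (m + 2) → F, e = ee m F m (by omega) := ⟨_, rfl⟩
  obtain ⟨eℓ, heℓ⟩ : ∃ e : Fin (m + 2) → F, e = ee m F (m + 1) (by omega) := ⟨_, rfl⟩
  obtain ⟨d, hd⟩ : ∃ d : Fin (m + 2) → F, d = (-s) • eₘ := ⟨_, rfl⟩
  have hd0 : d ⬝ᵥ e₀ = 0 := by
    rw [hd, heₘ, he₀, smul_dotProduct, ee, ee, dotProduct_single, Pi.single_apply, if_neg, zero_mul, smul_zero]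
    intro e
    have := congrArg Fin.val e
    simp at this
    omega
  let h : S2 := ⟨1 + vecMulVec e₀ d, by rw [det_M, hd0, add_zero]⟩
  refine ⟨A⁻¹, g, h, reg_of_inv (by omega) _ (sl_mul_inv A) (sl_inv_mul A), ?_⟩
  obtain ⟨H, hH⟩ : ∃ H : Subgroup S2, H = Subgroup.closure ({A⁻¹, g * A⁻¹ * g⁻¹, h * A⁻¹ * h⁻¹} : Set S2) := ⟨_, rfl⟩
  rw [← hH]
  have h1 : A⁻¹ ∈ H := by
    rw [hH]
    exact Subgroup.subset_closure (by simp)
  have h2 : g * A⁻¹ * g⁻¹ ∈ H := by
    rw [hH]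
    exact Subgroup.subset_closure (by simp)
  have h3 : h * A⁻¹ * h⁻¹ ∈ H := by
    rw [hH]
    exact Subgroup.subset_closure (by simp)
  have hAH : A ∈ H := by
    have := H.inv_mem h1
    rwa [inv_inv] at this
  have hBH : B ∈ H := by
    have e : B = g * A * g⁻¹ := by
      rw [hgA]
      group
    have e2 : B = (g * A⁻¹ * g⁻¹)⁻¹ := by
      rw [e]
      group
    rw [e2]
    exact H.inv_mem h2
  refine main_closure hm A B hδ0 rfl rfl hAH hBH hκ hκ0 s₀ hs₀ ?_
  rw [← he₀, ← heℓ, ← hs]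
  refine ⟨A * (h * A⁻¹ * h⁻¹), H.mul_mem hAH h3, ?_⟩
  -- the matrix computation
  have hAe : (A : M2) *ᵥ e₀ = e₀ := by
    rw [he₀]
    exact col_A (by omega)
  have hAie : ((A⁻¹ : S2) : M2) *ᵥ e₀ = e₀ := by
    conv_lhs => rw [← hAe]
    rw [Matrix.mulVec_mulVec, sl_inv_mul, Matrix.one_mulVec]
  have hrow1 : eₘ ᵥ* (A : M2) = eₘ + eℓ := by
    rw [heₘ, heℓ]
    exact row_A m (by omega)
  have hrow2 : eℓ ᵥ* (A : M2) = eℓ := by
    rw [heℓ]
    exact row_A_last (m + 1) (by omega) (by omega)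
  have hinv2 : eℓ ᵥ* ((A⁻¹ : S2) : M2) = eℓ := by
    conv_lhs => rw [← hrow2]
    rw [Matrix.vecMul_vecMul, sl_mul_inv, Matrix.vecMul_one]
  have hinv1 : eₘ ᵥ* ((A⁻¹ : S2) : M2) = eₘ - eℓ := by
    have e1 : (eₘ + eℓ) ᵥ* ((A⁻¹ : S2) : M2) = eₘ := by
      rw [← hrow1, Matrix.vecMul_vecMul, sl_mul_inv, Matrix.vecMul_one]
    rw [Matrix.add_vecMul, hinv2] at e1
    exact eq_sub_of_add_eq e1
  obtain ⟨d₁, hd₁⟩ : ∃ d₁ : Fin (m + 2) → F, d₁ = d ᵥ* ((A⁻¹ : S2) : M2) := ⟨_, rfl⟩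
  have hd₁' : d₁ = d + s • eℓ := by
    rw [hd₁, hd, Matrix.smul_vecMul, hinv1]
    funext k
    simp only [Pi.add_apply, Pi.sub_apply, Pi.smul_apply, smul_eq_mul]
    ring
  have hd₁0 : d₁ ⬝ᵥ e₀ = 0 := by
    rw [hd₁, ← Matrix.dotProduct_mulVec, hAie, hd0]
  have e1 : ((h⁻¹ : S2) : M2) = 1 + vecMulVec e₀ (-d) := TT.inv hd0 rfl
  have e2 : (A : M2) * (h : M2) * ((A⁻¹ : S2) : M2) = 1 + vecMulVec e₀ d₁ := by
    change (A : M2) * (1 + vecMulVec e₀ d) * ((A⁻¹ : S2) : M2) = _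
    rw [Matrix.mul_add, Matrix.mul_one, Matrix.add_mul, sl_mul_inv, mul_vecMulVec, vecMulVec_mul, hAe, hd₁]
  have e3 : ((A * (h * A⁻¹ * h⁻¹) : S2) : M2) = (A : M2) * (h : M2) * ((A⁻¹ : S2) : M2) * ((h⁻¹ : S2) : M2) := by
    change (A : M2) * ((h : M2) * ((A⁻¹ : S2) : M2) * ((h⁻¹ : S2) : M2)) = _
    simp only [Matrix.mul_assoc]
  rw [e3, e2, e1, M_mul, hd₁0, zero_smul, add_zero, add_assoc, ← vmv_add_right, hd₁']
  congr 2
  abel

end Main

/-- `SL_n(F)` is generated by three conjugates of a regular unipotent element. -/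
theorem final [Fintype F] (hn : 3 ≤ n) :
    ∃ u g h : Matrix.SpecialLinearGroup (Fin n) F, (IsNilpotent ((u : Matrix (Fin n) (Fin n) F) - 1) ∧ ((u : Matrix (Fin n) (Fin n) F) - 1) ^ (n - 1) ≠ 0) ∧
      Subgroup.closure ({u, g * u * g⁻¹, h * u * h⁻¹} : Set (Matrix.SpecialLinearGroup (Fin n) F)) = ⊤ := by
  obtain ⟨m, rfl⟩ : ∃ m, n = m + 2 := ⟨n - 2, by omega⟩
  exact final_m (by omega)

end Concrete

end Cfsg.Agent.Lead.RegGen
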